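import Cfsg.Agent.Lib.BrauerPairs.GLWreath
import Cfsg.Agent.S0261

/-!
# Abelianization of Sylow `2`-subgroups of special linear groups
-/

set_option autoImplicit false

namespace CfsgLib.BrauerPairs.GLWreath

open Matrix CfsgLib.Classes.DerivedWreath

variable {F : Type*} [Field F] [Fintype F]

/-- The determinant one part of a homomorphism into a general linear group. -/
def toSL {ι : Type*} [Fintype ι] [DecidableEq ι] {H : Type*} [Group H] (M : H →* GL ι F) :
    ((Matrix.GeneralLinearGroup.det).comp M).ker →* Matrix.SpecialLinearGroup ι F where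
  toFun x := ⟨(M x : Matrix ι ι F), congrArg Units.val (MonoidHom.mem_ker.1 x.2)⟩
  map_one' := Subtype.ext (by simp)
  map_mul' x y := Subtype.ext (by
    show (M ((x : H) * (y : H)) : Matrix ι ι F) = (M x : Matrix ι ι F) * (M y : Matrix ι ι F)
    rw [map_mul, Units.val_mul])

theorem toSL_injective {ι : Type*} [Fintype ι] [DecidableEq ι] {H : Type*} [Group H] (M : H →* GL ι F)
    (hM : Function.Injective M) : Function.Injective (toSL M) := fun _ _ h =>
  Subtype.ext (hM (Units.ext (congrArg Subtype.val h)))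

/-- The determinant kernel of a full `2`-subgroup of `GL` is a Sylow subgroup of `SL`. -/
theorem ker_equiv_sylow_SL {ι : Type*} [Fintype ι] [DecidableEq ι] [Nonempty ι] {H : Type*} [Group H]
    (M : H →* GL ι F) (hM : Function.Injective M)
    (hH : Nat.card H = 2 ^ v2 (Nat.card (GL ι F))) (P : Sylow 2 (Matrix.SpecialLinearGroup ι F)) :
    Nonempty (((Matrix.GeneralLinearGroup.det).comp M).ker ≃* (P : Subgroup (Matrix.SpecialLinearGroup ι F))) := by
  classical
  haveI : Fact (Nat.Prime 2) := ⟨Nat.prime_two⟩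
  haveI : Finite H := Finite.of_injective M hM
  set δ := (Matrix.GeneralLinearGroup.det).comp M with hδ
  have hmul : Nat.card δ.ker * Nat.card δ.range = 2 ^ v2 (Nat.card (GL ι F)) := by
    rw [← hH, ← Subgroup.index_ker δ, Subgroup.card_mul_index]
  obtain ⟨a, -, ha⟩ := (Nat.dvd_prime_pow Nat.prime_two).1 (Dvd.intro _ hmul : Nat.card δ.ker ∣ _)
  obtain ⟨b, -, hb⟩ := (Nat.dvd_prime_pow Nat.prime_two).1 (Dvd.intro_left _ hmul : Nat.card δ.range ∣ _)
  have hr : Nat.card (toSL M).range = 2 ^ a := by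
    rw [← ha]
    exact (Nat.card_congr (MonoidHom.ofInjective (toSL_injective M hM)).toEquiv).symm
  have h1 : a ≤ v2 (Nat.card (Matrix.SpecialLinearGroup ι F)) :=
    (Nat.prime_two.pow_dvd_iff_le_factorization Nat.card_pos.ne').1
      (hr ▸ Subgroup.card_subgroup_dvd_card _)
  have h2 : b ≤ v2 (Fintype.card F - 1) := by
    rw [← v2_card_units (F := F)]
    exact (Nat.prime_two.pow_dvd_iff_le_factorization Nat.card_pos.ne').1
      (hb ▸ Subgroup.card_subgroup_dvd_card _)
  rw [ha, hb, ← pow_add] at hmul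
  have h3 := Nat.pow_right_injective le_rfl hmul
  have h4 := v2_card_SL (F := F) (ι := ι)
  have h5 : a = v2 (Nat.card (Matrix.SpecialLinearGroup ι F)) := by omega
  exact ⟨(MonoidHom.ofInjective (toSL_injective M hM)).trans
    ((Sylow.ofCard (toSL M).range (hr.trans (congrArg (2 ^ ·) h5))).equiv P)⟩

/-- A Sylow `2`-subgroup of `GL₂(q)`, `q ≡ 3 mod 4`, split by an involution of determinant `-1`. -/
theorem exists_W (hF : Odd (Fintype.card F)) (h4 : 4 ∣ Fintype.card F + 1) :
    ∃ W : Subgroup (GL (Fin 2) F), AbElem W ∧ Nat.card W = 2 ^ v2 (Nat.card (GL (Fin 2) F)) ∧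
      AbElem ((Matrix.GeneralLinearGroup.det).comp W.subtype).ker ∧
      (∃ d ∈ W, d ^ 2 = 1 ∧ Matrix.GeneralLinearGroup.det d = -1) ∧
      ∀ w ∈ W, Matrix.GeneralLinearGroup.det w = 1 ∨ Matrix.GeneralLinearGroup.det w = -1 := by
  classical
  haveI : Fact (Nat.Prime 2) := ⟨Nat.prime_two⟩
  have hdd : (!![1, 0; 0, -1] : Matrix (Fin 2) (Fin 2) F) * !![1, 0; 0, -1] = 1 := by
    simp [Matrix.one_fin_two]
  let d : GL (Fin 2) F := ⟨!![1, 0; 0, -1], !![1, 0; 0, -1], hdd, hdd⟩
  have hd2 : d ^ 2 = 1 := Units.ext (by rw [pow_two]; exact hdd)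
  have hdet : Matrix.GeneralLinearGroup.det d = -1 := Units.ext (by simp [d, Matrix.det_fin_two])
  have hp : IsPGroup 2 (Subgroup.zpowers d) := by
    have h : orderOf d ∣ 2 ^ 1 := orderOf_dvd_of_pow_eq_one (by rwa [pow_one])
    obtain ⟨i, -, hi⟩ := (Nat.dvd_prime_pow Nat.prime_two).1 h
    exact IsPGroup.of_card (n := i) (by rw [Nat.card_zpowers, hi])
  obtain ⟨W, hW⟩ := hp.exists_le_sylow
  have hWc : Nat.card W = 2 ^ v2 (Nat.card (GL (Fin 2) F)) := W.card_eq_multiplicity
  have hdW : d ∈ (W : Subgroup (GL (Fin 2) F)) := hW (Subgroup.mem_zpowers d)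
  have hpm : ∀ w ∈ (W : Subgroup (GL (Fin 2) F)),
      Matrix.GeneralLinearGroup.det w = 1 ∨ Matrix.GeneralLinearGroup.det w = -1 := by
    intro w hw
    obtain ⟨k, hk⟩ := W.isPGroup' ⟨w, hw⟩
    refine units_eq_one_or_neg_one h4 _ (k := k) ?_
    rw [← map_pow, show w ^ 2 ^ k = 1 from congrArg Subtype.val hk, map_one]
  let P : Sylow 2 (Matrix.SpecialLinearGroup (Fin 2) F) := default
  obtain ⟨k, hk, ⟨e⟩⟩ := Cfsg.Agent.S0261.result hF P
  obtain ⟨e'⟩ := ker_equiv_sylow_SL (W : Subgroup (GL (Fin 2) F)).subtype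
    (Subgroup.subtype_injective _) hWc P
  have hK : AbElem ((Matrix.GeneralLinearGroup.det).comp (W : Subgroup (GL (Fin 2) F)).subtype).ker :=
    ((abElem_quaternion k hk).of_mulEquiv e.symm).of_mulEquiv e'.symm
  refine ⟨W, abElem_iff.2 fun x => ?_, hWc, hK, ⟨d, hdW, hd2, hdet⟩, hpm⟩
  have hdd' : sqAb (W : Subgroup (GL (Fin 2) F)) ⟨d, hdW⟩ = 1 := by
    rw [sqAb_apply, show (⟨d, hdW⟩ : (W : Subgroup (GL (Fin 2) F))) ^ 2 = 1 from Subtype.ext hd2, map_one]
  rcases hpm x x.2 with h | h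
  · exact hK.map (Subgroup.subtype _) ⟨x, h⟩
  · have hm : x * ⟨d, hdW⟩ ∈ ((Matrix.GeneralLinearGroup.det).comp
        (W : Subgroup (GL (Fin 2) F)).subtype).ker := by
      rw [MonoidHom.mem_ker, map_mul]
      show Matrix.GeneralLinearGroup.det (x : GL (Fin 2) F) * Matrix.GeneralLinearGroup.det d = 1
      rw [h, hdet]
      simp
    have h2 := hK.map (Subgroup.subtype _) ⟨_, hm⟩
    rw [Subgroup.subtype_apply, map_mul, hdd', mul_one] at h2
    exact h2

/-- The embedding of the Sylow wreath product into `GL`. -/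
def wrToGL (W : Subgroup (GL (Fin 2) F)) {m : ℕ} (S : Subgroup (Equiv.Perm (Fin m))) :
    WrSub W S →* GL (Fin (2 * m)) F :=
  (glReindex (F := F) (finProdFinEquiv : Fin 2 × Fin m ≃ Fin (2 * m))).toMonoidHom.comp
    (toGL.comp (wrSubHom W S))

theorem wrToGL_injective (W : Subgroup (GL (Fin 2) F)) {m : ℕ} (S : Subgroup (Equiv.Perm (Fin m))) :
    Function.Injective (wrToGL W S) := fun _ _ h =>
  wrSubHom_injective W S (toGL_injective ((glReindex (F := F) _).injective h))

theorem det_wrToGL (W : Subgroup (GL (Fin 2) F)) {m : ℕ} (S : Subgroup (Equiv.Perm (Fin m)))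
    (x : WrSub W S) : Matrix.GeneralLinearGroup.det (wrToGL W S x) =
      ∏ i, Matrix.GeneralLinearGroup.det (x.left i : GL (Fin 2) F) := by
  refine (det_glReindex _ _).trans ?_
  rw [MonoidHom.comp_apply, det_toGL, Fintype.card_fin, Int.units_sq, map_one, mul_one]
  rfl

theorem card_wrSub_GL (hF : Odd (Fintype.card F)) {W : Subgroup (GL (Fin 2) F)}
    (hW : Nat.card W = 2 ^ v2 (Nat.card (GL (Fin 2) F))) {m : ℕ} {S : Subgroup (Equiv.Perm (Fin m))}
    (hS : Nat.card S = 2 ^ (m.factorial.factorization 2)) :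
    Nat.card (WrSub W S) = 2 ^ v2 (Nat.card (GL (Fin (2 * m)) F)) := by
  rw [natCard_wrSub, hW, hS, Nat.card_fin, ← pow_mul, ← pow_add]
  refine congrArg _ ?_
  have h2 := v2_card_GL_two_mul hF 1
  rw [mul_one] at h2
  rw [v2_card_GL_two_mul hF m, h2]
  simp only [v2, Nat.factorial_one, Nat.factorization_one, Finsupp.coe_zero, Pi.zero_apply]
  ring

/-- `g ↦ diag(g, det g⁻¹)`. -/
def augSL (n : ℕ) : GL (Fin n) F →* Matrix.SpecialLinearGroup (Fin (n + 1)) F where
  toFun g := ⟨Matrix.reindexAlgEquiv F F (finSumFinEquiv : Fin n ⊕ Fin 1 ≃ Fin (n + 1))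
    (fromBlocks (g : Matrix (Fin n) (Fin n) F) 0 0
      (diagonal fun _ : Fin 1 => ((Matrix.GeneralLinearGroup.det g)⁻¹ : Fˣ).val)), by
      rw [Matrix.det_reindexAlgEquiv, det_fromBlocks_zero₁₂, det_diagonal, Finset.prod_const,
        Finset.card_univ, Fintype.card_fin, pow_one, ← Matrix.GeneralLinearGroup.val_det_apply,
        ← Units.val_mul, mul_inv_cancel, Units.val_one]⟩
  map_one' := Subtype.ext (by simp [fromBlocks_one])
  map_mul' g h := Subtype.ext (by
    show Matrix.reindexAlgEquiv F F _ _ =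
      Matrix.reindexAlgEquiv F F _ _ * Matrix.reindexAlgEquiv F F _ _
    rw [← map_mul, fromBlocks_multiply]
    simp [diagonal_mul_diagonal, mul_comm])

theorem augSL_injective (n : ℕ) : Function.Injective (augSL (F := F) n) := fun g h hgh => by
  have h1 := (Matrix.reindexAlgEquiv F F _).injective (congrArg Subtype.val hgh)
  exact Units.ext (fromBlocks_inj.1 h1).1

theorem abElem_sylow_SL_odd (hF : Odd (Fintype.card F)) (h4 : 4 ∣ Fintype.card F + 1) (m : ℕ)
    (P : Sylow 2 (Matrix.SpecialLinearGroup (Fin (2 * m + 1)) F)) :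
    AbElem (P : Subgroup (Matrix.SpecialLinearGroup (Fin (2 * m + 1)) F)) := by
  obtain ⟨W, hW, hWc, -, -, -⟩ := exists_W hF h4
  obtain ⟨S, -, hS, hSc⟩ := exists_sylow_perm m
  refine abElem_sylow_of_injective (hW.wrSub hS) ((augSL (2 * m)).comp (wrToGL W S))
    (fun a b h => wrToGL_injective W S (augSL_injective _ h)) ?_ P
  rw [card_wrSub_GL hF hWc hSc]
  refine congrArg _ ?_
  have h1 := v2_card_SL (F := F) (ι := Fin (2 * m + 1))
  rw [v2_card_GL_two_mul_add_one hF] at h1
  exact (Nat.add_right_cancel h1).symm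

theorem abElem_sylow_SL_even (hF : Odd (Fintype.card F)) (h4 : 4 ∣ Fintype.card F + 1) {m : ℕ}
    (hm : 1 ≤ m) (P : Sylow 2 (Matrix.SpecialLinearGroup (Fin (2 * m)) F)) :
    AbElem (P : Subgroup (Matrix.SpecialLinearGroup (Fin (2 * m)) F)) := by
  classical
  haveI : Nonempty (Fin (2 * m)) := ⟨⟨0, by omega⟩⟩
  obtain ⟨W, -, hWc, hK, ⟨d, hdW, hd2, hdet⟩, hpm⟩ := exists_W hF h4
  obtain ⟨S, -, hS, hSc⟩ := exists_sylow_perm m
  obtain ⟨e⟩ := ker_equiv_sylow_SL (wrToGL W S) (wrToGL_injective W S) (card_wrSub_GL hF hWc hSc) P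
  refine AbElem.of_mulEquiv ?_ e
  rw [abElem_iff]
  intro x
  let D := (Matrix.GeneralLinearGroup.det).comp (wrToGL W S)
  have hDx : ∏ i, Matrix.GeneralLinearGroup.det ((x.1.left i) : GL (Fin 2) F) = 1 := by
    rw [← det_wrToGL]; exact x.2
  let ε : Fin m → W := fun i =>
    if Matrix.GeneralLinearGroup.det ((x.1.left i) : GL (Fin 2) F) = 1 then 1 else ⟨d, hdW⟩
  have hεdet : ∀ i, Matrix.GeneralLinearGroup.det ((ε i) : GL (Fin 2) F) =
      Matrix.GeneralLinearGroup.det ((x.1.left i) : GL (Fin 2) F) := fun i => by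
    by_cases h : Matrix.GeneralLinearGroup.det ((x.1.left i) : GL (Fin 2) F) = 1
    · simp [ε, h]
    · simp only [ε, if_neg h]
      rw [hdet, (hpm _ (x.1.left i).2).resolve_left h]
  let K := ((Matrix.GeneralLinearGroup.det).comp W.subtype).ker
  let k : Fin m → K := fun i => ⟨x.1.left i * (ε i)⁻¹, by
    rw [MonoidHom.mem_ker, map_mul, map_inv, MonoidHom.comp_apply, MonoidHom.comp_apply,
      Subgroup.subtype_apply, Subgroup.subtype_apply, hεdet, mul_inv_cancel]⟩
  let α : (Fin m → K) →* D.ker :=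
    ((SemidirectProduct.inl : (Fin m → W) →* WrSub W S).comp (MonoidHom.compLeft K.subtype (Fin m))).codRestrict
      D.ker fun f => by
        rw [MonoidHom.mem_ker]
        refine (det_wrToGL W S _).trans (Finset.prod_eq_one fun i _ => ?_)
        exact (f i).2
  let β : S →* D.ker :=
    (SemidirectProduct.inr : S →* WrSub W S).codRestrict D.ker fun s => by
      rw [MonoidHom.mem_ker]
      refine (det_wrToGL W S _).trans (Finset.prod_eq_one fun i _ => ?_)
      rw [SemidirectProduct.left_inr, Pi.one_apply, OneMemClass.coe_one, map_one]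
  let z : D.ker := ⟨SemidirectProduct.inl ε, by
    rw [MonoidHom.mem_ker]
    refine (det_wrToGL W S _).trans ?_
    rw [SemidirectProduct.left_inl, Finset.prod_congr rfl fun i _ => hεdet i, hDx]⟩
  have hz : z ^ 2 = 1 := by
    refine Subtype.ext ?_
    show (SemidirectProduct.inl ε : WrSub W S) ^ 2 = 1
    rw [← map_pow, show ε ^ 2 = 1 from funext fun i => ?_, map_one]
    rw [Pi.pow_apply, Pi.one_apply]
    by_cases h : Matrix.GeneralLinearGroup.det ((x.1.left i) : GL (Fin 2) F) = 1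
    · simp [ε, h]
    · simp only [ε, if_neg h]; exact Subtype.ext hd2
  have hx : x = α k * z * β x.1.right := by
    refine Subtype.ext ?_
    show x.1 = SemidirectProduct.inl (fun i => (k i : W)) * SemidirectProduct.inl ε *
      SemidirectProduct.inr x.1.right
    rw [← map_mul]
    refine SemidirectProduct.ext (funext fun i => ?_) ?_
    · simp [k]
    · simp
  rw [hx, map_mul, map_mul]
  have h1 : sqAb _ (α k) = 1 := (AbElem.pi hK).map α k
  have h2 : sqAb _ z = 1 := by rw [sqAb_apply, hz, map_one]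
  have h3 : sqAb _ (β x.1.right) = 1 := hS.map β _
  refine (congrArg₂ (· * ·) (congrArg₂ (· * ·) h1 h2) h3).trans ?_
  show (1 : Abelianization D.ker) * 1 * 1 = 1
  rw [one_mul, one_mul]

end CfsgLib.BrauerPairs.GLWreath
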