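import Cfsg.Agent.Lib.BrauerPairs.G2Quaternion
import Cfsg.Agent.Lib.BrauerPairs.SLWreathAbElem
import Cfsg.Agent.Lib.TwoFusion.GLTwoSylow

/-!
# The abelianization of a Sylow `2`-subgroup of `G₂(q)`, `q` odd
-/

set_option autoImplicit false

namespace CfsgLib.BrauerPairs.G2Quaternion

open Matrix GLWreath CfsgLib.TwoFusion.GLTwo

variable {F : Type*} [Field F] [Fintype F]

/-- A Sylow `2`-subgroup of `GL₂` containing the monomial `2`-elements. -/
theorem exists_monomial_sylow : ∃ Q : Sylow 2 (GL (Fin 2) F),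
    (∀ a : Fˣ, (∃ k : ℕ, a ^ 2 ^ k = 1) → dgHom F (a, 1) ∈ (Q : Subgroup (GL (Fin 2) F))) ∧
      swapGL F ∈ (Q : Subgroup (GL (Fin 2) F)) := by
  classical
  haveI : Fact (Nat.Prime 2) := ⟨Nat.prime_two⟩
  let μ : Sylow 2 Fˣ := default
  let A : Subgroup (GL (Fin 2) F) := ((μ : Subgroup Fˣ).prod (μ : Subgroup Fˣ)).map (dgHom F)
  have hA : IsPGroup 2 A := by
    refine IsPGroup.of_card (n := v2 (Nat.card Fˣ) + v2 (Nat.card Fˣ)) ?_
    rw [Subgroup.card_map_of_injective dgHom_injective,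
      Nat.card_congr (Subgroup.prodEquiv _ _).toEquiv, Nat.card_prod, μ.card_eq_multiplicity,
      ← pow_add]
    rfl
  have hj : swapGL F ∈ Subgroup.normalizer (A : Set (GL (Fin 2) F)) := by
    refine Subgroup.mem_normalizer_fintype ?_
    rintro _ ⟨a, ha, rfl⟩
    refine ⟨(a.2, a.1), ⟨ha.2, ha.1⟩, ?_⟩
    rw [swapGL_mul_dgHom, mul_inv_cancel_right]
  obtain ⟨Q, hQ⟩ := (isPGroup_sup_zpowers (n := 1) hA (by simpa using orderOf_swapGL) hj).exists_le_sylow
  refine ⟨Q, fun a ha => hQ (Subgroup.mem_sup_left ⟨(a, 1), ⟨?_, Subgroup.one_mem _⟩, rfl⟩),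
    hQ (Subgroup.mem_sup_right (Subgroup.mem_zpowers _))⟩
  obtain ⟨k, hk⟩ := ha
  obtain ⟨i, -, hi⟩ := (Nat.dvd_prime_pow Nat.prime_two).1 (orderOf_dvd_of_pow_eq_one hk)
  obtain ⟨T, hT⟩ := (IsPGroup.of_card (n := i) (by rw [Nat.card_zpowers, hi]) :
    IsPGroup 2 (Subgroup.zpowers a)).exists_le_sylow
  have hTμ : T = μ := by
    obtain ⟨g, hg⟩ := MulAction.exists_smul_eq Fˣ μ T
    rw [← hg]
    refine Sylow.ext (Subgroup.ext fun x => ?_)
    rw [Sylow.coe_subgroup_smul, Subgroup.mem_pointwise_smul_iff_inv_smul_mem]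
    simp
  exact hTμ ▸ hT (Subgroup.mem_zpowers a)

/-- Two non-commuting `2 × 2` matrices have scalar common centraliser. -/
theorem eq_scalar_of_commute_pair {u A B : GL (Fin 2) F} (hA : u * A = A * u) (hB : u * B = B * u)
    (hAB : A * B ≠ B * A) : ∃ c : Fˣ, u = GeneralLinearGroup.scalar (Fin 2) c := by
  by_contra hne
  have key : ∀ {X Y : GL (Fin 2) F}, X * Y = Y * X →
      (X : Matrix (Fin 2) (Fin 2) F) 0 1 * (Y : Matrix (Fin 2) (Fin 2) F) 1 0 =
          (X : Matrix (Fin 2) (Fin 2) F) 1 0 * (Y : Matrix (Fin 2) (Fin 2) F) 0 1 ∧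
        (X : Matrix (Fin 2) (Fin 2) F) 0 1 * ((Y : Matrix (Fin 2) (Fin 2) F) 0 0 - (Y : Matrix (Fin 2) (Fin 2) F) 1 1) =
          (Y : Matrix (Fin 2) (Fin 2) F) 0 1 * ((X : Matrix (Fin 2) (Fin 2) F) 0 0 - (X : Matrix (Fin 2) (Fin 2) F) 1 1) ∧
        (X : Matrix (Fin 2) (Fin 2) F) 1 0 * ((Y : Matrix (Fin 2) (Fin 2) F) 0 0 - (Y : Matrix (Fin 2) (Fin 2) F) 1 1) =
          (Y : Matrix (Fin 2) (Fin 2) F) 1 0 * ((X : Matrix (Fin 2) (Fin 2) F) 0 0 - (X : Matrix (Fin 2) (Fin 2) F) 1 1) := by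
    intro X Y h
    have h' := congrArg Units.val h
    have h00 := congrFun (congrFun h' 0) 0
    have h01 := congrFun (congrFun h' 0) 1
    have h10 := congrFun (congrFun h' 1) 0
    simp only [Units.val_mul, Matrix.mul_apply, Fin.sum_univ_two] at h00 h01 h10
    exact ⟨by linear_combination h00, by linear_combination -h01, by linear_combination h10⟩
  obtain ⟨a1, a2, a3⟩ := key hA
  obtain ⟨b1, b2, b3⟩ := key hB
  have hgoal : A * B = B * A := by
    refine Units.ext ?_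
    by_cases h01 : (u : Matrix (Fin 2) (Fin 2) F) 0 1 = 0
    · by_cases h10 : (u : Matrix (Fin 2) (Fin 2) F) 1 0 = 0
      · have hd : (u : Matrix (Fin 2) (Fin 2) F) 0 0 - (u : Matrix (Fin 2) (Fin 2) F) 1 1 ≠ 0 := by
          intro hd
          refine hne ⟨Units.mk0 ((u : Matrix (Fin 2) (Fin 2) F) 0 0) fun h0 => ?_, Units.ext ?_⟩
          · have := (GeneralLinearGroup.det u).ne_zero
            rw [GeneralLinearGroup.val_det_apply, Matrix.det_fin_two, h01, h0] at this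
            simp at this
          · rw [coe_scalar_smul]
            ext i j
            fin_cases i <;> fin_cases j <;> simp [h01, h10, ← sub_eq_zero.1 hd]
        rw [h01, zero_mul] at a2 b2
        rw [h10, zero_mul] at a3 b3
        have A01 := (mul_eq_zero.1 a2.symm).resolve_right hd
        have A10 := (mul_eq_zero.1 a3.symm).resolve_right hd
        have B01 := (mul_eq_zero.1 b2.symm).resolve_right hd
        have B10 := (mul_eq_zero.1 b3.symm).resolve_right hd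
        ext i j
        fin_cases i <;> fin_cases j <;>
          simp [Units.val_mul, Matrix.mul_apply, Fin.sum_univ_two, A01, A10, B01, B10, mul_comm]
      · have h00 : (A : Matrix (Fin 2) (Fin 2) F) 0 1 * (B : Matrix (Fin 2) (Fin 2) F) 1 0 -
            (A : Matrix (Fin 2) (Fin 2) F) 1 0 * (B : Matrix (Fin 2) (Fin 2) F) 0 1 = 0 :=
          mul_left_cancel₀ h10 (by linear_combination (A : Matrix (Fin 2) (Fin 2) F) 1 0 * b1 - (B : Matrix (Fin 2) (Fin 2) F) 1 0 * a1)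
        have h01' : (B : Matrix (Fin 2) (Fin 2) F) 0 1 * ((A : Matrix (Fin 2) (Fin 2) F) 0 0 - (A : Matrix (Fin 2) (Fin 2) F) 1 1) -
            (A : Matrix (Fin 2) (Fin 2) F) 0 1 * ((B : Matrix (Fin 2) (Fin 2) F) 0 0 - (B : Matrix (Fin 2) (Fin 2) F) 1 1) = 0 :=
          mul_left_cancel₀ h10 (by linear_combination (B : Matrix (Fin 2) (Fin 2) F) 0 1 * a3 - (A : Matrix (Fin 2) (Fin 2) F) 0 1 * b3 - ((u : Matrix (Fin 2) (Fin 2) F) 0 0 - (u : Matrix (Fin 2) (Fin 2) F) 1 1) * h00)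
        have h10' : (A : Matrix (Fin 2) (Fin 2) F) 1 0 * ((B : Matrix (Fin 2) (Fin 2) F) 0 0 - (B : Matrix (Fin 2) (Fin 2) F) 1 1) -
            (B : Matrix (Fin 2) (Fin 2) F) 1 0 * ((A : Matrix (Fin 2) (Fin 2) F) 0 0 - (A : Matrix (Fin 2) (Fin 2) F) 1 1) = 0 :=
          mul_left_cancel₀ h10 (by linear_combination (A : Matrix (Fin 2) (Fin 2) F) 1 0 * b3 - (B : Matrix (Fin 2) (Fin 2) F) 1 0 * a3)
        ext i j
        fin_cases i <;> fin_cases j <;>
          simp only [Units.val_mul, Matrix.mul_apply, Fin.sum_univ_two, Fin.mk_zero, Fin.mk_one,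
            Fin.zero_eta, Fin.reduceFinMk, Fin.isValue]
        · linear_combination h00
        · linear_combination h01'
        · linear_combination h10'
        · linear_combination -h00
    · have h00 : (A : Matrix (Fin 2) (Fin 2) F) 0 1 * (B : Matrix (Fin 2) (Fin 2) F) 1 0 -
          (A : Matrix (Fin 2) (Fin 2) F) 1 0 * (B : Matrix (Fin 2) (Fin 2) F) 0 1 = 0 :=
        mul_left_cancel₀ h01 (by linear_combination (A : Matrix (Fin 2) (Fin 2) F) 0 1 * b1 - (B : Matrix (Fin 2) (Fin 2) F) 0 1 * a1)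
      have h01' : (B : Matrix (Fin 2) (Fin 2) F) 0 1 * ((A : Matrix (Fin 2) (Fin 2) F) 0 0 - (A : Matrix (Fin 2) (Fin 2) F) 1 1) -
          (A : Matrix (Fin 2) (Fin 2) F) 0 1 * ((B : Matrix (Fin 2) (Fin 2) F) 0 0 - (B : Matrix (Fin 2) (Fin 2) F) 1 1) = 0 :=
        mul_left_cancel₀ h01 (by linear_combination (B : Matrix (Fin 2) (Fin 2) F) 0 1 * a2 - (A : Matrix (Fin 2) (Fin 2) F) 0 1 * b2)
      have h10' : (A : Matrix (Fin 2) (Fin 2) F) 1 0 * ((B : Matrix (Fin 2) (Fin 2) F) 0 0 - (B : Matrix (Fin 2) (Fin 2) F) 1 1) -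
          (B : Matrix (Fin 2) (Fin 2) F) 1 0 * ((A : Matrix (Fin 2) (Fin 2) F) 0 0 - (A : Matrix (Fin 2) (Fin 2) F) 1 1) = 0 :=
        mul_left_cancel₀ h01 (by linear_combination (A : Matrix (Fin 2) (Fin 2) F) 1 0 * b2 - (B : Matrix (Fin 2) (Fin 2) F) 1 0 * a2 - ((u : Matrix (Fin 2) (Fin 2) F) 0 0 - (u : Matrix (Fin 2) (Fin 2) F) 1 1) * h00)
      ext i j
      fin_cases i <;> fin_cases j <;>
        simp only [Units.val_mul, Matrix.mul_apply, Fin.sum_univ_two, Fin.mk_zero, Fin.mk_one,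
          Fin.zero_eta, Fin.reduceFinMk, Fin.isValue]
      · linear_combination h00
      · linear_combination h01'
      · linear_combination h10'
      · linear_combination -h00
  exact hAB hgoal

theorem abElem_g2 (hF : Odd (Fintype.card F)) (P : Sylow 2 (Cfsg.Lie.G2 F)) :
    AbElem (P : Subgroup (Cfsg.Lie.G2 F)) := by
  classical
  haveI : Fact (Nat.Prime 2) := ⟨Nat.prime_two⟩
  have h2 : (2 : F) ≠ 0 := fun h => by
    have hc : CharP F 2 := CharTwo.of_one_ne_zero_of_two_eq_zero one_ne_zero h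
    obtain ⟨n, -, hn⟩ := FiniteField.card F 2
    rw [hn, Nat.odd_iff, Nat.pow_mod] at hF
    simp at hF
  obtain ⟨Q, hdg, hsw⟩ := exists_monomial_sylow (F := F)
  let Qs : Subgroup (GL (Fin 2) F) := Q
  -- the determinant one part
  let W : Subgroup Qs := ((GeneralLinearGroup.det).comp Qs.subtype).ker
  have hQc : Nat.card Qs = 2 ^ v2 (Nat.card (GL (Fin 2) F)) := Q.card_eq_multiplicity
  let R : Sylow 2 (SpecialLinearGroup (Fin 2) F) := default
  obtain ⟨k, hk, ⟨e⟩⟩ := Cfsg.Agent.S0261.result hF R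
  obtain ⟨e'⟩ := ker_equiv_sylow_SL Qs.subtype Qs.subtype_injective hQc R
  have hW : AbElem W := ((abElem_quaternion k hk).of_mulEquiv e.symm).of_mulEquiv e'.symm
  obtain ⟨wA, wB, hAB⟩ : ∃ x y : W, x * y ≠ y * x := by
    let f := e.symm.trans e'.symm
    refine ⟨f (QuaternionGroup.a 1), f (QuaternionGroup.xa 0), fun h => ?_⟩
    rw [← map_mul, ← map_mul] at h
    have h' := f.injective h
    simp only [QuaternionGroup.a_mul_xa, QuaternionGroup.xa_mul_a, zero_sub, zero_add,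
      QuaternionGroup.xa.injEq] at h'
    have h3 : ((2 : ℕ) : ZMod (2 * 2 ^ k)) = 0 := by push_cast; linear_combination -h'
    rw [ZMod.natCast_eq_zero_iff] at h3
    have h4 := Nat.le_of_dvd two_pos h3
    have h5 : 2 ^ 1 ≤ 2 ^ k := Nat.pow_le_pow_right two_pos hk
    omega
  -- the subgroup `P₀`
  let K0 : Subgroup (pairs F) := (Qs.prod Qs).subgroupOf (pairs F)
  let P0 : Subgroup (Cfsg.Lie.G2 F) := K0.map (toG2 F)
  let φ : K0 →* P0 := (toG2 F).subgroupMap K0
  have hab : AbElem P0 := by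
    rw [abElem_iff]
    suffices h : (sqAb P0).comp φ = 1 by
      intro y
      obtain ⟨x, rfl⟩ := (toG2 F).subgroupMap_surjective K0 y
      exact DFunLike.congr_fun h x
    let i1 : W →* K0 :=
      { toFun := fun w => ⟨⟨((w : Qs), 1), w.2.trans (map_one _).symm⟩,
          ⟨(w : Qs).2, Subgroup.one_mem _⟩⟩
        map_one' := rfl
        map_mul' := fun a b => Subtype.ext (Subtype.ext (Prod.ext rfl (one_mul 1).symm)) }
    let i2 : W →* K0 :=
      { toFun := fun w => ⟨⟨(1, (w : Qs)), (map_one _).trans w.2.symm⟩,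
          ⟨Subgroup.one_mem _, (w : Qs).2⟩⟩
        map_one' := rfl
        map_mul' := fun a b => Subtype.ext (Subtype.ext (Prod.ext (one_mul 1).symm rfl)) }
    refine MonoidHom.ext fun x => ?_
    obtain ⟨⟨⟨u, v⟩, huv⟩, huQ, hvQ⟩ := x
    change GeneralLinearGroup.det u = GeneralLinearGroup.det v at huv
    obtain ⟨n, hn⟩ := Q.isPGroup' ⟨u, huQ⟩
    have hd : ∃ n : ℕ, GeneralLinearGroup.det u ^ 2 ^ n = 1 :=
      ⟨n, by rw [← map_pow, show u ^ 2 ^ n = 1 from congrArg Subtype.val hn, map_one]⟩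
    let ζ := GeneralLinearGroup.det u
    let c : GL (Fin 2) F := dgHom F (ζ, 1)
    have hcQ : c ∈ Qs := hdg ζ hd
    have hcdet : GeneralLinearGroup.det c = ζ := Units.ext (by simp [c, coe_dgHom, Matrix.det_fin_two])
    let cc : K0 := ⟨⟨(c, c), rfl⟩, ⟨hcQ, hcQ⟩⟩
    let jj : K0 := ⟨⟨(swapGL F, swapGL F), rfl⟩, ⟨hsw, hsw⟩⟩
    let w1 : W := ⟨⟨u * c⁻¹, Qs.mul_mem huQ (Qs.inv_mem hcQ)⟩, by
      show GeneralLinearGroup.det (u * c⁻¹) = 1
      rw [map_mul, map_inv, hcdet, mul_inv_cancel]⟩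
    let w2 : W := ⟨⟨v * c⁻¹, Qs.mul_mem hvQ (Qs.inv_mem hcQ)⟩, by
      show GeneralLinearGroup.det (v * c⁻¹) = 1
      rw [map_mul, map_inv, hcdet, ← huv, mul_inv_cancel]⟩
    have hx : (⟨⟨(u, v), huv⟩, ⟨huQ, hvQ⟩⟩ : K0) = i1 w1 * i2 w2 * cc := by
      refine Subtype.ext (Subtype.ext (Prod.ext ?_ ?_))
      · show u = u * c⁻¹ * 1 * c
        rw [mul_one, inv_mul_cancel_right]
      · show v = 1 * (v * c⁻¹) * c
        rw [one_mul, inv_mul_cancel_right]
    have hcc : sqAb P0 (φ cc) = 1 := by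
      have h1 : φ (cc ^ 2) = φ (cc * jj * cc⁻¹ * jj⁻¹) := by
        refine Subtype.ext ?_
        show toG2 F ((cc ^ 2 : K0) : pairs F) = toG2 F ((cc * jj * cc⁻¹ * jj⁻¹ : K0) : pairs F)
        rw [MonoidHom.eq_iff, mem_ker_toG2]
        refine ⟨ζ, ?_⟩
        have hc' : (c * swapGL F * c⁻¹ * (swapGL F)⁻¹)⁻¹ * c ^ 2 = GeneralLinearGroup.scalar (Fin 2) ζ := by
          have hjc : swapGL F * c⁻¹ * (swapGL F)⁻¹ = dgHom F (1, ζ⁻¹) := by
            rw [← map_inv, swapGL_mul_dgHom, mul_inv_cancel_right]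
            simp
          rw [mul_assoc c, mul_assoc c, hjc, pow_two, inv_mul_eq_iff_eq_mul]
          show dgHom F (ζ, 1) * dgHom F (ζ, 1) = dgHom F (ζ, 1) * dgHom F (1, ζ⁻¹) * _
          rw [mul_assoc]
          congr 1
          refine Units.ext ?_
          rw [Units.val_mul, coe_scalar_smul, coe_dgHom, coe_dgHom]
          ext i j
          fin_cases i <;> fin_cases j <;> simp [Matrix.mul_apply, Fin.sum_univ_two]
        exact Prod.ext hc' hc'
      rw [sqAb_apply, ← map_pow, h1, map_mul, map_mul, map_mul, map_inv, map_inv, map_mul, map_mul,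
        map_mul, map_inv, map_inv, mul_inv_cancel_comm, mul_inv_cancel]
    rw [MonoidHom.comp_apply, hx, map_mul, map_mul, map_mul, map_mul, hcc, mul_one]
    refine (congrArg₂ (· * ·) (hW.map (φ.comp i1) w1) (hW.map (φ.comp i2) w2)).trans ?_
    exact one_mul 1
  -- orders
  have hQW : Nat.card K0 = Nat.card Qs * Nat.card W := by
    rw [← Nat.card_prod]
    exact Nat.card_congr
      { toFun := fun x => (⟨x.1.1.1, x.2.1⟩,
          ⟨⟨x.1.1.1⁻¹ * x.1.1.2, Qs.mul_mem (Qs.inv_mem x.2.1) x.2.2⟩, by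
            show GeneralLinearGroup.det (x.1.1.1⁻¹ * x.1.1.2) = 1
            rw [map_mul, map_inv, (x.1.2 : GeneralLinearGroup.det x.1.1.1 = _), inv_mul_cancel]⟩)
        invFun := fun q => ⟨⟨((q.1 : GL (Fin 2) F), (q.1 : GL (Fin 2) F) * ((q.2 : Qs) : GL (Fin 2) F)), by
            show GeneralLinearGroup.det (q.1 : GL (Fin 2) F) = _
            rw [map_mul, show GeneralLinearGroup.det ((q.2 : Qs) : GL (Fin 2) F) = 1 from q.2.2, mul_one]⟩,
          ⟨q.1.2, Qs.mul_mem q.1.2 (q.2 : Qs).2⟩⟩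
        left_inv := fun x => Subtype.ext (Subtype.ext (Prod.ext rfl (mul_inv_cancel_left _ _)))
        right_inv := fun q => Prod.ext rfl (Subtype.ext (Subtype.ext (inv_mul_cancel_left _ _))) }
  have hWc : Nat.card W = 2 ^ v2 (Nat.card (SpecialLinearGroup (Fin 2) F)) := by
    rw [Nat.card_congr e'.toEquiv]
    exact R.card_eq_multiplicity
  have hSL := v2_card_SL (F := F) (ι := Fin 2)
  -- kernel of `toG2`
  let sc : Fˣ →* pairs F :=
    ((GeneralLinearGroup.scalar (Fin 2)).prod (GeneralLinearGroup.scalar (Fin 2))).codRestrict _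
      fun c => rfl
  have hsc : Function.Injective sc := fun a b h => Units.ext (by
    have h' := congrArg (fun p : pairs F => ((p.1.1 : GL (Fin 2) F) : Matrix (Fin 2) (Fin 2) F) 0 0) h
    change (GeneralLinearGroup.scalar (Fin 2) a : Matrix (Fin 2) (Fin 2) F) 0 0 =
      (GeneralLinearGroup.scalar (Fin 2) b : Matrix (Fin 2) (Fin 2) F) 0 0 at h'
    simpa [coe_scalar_smul] using h')
  have hker : (toG2 F).ker = sc.range := by
    ext p
    rw [mem_ker_toG2]
    exact ⟨fun ⟨c, hc⟩ => ⟨c, Subtype.ext hc.symm⟩, fun ⟨c, hc⟩ => ⟨c, (congrArg Subtype.val hc).symm⟩⟩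
  have hkc : Nat.card (toG2 F).ker = Nat.card Fˣ := by
    rw [hker]
    exact (Nat.card_congr (MonoidHom.ofInjective hsc).toEquiv).symm
  have hrange : v2 (Nat.card (toG2 F).range) =
      v2 (Nat.card (GL (Fin 2) F)) + v2 (Nat.card (SpecialLinearGroup (Fin 2) F)) - v2 (Fintype.card F - 1) := by
    have h := Subgroup.card_mul_index (toG2 F).ker
    rw [Subgroup.index_ker, card_pairs, hkc] at h
    have h' := congrArg v2 h
    rw [v2_mul Nat.card_pos.ne' Nat.card_pos.ne', v2_mul Nat.card_pos.ne' Nat.card_pos.ne', v2_card_units] at h'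
    omega
  have hK0p : IsPGroup 2 K0 := IsPGroup.of_card
    (n := v2 (Nat.card (GL (Fin 2) F)) + v2 (Nat.card (SpecialLinearGroup (Fin 2) F)))
    (by rw [hQW, hQc, hWc, pow_add])
  have hP0p : IsPGroup 2 P0 := hK0p.map _
  obtain ⟨s, hs⟩ := IsPGroup.iff_card.1 hP0p
  have hslow : v2 (Nat.card (toG2 F).range) ≤ s := by
    have h : Nat.card φ.ker * Nat.card φ.range = Nat.card K0 := by
      rw [← Subgroup.index_ker φ]
      exact Subgroup.card_mul_index _
    rw [MonoidHom.range_eq_top.2 ((toG2 F).subgroupMap_surjective K0), Subgroup.card_top, hs, hQW, hQc,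
      hWc, ← pow_add] at h
    obtain ⟨r, -, hr⟩ := (Nat.dvd_prime_pow Nat.prime_two).1 (Dvd.intro _ h : Nat.card φ.ker ∣ _)
    have hrq : r ≤ v2 (Fintype.card F - 1) := by
      rw [← v2_card_units (F := F)]
      refine (Nat.prime_two.pow_dvd_iff_le_factorization Nat.card_pos.ne').1 ?_
      rw [← hr, ← hkc, ← Subgroup.card_map_of_injective (K := φ.ker) K0.subtype_injective]
      refine Subgroup.card_dvd_of_le ?_
      rintro _ ⟨y, hy, rfl⟩
      exact MonoidHom.mem_ker.2 (congrArg Subtype.val (MonoidHom.mem_ker.1 hy))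
    rw [hr, ← pow_add] at h
    have h' := Nat.pow_right_injective le_rfl h
    omega
  let z : Cfsg.Lie.G2 F := toG2 F (zPair F)
  have hmax : ∀ T : Subgroup (Cfsg.Lie.G2 F), IsPGroup 2 T → T ≤ Subgroup.centralizer {z} →
      P0 ≤ T → T = P0 := by
    intro T hT hTz hle
    obtain ⟨t, ht⟩ := IsPGroup.iff_card.1 hT
    have h1 : t ≤ v2 (Nat.card (toG2 F).range) :=
      (Nat.prime_two.pow_dvd_iff_le_factorization Nat.card_pos.ne').1
        (ht ▸ Subgroup.card_dvd_of_le (hTz.trans (centralizer_le_range h2)))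
    refine (Subgroup.eq_of_le_of_card_ge hle ?_).symm
    rw [ht, hs]
    exact Nat.pow_le_pow_right two_pos (by omega)
  have hzP0 : z ∈ P0 := by
    refine ⟨zPair F, ⟨Qs.one_mem, ?_⟩, rfl⟩
    show GeneralLinearGroup.scalar (Fin 2) (-1 : Fˣ) ∈ Qs
    have hm : dgHom F ((-1 : Fˣ), 1) ∈ Qs := hdg (-1) ⟨1, by rw [pow_one, neg_one_sq]⟩
    have h := Qs.mul_mem hm (Qs.mul_mem (Qs.mul_mem hsw hm) hsw)
    convert h using 1
    refine Units.ext ?_
    simp only [Units.val_mul, coe_scalar_smul, coe_dgHom, coe_swapGL]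
    ext i j
    fin_cases i <;> fin_cases j <;> simp [Matrix.mul_apply, Fin.sum_univ_two]
  have hcent : ∀ y ∈ P0, (∀ p ∈ P0, p * y = y * p) → y = 1 ∨ y = z := by
    rintro _ ⟨⟨⟨u, v⟩, huv⟩, ⟨huQ, hvQ⟩, rfl⟩ hy
    change GeneralLinearGroup.det u = GeneralLinearGroup.det v at huv
    have hcm : ∀ (a b : GL (Fin 2) F), a ∈ Qs → b ∈ Qs →
        ∀ hab : GeneralLinearGroup.det a = GeneralLinearGroup.det b, ∃ c : Fˣ,
          (a * u)⁻¹ * (u * a) = GeneralLinearGroup.scalar (Fin 2) c ∧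
            (b * v)⁻¹ * (v * b) = GeneralLinearGroup.scalar (Fin 2) c := by
      intro a b ha hb hab
      have h := hy (toG2 F ⟨(a, b), hab⟩) ⟨⟨(a, b), hab⟩, ⟨ha, hb⟩, rfl⟩
      rw [← map_mul, ← map_mul] at h
      have h' := (mem_ker_toG2 _).1 ((MonoidHom.eq_iff _).1 h.symm)
      obtain ⟨c, hc⟩ := h'
      exact ⟨c, congrArg Prod.fst hc, congrArg Prod.snd hc⟩
    have hu : ∀ w : W, u * ((w : Qs) : GL (Fin 2) F) = ((w : Qs) : GL (Fin 2) F) * u := fun w => by
      obtain ⟨c, hc1, hc2⟩ := hcm _ 1 (w : Qs).2 Qs.one_mem (w.2.trans (map_one _).symm)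
      rw [one_mul, mul_one, inv_mul_cancel] at hc2
      rw [← hc2, inv_mul_eq_one] at hc1
      exact hc1.symm
    have hv : ∀ w : W, v * ((w : Qs) : GL (Fin 2) F) = ((w : Qs) : GL (Fin 2) F) * v := fun w => by
      obtain ⟨c, hc1, hc2⟩ := hcm 1 _ Qs.one_mem (w : Qs).2 ((map_one _).trans w.2.symm)
      rw [one_mul, mul_one, inv_mul_cancel] at hc1
      rw [← hc1, inv_mul_eq_one] at hc2
      exact hc2.symm
    have hne : ((wA : Qs) : GL (Fin 2) F) * ((wB : Qs) : GL (Fin 2) F) ≠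
        ((wB : Qs) : GL (Fin 2) F) * ((wA : Qs) : GL (Fin 2) F) := fun h => hAB (Subtype.ext (Subtype.ext h))
    obtain ⟨c, hc⟩ := eq_scalar_of_commute_pair (hu wA) (hu wB) hne
    obtain ⟨d, hd⟩ := eq_scalar_of_commute_pair (hv wA) (hv wB) hne
    have hsq : (c : F) ^ 2 = (d : F) ^ 2 := by
      have h := congrArg Units.val huv
      rw [GeneralLinearGroup.val_det_apply, GeneralLinearGroup.val_det_apply, hc, hd, coe_scalar_smul,
        coe_scalar_smul, Matrix.det_smul, Matrix.det_smul] at h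
      simpa using h
    rcases sq_eq_sq_iff_eq_or_eq_neg.1 hsq with h | h
    · refine Or.inl (MonoidHom.mem_ker.1 ((mem_ker_toG2 _).2 ⟨c, Prod.ext hc ?_⟩))
      show v = _
      rw [hd, Units.ext h]
    · refine Or.inr ?_
      rw [MonoidHom.eq_iff, mem_ker_toG2]
      refine ⟨c, Prod.ext (show (1 : GL (Fin 2) F)⁻¹ * u = _ by rw [inv_one, one_mul, hc]) ?_⟩
      show (GeneralLinearGroup.scalar (Fin 2) (-1 : Fˣ))⁻¹ * v = _
      rw [hd, ← map_inv, ← map_mul]
      refine congrArg _ (Units.ext ?_)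
      simp [h]
  -- `P₀` is Sylow
  obtain ⟨T, hT⟩ := hP0p.exists_le_sylow
  have hz1 : z ≠ 1 := fun h => by
    obtain ⟨c, hc⟩ := (mem_ker_toG2 _).1 (MonoidHom.mem_ker.2 h)
    have h1 := congrArg (fun g : GL (Fin 2) F => (g : Matrix (Fin 2) (Fin 2) F) 0 0) (congrArg Prod.fst hc)
    have h2' := congrArg (fun g : GL (Fin 2) F => (g : Matrix (Fin 2) (Fin 2) F) 0 0) (congrArg Prod.snd hc)
    simp [zPair, coe_scalar_smul] at h1 h2'
    exact h2 (by linear_combination h1 - h2')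
  haveI : Nontrivial (T : Subgroup (Cfsg.Lie.G2 F)) := ⟨⟨z, hT hzP0⟩, 1, fun h => hz1 (congrArg Subtype.val h)⟩
  haveI := T.isPGroup'.center_nontrivial
  obtain ⟨y, hy⟩ := exists_ne (1 : Subgroup.center (T : Subgroup (Cfsg.Lie.G2 F)))
  have hyc : ∀ p ∈ (T : Subgroup (Cfsg.Lie.G2 F)), p * ((y : (T : Subgroup (Cfsg.Lie.G2 F))) : Cfsg.Lie.G2 F) =
      ((y : (T : Subgroup (Cfsg.Lie.G2 F))) : Cfsg.Lie.G2 F) * p := fun p hp =>
    congrArg Subtype.val (Subgroup.mem_center_iff.1 y.2 ⟨p, hp⟩)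
  have hTC : (T : Subgroup (Cfsg.Lie.G2 F)) ⊓ Subgroup.centralizer {z} = P0 := by
    refine hmax _ (T.isPGroup'.to_le inf_le_left) inf_le_right (le_inf hT ?_)
    rintro _ ⟨⟨⟨a, b⟩, hab'⟩, -, rfl⟩
    rw [Subgroup.mem_centralizer_singleton_iff, ← map_mul, ← map_mul]
    refine congrArg _ (Subtype.ext (Prod.ext (by simp [zPair]) ?_))
    show b * GeneralLinearGroup.scalar (Fin 2) (-1 : Fˣ) = GeneralLinearGroup.scalar (Fin 2) (-1 : Fˣ) * b
    refine Units.ext ?_
    rw [Units.val_mul, Units.val_mul, coe_scalar_smul, Matrix.mul_smul, Matrix.smul_mul, mul_one, one_mul]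
  have hyP0 : ((y : (T : Subgroup (Cfsg.Lie.G2 F))) : Cfsg.Lie.G2 F) ∈ P0 := by
    rw [← hTC]
    exact ⟨y.1.2, Subgroup.mem_centralizer_singleton_iff.2 (hyc z (hT hzP0)).symm⟩
  have hyz : ((y : (T : Subgroup (Cfsg.Lie.G2 F))) : Cfsg.Lie.G2 F) = z :=
    (hcent _ hyP0 fun p hp => hyc p (hT hp)).resolve_left fun h =>
      hy (Subtype.ext (Subtype.ext h))
  have hTP : (T : Subgroup (Cfsg.Lie.G2 F)) = P0 := by
    rw [← hTC]
    refine (inf_eq_left.2 fun p hp => ?_).symm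
    rw [Subgroup.mem_centralizer_singleton_iff, ← hyz]
    exact hyc p hp
  exact hab.of_mulEquiv ((MulEquiv.subgroupCongr hTP.symm).trans (T.equiv P))

end CfsgLib.BrauerPairs.G2Quaternion
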