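import Cfsg.Agent.Lib.BrauerPairs.WreathAbElem
import Cfsg.Agent.Lib.ClassicalLinear.Sylow

/-!
# Wreath products inside general linear groups and the `2`-part of their orders
-/

set_option autoImplicit false

namespace CfsgLib.BrauerPairs.GLWreath

open Matrix CfsgLib.Classes.DerivedWreath

section Embedding

variable {F : Type*} [Field F] {κ ι : Type*} [Fintype κ] [DecidableEq κ] [Fintype ι] [DecidableEq ι]

/-- Permutations of blocks. -/
def liftPerm (σ : Equiv.Perm ι) : Equiv.Perm (κ × ι) := Equiv.prodCongrRight fun _ => σ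

/-- The block diagonal matrices. -/
def blk : (ι → GL κ F) →* GL (κ × ι) F :=
  (Units.map (Matrix.blockDiagonalRingHom κ ι F).toMonoidHom).comp
    (MulEquiv.piUnits (M := fun _ : ι => Matrix κ κ F)).symm.toMonoidHom

theorem coe_blk (f : ι → GL κ F) :
    (blk f : Matrix (κ × ι) (κ × ι) F) = blockDiagonal fun i => (f i : Matrix κ κ F) := rfl

/-- The block permutation matrices. -/
def top : Equiv.Perm ι →* GL (κ × ι) F :=
  MonoidHom.toHomUnits
    ((Matrix.permMatrixHom (n := κ × ι) (R := F)).comp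
      { toFun := liftPerm
        map_one' := Equiv.ext fun _ => rfl
        map_mul' := fun _ _ => Equiv.ext fun _ => rfl })

theorem coe_top (σ : Equiv.Perm ι) :
    ((top σ : GL (κ × ι) F) : Matrix (κ × ι) (κ × ι) F) = (liftPerm (κ := κ) σ)⁻¹.permMatrix F := rfl

theorem liftPerm_inv_apply (σ : Equiv.Perm ι) (x : κ × ι) :
    (liftPerm (κ := κ) σ)⁻¹ x = (x.1, σ.symm x.2) := rfl

theorem top_blk (σ : Equiv.Perm ι) (f : ι → GL κ F) :
    top σ * blk f = blk (permCoord (GL κ F) ι σ f) * (top σ : GL (κ × ι) F) := by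
  refine Units.ext ?_
  rw [Units.val_mul, Units.val_mul, coe_top, coe_blk, coe_blk, Equiv.Perm.permMatrix,
    PEquiv.toMatrix_toPEquiv_mul, PEquiv.mul_toMatrix_toPEquiv]
  ext ⟨a, i⟩ ⟨b, j⟩
  simp only [submatrix_apply, id_eq, blockDiagonal_apply, permCoord_apply]
  have h1 : (liftPerm (κ := κ) σ)⁻¹ (a, i) = (a, σ.symm i) := rfl
  have h2 : ((liftPerm (κ := κ) σ)⁻¹).symm (b, j) = (b, σ j) := rfl
  rw [h1, h2]
  simp only [Equiv.symm_apply_eq]

/-- The wreath product inside the general linear group. -/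
def toGL : Wr (GL κ F) ι →* GL (κ × ι) F :=
  SemidirectProduct.lift blk top fun σ => MonoidHom.ext fun f => by
    simp only [MonoidHom.comp_apply, MulEquiv.coe_toMonoidHom, MulAut.conj_apply]
    rw [top_blk, mul_inv_cancel_right]

theorem toGL_apply (x : Wr (GL κ F) ι) :
    (toGL x : GL (κ × ι) F) = blk x.left * top x.right := rfl

theorem toGL_injective [Nonempty κ] : Function.Injective (toGL (F := F) (κ := κ) (ι := ι)) := by
  rw [injective_iff_map_eq_one]
  intro x hx
  obtain ⟨a⟩ := ‹Nonempty κ›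
  have h : (blk x.left : Matrix (κ × ι) (κ × ι) F) * (top x.right : GL (κ × ι) F) = 1 := by
    rw [← Units.val_mul, ← toGL_apply, hx, Units.val_one]
  rw [coe_blk, coe_top, Equiv.Perm.permMatrix, PEquiv.mul_toMatrix_toPEquiv] at h
  have hσ : x.right = 1 := by
    refine Equiv.ext fun j => ?_
    by_contra hj
    have h' := congrFun (congrFun h (a, j)) (a, j)
    rw [submatrix_apply, Matrix.one_apply_eq, id_eq] at h'
    have h2 : ((liftPerm (κ := κ) x.right)⁻¹).symm (a, j) = (a, x.right j) := rfl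
    rw [h2, blockDiagonal_apply, if_neg] at h'
    · exact zero_ne_one h'
    · exact fun he => hj he.symm
  refine SemidirectProduct.ext (funext fun i => Units.ext ?_) hσ
  ext b c
  have h' := congrFun (congrFun h (b, i)) (c, i)
  rw [submatrix_apply, id_eq] at h'
  have h2 : ((liftPerm (κ := κ) x.right)⁻¹).symm (c, i) = (c, i) := by rw [hσ]; rfl
  rw [h2, blockDiagonal_apply_eq] at h'
  rw [h']
  simp [Matrix.one_apply]

theorem det_toGL (x : Wr (GL κ F) ι) :
    Matrix.GeneralLinearGroup.det (toGL x) = (∏ i, Matrix.GeneralLinearGroup.det (x.left i)) *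
      Units.map (Int.castRingHom F).toMonoidHom (Equiv.Perm.sign x.right ^ Fintype.card κ) := by
  refine Units.ext ?_
  rw [toGL_apply, map_mul, Units.val_mul, Units.val_mul, Units.coe_prod]
  simp only [Matrix.GeneralLinearGroup.val_det_apply, coe_blk, coe_top, det_blockDiagonal,
    det_permutation]
  congr 1
  rw [Equiv.Perm.sign_inv, liftPerm, Equiv.Perm.sign_prodCongrRight, Finset.prod_const,
    Finset.card_univ]
  rfl

/-- Reindexing. -/
def glReindex {m : Type*} [Fintype m] [DecidableEq m] {n : Type*} [Fintype n] [DecidableEq n]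
    (e : m ≃ n) : GL m F ≃* GL n F :=
  Units.mapEquiv (Matrix.reindexAlgEquiv F F e).toMulEquiv

theorem det_glReindex {m : Type*} [Fintype m] [DecidableEq m] {n : Type*} [Fintype n] [DecidableEq n]
    (e : m ≃ n) (g : GL m F) :
    Matrix.GeneralLinearGroup.det (glReindex e g) = Matrix.GeneralLinearGroup.det g :=
  Units.ext (Matrix.det_reindexAlgEquiv F F e _)

end Embedding

section TwoPart

variable {F : Type*} [Field F] [Fintype F]

/-- The exponent of `2`. -/
noncomputable def v2 (a : ℕ) : ℕ := a.factorization 2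

theorem v2_mul {a b : ℕ} (ha : a ≠ 0) (hb : b ≠ 0) : v2 (a * b) = v2 a + v2 b := by
  rw [v2, v2, v2, Nat.factorization_mul ha hb, Finsupp.add_apply]

theorem v2_pow_sub_one_ne_zero {q : ℕ} (hq : 1 < q) (i : ℕ) (hi : i ≠ 0) : q ^ i - 1 ≠ 0 := by
  have := Nat.one_lt_pow hi hq
  omega

theorem v2_pow_even {q : ℕ} (hq : 1 < q) (hodd : Odd q) {j : ℕ} (hj : j ≠ 0) :
    v2 (q ^ (2 * j) - 1) = v2 (q ^ 2 - 1) + v2 j := by
  haveI : Fact (Nat.Prime 2) := ⟨Nat.prime_two⟩
  have hq2 : ¬ 2 ∣ q := Nat.two_dvd_ne_zero.mpr (Nat.odd_iff.mp hodd)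
  have hdiv : 2 ∣ q - 1 := by obtain ⟨u, rfl⟩ := hodd; exact ⟨u, by omega⟩
  have h1 := padicValNat.pow_two_sub_pow (y := 1) hq hdiv hq2 (n := 2 * j) (by omega) (even_two_mul _)
  have h2 := padicValNat.pow_two_sub_pow (y := 1) hq hdiv hq2 (n := 2) (by omega) (even_two)
  rw [one_pow, padicValNat.mul two_ne_zero hj, padicValNat.self one_lt_two] at h1
  rw [one_pow, padicValNat.self one_lt_two] at h2
  simp only [v2, Nat.factorization_def _ Nat.prime_two]
  omega

theorem v2_pow_odd {q : ℕ} (hq : 1 < q) (hodd : Odd q) (j : ℕ) :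
    v2 (q ^ (2 * j + 1) - 1) = v2 (q - 1) := by
  have hS : Odd (∑ i ∈ Finset.range (2 * j + 1), q ^ i) := by
    rw [Nat.odd_iff, Finset.sum_nat_mod]
    have h1 : ∀ i ∈ Finset.range (2 * j + 1), q ^ i % 2 = 1 := fun i _ => Nat.odd_iff.1 hodd.pow
    rw [Finset.sum_congr rfl h1, Finset.sum_const, Finset.card_range, smul_eq_mul, mul_one]
    omega
  rw [← geom_sum_mul_of_one_le hq.le, v2_mul hS.pos.ne' (by omega)]
  rw [v2, Nat.factorization_eq_zero_of_not_dvd (hS.not_two_dvd_nat), zero_add]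

theorem v2_card_units : v2 (Nat.card Fˣ) = v2 (Fintype.card F - 1) := by
  rw [CfsgLib.ClassicalLinear.card_units]

theorem v2_card_GL (hF : Odd (Fintype.card F)) {ι : Type*} [Fintype ι] [DecidableEq ι] :
    v2 (Nat.card (GL ι F)) =
      ∑ i ∈ Finset.range (Fintype.card ι), v2 (Fintype.card F ^ (i + 1) - 1) := by
  have hq : 1 < Fintype.card F := Fintype.one_lt_card
  rw [CfsgLib.ClassicalLinear.card_GL_eq_pow_mul, v2_mul (pow_ne_zero _ Fintype.card_pos.ne')
    (Finset.prod_ne_zero_iff.2 fun i _ => v2_pow_sub_one_ne_zero hq _ (Nat.succ_ne_zero i))]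
  simp only [v2]
  rw [Nat.factorization_eq_zero_of_not_dvd hF.pow.not_two_dvd_nat, zero_add,
    Nat.factorization_prod (fun i _ => v2_pow_sub_one_ne_zero hq _ (Nat.succ_ne_zero i)),
    Finset.sum_apply']

theorem v2_card_GL_two_mul (hF : Odd (Fintype.card F)) : ∀ m : ℕ,
    v2 (Nat.card (GL (Fin (2 * m)) F)) =
      m * (v2 (Fintype.card F - 1) + v2 (Fintype.card F ^ 2 - 1)) + v2 m.factorial := by
  intro m
  have hq : 1 < Fintype.card F := Fintype.one_lt_card
  rw [v2_card_GL hF, Fintype.card_fin]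
  induction m with
  | zero => simp [v2]
  | succ m ih =>
    rw [show 2 * (m + 1) = 2 * m + 1 + 1 by ring, Finset.sum_range_succ, Finset.sum_range_succ, ih,
      v2_pow_odd hq hF, show 2 * m + 1 + 1 = 2 * (m + 1) by ring,
      v2_pow_even hq hF (Nat.succ_ne_zero m), Nat.factorial_succ,
      v2_mul (Nat.succ_ne_zero m) (Nat.factorial_ne_zero m)]
    ring

theorem v2_card_GL_two_mul_add_one (hF : Odd (Fintype.card F)) (m : ℕ) :
    v2 (Nat.card (GL (Fin (2 * m + 1)) F)) =
      v2 (Nat.card (GL (Fin (2 * m)) F)) + v2 (Fintype.card F - 1) := by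
  rw [v2_card_GL hF, v2_card_GL hF, Fintype.card_fin, Fintype.card_fin, Finset.sum_range_succ,
    v2_pow_odd Fintype.one_lt_card hF]

theorem v2_card_SL {ι : Type*} [Fintype ι] [DecidableEq ι] [Nonempty ι] :
    v2 (Nat.card (Matrix.SpecialLinearGroup ι F)) + v2 (Fintype.card F - 1) = v2 (Nat.card (GL ι F)) := by
  rw [CfsgLib.ClassicalLinear.card_GL_eq_card_SL_mul, v2_mul Nat.card_pos.ne' Nat.card_pos.ne',
    v2_card_units]

/-- An element of `2`-power order in the units of a field with `q ≡ 3 mod 4` is `±1`. -/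
theorem units_eq_one_or_neg_one (h4 : 4 ∣ Fintype.card F + 1) (u : Fˣ) {k : ℕ} (hu : u ^ 2 ^ k = 1) :
    u = 1 ∨ u = -1 := by
  classical
  have h1 : orderOf u ∣ 2 ^ k := orderOf_dvd_of_pow_eq_one hu
  have h2 : orderOf u ∣ Fintype.card F - 1 := Fintype.card_units F ▸ orderOf_dvd_card
  obtain ⟨j, -, hj⟩ := (Nat.dvd_prime_pow Nat.prime_two).1 h1
  have hj1 : j ≤ 1 := by
    by_contra h
    have : 4 ∣ Fintype.card F - 1 := ((show 4 = 2 ^ 2 by norm_num) ▸
      (hj ▸ Nat.pow_dvd_pow 2 (by omega : 2 ≤ j) : 2 ^ 2 ∣ orderOf u)).trans h2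
    have := Fintype.one_lt_card (α := F)
    omega
  have hsq : u ^ 2 = 1 := orderOf_dvd_iff_pow_eq_one.1 (hj ▸ (pow_dvd_pow 2 hj1).trans (by norm_num))
  rcases sq_eq_one_iff.1 (congrArg Units.val hsq : (u : F) ^ 2 = 1) with h | h
  · exact Or.inl (Units.ext h)
  · exact Or.inr (Units.ext h)

end TwoPart

end CfsgLib.BrauerPairs.GLWreath
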