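import Cfsg.Prelude.Def_G2
import Cfsg.Agent.Lib.BrauerPairs.GLWreath

/-!
# The centraliser of an involution of `G₂(q)`, `q` odd, and the map `(GL₂ × GL₂)_{det} → G₂`
-/

set_option autoImplicit false

namespace CfsgLib.BrauerPairs.G2Quaternion

open Matrix

variable {F : Type*} [Field F]

/-- Pairs of matrices. -/
abbrev Oct (F : Type*) := Matrix (Fin 2) (Fin 2) F × Matrix (Fin 2) (Fin 2) F

/-- The Cayley–Dickson product on pairs of matrices. -/
def octMulPair (x y : Oct F) : Oct F :=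
  (y.1 * x.1 - x.2 * adjugate y.2, x.1 * y.2 + adjugate y.1 * x.2)

/-- The coordinates. -/
def enc : (Fin 8 → F) ≃ₗ[F] Oct F where
  toFun x := (!![x 0, x 4; x 1, x 7], !![x 2, x 3; x 6, -x 5])
  invFun p := ![p.1 0 0, p.1 1 0, p.2 0 0, p.2 0 1, p.1 0 1, -p.2 1 1, p.2 1 0, p.1 1 1]
  map_add' x y := by
    refine Prod.ext ?_ ?_ <;> ext i j <;> fin_cases i <;> fin_cases j <;>
      simp [add_comm]
  map_smul' c x := by
    refine Prod.ext ?_ ?_ <;> ext i j <;> fin_cases i <;> fin_cases j <;> simp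
  left_inv x := by
    funext i; fin_cases i <;> simp
  right_inv p := by
    refine Prod.ext ?_ ?_ <;> ext i j <;> fin_cases i <;> fin_cases j <;> simp

theorem enc_zornMul (x y : Fin 8 → F) :
    enc (Cfsg.Lie.zornMul x y) = octMulPair (enc x) (enc y) := by
  refine Prod.ext ?_ ?_ <;> ext i j <;> fin_cases i <;> fin_cases j <;>
    simp [enc, octMulPair, Cfsg.Lie.zornMul, Cfsg.Lie.dot3, Cfsg.Lie.cross3, Matrix.mul_apply,
      Fin.sum_univ_two, Matrix.adjugate_fin_two] <;> ring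

/-- The pairs with equal determinants. -/
def pairs (F : Type*) [Field F] : Subgroup (GL (Fin 2) F × GL (Fin 2) F) where
  carrier := {p | GeneralLinearGroup.det p.1 = GeneralLinearGroup.det p.2}
  one_mem' := rfl
  mul_mem' {a b} (ha : _ = _) (hb : _ = _) := by
    show GeneralLinearGroup.det (a.1 * b.1) = GeneralLinearGroup.det (a.2 * b.2)
    rw [map_mul, map_mul, ha, hb]
  inv_mem' {a} (ha : _ = _) := by
    show GeneralLinearGroup.det a.1⁻¹ = GeneralLinearGroup.det a.2⁻¹
    rw [map_inv, map_inv, ha]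

/-- `(A, w) ↦ (u A u⁻¹, u w v⁻¹)`. -/
def act (p : GL (Fin 2) F × GL (Fin 2) F) : Oct F →ₗ[F] Oct F where
  toFun x := ((p.1 : Matrix (Fin 2) (Fin 2) F) * x.1 * ((p.1⁻¹ : GL (Fin 2) F) : Matrix (Fin 2) (Fin 2) F),
    (p.1 : Matrix (Fin 2) (Fin 2) F) * x.2 * ((p.2⁻¹ : GL (Fin 2) F) : Matrix (Fin 2) (Fin 2) F))
  map_add' x y := by simp [Matrix.mul_add, Matrix.add_mul]
  map_smul' c x := by simp

theorem act_apply (p : GL (Fin 2) F × GL (Fin 2) F) (x : Oct F) :
    act p x =
      ((p.1 : Matrix (Fin 2) (Fin 2) F) * x.1 * ((p.1⁻¹ : GL (Fin 2) F) : Matrix (Fin 2) (Fin 2) F),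
        (p.1 : Matrix (Fin 2) (Fin 2) F) * x.2 * ((p.2⁻¹ : GL (Fin 2) F) : Matrix (Fin 2) (Fin 2) F)) :=
  rfl

theorem adjugate_coe (u : GL (Fin 2) F) :
    adjugate (u : Matrix (Fin 2) (Fin 2) F) =
      ((GeneralLinearGroup.det u : Fˣ) : F) • ((u⁻¹ : GL (Fin 2) F) : Matrix (Fin 2) (Fin 2) F) := by
  have h : adjugate (u : Matrix (Fin 2) (Fin 2) F) * (u : Matrix (Fin 2) (Fin 2) F) =
      ((GeneralLinearGroup.det u : Fˣ) : F) • (1 : Matrix (Fin 2) (Fin 2) F) :=
    Matrix.adjugate_mul _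
  calc adjugate (u : Matrix (Fin 2) (Fin 2) F)
      = adjugate (u : Matrix (Fin 2) (Fin 2) F) * ((u : Matrix (Fin 2) (Fin 2) F) *
          ((u⁻¹ : GL (Fin 2) F) : Matrix (Fin 2) (Fin 2) F)) := by
        rw [← Units.val_mul, mul_inv_cancel, Units.val_one, mul_one]
    _ = _ := by rw [← mul_assoc, h, Matrix.smul_mul, one_mul]

theorem act_octMulPair (p : pairs F) (x y : Oct F) :
    act (p : GL (Fin 2) F × GL (Fin 2) F) (octMulPair x y) =
      octMulPair (act (p : GL (Fin 2) F × GL (Fin 2) F) x) (act (p : GL (Fin 2) F × GL (Fin 2) F) y) := by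
  obtain ⟨⟨u, v⟩, huv⟩ := p
  change GeneralLinearGroup.det u = GeneralLinearGroup.det v at huv
  simp only [act_apply, octMulPair]
  have hu0 : (u : Matrix (Fin 2) (Fin 2) F).det ≠ 0 := (GeneralLinearGroup.det u).ne_zero
  have hv0 : (v : Matrix (Fin 2) (Fin 2) F).det ≠ 0 := (GeneralLinearGroup.det v).ne_zero
  refine Prod.ext ?_ ?_
  · simp only [Matrix.adjugate_mul_distrib, adjugate_coe, inv_inv, map_inv, Matrix.smul_mul,
      Matrix.mul_smul, smul_smul, huv]
    rw [mul_sub, sub_mul]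
    congr 1
    · simp [mul_assoc]
    · simp [mul_assoc, hu0, hv0]
  · simp only [Matrix.adjugate_mul_distrib, adjugate_coe, inv_inv, map_inv, Matrix.smul_mul,
      Matrix.mul_smul, smul_smul]
    rw [mul_add, add_mul]
    congr 1
    · simp [mul_assoc]
    · simp [mul_assoc, hu0, hv0]

theorem act_one : act (1 : GL (Fin 2) F × GL (Fin 2) F) = LinearMap.id :=
  LinearMap.ext fun x => by simp [act_apply]

theorem act_mul (p q : GL (Fin 2) F × GL (Fin 2) F) : act (p * q) = (act p).comp (act q) :=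
  LinearMap.ext fun x => by simp [act_apply, mul_assoc]

/-- The matrix of the action in Zorn coordinates. -/
noncomputable def actMat : GL (Fin 2) F × GL (Fin 2) F →* Matrix (Fin 8) (Fin 8) F where
  toFun p := LinearMap.toMatrix' ((enc (F := F)).symm.toLinearMap ∘ₗ act p ∘ₗ (enc (F := F)).toLinearMap)
  map_one' := by
    rw [act_one, show (enc (F := F)).symm.toLinearMap ∘ₗ LinearMap.id ∘ₗ (enc (F := F)).toLinearMap =
      LinearMap.id from LinearMap.ext fun x => enc.symm_apply_apply x, LinearMap.toMatrix'_id]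
  map_mul' p q := by
    rw [← LinearMap.toMatrix'_comp]
    refine congrArg _ (LinearMap.ext fun x => ?_)
    simp [act_mul]

theorem actMat_mulVec (p : GL (Fin 2) F × GL (Fin 2) F) (x : Fin 8 → F) :
    actMat p *ᵥ x = enc.symm (act p (enc x)) := LinearMap.toMatrix'_mulVec _ _

/-- The map to `G₂`. -/
noncomputable def toG2 (F : Type*) [Field F] : pairs F →* Cfsg.Lie.G2 F :=
  ((MonoidHom.toHomUnits (actMat (F := F))).comp (pairs F).subtype).codRestrict (Cfsg.Lie.G2 F)
    fun p x y => by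
      show actMat (p : GL (Fin 2) F × GL (Fin 2) F) *ᵥ Cfsg.Lie.zornMul x y =
        Cfsg.Lie.zornMul (actMat (p : GL (Fin 2) F × GL (Fin 2) F) *ᵥ x)
          (actMat (p : GL (Fin 2) F × GL (Fin 2) F) *ᵥ y)
      rw [actMat_mulVec, actMat_mulVec, actMat_mulVec, enc_zornMul, act_octMulPair]
      refine enc.injective ?_
      rw [enc_zornMul, LinearEquiv.apply_symm_apply, LinearEquiv.apply_symm_apply,
        LinearEquiv.apply_symm_apply]

theorem g2_ext {g h : Cfsg.Lie.G2 F}
    (e : ∀ x : Fin 8 → F, ((g : GL (Fin 8) F) : Matrix (Fin 8) (Fin 8) F) *ᵥ x =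
      ((h : GL (Fin 8) F) : Matrix (Fin 8) (Fin 8) F) *ᵥ x) : g = h :=
  Subtype.ext (Units.ext (Matrix.ext_iff_mulVec.2 e))

theorem toG2_mulVec (p : pairs F) (x : Fin 8 → F) :
    ((toG2 F p : GL (Fin 8) F) : Matrix (Fin 8) (Fin 8) F) *ᵥ x =
      enc.symm (act (p : GL (Fin 2) F × GL (Fin 2) F) (enc x)) := actMat_mulVec _ _

/-- A matrix commuting with every matrix is scalar. -/
theorem eq_scalar_of_commute {u : GL (Fin 2) F}
    (h : ∀ A : Matrix (Fin 2) (Fin 2) F, (u : Matrix (Fin 2) (Fin 2) F) * A = A * (u : Matrix (Fin 2) (Fin 2) F)) :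
    ∃ c : Fˣ, u = GeneralLinearGroup.scalar (Fin 2) c := by
  have h1 := congrFun (congrFun (h !![0, 1; 0, 0]) 0) 1
  have h2 := congrFun (congrFun (h !![0, 1; 0, 0]) 1) 1
  have h3 := congrFun (congrFun (h !![0, 0; 1, 0]) 0) 0
  simp [Matrix.mul_apply, Fin.sum_univ_two] at h1 h2 h3
  have hd : ((GeneralLinearGroup.det u : Fˣ) : F) ≠ 0 := Units.ne_zero _
  rw [GeneralLinearGroup.val_det_apply, Matrix.det_fin_two, h2, h3, ← h1] at hd
  simp at hd
  refine ⟨Units.mk0 _ hd, Units.ext ?_⟩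
  ext i j
  fin_cases i <;> fin_cases j <;> simp [h1, h2, h3]

theorem coe_scalar_smul (c : Fˣ) :
    ((GeneralLinearGroup.scalar (Fin 2) c : GL (Fin 2) F) : Matrix (Fin 2) (Fin 2) F) =
      (c : F) • (1 : Matrix (Fin 2) (Fin 2) F) := by
  rw [Matrix.smul_one_eq_diagonal]
  rfl

theorem mem_ker_toG2 (p : pairs F) :
    p ∈ (toG2 F).ker ↔ ∃ c : Fˣ, (p : GL (Fin 2) F × GL (Fin 2) F) =
      (GeneralLinearGroup.scalar (Fin 2) c, GeneralLinearGroup.scalar (Fin 2) c) := by
  constructor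
  · intro hp
    have h : ∀ x : Oct F, act (p : GL (Fin 2) F × GL (Fin 2) F) x = x := fun x => by
      have h' := toG2_mulVec p (enc.symm x)
      rw [MonoidHom.mem_ker.1 hp, LinearEquiv.apply_symm_apply] at h'
      simpa using congrArg enc h'.symm
    obtain ⟨c, hc⟩ := eq_scalar_of_commute (u := (p : GL (Fin 2) F × GL (Fin 2) F).1) fun A => by
      have h' := congrArg Prod.fst (h (A, 0))
      simp only [act_apply] at h'
      conv_rhs => rw [← h']
      simp [mul_assoc]
    refine ⟨c, Prod.ext hc ?_⟩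
    have h' := congrArg Prod.snd (h (0, 1))
    simp only [act_apply, mul_one, ← Units.val_mul] at h'
    rw [Units.val_eq_one, mul_inv_eq_one] at h'
    exact h'.symm.trans hc
  · rintro ⟨c, hc⟩
    refine MonoidHom.mem_ker.2 (g2_ext fun x => ?_)
    rw [toG2_mulVec]
    have h : act (p : GL (Fin 2) F × GL (Fin 2) F) (enc x) = enc x := by
      rw [hc, act_apply]
      simp only [← map_inv, coe_scalar_smul, Matrix.smul_mul, one_mul, Matrix.mul_smul, mul_one,
        smul_smul, Units.inv_mul, one_smul]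
    rw [h, LinearEquiv.symm_apply_apply]
    simp

/-- The involution. -/
def zPair (F : Type*) [Field F] : pairs F :=
  ⟨(1, GeneralLinearGroup.scalar (Fin 2) (-1)), Units.ext (by
    simp [GeneralLinearGroup.val_det_apply, GeneralLinearGroup.coe_scalar, Matrix.det_fin_two])⟩

theorem act_zPair (x : Oct F) : act (zPair F : GL (Fin 2) F × GL (Fin 2) F) x = (x.1, -x.2) := by
  rw [act_apply]
  refine Prod.ext (by simp [zPair]) ?_
  simp only [zPair, Units.val_one, one_mul, ← map_inv, coe_scalar_smul, Matrix.mul_smul, mul_one]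
  simp

/-- The centraliser of the involution consists of the images of the pairs. -/
theorem centralizer_le_range [Fintype F] (h2 : (2 : F) ≠ 0) :
    Subgroup.centralizer {toG2 F (zPair F)} ≤ (toG2 F).range := by
  intro g hg
  rw [Subgroup.mem_centralizer_singleton_iff] at hg
  let T : Oct F →ₗ[F] Oct F := (enc (F := F)).toLinearMap ∘ₗ
    Matrix.toLin' ((g : GL (Fin 8) F) : Matrix (Fin 8) (Fin 8) F) ∘ₗ (enc (F := F)).symm.toLinearMap
  have hT : ∀ x : Fin 8 → F,
      T (enc x) = enc (((g : GL (Fin 8) F) : Matrix (Fin 8) (Fin 8) F) *ᵥ x) := fun x => by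
    simp [T]
  have hTmul : ∀ x y, T (octMulPair x y) = octMulPair (T x) (T y) := fun x y => by
    obtain ⟨x, rfl⟩ := enc.surjective x
    obtain ⟨y, rfl⟩ := enc.surjective y
    rw [← enc_zornMul, hT, hT, hT, ← enc_zornMul]
    exact congrArg enc (g.2 x y)
  have hTinj : Function.Injective T := fun x y h => by
    obtain ⟨x, rfl⟩ := enc.surjective x
    obtain ⟨y, rfl⟩ := enc.surjective y
    rw [hT, hT] at h
    have h' := congrArg (fun v => ((g⁻¹ : Cfsg.Lie.G2 F) : GL (Fin 8) F).val *ᵥ v) (enc.injective h)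
    simp only [Matrix.mulVec_mulVec, ← Units.val_mul, ← Subgroup.coe_mul, inv_mul_cancel] at h'
    simpa using h'
  have hTz : ∀ A w, T (A, -w) = ((T (A, w)).1, -(T (A, w)).2) := fun A w => by
    obtain ⟨x, hx⟩ := enc.surjective ((A, w) : Oct F)
    have h1 := congrArg (fun k : Cfsg.Lie.G2 F => enc (((k : GL (Fin 8) F) : Matrix (Fin 8) (Fin 8) F) *ᵥ x)) hg
    simp only [Subgroup.coe_mul, Units.val_mul, ← Matrix.mulVec_mulVec, toG2_mulVec,
      LinearEquiv.apply_symm_apply, ← hT, act_zPair, hx] at h1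
    exact h1
  have hA : ∀ A, (T (A, 0)).2 = 0 := fun A => by
    have h := congrArg Prod.snd (hTz A 0)
    simp only [neg_zero] at h
    ext i j
    have h' := congrFun (congrFun h i) j
    simp only [Matrix.neg_apply] at h'
    exact (mul_eq_zero.1 (by linear_combination h' : (2 : F) * (T (A, 0)).2 i j = 0)).resolve_left h2
  have hw : ∀ w, (T (0, w)).1 = 0 := fun w => by
    have h := congrArg Prod.fst (hTz 0 w)
    have hneg : T (0, -w) = -T (0, w) := by rw [← map_neg]; simp
    rw [hneg, Prod.fst_neg] at h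
    ext i j
    have h' := congrFun (congrFun h i) j
    simp only [Matrix.neg_apply] at h'
    exact (mul_eq_zero.1 (by linear_combination -h' : (2 : F) * (T (0, w)).1 i j = 0)).resolve_left h2
  let e : Matrix (Fin 2) (Fin 2) F →ₗ[F] Matrix (Fin 2) (Fin 2) F :=
    LinearMap.fst F _ _ ∘ₗ T ∘ₗ LinearMap.inl F _ _
  let k : Matrix (Fin 2) (Fin 2) F →ₗ[F] Matrix (Fin 2) (Fin 2) F :=
    LinearMap.snd F _ _ ∘ₗ T ∘ₗ LinearMap.inr F _ _
  have hTA : ∀ A, T (A, 0) = (e A, 0) := fun A => Prod.ext rfl (hA A)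
  have hTw : ∀ w, T (0, w) = (0, k w) := fun w => Prod.ext (hw w) rfl
  have hemul : ∀ A B, e (A * B) = e A * e B := fun A B => by
    have h := hTmul (B, 0) (A, 0)
    simp only [octMulPair, hTA, adjugate_zero, Matrix.mul_zero, sub_zero, Matrix.zero_mul,
      add_zero] at h
    exact congrArg Prod.fst h
  have hkmul : ∀ A w, k (A * w) = e A * k w := fun A w => by
    have h := hTmul (A, 0) (0, w)
    simp only [octMulPair, hTA, hTw, adjugate_zero, Matrix.mul_zero, Matrix.zero_mul,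
      sub_zero, add_zero] at h
    exact congrArg Prod.snd h
  have hnorm : ∀ w w', e (w * adjugate w') = k w * adjugate (k w') := fun w w' => by
    have h := hTmul (0, w) (0, w')
    simp only [octMulPair, hTw, adjugate_zero, Matrix.mul_zero, Matrix.zero_mul,
      zero_sub, add_zero] at h
    have h' := congrArg Prod.fst h
    rw [hTA] at h'
    simpa using h'
  have heinj : Function.Injective e := fun A B h => by
    have h' : T (A, 0) = T (B, 0) := by rw [hTA, hTA, h]
    exact congrArg Prod.fst (hTinj h')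
  have hesurj : Function.Surjective e := LinearMap.surjective_of_injective heinj
  have he1 : e 1 = 1 := by
    obtain ⟨B, hB⟩ := hesurj 1
    calc e 1 = e 1 * 1 := (mul_one _).symm
      _ = e (1 * B) := by rw [hemul, hB]
      _ = 1 := by rw [one_mul, hB]
  let E : Matrix (Fin 2) (Fin 2) F ≃ₐ[F] Matrix (Fin 2) (Fin 2) F :=
    AlgEquiv.ofBijective (AlgHom.ofLinearMap e he1 hemul) ⟨heinj, hesurj⟩
  obtain ⟨L, hL⟩ := AlgEquiv.eq_linearEquivConjAlgEquiv
    ((Matrix.toLinAlgEquiv' (R := F) (n := Fin 2)).symm.trans (E.trans Matrix.toLinAlgEquiv'))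
  let u : GL (Fin 2) F := Units.map (LinearMap.toMatrixAlgEquiv' (R := F) (n := Fin 2)).toMonoidHom
    ⟨L.toLinearMap, L.symm.toLinearMap, LinearMap.ext fun v => L.apply_symm_apply v,
      LinearMap.ext fun v => L.symm_apply_apply v⟩
  have hu : ∀ A, e A = (u : Matrix (Fin 2) (Fin 2) F) * A * ((u⁻¹ : GL (Fin 2) F) : Matrix (Fin 2) (Fin 2) F) := fun A => by
    have h := congrArg (fun f => LinearMap.toMatrixAlgEquiv' (f (Matrix.toLinAlgEquiv' A))) hL
    simp only [AlgEquiv.trans_apply, AlgEquiv.symm_apply_apply, LinearMap.toMatrixAlgEquiv'_toLinAlgEquiv'] at h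
    refine h.trans ?_
    rw [LinearEquiv.conjAlgEquiv_apply]
    show LinearMap.toMatrixAlgEquiv' (L.toLinearMap * ((Matrix.toLinAlgEquiv' A) * L.symm.toLinearMap)) = _
    rw [map_mul, map_mul, LinearMap.toMatrixAlgEquiv'_toLinAlgEquiv', ← mul_assoc]
    rfl
  have hdet1 : (k 1).det = 1 := by
    have h := hnorm 1 1
    rw [adjugate_one, mul_one, he1, Matrix.mul_adjugate] at h
    have h' := congrFun (congrFun h 0) 0
    simpa using h'.symm
  let w₁ : GL (Fin 2) F := GeneralLinearGroup.mkOfDetNeZero (k 1) (by rw [hdet1]; exact one_ne_zero)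
  let v : GL (Fin 2) F := w₁⁻¹ * u
  have hmem : (u, v) ∈ pairs F := by
    show GeneralLinearGroup.det u = GeneralLinearGroup.det (w₁⁻¹ * u)
    rw [map_mul, map_inv, show GeneralLinearGroup.det w₁ = 1 from Units.ext hdet1, inv_one, one_mul]
  refine ⟨⟨(u, v), hmem⟩, g2_ext fun x => enc.injective ?_⟩
  rw [toG2_mulVec, LinearEquiv.apply_symm_apply, ← hT]
  obtain ⟨A, w⟩ := enc x
  have hsum : T (A, w) = T (A, 0) + T (0, w) := by rw [← map_add]; simp
  rw [hsum, hTA, hTw, act_apply]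
  refine Prod.ext (by simp [hu]) ?_
  have hk : k w = e w * k 1 := by rw [← hkmul, mul_one]
  have hv : ((v⁻¹ : GL (Fin 2) F) : Matrix (Fin 2) (Fin 2) F) =
      ((u⁻¹ : GL (Fin 2) F) : Matrix (Fin 2) (Fin 2) F) * k 1 := by
    show ((((w₁⁻¹ * u)⁻¹) : GL (Fin 2) F) : Matrix (Fin 2) (Fin 2) F) = _
    rw [_root_.mul_inv_rev, inv_inv, Units.val_mul]
    rfl
  simp [hk, hu, hv, mul_assoc]

/-- `pairs ≃ GL₂ × SL₂` as sets. -/
theorem card_pairs [Fintype F] :
    Nat.card (pairs F) = Nat.card (GL (Fin 2) F) * Nat.card (SpecialLinearGroup (Fin 2) F) := by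
  rw [← Nat.card_prod]
  exact Nat.card_congr
    { toFun := fun p => (p.1.1, ⟨((p.1.1⁻¹ * p.1.2 : GL (Fin 2) F) : Matrix (Fin 2) (Fin 2) F),
        congrArg Units.val (show GeneralLinearGroup.det (p.1.1⁻¹ * p.1.2) = 1 by
          rw [map_mul, map_inv, (p.2 : GeneralLinearGroup.det p.1.1 = _), inv_mul_cancel])⟩)
      invFun := fun q => ⟨(q.1, q.1 * SpecialLinearGroup.toGL q.2), by
        show GeneralLinearGroup.det q.1 = GeneralLinearGroup.det (q.1 * SpecialLinearGroup.toGL q.2)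
        rw [map_mul, show GeneralLinearGroup.det (SpecialLinearGroup.toGL q.2) = 1 from
          Units.ext q.2.2, mul_one]⟩
      left_inv := fun p => Subtype.ext (Prod.ext rfl (by
        show p.1.1 * SpecialLinearGroup.toGL _ = p.1.2
        refine Units.ext ?_
        rw [Units.val_mul]
        show (p.1.1 : Matrix (Fin 2) (Fin 2) F) * ((p.1.1⁻¹ * p.1.2 : GL (Fin 2) F) : Matrix (Fin 2) (Fin 2) F) = _
        rw [← Units.val_mul, mul_inv_cancel_left]))
      right_inv := fun q => Prod.ext rfl (Subtype.ext (by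
        show ((q.1⁻¹ * (q.1 * SpecialLinearGroup.toGL q.2) : GL (Fin 2) F) : Matrix (Fin 2) (Fin 2) F) = _
        rw [inv_mul_cancel_left]
        rfl)) }

end CfsgLib.BrauerPairs.G2Quaternion
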