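import Cfsg.Agent.Lib.BrauerPairs.SquaresDerived
import Cfsg.Agent.Lib.ClassK.SLBorel
import Cfsg.Agent.Lib.ClassicalLinear.Sylow

/-!
Sylow 2-subgroups of special linear groups in characteristic 2 are generated by involutions.
-/

set_option autoImplicit false

namespace CfsgLib.BrauerPairs

open Matrix CfsgLib.ClassK.SLn

variable {F : Type} [Field F] [Fintype F] [CharP F 2] {n : ℕ}

/-- The rows of `u` satisfying `p`, the other rows those of the identity. -/
noncomputable def rowPart (u : upperU n F) (p : Fin n → Prop) [DecidablePred p] : upperU n F :=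
  uniTriEquiv fun e => if p e.1.1 then uniTriEquiv.symm u e else 0

theorem rowPart_apply (u : upperU n F) (p : Fin n → Prop) [DecidablePred p] (i j : Fin n) :
    ((rowPart u p : SpecialLinearGroup (Fin n) F) : Matrix (Fin n) (Fin n) F) i j =
      if i < j then (if p i then ((u : SpecialLinearGroup (Fin n) F) : Matrix (Fin n) (Fin n) F) i j else 0)
        else if i = j then 1 else 0 := by
  show (if h : i < j then _ else _) = _
  split_ifs <;> simp_all [uniTriEquiv]

theorem sq_rowPart_eq_one (u : upperU n F) (k : Fin n) :
    rowPart u (· = k) * rowPart u (· = k) = 1 := by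
  refine Subtype.ext (Matrix.SpecialLinearGroup.ext _ _ fun i j => ?_)
  show (((rowPart u (· = k) : SpecialLinearGroup (Fin n) F) : Matrix (Fin n) (Fin n) F) *
    ((rowPart u (· = k) : SpecialLinearGroup (Fin n) F) : Matrix (Fin n) (Fin n) F)) i j =
      (1 : Matrix (Fin n) (Fin n) F) i j
  rw [Matrix.mul_apply, Matrix.one_apply]
  simp only [rowPart_apply]
  by_cases hik : i = k
  · subst hik
    rw [Fintype.sum_eq_add_sum_compl i]
    rw [if_neg (lt_irrefl i), if_pos rfl, one_mul]
    rcases lt_trichotomy i j with h | h | h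
    · rw [if_pos h, if_pos rfl, Finset.sum_eq_single j, if_neg h.ne]
      · rw [if_pos h, if_pos rfl, if_neg (lt_irrefl j), if_pos rfl, mul_one]
        exact CharTwo.add_self_eq_zero _
      · intro l hl hlj
        have hli : l ≠ i := by simpa using hl
        simp [hli, hlj]
      · intro hn; simp [h.ne'] at hn
    · subst h
      simp only [lt_irrefl, if_false, if_pos rfl]
      rw [Finset.sum_eq_zero, add_zero]
      intro l hl
      have hli : l ≠ i := by simpa using hl
      simp [hli]
    · rw [if_neg h.not_gt, if_neg h.ne', Finset.sum_eq_zero, add_zero]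
      intro l hl
      have hli : l ≠ i := by simpa using hl
      by_cases hlj : l = j
      · subst hlj; simp [h.not_gt, h.ne']
      · simp [hli, hlj]
  · rw [Finset.sum_eq_single i]
    · simp [hik]; exact fun h => h.ne
    · intro l _ hl; simp [hik, Ne.symm hl]
    · intro hn; exact absurd (Finset.mem_univ i) hn

theorem rowPart_succ (u : upperU n F) (k : Fin n) :
    rowPart u (fun i => (i : ℕ) < k + 1) = rowPart u (· = k) * rowPart u (fun i => (i : ℕ) < k) := by
  refine Subtype.ext (Matrix.SpecialLinearGroup.ext _ _ fun i j => ?_)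
  show _ = (((rowPart u (· = k) : SpecialLinearGroup (Fin n) F) : Matrix (Fin n) (Fin n) F) *
    ((rowPart u (fun i => (i : ℕ) < k) : SpecialLinearGroup (Fin n) F) : Matrix (Fin n) (Fin n) F)) i j
  rw [Matrix.mul_apply]
  simp only [rowPart_apply]
  by_cases hik : i = k
  · subst hik
    rw [Finset.sum_eq_single j]
    · rcases lt_trichotomy i j with h | h | h
      · have : ¬ ((j : ℕ) < i) := by have := Fin.lt_def.1 h; omega
        simp [h, this]
      · subst h; simp
      · simp [h.not_gt, h.ne']
    · intro l _ hl
      rcases lt_trichotomy l j with h | h | h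
      · by_cases h' : i < l
        · have : ¬ ((l : ℕ) < i) := by have := Fin.lt_def.1 h'; omega
          simp [h, this]
        · by_cases h'' : i = l
          · subst h''; simp [h]
          · simp [h', h'']
      · exact absurd h hl
      · simp [h.not_gt, hl]
    · intro hn; exact absurd (Finset.mem_univ j) hn
  · rw [Finset.sum_eq_single i]
    · have h1 : ((i : ℕ) < k + 1) ↔ (i : ℕ) < k := by
        have : (i : ℕ) ≠ k := fun e => hik (Fin.ext e)
        omega
      simp [hik, h1]
    · intro l _ hl; simp [hik, Ne.symm hl]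
    · intro hn; exact absurd (Finset.mem_univ i) hn

theorem sqDer_upperU : SqDer (upperU n F) := by
  refine SqDer.of_involutions (S := {g | g ∈ upperU n F ∧ g * g = 1}) ?_ fun g hg => hg.2
  refine le_antisymm ((Subgroup.closure_le _).2 fun g hg => hg.1) fun g hg => ?_
  set u : upperU n F := ⟨g, hg⟩
  have key : ∀ m : ℕ, m ≤ n → (rowPart u (fun i => (i : ℕ) < m) : SpecialLinearGroup (Fin n) F) ∈
      Subgroup.closure {g | g ∈ upperU n F ∧ g * g = 1} := by
    intro m
    induction m with
    | zero =>
      intro _
      have : rowPart u (fun i => (i : ℕ) < 0) = 1 := by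
        refine Subtype.ext (Matrix.SpecialLinearGroup.ext _ _ fun i j => ?_)
        rw [rowPart_apply]
        show _ = (1 : Matrix (Fin n) (Fin n) F) i j
        rw [Matrix.one_apply]
        split_ifs <;> simp_all
      rw [this]
      exact one_mem _
    | succ m ih =>
      intro hm
      rw [show (rowPart u fun i => (i : ℕ) < m + 1) =
        rowPart u (fun i => (i : ℕ) < ((⟨m, by omega⟩ : Fin n) : ℕ) + 1) from rfl, rowPart_succ, Subgroup.coe_mul]
      refine mul_mem (Subgroup.subset_closure ⟨SetLike.coe_mem _, ?_⟩) (ih (by omega))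
      exact congrArg Subtype.val (sq_rowPart_eq_one u _)
  have : rowPart u (fun i => (i : ℕ) < n) = u := by
    refine Subtype.ext (Matrix.SpecialLinearGroup.ext _ _ fun i j => ?_)
    rw [rowPart_apply]
    rcases lt_trichotomy i j with h | h | h
    · simp [h]
    · subst h; simp [u.2.2 i]
    · simp [h.not_gt, h.ne', u.2.1 i j h]
  have h2 := key n le_rfl
  rwa [this] at h2

theorem sylowSq_pSL : SylowSq (ProjectiveSpecialLinearGroup (Fin n) F) := by
  have : Fact (Nat.Prime 2) := ⟨Nat.prime_two⟩
  refine SylowSq.of_surjective (f := QuotientGroup.mk' _) (QuotientGroup.mk'_surjective _) ?_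
  obtain ⟨f, -, hf⟩ := CfsgLib.ClassicalLinear.card_field_eq_pow (F := F) 2
  have hU : IsPGroup 2 (upperU n F) :=
    IsPGroup.of_card (n := f * (n * (n - 1) / 2)) (by rw [card_upperU, hf, pow_mul])
  obtain ⟨Q, hQ⟩ := hU.exists_le_sylow
  have e : upperU n F = (Q : Subgroup (SpecialLinearGroup (Fin n) F)) := by
    refine Subgroup.eq_of_le_of_card_ge hQ (le_of_eq ?_)
    rw [CfsgLib.ClassicalLinear.card_sylow_SL 2 Q, card_upperU, Fintype.card_fin]
  exact sylowSq_of_subgroup hU (e ▸ Q.not_dvd_index) sqDer_upperU

end CfsgLib.BrauerPairs
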