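import Cfsg.Agent.Lib.SL2Gen.Basic
import Cfsg.Agent.Lib.InvCentralizers.AutChev.OutGroup

/-!
Groups of additive automorphisms of `F²` containing `SL₂(F)` and having a Sylow `p`-subgroup in the
normalizer of `SL₂(F)`: they normalize `SL₂(F)` unless `|F| = 4`.
-/

set_option autoImplicit false
set_option linter.unusedSectionVars false

open Matrix
open scoped MatrixGroups Pointwise
open CfsgLib.ClassicalLinear (upS upperSL upS_coe upS_add upS_injective)

namespace CfsgLib.BrauerPairs.NatOvergroup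

universe u

section upper

variable {F : Type*} [Field F]

theorem upS_zero' : upS (0 : F) = 1 := by
  apply Subtype.ext
  rw [upS_coe, Matrix.SpecialLinearGroup.coe_one]
  ext i j; fin_cases i <;> fin_cases j <;> simp

/-- The Weyl element of `SL₂`. -/
def weyl : SL(2, F) := ⟨!![0, 1; -1, 0], by simp [Matrix.det_fin_two]⟩

theorem weyl_coe : ((weyl : SL(2, F)) : Matrix (Fin 2) (Fin 2) F) = !![0, 1; -1, 0] := rfl

theorem eq_top_of_upS (H : Subgroup SL(2, F)) (hu : ∀ x, upS x ∈ H)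
    (hl : ∀ x, weyl * upS x * weyl⁻¹ ∈ H) : H = ⊤ := by
  have hlow : ∀ x : F, CfsgLib.SL2Gen.lowS x ∈ H := by
    intro x
    convert hl (-x) using 1
    rw [eq_mul_inv_iff_mul_eq]
    apply Subtype.ext
    rw [Matrix.SpecialLinearGroup.coe_mul, Matrix.SpecialLinearGroup.coe_mul, weyl_coe, upS_coe,
      CfsgLib.SL2Gen.lowS_coe]
    ext i j
    fin_cases i <;> fin_cases j <;> simp [Matrix.mul_apply]
  have hne : ∀ g : SL(2, F), (g : Matrix (Fin 2) (Fin 2) F) 1 0 ≠ 0 → g ∈ H := fun g hg => by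
    rw [CfsgLib.SL2Gen.eq_upS_lowS_upS hg]
    exact mul_mem (mul_mem (hu _) (hlow _)) (hu _)
  rw [eq_top_iff]
  intro g _
  by_cases hg : (g : Matrix (Fin 2) (Fin 2) F) 1 0 = 0
  · have h1 : g * CfsgLib.SL2Gen.lowS 1 ∈ H := by
      refine hne _ ?_
      rw [Matrix.SpecialLinearGroup.coe_mul, CfsgLib.SL2Gen.lowS_coe]
      simp [Matrix.mul_apply, hg]
      exact (CfsgLib.ClassicalLinear.upperSL_diag_ne_zero hg).2
    simpa using mul_mem h1 (inv_mem (hlow 1))
  · exact hne g hg

end upper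

variable {F : Type*} [Field F]

/-- The vector with given coordinates. -/
def pt (x y : F) : Fin 2 → F := ![x, y]

@[simp] theorem pt_zero (x y : F) : pt x y 0 = x := rfl
@[simp] theorem pt_one (x y : F) : pt x y 1 = y := rfl

theorem eq_pt (v : Fin 2 → F) : v = pt (v 0) (v 1) := by
  ext i; fin_cases i <;> rfl

theorem pt_add (x y x' y' : F) : pt x y + pt x' y' = pt (x + x') (y + y') := by
  ext i; fin_cases i <;> rfl

theorem pt_inj {x y x' y' : F} : pt x y = pt x' y' ↔ x = x' ∧ y = y' :=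
  ⟨fun h => ⟨congrFun h 0, congrFun h 1⟩, fun h => by rw [h.1, h.2]⟩

/-- The first coordinate axis. -/
def axisW (F : Type*) [Field F] : Set (Fin 2 → F) := {v | v 1 = 0}

theorem mem_axisW {v : Fin 2 → F} : v ∈ axisW F ↔ v 1 = 0 := Iff.rfl

theorem pt_mem_axisW {x : F} : pt x 0 ∈ axisW F := rfl

theorem card_axisW : Nat.card (axisW F) = Nat.card F :=
  Nat.card_congr ⟨fun v => v.1 0, fun x => ⟨pt x 0, rfl⟩,
    fun v => Subtype.ext (by
      have h : (v : Fin 2 → F) 1 = 0 := v.2
      rw [eq_pt (v : Fin 2 → F), h]),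
    fun _ => rfl⟩

variable {G : Type u} [Group G] [DistribMulAction G (Fin 2 → F)]

/-- The hypotheses: `j` is the natural action of `SL₂(F)`. -/
structure Setting (p : ℕ) (F : Type*) [Field F] (G : Type u) [Group G]
    [DistribMulAction G (Fin 2 → F)] where
  /-- The copy of `SL₂`. -/
  j : SL(2, F) →* G
  smul_eq : ∀ (A : SL(2, F)) (v : Fin 2 → F), j A • v = (A : Matrix (Fin 2) (Fin 2) F) *ᵥ v
  sylow : ∃ P : Sylow p G, (P : Subgroup G) ≤ Subgroup.normalizer (j.range : Set G)

variable {p : ℕ} (D : Setting p F G)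

/-- The elementary abelian upper subgroup. -/
def Setting.u (x : F) : G := D.j (upS x)

theorem Setting.u_smul (x : F) (v : Fin 2 → F) : D.u x • v = pt (v 0 + x * v 1) (v 1) := by
  rw [Setting.u, D.smul_eq, upS_coe]
  ext i; fin_cases i <;> simp [Matrix.mulVec, dotProduct, Fin.sum_univ_two]

theorem Setting.j_smul (A : SL(2, F)) (v : Fin 2 → F) :
    D.j A • v = pt ((A : Matrix (Fin 2) (Fin 2) F) 0 0 * v 0 + (A : Matrix (Fin 2) (Fin 2) F) 0 1 * v 1) ((A : Matrix (Fin 2) (Fin 2) F) 1 0 * v 0 + (A : Matrix (Fin 2) (Fin 2) F) 1 1 * v 1) := by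
  rw [D.smul_eq]
  ext i; fin_cases i <;> simp [Matrix.mulVec, dotProduct, Fin.sum_univ_two]

theorem Setting.u_add (x y : F) : D.u (x + y) = D.u x * D.u y := by
  rw [Setting.u, upS_add, map_mul]; rfl

theorem Setting.u_zero : D.u 0 = 1 := by rw [Setting.u, upS_zero', map_one]

theorem Setting.u_mem (x : F) : D.u x ∈ D.j.range := ⟨_, rfl⟩

/-- The subgroup of the elements `u x`. -/
def Setting.U : Subgroup G := upperSL.map D.j

theorem Setting.mem_U {g : G} : g ∈ D.U ↔ ∃ x, g = D.u x := by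
  constructor
  · rintro ⟨_, ⟨x, rfl⟩, rfl⟩
    exact ⟨x, rfl⟩
  · rintro ⟨x, rfl⟩
    exact ⟨_, ⟨x, rfl⟩, rfl⟩

/-- The setwise stabilizer of the axis. -/
def stab0 (F : Type*) [Field F] (G : Type u) [Group G] [DistribMulAction G (Fin 2 → F)] : Subgroup G :=
  MulAction.stabilizer G (axisW F)

/-- The elements fixing the axis pointwise and acting trivially modulo it. -/
def fix0 (F : Type*) [Field F] (G : Type u) [Group G] [DistribMulAction G (Fin 2 → F)] : Subgroup G where
  carrier := {n | (∀ v : Fin 2 → F, v 1 = 0 → n • v = v) ∧ ∀ v : Fin 2 → F, (n • v) 1 = v 1}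
  one_mem' := ⟨fun v _ => one_smul _ v, fun v => by rw [one_smul]⟩
  mul_mem' {a b} ha hb :=
    ⟨fun v hv => by rw [mul_smul, hb.1 v hv, ha.1 v hv], fun v => by rw [mul_smul, ha.2, hb.2]⟩
  inv_mem' {a} ha := ⟨fun v hv => inv_smul_eq_iff.2 (ha.1 v hv).symm, fun v => by
    conv_rhs => rw [← smul_inv_smul a v]
    exact (ha.2 _).symm⟩

theorem mem_fix0 {n : G} : n ∈ fix0 F G ↔
    (∀ v : Fin 2 → F, v 1 = 0 → n • v = v) ∧ ∀ v : Fin 2 → F, (n • v) 1 = v 1 := Iff.rfl

theorem smul_coord_eq_zero {h : G} (hh : h ∈ stab0 F G) {v : Fin 2 → F} (hv : v 1 = 0) :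
    (h • v) 1 = 0 := by
  have h1 : h • v ∈ h • axisW F := Set.smul_mem_smul_set hv
  rwa [MulAction.mem_stabilizer_iff.1 hh] at h1

theorem fix0_le_stab0 : fix0 F G ≤ stab0 F G := by
  intro n hn
  rw [stab0, MulAction.mem_stabilizer_iff]
  ext v
  rw [Set.mem_smul_set_iff_inv_smul_mem, mem_axisW, mem_axisW, (inv_mem hn : n⁻¹ ∈ fix0 F G).2]

theorem fix0_conj {h : G} (hh : h ∈ stab0 F G) {n : G} (hn : n ∈ fix0 F G) : h * n * h⁻¹ ∈ fix0 F G := by
  refine ⟨fun v hv => ?_, fun v => ?_⟩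
  · rw [mul_smul, mul_smul, hn.1 _ (smul_coord_eq_zero (inv_mem hh) hv), smul_inv_smul]
  · have h1 : (n • h⁻¹ • v - h⁻¹ • v) 1 = 0 := by rw [Pi.sub_apply, hn.2, sub_self]
    have h2 := smul_coord_eq_zero hh h1
    rw [smul_sub, smul_inv_smul, Pi.sub_apply, sub_eq_zero] at h2
    rw [mul_smul, mul_smul]
    exact h2

theorem Setting.u_mem_fix0 (x : F) : D.u x ∈ fix0 F G := by
  refine ⟨fun v hv => ?_, fun v => ?_⟩
  · rw [D.u_smul, hv, mul_zero, add_zero]; exact (by rw [← hv]; exact (eq_pt v).symm)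
  · rw [D.u_smul]; rfl

theorem Setting.u_mem_stab0 (x : F) : D.u x ∈ stab0 F G := fix0_le_stab0 (D.u_mem_fix0 x)

variable [FaithfulSMul G (Fin 2 → F)]

theorem Setting.u_injective : Function.Injective D.u := by
  intro x y h
  have e := congrArg (fun g : G => (g • pt (0 : F) 1) 0) h
  simpa [D.u_smul] using e

/-- **Elements of the normalizer in the kernel of the flag are upper unitriangular.** -/
theorem Setting.eq_u_of_fix0 {n : G} (hn : n ∈ Subgroup.normalizer (D.j.range : Set G))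
    (hf : n ∈ fix0 F G) : ∃ x, n = D.u x := by
  set φ : F → F := fun y => (n • pt (0 : F) y) 0
  obtain ⟨A, hA⟩ := (Subgroup.mem_normalizer_iff.1 hn _).1 (⟨weyl, rfl⟩ : D.j weyl ∈ D.j.range)
  have hny : ∀ x y : F, n • pt x y = pt (x + φ y) y := by
    intro x y
    have e : pt x y = pt x 0 + pt 0 y := by rw [pt_add, add_zero, zero_add]
    rw [e, smul_add, hf.1 _ rfl, eq_pt (n • pt (0 : F) y), hf.2]
    simp only [pt_add, pt_one, φ, add_zero, zero_add]
  have hc : ∀ x y : F, D.j A • n • pt x y = n • pt y (-x) := by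
    intro x y
    rw [hA, ← mul_smul, inv_mul_cancel_right, mul_smul, D.j_smul, weyl_coe]
    simp
  have h2 : ∀ x y : F, (A : Matrix (Fin 2) (Fin 2) F) 1 0 * (x + φ y) + (A : Matrix (Fin 2) (Fin 2) F) 1 1 * y = -x := by
    intro x y
    have e := hc x y
    rw [hny, hny, D.j_smul] at e
    exact (pt_inj.1 e).2
  have hφ0 : φ 0 = 0 := by
    have := hf.1 (pt 0 0) rfl
    simp only [φ, this, pt_zero]
  have h10 : (A : Matrix (Fin 2) (Fin 2) F) 1 0 = -1 := by
    have := h2 1 0
    rw [hφ0] at this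
    simpa using this
  refine ⟨(A : Matrix (Fin 2) (Fin 2) F) 1 1, eq_of_smul_eq_smul (α := Fin 2 → F) fun v => ?_⟩
  have h3 := h2 0 (v 1)
  rw [h10] at h3
  rw [D.u_smul, eq_pt v, hny, pt_one, pt_zero,
    show φ (v 1) = (A : Matrix (Fin 2) (Fin 2) F) 1 1 * v 1 by linear_combination -h3]

variable [Finite F] [Finite G] [Fact p.Prime] [CharP F p]

theorem Setting.isPGroup_U : IsPGroup p D.U := by
  have := Fintype.ofFinite F
  exact ((CfsgLib.ClassicalLinear.upperSLSylow (F := F) p).isPGroup').map D.j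

/-- There is a Sylow subgroup containing `U` in the normalizer of `SL₂`; it stabilizes the axis. -/
theorem Setting.exists_good_sylow : ∃ P : Sylow p G, D.U ≤ (P : Subgroup G) ∧
    (P : Subgroup G) ≤ Subgroup.normalizer (D.j.range : Set G) ∧ (P : Subgroup G) ≤ stab0 F G := by
  have := Fintype.ofFinite F
  obtain ⟨P, hP⟩ := D.sylow
  set N := Subgroup.normalizer (D.j.range : Set G) with hN
  have hUN : D.U ≤ N := fun g hg => by
    obtain ⟨x, rfl⟩ := D.mem_U.1 hg
    exact Subgroup.le_normalizer (D.u_mem x)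
  obtain ⟨Q, hQ⟩ := (D.isPGroup_U.comap_subtype (K := N)).exists_le_sylow
  obtain ⟨n, hn⟩ := MulAction.exists_smul_eq N (P.subtype hP) Q
  have hmem : ∀ g : G, g ∈ (((n : G) • P : Sylow p G) : Subgroup G) ↔
      (n : G)⁻¹ * g * n ∈ (P : Subgroup G) := by
    intro g
    rw [Sylow.coe_subgroup_smul, Subgroup.mem_pointwise_smul_iff_inv_smul_mem]
    simp [MulAut.smul_def]
  have hPN : ∀ y : G, y ∈ (((n : G) • P : Sylow p G) : Subgroup G) → y ∈ N := fun y hy => by
    have h1 := mul_mem (mul_mem n.2 (hP ((hmem y).1 hy))) (inv_mem n.2)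
    simpa [mul_assoc] using h1
  have hUP : D.U ≤ (((n : G) • P : Sylow p G) : Subgroup G) := by
    intro g hg
    have h1 : (⟨g, hUN hg⟩ : N) ∈ (Q : Subgroup N) := hQ hg
    rw [← hn, Sylow.coe_subgroup_smul, Subgroup.mem_pointwise_smul_iff_inv_smul_mem] at h1
    rw [hmem]
    simpa [MulAut.smul_def, Sylow.coe_subtype, Subgroup.mem_subgroupOf] using h1
  refine ⟨(n : G) • P, hUP, hPN, ?_⟩
  · -- `U` is Sylow in `SL₂`, so normal in the new Sylow subgroup
    intro g hg
    have hconj : ∀ y : G, y ∈ (((n : G) • P : Sylow p G) : Subgroup G) → ∀ x : F,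
        ∃ x', y * D.u x * y⁻¹ = D.u x' := by
      intro y hy x
      have hyN : y ∈ N := hPN y hy
      obtain ⟨A, hA⟩ := (Subgroup.mem_normalizer_iff.1 hyN _).1 (D.u_mem x)
      have hAP : D.j A ∈ (((n : G) • P : Sylow p G) : Subgroup G) := by
        rw [hA]
        exact mul_mem (mul_mem hy (hUP (D.mem_U.2 ⟨x, rfl⟩))) (inv_mem hy)
      have hinj : Function.Injective D.j := by
        intro a b hab
        apply Subtype.ext
        apply Matrix.ext_iff_mulVec.2
        intro v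
        rw [← D.smul_eq, ← D.smul_eq, hab]
      have he := (CfsgLib.ClassicalLinear.upperSLSylow (F := F) p).3
        (((n : G) • P : Sylow p G).isPGroup'.comap_of_injective D.j hinj)
        (fun B hB => hUP ⟨B, hB, rfl⟩)
      have hmemA : A ∈ (CfsgLib.ClassicalLinear.upperSLSylow (F := F) p : Subgroup SL(2, F)) :=
        he.le hAP
      obtain ⟨x', hx'⟩ := hmemA
      exact ⟨x', by rw [← hA, ← hx']; rfl⟩
    have key : ∀ y : G, y ∈ (((n : G) • P : Sylow p G) : Subgroup G) →
        ∀ v : Fin 2 → F, v 1 = 0 → (y • v) 1 = 0 := by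
      intro y hy v hv
      obtain ⟨x', hx'⟩ := hconj y⁻¹ (inv_mem hy) 1
      have e : D.u 1 = y * D.u x' * y⁻¹ := by rw [← hx']; group
      have e2 : D.u 1 • y • v = y • v := by
        rw [e, mul_smul, mul_smul, inv_smul_smul, (D.u_mem_fix0 x').1 v hv]
      rw [D.u_smul, eq_pt (y • v), pt_inj] at e2
      simpa using e2.1
    rw [stab0, MulAction.mem_stabilizer_iff]
    ext v
    rw [Set.mem_smul_set_iff_inv_smul_mem]
    constructor
    · intro hv
      have := key g hg _ hv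
      rwa [smul_inv_smul] at this
    · exact key g⁻¹ (inv_mem hg) v

/-- The kernel of the flag consists of the elements `u x`. -/
theorem Setting.fix0_eq : ∀ n ∈ fix0 F G, ∃ x, n = D.u x := by
  intro n hn
  obtain ⟨P, -, hPN, hPS⟩ := D.exists_good_sylow
  set S := stab0 F G with hS
  haveI hKn : ((fix0 F G).subgroupOf S).Normal :=
    ⟨fun a ha b => fix0_conj (F := F) b.2 ha⟩
  have hKp : IsPGroup p ↥((fix0 F G).subgroupOf S) := by
    intro a
    refine ⟨1, ?_⟩
    rw [pow_one]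
    apply Subtype.ext
    apply Subtype.ext
    refine eq_of_smul_eq_smul (α := Fin 2 → F) fun v => ?_
    have ha := (show ((a : S) : G) ∈ fix0 F G from a.2)
    have hd : (((a : S) : G) • v - v) 1 = 0 := by rw [Pi.sub_apply, ha.2, sub_self]
    have hk : ∀ k : ℕ, ((a : S) : G) ^ k • v = v + k • (((a : S) : G) • v - v) := by
      intro k
      induction k with
      | zero => simp
      | succ k ih =>
        rw [pow_succ', mul_smul, ih, smul_add, smul_comm, ha.1 _ hd, succ_nsmul]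
        abel
    have := hk p
    simp only [Subgroup.coe_one, SubgroupClass.coe_pow, one_smul]
    rw [this, add_eq_left, ← Nat.cast_smul_eq_nsmul F p, CharP.cast_eq_zero, zero_smul]
  have hle : (fix0 F G).subgroupOf S ≤ ((P.subtype hPS : Sylow p S) : Subgroup S) := by
    obtain ⟨Q, hQ⟩ := hKp.exists_le_sylow
    obtain ⟨s, hs⟩ := MulAction.exists_smul_eq S Q (P.subtype hPS)
    rw [← hs, Sylow.coe_subgroup_smul]
    intro a ha
    rw [Subgroup.mem_pointwise_smul_iff_inv_smul_mem]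
    refine hQ ?_
    simpa [MulAut.smul_def] using hKn.conj_mem a ha s⁻¹
  exact D.eq_u_of_fix0 (hPN (hle (show (⟨n, fix0_le_stab0 hn⟩ : S) ∈ (fix0 F G).subgroupOf S from hn))) hn

/-- Conjugates of `U` by stabilizers of the axis. -/
theorem Setting.conj_u {h : G} (hh : h ∈ stab0 F G) (x : F) : ∃ x', h * D.u x * h⁻¹ = D.u x' :=
  D.fix0_eq _ (fix0_conj hh (D.u_mem_fix0 x))

/-- If the translates of the axis meet trivially, `SL₂` is normal. -/
theorem Setting.range_normal
    (hspread : ∀ (g : G) (v : Fin 2 → F), v ≠ 0 → v ∈ axisW F → v ∈ g • axisW F → g • axisW F = axisW F) :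
    D.j.range.Normal := by
  have hU : ∀ (g : G) (x : F), g * D.u x * g⁻¹ ∈ D.j.range := by
    intro g x
    set w := g • pt (1 : F) 0 with hw
    have hw0 : w ≠ 0 := by
      intro h0
      have h2 := congrArg (fun v => g⁻¹ • v) h0
      simp only [hw, inv_smul_smul, smul_zero] at h2
      simpa using congrFun h2 0
    obtain ⟨A, hA⟩ : ∃ A : SL(2, F), (A : Matrix (Fin 2) (Fin 2) F) 0 0 = w 0 ∧ (A : Matrix (Fin 2) (Fin 2) F) 1 0 = w 1 := by
      by_cases h0 : w 0 = 0
      · have h1 : w 1 ≠ 0 := fun h1 => hw0 (by rw [eq_pt w, h0, h1]; ext i; fin_cases i <;> rfl)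
        exact ⟨⟨!![w 0, -(w 1)⁻¹; w 1, 0], by rw [Matrix.det_fin_two]; simp [h1]⟩, rfl, rfl⟩
      · exact ⟨⟨!![w 0, 0; w 1, (w 0)⁻¹], by rw [Matrix.det_fin_two]; simp [h0]⟩, rfl, rfl⟩
    set h := (D.j A)⁻¹ * g with hh
    have he : h • pt (1 : F) 0 = pt 1 0 := by
      rw [hh, mul_smul, inv_smul_eq_iff, D.j_smul, hA.1, hA.2]
      simp only [pt_zero, pt_one, mul_zero, mul_one, add_zero]
      exact eq_pt _
    have hstab : h ∈ stab0 F G := by
      rw [stab0, MulAction.mem_stabilizer_iff]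
      refine hspread h (pt 1 0) (fun h0 => one_ne_zero (congrFun h0 0)) rfl ?_
      exact he ▸ Set.smul_mem_smul_set (rfl : pt (1 : F) 0 ∈ axisW F)
    obtain ⟨x', hx'⟩ := D.conj_u hstab x
    rw [show g * D.u x * g⁻¹ = D.j A * (h * D.u x * h⁻¹) * (D.j A)⁻¹ by rw [hh]; group, hx']
    exact mul_mem (mul_mem ⟨A, rfl⟩ (D.u_mem x')) (inv_mem ⟨A, rfl⟩)
  constructor
  rintro _ ⟨B, rfl⟩ g
  have htop : (D.j.range.comap ((MulAut.conj g).toMonoidHom.comp D.j)) = ⊤ := by
    refine eq_top_of_upS _ (fun x => hU g x) fun x => ?_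
    show g * D.j (weyl * upS x * weyl⁻¹) * g⁻¹ ∈ D.j.range
    have := hU (g * D.j weyl) x
    rw [map_mul, map_mul, map_inv]
    convert this using 1
    rw [Setting.u]; group
  exact (htop ▸ Subgroup.mem_top B : B ∈ D.j.range.comap ((MulAut.conj g).toMonoidHom.comp D.j))

include D in
theorem Setting.exists_coord {n : G} (hn : n ∈ stab0 F G) :
    ∃ (α1 δ1 : F) (β : F ≃+* F), α1 ≠ 0 ∧ δ1 ≠ 0 ∧ (∀ x, n • pt x 0 = pt (α1 * β x) 0) ∧
      ∀ y, (n • pt 0 y) 1 = δ1 * β y := by
  set α : F → F := fun x => (n • pt x 0) 0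
  set δ : F → F := fun y => (n • pt (0 : F) y) 1
  have hα : ∀ x, n • pt x 0 = pt (α x) 0 := fun x => by
    rw [eq_pt (n • pt x 0), smul_coord_eq_zero hn (rfl : pt x 0 1 = 0)]
  have hαinj : Function.Injective α := fun x y h => by
    have := hα x
    rw [h, ← hα] at this
    exact (pt_inj.1 (MulAction.injective n this)).1
  have hα0 : α 0 = 0 := by
    have : pt (0 : F) 0 = 0 := by ext i; fin_cases i <;> rfl
    simp only [α, this, smul_zero, Pi.zero_apply]
  have hα1 : α 1 ≠ 0 := fun h => one_ne_zero (hαinj (h.trans hα0.symm))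
  have hδ1 : δ 1 ≠ 0 := by
    intro h
    have h1 : (n⁻¹ • n • pt (0 : F) 1) 1 = 0 := smul_coord_eq_zero (inv_mem hn) h
    rw [inv_smul_smul] at h1
    exact one_ne_zero h1
  have key : ∀ l, ∃ l', ∀ y, α (l * y) = l' * δ y := by
    intro l
    obtain ⟨l', hl'⟩ := D.conj_u hn l
    refine ⟨l', fun y => ?_⟩
    have e : n • D.u l • pt (0 : F) y = D.u l' • n • pt (0 : F) y := by
      rw [← mul_smul, ← mul_smul, ← hl']
      congr 1
      group
    rw [D.u_smul, pt_zero, pt_one, zero_add] at e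
    have e2 : n • pt (l * y) y = pt (α (l * y)) 0 + n • pt 0 y := by
      rw [← hα, ← smul_add, pt_add, add_zero, zero_add]
    rw [e2, D.u_smul] at e
    have e3 := congrFun e 0
    simp only [Pi.add_apply, pt_zero] at e3
    show α (l * y) = l' * (n • pt (0 : F) y) 1
    linear_combination e3
  have hmul : ∀ l y, α (l * y) * α 1 = α l * α y := by
    intro l y
    obtain ⟨l', hl'⟩ := key l
    obtain ⟨m', hm'⟩ := key 1
    have a1 := hl' y
    have a2 := hl' 1
    have a3 := hm' y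
    have a4 := hm' 1
    rw [mul_one] at a2
    rw [one_mul] at a3 a4
    rw [a1, a2, a3, a4]
    ring
  have hadd : ∀ x y, α (x + y) = α x + α y := fun x y => by
    have h1 : pt (x + y) (0 : F) = pt x 0 + pt y 0 := by rw [pt_add, add_zero]
    simp only [α, h1, smul_add, Pi.add_apply]
  let β₀ : F →+* F :=
    { toFun := fun x => α x / α 1
      map_one' := div_self hα1
      map_mul' := fun x y => by
        field_simp
        linear_combination hmul x y
      map_zero' := by simp [hα0]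
      map_add' := fun x y => by simp [hadd, add_div] }
  refine ⟨α 1, δ 1, RingEquiv.ofBijective β₀ (Finite.injective_iff_bijective.1 β₀.injective), hα1, hδ1, ?_, ?_⟩
  · intro x
    rw [hα]
    show _ = pt (α 1 * (α x / α 1)) 0
    rw [mul_div_cancel₀ _ hα1]
  · intro y
    show δ y = δ 1 * (α y / α 1)
    obtain ⟨m', hm'⟩ := key 1
    have a3 := hm' y
    have a4 := hm' 1
    rw [one_mul] at a3 a4
    have hm0 : m' ≠ 0 := fun h => hα1 (by rw [a4, h, zero_mul])
    rw [a3, a4]
    field_simp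

/-- The field automorphism induced by a stabilizer of the axis. -/
noncomputable def Setting.fieldPartFun (n : stab0 F G) : F ≃+* F :=
  (D.exists_coord n.2).choose_spec.choose_spec.choose

theorem Setting.fieldPartFun_spec (n : stab0 F G) : ∃ a d : F, a ≠ 0 ∧ d ≠ 0 ∧
    (∀ x, (n : G) • pt x 0 = pt (a * D.fieldPartFun n x) 0) ∧
    ∀ y, ((n : G) • pt 0 y) 1 = d * D.fieldPartFun n y :=
  ⟨_, _, (D.exists_coord n.2).choose_spec.choose_spec.choose_spec⟩

/-- The field automorphism induced by a stabilizer of the axis, as a homomorphism. -/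
noncomputable def Setting.fieldPart : stab0 F G →* (F ≃+* F) :=
  MonoidHom.mk' D.fieldPartFun fun m n => by
    obtain ⟨a, _, ha, _, hm, -⟩ := D.fieldPartFun_spec m
    obtain ⟨b, _, hb, _, hn, -⟩ := D.fieldPartFun_spec n
    obtain ⟨c, _, hc, _, hmn, -⟩ := D.fieldPartFun_spec (m * n)
    ext x
    have e : ∀ x, c * D.fieldPartFun (m * n) x =
        a * D.fieldPartFun m (b * D.fieldPartFun n x) := fun x => by
      have h1 := hmn x
      rw [Subgroup.coe_mul, mul_smul, hn, hm] at h1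
      exact (pt_inj.1 h1).1.symm
    have e1 := e 1
    simp only [map_one, mul_one] at e1
    have ex := e x
    rw [map_mul] at ex
    rw [RingAut.mul_apply]
    refine mul_left_cancel₀ hc ?_
    rw [ex, e1]
    ring

theorem Setting.fieldPart_spec (n : stab0 F G) : ∃ a d : F, a ≠ 0 ∧ d ≠ 0 ∧
    (∀ x, (n : G) • pt x 0 = pt (a * D.fieldPart n x) 0) ∧ ∀ y, ((n : G) • pt 0 y) 1 = d * D.fieldPart n y :=
  D.fieldPartFun_spec n

/-- A `p`-element of the stabilizer without field part fixes the axis and its quotient. -/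
theorem Setting.fix0_of_fieldPart (n : stab0 F G) (hp : ∃ k, (n : G) ^ p ^ k = 1)
    (h : D.fieldPart n = 1) : (n : G) ∈ fix0 F G := by
  obtain ⟨k, hk⟩ := hp
  obtain ⟨a, d, ha, hd, hx, hy⟩ := D.fieldPart_spec n
  simp only [h, RingAut.one_apply] at hx hy
  have hstep : ∀ (i : ℕ) (x : F), (n : G) ^ i • pt x 0 = pt (a ^ i * x) 0 := by
    intro i
    induction i with
    | zero => intro x; simp
    | succ i ih => intro x; rw [pow_succ', mul_smul, ih, hx, pow_succ']; ring_nf
  have hsnd : ∀ v : Fin 2 → F, ((n : G) • v) 1 = d * v 1 := fun v => by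
    rw [eq_pt v, show pt (v 0) (v 1) = pt (v 0) 0 + pt 0 (v 1) by rw [pt_add, add_zero, zero_add],
      smul_add, Pi.add_apply, hy, hx]
    simp
  have hstep2 : ∀ (i : ℕ) (v : Fin 2 → F), ((n : G) ^ i • v) 1 = d ^ i * v 1 := by
    intro i
    induction i with
    | zero => intro v; simp
    | succ i ih => intro v; rw [pow_succ', mul_smul, hsnd, ih, pow_succ']; ring
  have h1 := hstep (p ^ k) 1
  rw [hk, one_smul, mul_one, pt_inj] at h1
  have h2 := hstep2 (p ^ k) (pt 0 1)
  rw [hk, one_smul, pt_one, mul_one] at h2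
  have ha1 : a = 1 := by
    have e : (a - 1) ^ p ^ k = 0 := by rw [sub_pow_char_pow, one_pow, ← h1.1, sub_self]
    exact sub_eq_zero.1 (pow_eq_zero_iff (pow_ne_zero k (Fact.out : p.Prime).ne_zero) |>.1 e)
  have hd1 : d = 1 := by
    have e : (d - 1) ^ p ^ k = 0 := by rw [sub_pow_char_pow, one_pow, ← h2, sub_self]
    exact sub_eq_zero.1 (pow_eq_zero_iff (pow_ne_zero k (Fact.out : p.Prime).ne_zero) |>.1 e)
  refine ⟨fun v hv => ?_, fun v => by rw [hsnd, hd1, one_mul]⟩
  rw [eq_pt v, hv, hx, ha1, one_mul]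

end CfsgLib.BrauerPairs.NatOvergroup
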