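import Cfsg.Agent.Lib.BrauerPairs.NaturalOvergroup
import Cfsg.Agent.Lib.ClassicalLinear.Generation
import Cfsg.Agent.Lib.SL2.Card
import Cfsg.Agent.Lib.InvChar.GLFourTwo
import Cfsg.Agent.Lib.Generators.SmallPermGroups

/-!
The exceptional case `|F| = 4` for overgroups of `SL₂(F)` on its natural module: the group is `A₇`.
-/

set_option autoImplicit false
set_option linter.unusedSectionVars false

open Matrix
open scoped MatrixGroups Pointwise
open CfsgLib.ClassicalLinear (upS)

namespace CfsgLib.BrauerPairs.NatOvergroup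

universe u

section general

variable {F : Type*} [Field F] {G : Type u} [Group G] [DistribMulAction G (Fin 2 → F)]
variable [FaithfulSMul G (Fin 2 → F)] [Finite F] [Finite G] {p : ℕ} [Fact p.Prime] [CharP F p]
variable (D : Setting p F G)

theorem Setting.u_pow (x : F) (k : ℕ) : D.u x ^ k = D.u (k * x) := by
  induction k with
  | zero => simp [D.u_zero]
  | succ k ih => rw [pow_succ, ih, ← D.u_add]; push_cast; ring_nf

theorem Setting.u_pow_p (x : F) : D.u x ^ p = 1 := by
  rw [D.u_pow, CharP.cast_eq_zero, zero_mul, D.u_zero]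

theorem Setting.conj_u_pow_p (g : G) (x : F) : (g⁻¹ * D.u x * g) ^ p = 1 := by
  have := conj_pow (a := g⁻¹) (b := D.u x) (i := p)
  rw [inv_inv] at this
  rw [this, D.u_pow_p, mul_one, inv_mul_cancel]

include D in
/-- If the translates of the axis do not form a partition, then `|F| = 4` and the stabilizer of the
axis induces the field automorphism by an involution. -/
theorem Setting.exists_field_twist
    (hns : ¬ ∀ (g : G) (v : Fin 2 → F), v ≠ 0 → v ∈ axisW F → v ∈ g • axisW F → g • axisW F = axisW F) :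
    p = 2 ∧ Nat.card F = 4 ∧ ∃ n : stab0 F G, (n : G) ^ 2 = 1 ∧ D.fieldPart n ≠ 1 := by
  simp only [not_forall] at hns
  obtain ⟨g0, v0, hv0, hvW, hvg, hne0⟩ := hns
  obtain ⟨g, hgne, hmax⟩ := Set.exists_max_image {g : G | g • axisW F ≠ axisW F}
    (fun g => (axisW F ∩ g • axisW F).ncard) (Set.toFinite _) ⟨g0, hne0⟩
  have hgmem : ∀ v : Fin 2 → F, v ∈ g • axisW F ↔ (g⁻¹ • v) 1 = 0 := fun v =>
    Set.mem_smul_set_iff_inv_smul_mem
  have hsmulcard : ∀ h : G, (h • axisW F).ncard = (axisW F).ncard := fun h =>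
    Set.ncard_image_of_injective _ (MulAction.injective h)
  obtain ⟨w, hwg, hw1⟩ : ∃ w ∈ g • axisW F, w 1 ≠ 0 := by
    by_contra hcon
    simp only [not_exists, not_and, not_not] at hcon
    exact hgne (Set.eq_of_subset_of_ncard_le hcon (hsmulcard g).ge (Set.toFinite _))
  let Dc : AddSubgroup F :=
    { carrier := {x | (g⁻¹ • pt x 0) 1 = 0}
      zero_mem' := by
        have : pt (0 : F) 0 = 0 := by ext i; fin_cases i <;> rfl
        simp [this]
      add_mem' := fun {a b} ha hb => by
        simp only [Set.mem_ofPred_eq] at ha hb ⊢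
        have : pt (a + b) (0 : F) = pt a 0 + pt b 0 := by rw [pt_add, add_zero]
        rw [this, smul_add, Pi.add_apply, ha, hb, add_zero]
      neg_mem' := fun {a} ha => by
        simp only [Set.mem_ofPred_eq] at ha ⊢
        have : pt (-a) (0 : F) = -pt a 0 := by ext i; fin_cases i <;> simp [pt]
        rw [this, smul_neg, Pi.neg_apply, ha, neg_zero] }
  have hDc : ∀ x : F, x ∈ Dc ↔ pt x 0 ∈ g • axisW F := fun x => (hgmem _).symm
  obtain ⟨d0, hd0D, hd0⟩ : ∃ d ∈ Dc, d ≠ 0 := by
    have h2 : 1 < (axisW F ∩ g0 • axisW F).ncard := by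
      rw [Set.one_lt_ncard (Set.toFinite _)]
      refine ⟨v0, ⟨hvW, hvg⟩, 0, ⟨rfl, ?_⟩, hv0⟩
      rw [Set.mem_smul_set_iff_inv_smul_mem, smul_zero]; rfl
    obtain ⟨v, ⟨hv1, hv2⟩, hv3⟩ := Set.exists_ne_of_one_lt_ncard (h2.trans_le (hmax g0 hne0)) 0
    refine ⟨v 0, ?_, fun h => hv3 ?_⟩
    · rw [hDc]
      rw [eq_pt v, show v 1 = 0 from hv1] at hv2
      exact hv2
    · rw [eq_pt v, h, show v 1 = 0 from hv1]; ext i; fin_cases i <;> rfl
  -- the key consequence of maximality
  have key : ∀ l : F, l * w 1 ∈ Dc → D.u l • g • axisW F = g • axisW F := by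
    intro l hl
    by_contra hcon
    set h := g⁻¹ * D.u l * g with hh
    have hh1 : h • axisW F ≠ axisW F := by
      intro e
      apply hcon
      conv_rhs => rw [← e]
      rw [← mul_smul, ← mul_smul, hh]
      congr 1
      group
    have hle := hmax h hh1
    have e2 : axisW F ∩ h • axisW F = g⁻¹ • (g • axisW F ∩ D.u l • g • axisW F) := by
      rw [Set.smul_set_inter, inv_smul_smul, hh, mul_smul, mul_smul]
    have e3 : (g⁻¹ • (g • axisW F ∩ D.u l • g • axisW F)).ncard =
        (g • axisW F ∩ D.u l • g • axisW F).ncard :=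
      Set.ncard_image_of_injective _ (MulAction.injective g⁻¹)
    rw [e2, e3] at hle
    refine hle.not_gt (Set.ncard_lt_ncard ?_ (Set.toFinite _))
    refine ⟨fun v hv => ⟨hv.2, ?_⟩, fun hsub => ?_⟩
    · rw [← (D.u_mem_fix0 l).1 v hv.1]
      exact Set.smul_mem_smul_set hv.2
    · have hw' : D.u l • w ∈ g • axisW F := by
        have e : D.u l • w = w + pt (l * w 1) 0 := by
          rw [D.u_smul]
          conv_rhs => rw [eq_pt w, pt_add]
          simp
        rw [hgmem, e, smul_add, Pi.add_apply, (hgmem w).1 hwg, hl, add_zero]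
      have := (hsub ⟨hw', Set.smul_mem_smul_set hwg⟩).1
      rw [mem_axisW, (D.u_mem_fix0 l).2] at this
      exact hw1 this
  have keyY : ∀ l : F, l * w 1 ∈ Dc → ∀ v ∈ g • axisW F, l * v 1 ∈ Dc := by
    intro l hl v hv
    have h1 : D.u l • v ∈ g • axisW F := key l hl ▸ Set.smul_mem_smul_set hv
    have e : pt (l * v 1) 0 = D.u l • v - v := by
      rw [D.u_smul]
      ext i; fin_cases i <;> simp [pt]
    show (g⁻¹ • pt (l * v 1) 0) 1 = 0
    rw [e, smul_sub, Pi.sub_apply, (hgmem _).1 h1, (hgmem _).1 hv, sub_zero]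
  have hstab : ∀ d ∈ Dc, g⁻¹ * D.u (d / w 1) * g ∈ stab0 F G := by
    intro d hd
    rw [stab0, MulAction.mem_stabilizer_iff, mul_smul, mul_smul,
      key _ (by rwa [div_mul_cancel₀ _ hw1]), inv_smul_smul]
  let χ : Multiplicative Dc →* (F ≃+* F) :=
    MonoidHom.mk' (fun d => D.fieldPart ⟨_, hstab _ (Multiplicative.toAdd d).2⟩) fun a b => by
      rw [← map_mul]
      congr 1
      apply Subtype.ext
      simp only [toAdd_mul, AddSubgroup.coe_add, add_div, D.u_add, Subgroup.coe_mul]
      group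
  have hχ : Function.Injective χ := by
    rw [injective_iff_map_eq_one]
    intro d hd
    have hf := D.fix0_of_fieldPart ⟨_, hstab _ (Multiplicative.toAdd d).2⟩
      ⟨1, by rw [pow_one]; exact D.conj_u_pow_p g _⟩ hd
    have h1 := hf.1 (g⁻¹ • w) ((hgmem w).1 hwg)
    simp only [mul_smul, smul_inv_smul, smul_left_cancel_iff] at h1
    rw [D.u_smul, eq_pt w, pt_inj] at h1
    have h2 : ((Multiplicative.toAdd d : Dc) : F) = 0 := by
      have := h1.1
      simp only [pt_zero, pt_one, add_eq_left, mul_eq_zero, div_eq_zero_iff, hw1, or_false] at this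
      exact this
    exact Multiplicative.toAdd.injective (Subtype.ext h2)
  haveI := CfsgLib.InvCentralizers.AutChev.isCyclic_ringAut F
  haveI : IsCyclic (Multiplicative Dc) := isCyclic_of_injective χ hχ
  have hexp : Monoid.exponent (Multiplicative Dc) ∣ p :=
    Monoid.exponent_dvd_of_forall_pow_eq_one fun d => by
      apply Multiplicative.toAdd.injective
      apply Subtype.ext
      rw [toAdd_pow, toAdd_one, AddSubgroup.coe_nsmul, AddSubgroup.coe_zero, nsmul_eq_mul,
        CharP.cast_eq_zero, zero_mul]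
  rw [IsCyclic.exponent_eq_card] at hexp
  have hcD : Nat.card Dc = p := by
    rw [Nat.card_congr (Multiplicative.toAdd (α := Dc))] at hexp
    rcases (Nat.dvd_prime (Fact.out : p.Prime)).1 hexp with h | h
    · haveI := (Nat.card_eq_one_iff_unique.1 h).1
      exact absurd (congrArg Subtype.val (Subsingleton.elim (⟨d0, hd0D⟩ : Dc) 0)) hd0
    · exact h
  -- counting
  set l0 := d0 / w 1 with hl0
  have hl0w : l0 * w 1 ∈ Dc := by rwa [hl0, div_mul_cancel₀ _ hw1]
  have hgW : ∀ x : F, g • pt x 0 ∈ g • axisW F := fun x =>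
    Set.smul_mem_smul_set (pt_mem_axisW (x := x))
  let φ : F →+ Dc := AddMonoidHom.mk' (fun x => ⟨l0 * (g • pt x 0) 1, keyY l0 hl0w _ (hgW x)⟩)
    fun a b => by
      apply Subtype.ext
      have : pt (a + b) (0 : F) = pt a 0 + pt b 0 := by rw [pt_add, add_zero]
      simp only [this, smul_add, Pi.add_apply, AddSubgroup.coe_add, mul_add]
  have hker : ∀ x : φ.ker, (g • pt (x : F) 0) 1 = 0 := fun x => by
    have h := congrArg Subtype.val (AddMonoidHom.mem_ker.1 x.2)
    exact (mul_eq_zero.1 h).resolve_left (div_ne_zero hd0 hw1)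
  have hker0 : ∀ x : φ.ker, (g • pt (x : F) 0) 0 ∈ Dc := fun x => by
    have h := hgW (x : F)
    rw [eq_pt (g • pt (x : F) 0), hker x] at h
    exact (hDc _).2 h
  have hq : Nat.card F ≤ p * p := by
    rw [AddSubgroup.card_eq_card_quotient_mul_card_addSubgroup φ.ker]
    refine Nat.mul_le_mul ?_ ?_
    · rw [Nat.card_congr (QuotientAddGroup.quotientKerEquivRange φ).toEquiv, ← hcD]
      exact Nat.card_le_card_of_injective _ Subtype.val_injective
    · rw [← hcD]
      refine Nat.card_le_card_of_injective (fun x : φ.ker => (⟨_, hker0 x⟩ : Dc)) fun a b hab => ?_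
      have e1 : g • pt (a : F) 0 = g • pt (b : F) 0 := by
        rw [eq_pt (g • pt (a : F) 0), eq_pt (g • pt (b : F) 0), hker a, hker b]
        exact pt_inj.2 ⟨congrArg Subtype.val hab, rfl⟩
      exact Subtype.ext (pt_inj.1 (MulAction.injective g e1)).1
  have hne : Nat.card F ≠ p := by
    intro h
    have htop : Dc = ⊤ := AddSubgroup.eq_top_of_card_eq Dc (hcD.trans h.symm)
    refine hgne (Set.eq_of_subset_of_ncard_le (fun v hv => ?_) (hsmulcard g).le (Set.toFinite _)).symm
    rw [eq_pt v, show v 1 = 0 from hv]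
    exact (hDc _).1 (htop ▸ AddSubgroup.mem_top _)
  have := Fintype.ofFinite F
  obtain ⟨f, hfp, hf⟩ := FiniteField.card F p
  rw [Nat.card_eq_fintype_card] at hq hne ⊢
  have hf2 : (f : ℕ) = 2 := by
    rw [hf, ← sq] at hq
    have h1 := (Nat.pow_le_pow_iff_right hfp.one_lt).1 hq
    have h2 : (f : ℕ) ≠ 1 := fun h => hne (by rw [hf, h, pow_one])
    have := f.pos
    omega
  rw [hf2] at hf
  have haut := CfsgLib.InvCentralizers.AutChev.card_ringAut hf
  have hp2 : p = 2 := by
    have h := Subgroup.card_dvd_of_injective χ hχ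
    rw [Nat.card_congr (Multiplicative.toAdd (α := Dc)), hcD, haut] at h
    exact (Nat.prime_dvd_prime_iff_eq hfp Nat.prime_two).1 h
  subst hp2
  refine ⟨rfl, hf, ⟨_, hstab _ hd0D⟩, D.conj_u_pow_p g _, fun h => ?_⟩
  have h1 : χ (Multiplicative.ofAdd (⟨d0, hd0D⟩ : Dc)) = χ 1 := by rw [map_one]; exact h
  exact hd0 (congrArg (fun d : Multiplicative Dc => ((Multiplicative.toAdd d : Dc) : F)) (hχ h1))

end general

/-- A homomorphism of a perfect group into a solvable group is trivial. -/
theorem hom_trivial_of_perfect {H K : Type*} [Group H] [Group K] (hH : commutator H = ⊤)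
    (hK : Group.IsSolvable K) (θ : H →* K) (x : H) : θ x = 1 := by
  have htop : ∀ m, derivedSeries H m = ⊤ := by
    intro m
    induction m with
    | zero => exact derivedSeries_zero H
    | succ m ih => rw [derivedSeries_succ, ih]; exact hH
  obtain ⟨m, hm⟩ := (Group.isSolvable_def K).1 hK
  have h1 : θ x ∈ derivedSeries K m :=
    map_derivedSeries_le_derivedSeries θ m ⟨x, by rw [htop m]; exact Subgroup.mem_top x, rfl⟩
  rw [hm] at h1
  exact h1

section four

variable {F : Type*} [Field F] {G : Type u} [Group G] [DistribMulAction G (Fin 2 → F)]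
variable [FaithfulSMul G (Fin 2 → F)] [Finite F] [Finite G] [CharP F 2]
variable (D : Setting 2 F G)

theorem Setting.fieldPart_u (x : F) (h : D.u x ∈ stab0 F G) : D.fieldPart ⟨D.u x, h⟩ = 1 := by
  obtain ⟨a, d, ha, -, hx, -⟩ := D.fieldPart_spec ⟨D.u x, h⟩
  have h1 : ∀ y, a * D.fieldPart ⟨D.u x, h⟩ y = y := fun y => by
    have := hx y
    rw [(D.u_mem_fix0 x).1 _ rfl, pt_inj] at this
    exact this.1.symm
  have ha1 : a = 1 := by simpa using h1 1
  ext y
  simpa [ha1] using h1 y

theorem Setting.natCard_U : Nat.card D.U = Nat.card F :=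
  (Nat.card_eq_of_bijective (fun x : F => (⟨D.u x, D.mem_U.2 ⟨x, rfl⟩⟩ : D.U))
    ⟨fun x y h => D.u_injective (congrArg Subtype.val h), fun g => by
      obtain ⟨x, hx⟩ := D.mem_U.1 g.2
      exact ⟨x, Subtype.ext hx.symm⟩⟩).symm

include D in
/-- The Sylow `2`-subgroups have order `8`. -/
theorem Setting.sylow_card (hF : Nat.card F = 4) (n : stab0 F G) (hn2 : (n : G) ^ 2 = 1)
    (hn : D.fieldPart n ≠ 1) : ∃ P : Sylow 2 G,
      (P : Subgroup G) ≤ Subgroup.normalizer (D.j.range : Set G) ∧ Nat.card P = 8 := by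
  obtain ⟨P, hUP, hPN, hPS⟩ := D.exists_good_sylow
  refine ⟨P, hPN, ?_⟩
  have := Fintype.ofFinite F
  have hf : Fintype.card F = 2 ^ 2 := by rw [← Nat.card_eq_fintype_card, hF]; norm_num
  have haut := CfsgLib.InvCentralizers.AutChev.card_ringAut hf
  let ψ : (P : Subgroup G) →* (F ≃+* F) := D.fieldPart.comp (Subgroup.inclusion hPS)
  have hk : ∀ y : ψ.ker, ∃ x, ((y : (P : Subgroup G)) : G) = D.u x := fun y => by
    obtain ⟨k, hk⟩ := P.isPGroup' (y : (P : Subgroup G))
    exact D.fix0_eq _ (D.fix0_of_fieldPart (Subgroup.inclusion hPS y)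
      ⟨k, congrArg Subtype.val hk⟩ (MonoidHom.mem_ker.1 y.2))
  have hker : Nat.card ψ.ker ≤ 4 := by
    rw [← hF]
    refine Nat.card_le_card_of_injective (fun y => (hk y).choose) fun a b hab => ?_
    apply Subtype.ext
    apply Subtype.ext
    rw [(hk a).choose_spec, (hk b).choose_spec]
    exact congrArg D.u hab
  have hle : Nat.card P ≤ 8 := by
    rw [Subgroup.card_eq_card_quotient_mul_card_subgroup ψ.ker,
      Nat.card_congr (QuotientGroup.quotientKerEquivRange ψ).toEquiv]
    haveI : Finite (F ≃+* F) := Finite.of_injective _ (DFunLike.coe_injective (F := F ≃+* F))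
    have h1 : Nat.card ψ.range ≤ 2 := (Subgroup.card_le_card_group _).trans haut.le
    exact (Nat.mul_le_mul h1 hker).trans_eq (by norm_num)
  -- an element with field part
  have hnp : IsPGroup 2 (Subgroup.zpowers n) := by
    refine IsPGroup.of_card (n := (Nat.log 2 (orderOf n))) ?_
    rw [Nat.card_zpowers]
    have h : orderOf n ∣ 2 := orderOf_dvd_of_pow_eq_one (Subtype.ext hn2)
    rcases (Nat.dvd_prime Nat.prime_two).1 h with h | h <;> rw [h] <;> norm_num
  obtain ⟨Q, hQ⟩ := hnp.exists_le_sylow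
  obtain ⟨s, hs⟩ := MulAction.exists_smul_eq (stab0 F G) Q (P.subtype hPS)
  have hsn : ((s * n * s⁻¹ : stab0 F G) : G) ∈ (P : Subgroup G) := by
    have h1 : s * n * s⁻¹ ∈ ((P.subtype hPS : Sylow 2 _) : Subgroup (stab0 F G)) := by
      rw [← hs, Sylow.coe_subgroup_smul, Subgroup.mem_pointwise_smul_iff_inv_smul_mem]
      simpa [MulAut.smul_def, mul_assoc] using hQ (Subgroup.mem_zpowers n)
    exact h1
  have hlt : 4 < Nat.card P := by
    rw [← hF, ← D.natCard_U]
    refine lt_of_le_of_ne (Subgroup.card_le_of_le hUP) fun he => ?_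
    have hUeq : D.U = (P : Subgroup G) := Subgroup.eq_of_le_of_card_ge hUP he.ge
    rw [← hUeq] at hsn
    obtain ⟨x, hx⟩ := D.mem_U.1 hsn
    have e : D.fieldPart (s * n * s⁻¹) = 1 := by
      rw [show s * n * s⁻¹ = ⟨D.u x, hx ▸ (s * n * s⁻¹).2⟩ from Subtype.ext hx]
      exact D.fieldPart_u x _
    rw [map_mul, map_mul, map_inv, conj_eq_one_iff] at e
    exact hn e
  obtain ⟨k, hk2⟩ := P.isPGroup'.exists_card_eq
  rw [hk2] at hle hlt ⊢
  have h1 : 2 < k := (Nat.pow_lt_pow_iff_right Nat.one_lt_two).1 (hlt.trans_eq' (by norm_num))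
  have h2 : k ≤ 3 := (Nat.pow_le_pow_iff_right Nat.one_lt_two).1 (hle.trans_eq (by norm_num))
  rw [show k = 3 by omega]
  norm_num

theorem Setting.card_range (hF : Nat.card F = 4) : Nat.card D.j.range = 60 := by
  have hinj : Function.Injective D.j := by
    intro a b hab
    apply Subtype.ext
    apply Matrix.ext_iff_mulVec.2
    intro v
    rw [← D.smul_eq, ← D.smul_eq, hab]
  rw [← Nat.card_congr (MonoidHom.ofInjective hinj).toEquiv, CfsgLib.SL2.card_SL, hF]
  norm_num

include D in
theorem Setting.card_eq_fifteen_mul (hF : Nat.card F = 4) :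
    Nat.card G = 15 * Nat.card (MulAction.stabilizer G (pt (1 : F) 0)) := by
  have horb : MulAction.orbit G (pt (1 : F) 0) = {v | v ≠ 0} := by
    ext w
    constructor
    · rintro ⟨g, rfl⟩ h0
      have h2 : g⁻¹ • g • pt (1 : F) 0 = g⁻¹ • (0 : Fin 2 → F) := congrArg (fun v => g⁻¹ • v) h0
      rw [inv_smul_smul, smul_zero] at h2
      exact one_ne_zero (congrFun h2 0)
    · intro hw
      obtain ⟨A, hA⟩ : ∃ A : SL(2, F), (A : Matrix (Fin 2) (Fin 2) F) 0 0 = w 0 ∧
          (A : Matrix (Fin 2) (Fin 2) F) 1 0 = w 1 := by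
        by_cases h0 : w 0 = 0
        · have h1 : w 1 ≠ 0 := fun h1 => hw (by rw [eq_pt w, h0, h1]; ext i; fin_cases i <;> rfl)
          exact ⟨⟨!![w 0, -(w 1)⁻¹; w 1, 0], by rw [Matrix.det_fin_two]; simp [h1]⟩, rfl, rfl⟩
        · exact ⟨⟨!![w 0, 0; w 1, (w 0)⁻¹], by rw [Matrix.det_fin_two]; simp [h0]⟩, rfl, rfl⟩
      refine ⟨D.j A, ?_⟩
      show D.j A • pt (1 : F) 0 = w
      rw [D.j_smul, hA.1, hA.2]
      simp only [pt_zero, pt_one, mul_zero, mul_one, add_zero]
      exact (eq_pt _).symm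
  have h15 : Nat.card (MulAction.orbit G (pt (1 : F) 0)) = 15 := by
    rw [horb, Nat.card_coe_set_eq, show {v : Fin 2 → F | v ≠ 0} = ({0} : Set _)ᶜ from rfl,
      Set.ncard_compl _ (Set.toFinite _) (Set.toFinite _), Set.ncard_singleton, Nat.card_fun, hF]
    simp
  rw [Subgroup.card_eq_card_quotient_mul_card_subgroup (MulAction.stabilizer G (pt (1 : F) 0)),
    ← Nat.card_congr (MulAction.orbitEquivQuotientStabilizer G (pt (1 : F) 0)), h15]

include D in
theorem exists_embedding (hF : Nat.card F = 4) :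
    ∃ φ : G →* GL (Fin 4) (ZMod 2), Function.Injective φ := by
  have := D
  letI : Algebra (ZMod 2) F := ZMod.algebra F 2
  have hrank : Module.finrank (ZMod 2) (Fin 2 → F) = 4 := by
    have h := Module.natCard_eq_pow_finrank (K := ZMod 2) (V := Fin 2 → F)
    rw [Nat.card_fun, hF, Nat.card_fin, Nat.card_zmod] at h
    exact (Nat.pow_right_injective le_rfl (h.symm.trans (by norm_num : (4 : ℕ) ^ 2 = 2 ^ 4)))
  let b := Module.finBasisOfFinrankEq (ZMod 2) (Fin 2 → F) hrank
  let ρ : G →* Module.End (ZMod 2) (Fin 2 → F) :=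
    { toFun := fun g => (DistribSMul.toAddMonoidHom (Fin 2 → F) g).toZModLinearMap 2
      map_one' := LinearMap.ext fun v => one_smul G v
      map_mul' := fun g h => LinearMap.ext fun v => mul_smul g h v }
  refine ⟨(Units.map (LinearMap.toMatrixAlgEquiv b).toMulEquiv.toMonoidHom).comp ρ.toHomUnits,
    fun g h hgh => eq_of_smul_eq_smul (α := Fin 2 → F) fun v => ?_⟩
  have h1 : LinearMap.toMatrixAlgEquiv b (ρ g) = LinearMap.toMatrixAlgEquiv b (ρ h) :=
    congrArg Units.val hgh
  exact LinearMap.congr_fun ((LinearMap.toMatrixAlgEquiv b).injective h1) v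

/-- Groups of order `120` or `360` normalize `SL₂(4)`. -/
theorem Setting.normal_of_small (hF : Nat.card F = 4) {P : Sylow 2 G}
    (hPN : (P : Subgroup G) ≤ Subgroup.normalizer (D.j.range : Set G)) (hP : Nat.card P = 8)
    (hG : Nat.card G = 120 ∨ Nat.card G = 360) : D.j.range.Normal := by
  set N := Subgroup.normalizer (D.j.range : Set G) with hN
  have hperf : commutator SL(2, F) = ⊤ := CfsgLib.ClassicalLinear.commutator_sl_eq_top
    (Or.inr (CfsgLib.ClassicalLinear.exists_sq_ne_one_of_four_le_card hF.ge))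
  have hRN : D.j.range ≤ N := Subgroup.le_normalizer
  have h120 : 120 ∣ Nat.card N := by
    have h1 : 8 ∣ Nat.card N := hP ▸ Subgroup.card_dvd_of_le hPN
    have h2 : 60 ∣ Nat.card N := D.card_range hF ▸ Subgroup.card_dvd_of_le hRN
    exact (by norm_num : Nat.lcm 8 60 = 120) ▸ Nat.lcm_dvd h1 h2
  have hmul : Nat.card N * N.index = Nat.card G := N.card_mul_index
  have hNc : Nat.card N ∣ Nat.card G := Subgroup.card_subgroup_dvd_card N
  by_cases htop : N = ⊤
  · exact Subgroup.normalizer_eq_top_iff.1 htop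
  have hne : N.index ≠ 1 := fun h => htop (Subgroup.index_eq_one.1 h)
  obtain ⟨c, hc⟩ := h120
  have h13 : c = 1 ∧ N.index = 3 := by
    rcases hG with hG | hG <;> rw [hc, hG, mul_assoc] at hmul
    · have : c * N.index = 1 := by omega
      exact absurd (Nat.eq_one_of_mul_eq_one_left this) hne
    · have h3 : c * N.index = 3 := by omega
      rcases (Nat.dvd_prime Nat.prime_three).1 ⟨N.index, h3.symm⟩ with h | h
      · exact ⟨h, by rw [h, one_mul] at h3; exact h3⟩
      · rw [h] at h3; omega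
  have hperm : Group.IsSolvable (Equiv.Perm (G ⧸ N)) := by
    refine CfsgLib.Generators.SmallPermGroups.isSolvable_of_two_primes (n := 6) 2 3 1 1
      Nat.prime_two Nat.prime_three ?_ (by norm_num)
    rw [Nat.card_perm, show Nat.card (G ⧸ N) = 3 from h13.2]
    rfl
  have hNcard : Nat.card N = 120 := by rw [hc, h13.1]
  have hidx : (D.j.range.subgroupOf N).index = 2 := by
    have h := (D.j.range.subgroupOf N).card_mul_index
    rw [Nat.card_congr (Subgroup.subgroupOfEquivOfLe hRN).toEquiv, D.card_range hF, hNcard] at h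
    omega
  haveI : (D.j.range.subgroupOf N).Normal := Subgroup.normal_of_index_eq_two hidx
  have hquot : Group.IsSolvable (↥N ⧸ D.j.range.subgroupOf N) :=
    CfsgLib.Generators.SmallPermGroups.isSolvable_of_two_primes (n := 2) 2 3 1 0
      Nat.prime_two Nat.prime_three hidx (by norm_num)
  constructor
  rintro _ ⟨B, rfl⟩ g
  have hmem : ∀ B : SL(2, F), g * D.j B * g⁻¹ ∈ N := by
    intro B
    have h1 := hom_trivial_of_perfect hperf hperm
      ((MulAction.toPermHom G (G ⧸ N)).comp ((MulAut.conj g).toMonoidHom.comp D.j)) B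
    have h2 := Equiv.congr_fun h1 ((1 : G) : G ⧸ N)
    change ((g * D.j B * g⁻¹ * 1 : G) : G ⧸ N) = ((1 : G) : G ⧸ N) at h2
    rw [QuotientGroup.eq, mul_one, mul_one] at h2
    exact inv_mem_iff.1 h2
  have h3 := hom_trivial_of_perfect hperf hquot
    ((QuotientGroup.mk' (D.j.range.subgroupOf N)).comp
      (((MulAut.conj g).toMonoidHom.comp D.j).codRestrict N hmem)) B
  exact (QuotientGroup.eq_one_iff (N := D.j.range.subgroupOf N) ⟨g * D.j B * g⁻¹, hmem B⟩).1 h3

include D in
theorem Setting.not_fiftysix (hF : Nat.card F = 4) :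
    Nat.card (MulAction.stabilizer G (pt (1 : F) 0)) ≠ 56 := by
  intro hk
  set H := MulAction.stabilizer G (pt (1 : F) 0) with hH
  haveI : Fact (Nat.Prime 7) := ⟨by norm_num⟩
  have := Fintype.ofFinite F
  have hf : Fintype.card F = 2 ^ 2 := by rw [← Nat.card_eq_fintype_card, hF]; norm_num
  have haut := CfsgLib.InvCentralizers.AutChev.card_ringAut hf
  have huH : ∀ x, D.u x ∈ H := fun x => by
    rw [hH, MulAction.mem_stabilizer_iff]
    exact (D.u_mem_fix0 x).1 _ rfl
  -- elements of order seven commute with no nontrivial `u x`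
  have claim1 : ∀ q ∈ H, orderOf q = 7 → ∀ x : F, x ≠ 0 → ¬ Commute q (D.u x) := by
    intro q hq ho x hx hc
    have hqs : q ∈ stab0 F G := by
      rw [stab0, MulAction.mem_stabilizer_set' (Set.toFinite _)]
      intro v hv
      have e : D.u x • q • v = q • v := by
        rw [← mul_smul, ← hc.eq, mul_smul, (D.u_mem_fix0 x).1 v hv]
      rw [D.u_smul, eq_pt (q • v), pt_inj] at e
      rw [mem_axisW]
      simpa [hx] using e.1
    have hβ : D.fieldPart ⟨q, hqs⟩ = 1 := by
      rw [← orderOf_eq_one_iff]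
      have h1 : orderOf (D.fieldPart ⟨q, hqs⟩) ∣ 7 := by
        have h0 := orderOf_map_dvd D.fieldPart (⟨q, hqs⟩ : stab0 F G)
        rwa [← Subgroup.orderOf_coe, ho] at h0
      have h2 : orderOf (D.fieldPart ⟨q, hqs⟩) ∣ 2 := (orderOf_dvd_natCard _).trans haut.dvd
      exact Nat.dvd_one.1 ((by norm_num : Nat.gcd 7 2 = 1) ▸ Nat.dvd_gcd h1 h2)
    obtain ⟨a, d, -, hd, hax, hdy⟩ := D.fieldPart_spec ⟨q, hqs⟩
    simp only [hβ, RingAut.one_apply] at hax hdy
    have ha : a = 1 := by
      have h := hax 1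
      rw [show q • pt (1 : F) 0 = pt 1 0 from hq, pt_inj] at h
      simpa using h.1.symm
    have hsnd : ∀ v : Fin 2 → F, (q • v) 1 = d * v 1 := fun v => by
      rw [eq_pt v, show pt (v 0) (v 1) = pt (v 0) 0 + pt 0 (v 1) by rw [pt_add, add_zero, zero_add],
        smul_add, Pi.add_apply, hdy, hax]
      simp
    have hpow : ∀ i : ℕ, (q ^ i • pt (0 : F) 1) 1 = d ^ i := by
      intro i
      induction i with
      | zero => simp
      | succ i ih => rw [pow_succ', mul_smul, hsnd, ih, pow_succ']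
    have hd7 : d ^ 7 = 1 := by
      have h := hpow 7
      rw [← ho, pow_orderOf_eq_one, one_smul, ho] at h
      simpa using h.symm
    have hd3 : d ^ 3 = 1 := by
      have h := FiniteField.pow_card_sub_one_eq_one d hd
      rwa [hf] at h
    have hd1 : d = 1 := by
      calc d = d ^ 7 := by rw [show d ^ 7 = d * (d ^ 3) ^ 2 by ring, hd3]; ring
        _ = 1 := hd7
    have hfix : q ∈ fix0 F G := ⟨fun v hv => by rw [eq_pt v, hv, hax, ha, one_mul],
      fun v => by rw [hsnd, hd1, one_mul]⟩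
    obtain ⟨y, rfl⟩ := D.fix0_eq q hfix
    have h2 := orderOf_dvd_of_pow_eq_one (D.u_pow_p y)
    rw [ho] at h2
    norm_num at h2
  obtain ⟨Q⟩ : Nonempty (Sylow 7 H) := inferInstance
  have hQ : Nat.card Q = 7 := by
    have e : Nat.factorization 56 7 = 1 := by
      rw [show (56 : ℕ) = 2 ^ 3 * 7 from rfl, Nat.factorization_mul (by norm_num) (by norm_num),
        Nat.Prime.factorization_pow Nat.prime_two, Nat.Prime.factorization (by norm_num : Nat.Prime 7)]
      simp
    rw [Q.card_eq_multiplicity, hk, e, pow_one]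
  obtain ⟨q, hq7⟩ := exists_prime_orderOf_dvd_card' (G := (Q : Subgroup H)) 7 hQ.symm.dvd
  set qH : H := (q : H) with hqH
  have ho : orderOf qH = 7 := by rw [hqH, Subgroup.orderOf_coe]; exact hq7
  have hoG : orderOf (qH : G) = 7 := by rw [Subgroup.orderOf_coe]; exact ho
  have hcl : ∀ x : F, x ≠ 0 → ∀ i : ℕ, ¬ 7 ∣ i → ¬ Commute (qH ^ i) ⟨D.u x, huH x⟩ := by
    intro x hx i hi hc
    refine claim1 qH qH.2 hoG x hx ?_
    have hcop : Nat.Coprime i (orderOf qH) := by
      rw [ho]; exact ((Nat.Prime.coprime_iff_not_dvd (by norm_num)).2 hi).symm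
    obtain ⟨m, hm⟩ := exists_pow_eq_self_of_coprime hcop
    have h2 := hc.pow_left m
    rw [hm] at h2
    exact congrArg Subtype.val h2.eq
  have hUsq : ∀ x : F, (⟨D.u x, huH x⟩ : H) ^ 2 = 1 := fun x => Subtype.ext (D.u_pow_p x)
  by_cases hQn : (Q : Subgroup H).Normal
  · -- `q` is inverted or centralized by every `u x`
    have hzp : Subgroup.zpowers qH = (Q : Subgroup H) := by
      refine Subgroup.eq_of_le_of_card_ge ((Subgroup.zpowers_le).2 q.2) ?_
      rw [Nat.card_zpowers, ho, hQ]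
    have hinv : ∀ x : F, x ≠ 0 → ⟨D.u x, huH x⟩ * qH * (⟨D.u x, huH x⟩ : H)⁻¹ = qH⁻¹ := by
      intro x hx
      set u : H := ⟨D.u x, huH x⟩
      have h1 : u * qH * u⁻¹ ∈ Subgroup.zpowers qH := by
        rw [hzp]; exact hQn.conj_mem _ q.2 u
      obtain ⟨i, hi⟩ := Subgroup.mem_zpowers_iff.1 h1
      have hu : u * u = 1 := by rw [← pow_two]; exact hUsq x
      have h2 : qH ^ (i * i) = qH := by
        rw [_root_.zpow_mul, hi, conj_zpow, hi, show u⁻¹ = u from inv_eq_of_mul_eq_one_right hu]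
        calc u * (u * qH * u) * u = (u * u) * qH * (u * u) := by group
          _ = qH := by rw [hu, one_mul, mul_one]
      have h7 : (7 : ℤ) ∣ (i - 1) * (i + 1) := by
        have h3 : qH ^ (i * i - 1) = 1 := by rw [_root_.zpow_sub, h2, zpow_one, mul_inv_cancel]
        have := orderOf_dvd_iff_zpow_eq_one.2 h3
        rw [ho] at this
        rwa [show (i - 1) * (i + 1) = i * i - 1 by ring]
      rcases (Int.prime_iff_natAbs_prime.2 (by norm_num : Nat.Prime (7 : ℤ).natAbs)).dvd_or_dvd h7 with h | h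
      · exfalso
        have h3 : qH ^ (i - 1) = 1 := orderOf_dvd_iff_zpow_eq_one.1 (by rw [ho]; exact h)
        rw [_root_.zpow_sub, hi, zpow_one, mul_inv_eq_one] at h3
        refine hcl x hx 1 (by norm_num) ?_
        rw [pow_one]
        exact (eq_mul_inv_iff_mul_eq.1 h3.symm : qH * u = u * qH)
      · have h3 : qH ^ (i + 1) = 1 := orderOf_dvd_iff_zpow_eq_one.1 (by rw [ho]; exact h)
        rw [_root_.zpow_add_one, hi] at h3
        exact eq_inv_of_mul_eq_one_left h3
    obtain ⟨a, ha0, ha1⟩ : ∃ a : F, a ≠ 0 ∧ a ≠ 1 := by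
      obtain ⟨a, ha0, ha⟩ := CfsgLib.ClassicalLinear.exists_sq_ne_one_of_four_le_card hF.ge
      exact ⟨a, ha0, fun h => ha (by rw [h, one_pow])⟩
    have hab : (1 + a : F) ≠ 0 := fun h => ha1 (by
      rw [← CharTwo.add_eq_zero.1 h])
    refine hcl (1 + a) hab 1 (by norm_num) ?_
    rw [pow_one]
    have e : (⟨D.u (1 + a), huH _⟩ : H) = ⟨D.u 1, huH _⟩ * ⟨D.u a, huH _⟩ :=
      Subtype.ext (D.u_add 1 a)
    have h1 := hinv 1 one_ne_zero
    have h2 := hinv a ha0
    set u : H := ⟨D.u 1, huH _⟩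
    set w : H := ⟨D.u a, huH _⟩
    have h4 : u * w * qH * (u * w)⁻¹ = qH := by
      calc u * w * qH * (u * w)⁻¹ = u * (w * qH * w⁻¹) * u⁻¹ := by group
        _ = u * qH⁻¹ * u⁻¹ := by rw [h2]
        _ = (u * qH * u⁻¹)⁻¹ := by group
        _ = qH := by rw [h1, inv_inv]
    rw [mul_inv_eq_iff_eq_mul] at h4
    rw [e]
    exact h4.symm
  · -- a normal Sylow `2`-subgroup
    have hnorm : Nat.card (Subgroup.normalizer ((Q : Subgroup H) : Set H)) = 7 := by
      set N := Subgroup.normalizer ((Q : Subgroup H) : Set H)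
      have h1 : 7 ∣ Nat.card N := hQ ▸ Subgroup.card_dvd_of_le Subgroup.le_normalizer
      have h2 : Nat.card (Sylow 7 H) = N.index := Sylow.card_eq_index_normalizer Q
      have h3 := card_sylow_modEq_one 7 H
      rw [h2] at h3
      have h4 : N.index ≠ 1 := fun h => hQn (Subgroup.normalizer_eq_top_iff.1 (Subgroup.index_eq_one.1 h))
      have h5 := N.card_mul_index
      rw [hk] at h5
      obtain ⟨c, hc⟩ := h1
      rw [hc, mul_assoc] at h5
      have h6 : c * N.index = 8 := by omega
      have h8 : N.index ≤ 8 := Nat.le_of_dvd (by norm_num) ⟨c, by rw [mul_comm]; exact h6.symm⟩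
      unfold Nat.ModEq at h3
      have h9 : N.index = 8 := by omega
      rw [h9] at h6
      omega
    have hQN : Subgroup.normalizer ((Q : Subgroup H) : Set H) = (Q : Subgroup H) :=
      (Subgroup.eq_of_le_of_card_ge Subgroup.le_normalizer (by rw [hnorm, hQ])).symm
    haveI : IsCyclic Q := isCyclic_of_prime_card hQ
    have hNC : Subgroup.normalizer ((Q : Subgroup H) : Set H) ≤
        Subgroup.centralizer ((Q : Subgroup H) : Set H) := by
      rw [hQN]
      intro a ha b hb
      exact congrArg Subtype.val (IsCyclic.commutative.is_comm.comm (⟨b, hb⟩ : (Q : Subgroup H)) ⟨a, ha⟩)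
    set S := (MonoidHom.transferSylow Q hNC).ker with hS
    have hSc : Nat.card S = 8 := by
      have h := (MonoidHom.ker_transferSylow_isComplement' Q hNC).card_mul_card
      rw [hQ, hk] at h
      rw [← hS] at h
      omega
    have huS : ∀ x, (⟨D.u x, huH x⟩ : H) ∈ S := by
      intro x
      rw [hS, MonoidHom.mem_ker, ← orderOf_eq_one_iff]
      have h1 := orderOf_dvd_natCard (MonoidHom.transferSylow Q hNC ⟨D.u x, huH x⟩)
      rw [hQ] at h1
      have h2 := (orderOf_map_dvd (MonoidHom.transferSylow Q hNC) ⟨D.u x, huH x⟩).trans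
        (orderOf_dvd_of_pow_eq_one (hUsq x))
      exact Nat.dvd_one.1 ((by norm_num : Nat.gcd 7 2 = 1) ▸ Nat.dvd_gcd h1 h2)
    set u1 : H := ⟨D.u 1, huH 1⟩ with hu1
    have hu1ne : u1 ≠ 1 := fun h => one_ne_zero (D.u_injective
      ((congrArg Subtype.val h).trans D.u_zero.symm) : (1 : F) = 0)
    haveI : S.Normal := by rw [hS]; infer_instance
    let f : Fin 7 → S := fun i => ⟨qH ^ (i : ℕ) * u1 * (qH ^ (i : ℕ))⁻¹,
      Subgroup.Normal.conj_mem inferInstance _ (huS 1) _⟩
    have hf1 : ∀ i, f i ≠ 1 := fun i h => hu1ne (conj_eq_one_iff.1 (congrArg Subtype.val h))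
    have hfinj : Function.Injective f := by
      intro i j hij
      have h0 : qH ^ (i : ℕ) * u1 * (qH ^ (i : ℕ))⁻¹ = qH ^ (j : ℕ) * u1 * (qH ^ (j : ℕ))⁻¹ :=
        congrArg Subtype.val hij
      by_contra hne
      wlog hlt : (i : ℕ) < j generalizing i j
      · exact this hij.symm h0.symm (Ne.symm hne)
          (by have := fun e => hne (Fin.ext e); omega)
      obtain ⟨d, hd⟩ := Nat.exists_eq_add_of_lt hlt
      refine hcl 1 one_ne_zero (d + 1) (fun h7 => ?_) ?_
      · have := Nat.le_of_dvd (by omega) h7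
        omega
      · rw [hd, add_assoc, pow_add] at h0
        have h1 : u1 = qH ^ (d + 1) * u1 * (qH ^ (d + 1))⁻¹ := by
          refine mul_left_cancel (a := qH ^ (i : ℕ)) (mul_right_cancel (b := (qH ^ (i : ℕ))⁻¹) ?_)
          rw [h0]; group
        exact (eq_mul_inv_iff_mul_eq.1 h1).symm
    have hall : ∀ s : S, s ≠ 1 → ∃ i, f i = s := by
      have hr : Set.range f = ({1} : Set S)ᶜ := by
        refine Set.eq_of_subset_of_ncard_le (fun s ⟨i, hi⟩ => hi ▸ hf1 i) ?_ (Set.toFinite _)
        rw [Set.ncard_range_of_injective hfinj, Nat.card_fin,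
          Set.ncard_compl _ (Set.toFinite _) (Set.toFinite _), Set.ncard_singleton, hSc]
      intro s hs
      exact (hr ▸ hs : s ∈ Set.range f)
    have hsq : ∀ s : S, s * s = 1 := by
      intro s
      by_cases hs : s = 1
      · rw [hs, one_mul]
      obtain ⟨i, rfl⟩ := hall s hs
      apply Subtype.ext
      show qH ^ (i : ℕ) * u1 * (qH ^ (i : ℕ))⁻¹ * (qH ^ (i : ℕ) * u1 * (qH ^ (i : ℕ))⁻¹) = 1
      have := hUsq 1
      rw [pow_two] at this
      calc _ = qH ^ (i : ℕ) * (u1 * u1) * (qH ^ (i : ℕ))⁻¹ := by group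
        _ = 1 := by rw [hu1, this, mul_one, mul_inv_cancel]
    have hsU : ∀ s : S, ∃ x, ((s : H) : G) = D.u x := by
      intro s
      have hcx : ∀ x, ((s : H) : G) * D.u x = D.u x * ((s : H) : G) := fun x =>
        congrArg (fun t : S => ((t : H) : G))
          (show s * ⟨_, huS x⟩ = ⟨_, huS x⟩ * s from
            Commute.of_orderOf_dvd_two (fun t => orderOf_dvd_of_pow_eq_one (by rw [pow_two, hsq t])) _ _)
      set t : G := ((s : H) : G) with ht
      have hts : t ∈ stab0 F G := by
        rw [stab0, MulAction.mem_stabilizer_set' (Set.toFinite _)]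
        intro v hv
        have e : D.u 1 • t • v = t • v := by
          rw [← mul_smul, ← hcx, mul_smul, (D.u_mem_fix0 1).1 v hv]
        rw [D.u_smul, eq_pt (t • v), pt_inj] at e
        rw [mem_axisW]
        simpa using e.1
      obtain ⟨a, d, ha, hd, hax, hdy⟩ := D.fieldPart_spec ⟨t, hts⟩
      have hkey : ∀ x, a * D.fieldPart ⟨t, hts⟩ x = x * d := by
        intro x
        have e : t • D.u x • pt (0 : F) 1 = D.u x • t • pt (0 : F) 1 := by
          rw [← mul_smul, ← mul_smul, hcx]
        rw [D.u_smul x (t • pt (0 : F) 1), D.u_smul, pt_zero, pt_one, mul_one, zero_add,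
          show pt x (1 : F) = pt x 0 + pt 0 1 by rw [pt_add, add_zero, zero_add], smul_add, hax] at e
        have e0 := congrFun e 0
        simp only [Pi.add_apply, pt_zero, hdy, map_one, mul_one] at e0
        linear_combination e0
      have hβ : D.fieldPart ⟨t, hts⟩ = 1 := by
        ext x
        have h1 := hkey 1
        rw [map_one, mul_one, one_mul] at h1
        have h2 := hkey x
        rw [← h1, mul_comm x a] at h2
        exact mul_left_cancel₀ ha h2
      refine D.fix0_eq t (D.fix0_of_fieldPart ⟨t, hts⟩ ⟨1, ?_⟩ hβ)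
      rw [pow_one, pow_two]
      exact congrArg (fun z : S => ((z : H) : G)) (hsq s)
    have h8 : Nat.card S ≤ Nat.card F := by
      refine Nat.card_le_card_of_injective (fun s => (hsU s).choose) fun a b hab => ?_
      apply Subtype.ext
      apply Subtype.ext
      rw [(hsU a).choose_spec, (hsU b).choose_spec]
      exact congrArg D.u hab
    omega

theorem Setting.four_case (hF : Nat.card F = 4) (n : stab0 F G) (hn2 : (n : G) ^ 2 = 1)
    (hn : D.fieldPart n ≠ 1) :
    D.j.range.Normal ∨ Nonempty (G ≃* alternatingGroup (Fin 7)) := by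
  obtain ⟨P, hPN, hP⟩ := D.sylow_card hF n hn2 hn
  obtain ⟨φ, hφ⟩ := exists_embedding D hF
  have hdvd : Nat.card G ∣ 20160 := by
    rw [← CfsgLib.InvChar.GLFourTwo.card_GL4]
    exact Subgroup.card_dvd_of_injective φ hφ
  have h15 := D.card_eq_fifteen_mul hF
  set k := Nat.card (MulAction.stabilizer G (pt (1 : F) 0)) with hk
  have hk1344 : k ∣ 1344 := by
    rw [h15, show 20160 = 15 * 1344 from rfl] at hdvd
    exact (Nat.mul_dvd_mul_iff_left (by norm_num)).1 hdvd
  have h8 : 8 ∣ k := by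
    have h : 8 ∣ 15 * k := h15 ▸ hP ▸ Subgroup.card_subgroup_dvd_card (P : Subgroup G)
    exact (by norm_num : Nat.Coprime 8 15).dvd_of_dvd_mul_left h
  have h16 : ¬ 16 ∣ k := by
    intro h
    obtain ⟨R, hR⟩ := Sylow.exists_subgroup_card_pow_prime (G := G) 2 (n := 4)
      (h15 ▸ dvd_mul_of_dvd_right h 15)
    obtain ⟨R', hR'⟩ := (IsPGroup.of_card hR).exists_le_sylow
    have h1 := Subgroup.card_le_of_le hR'
    have h2 : Nat.card R' = 8 := by rw [Sylow.card_eq_multiplicity, ← P.card_eq_multiplicity, hP]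
    rw [hR] at h1
    change 2 ^ 4 ≤ Nat.card R' at h1
    omega
  have hcases : k = 8 ∨ k = 24 ∨ k = 56 ∨ k = 168 := by
    obtain ⟨c, hc⟩ := h8
    rw [hc] at hk1344 h16
    have hc168 : c ∣ 168 := (Nat.mul_dvd_mul_iff_left (by norm_num : 0 < 8)).1 hk1344
    have hodd : ¬ 2 ∣ c := fun h => h16 (by
      obtain ⟨e, rfl⟩ := h
      exact ⟨e, by ring⟩)
    have h21 : c ∣ 21 := by
      refine Nat.Coprime.dvd_of_dvd_mul_left (k := c) (m := 8) ?_ hc168
      exact Nat.Coprime.pow_right 3 ((Nat.Prime.coprime_iff_not_dvd Nat.prime_two).2 hodd).symm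
    have hle : c ≤ 21 := Nat.le_of_dvd (by norm_num) h21
    interval_cases c <;> norm_num at h21 <;> omega
  rcases hcases with h | h | h | h
  · exact Or.inl (D.normal_of_small hF hPN hP (Or.inl (by rw [h15, h])))
  · exact Or.inl (D.normal_of_small hF hPN hP (Or.inr (by rw [h15, h])))
  · exact absurd h (D.not_fiftysix hF)
  · right
    let ψ := CfsgLib.InvChar.GLFourTwo.equiv.toMonoidHom.comp φ
    have hψ : Function.Injective ψ := CfsgLib.InvChar.GLFourTwo.equiv.injective.comp hφ
    have hA8 : Nat.card (alternatingGroup (Fin 8)) = 20160 := by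
      rw [← Nat.card_congr CfsgLib.InvChar.GLFourTwo.equiv.toEquiv,
        CfsgLib.InvChar.GLFourTwo.card_GL4]
    have hidx : ψ.range.index = 8 := by
      have e := ψ.range.card_mul_index
      rw [← Nat.card_congr (MonoidHom.ofInjective hψ).toEquiv, h15, h, hA8] at e
      omega
    obtain ⟨e⟩ := CfsgLib.Generators.SmallPermGroups.iso_alt_of_index (n := 7) (by norm_num) ψ.range hidx
    exact ⟨(MonoidHom.ofInjective hψ).trans e⟩

end four

/-- Overgroups of `SL₂(F)` on its natural module with a Sylow subgroup in the normalizer. -/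
theorem Setting.normal_or_alt {F : Type*} [Field F] {G : Type u} [Group G]
    [DistribMulAction G (Fin 2 → F)] [FaithfulSMul G (Fin 2 → F)] [Finite F] [Finite G] {p : ℕ}
    [Fact p.Prime] [CharP F p] (D : Setting p F G) :
    D.j.range.Normal ∨ (Nat.card F = 4 ∧ Nonempty (G ≃* alternatingGroup (Fin 7))) := by
  by_cases hs : ∀ (g : G) (v : Fin 2 → F), v ≠ 0 → v ∈ axisW F → v ∈ g • axisW F → g • axisW F = axisW F
  · exact Or.inl (D.range_normal hs)
  obtain ⟨hp, hF, n, hn2, hn⟩ := D.exists_field_twist hs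
  subst hp
  exact (D.four_case hF n hn2 hn).imp id fun h => ⟨hF, h⟩

end CfsgLib.BrauerPairs.NatOvergroup
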