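import Cfsg.Agent.Lib.BrauerPairs.WreathAbElem

/-!
# Wreathed Sylow subgroups meet the derived group in a subgroup generated by involutions
-/

set_option autoImplicit false

namespace CfsgLib.BrauerPairs

open CfsgLib.Classes.DerivedWreath

/-- The element `u` in one coordinate. -/
def coordElt {U : Type*} [Group U] {k : ℕ} (i : Fin k) (u : U) : Wr U (Fin k) :=
  SemidirectProduct.inl (Pi.mulSingle i u)

/-- A Sylow subgroup of a normal subgroup is the intersection with a conjugate of any Sylow. -/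
theorem equiv_inf_sylow {G : Type*} [Group G] [Finite G] {p : ℕ} [Fact p.Prime] (H : Sylow p G)
    (N : Subgroup G) [N.Normal] (R : Sylow p N) :
    Nonempty (((H : Subgroup G) ⊓ N : Subgroup G) ≃* (R : Subgroup N)) := by
  obtain ⟨T, hT⟩ := (R.isPGroup'.map N.subtype).exists_le_sylow
  have hR : (T : Subgroup G).subgroupOf N = (R : Subgroup N) :=
    R.is_maximal' (T.isPGroup'.comap_subtype) fun x hx => hT (Subgroup.mem_map_of_mem _ hx)
  have hmap : (R : Subgroup N).map N.subtype = (T : Subgroup G) ⊓ N := by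
    rw [← hR, Subgroup.subgroupOf_map_subtype]
  obtain ⟨g, hg⟩ := MulAction.exists_smul_eq G H T
  have hN : N.map (MulAut.conj g).toMonoidHom = N := by
      ext x
      constructor
      · rintro ⟨y, hy, rfl⟩
        exact (inferInstance : N.Normal).conj_mem y hy g
      · intro hx
        exact ⟨g⁻¹ * x * g⁻¹⁻¹, (inferInstance : N.Normal).conj_mem x hx g⁻¹, by
          simp [MulAut.conj_apply, mul_assoc]⟩
  have hTH : (T : Subgroup G) = (H : Subgroup G).map (MulAut.conj g).toMonoidHom := by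
    rw [← hg, Sylow.coe_subgroup_smul]
    rfl
  have h : ((H : Subgroup G) ⊓ N).map (MulAut.conj g).toMonoidHom = (R : Subgroup N).map N.subtype := by
    rw [hmap, Subgroup.map_inf _ _ _ (MulAut.conj g).injective, hN, hTH]
  exact ⟨((Subgroup.equivMapOfInjective _ (MulAut.conj g).toMonoidHom (MulAut.conj g).injective).trans
    (MulEquiv.subgroupCongr h)).trans
      (Subgroup.equivMapOfInjective _ N.subtype N.subtype_injective).symm⟩

section Core

variable {U G : Type*} [Group U] [Group G] {k e : ℕ}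

/-- The Sylow-type subgroup. -/
def wrImage (Φ : Wr U (Fin k) × (Fin e → ℤˣ) →* G) (Q : Subgroup U)
    (S : Subgroup (Equiv.Perm (Fin k))) : Subgroup G :=
  (Φ.comp ((wrSubHom Q S).prodMap (MonoidHom.id (Fin e → ℤˣ)))).range

theorem genPow_wrImage_inf_commutator (Φ : Wr U (Fin k) × (Fin e → ℤˣ) →* G) (hk : 2 ≤ k)
    (Q : Subgroup U) (S : Subgroup (Equiv.Perm (Fin k))) (a b : U) (ha : a ∈ Q) (hb : b ∈ Q)
    (ha2 : a ^ 2 = 1) (hb2 : b ^ 2 = 1) (R : Set U) (hRQ : Subgroup.closure R = Q)
    (hR2 : ∀ x ∈ R, x ^ 2 = 1) (hRc : ∀ x ∈ R, IsConj x a ∨ IsConj x b)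
    (hS : GenPow 2 S) (hperm : ∀ σ : Equiv.Perm (Fin k), Φ (SemidirectProduct.inr σ, 1) ∈ commutator G) :
    GenPow 2 (wrImage Φ Q S ⊓ commutator G) := by
  set H := wrImage Φ Q S with hH
  set K := H ⊓ commutator G with hK
  set L := Subgroup.closure {x : G | x ∈ K ∧ x ^ 2 = 1} with hL
  show L = K
  have hLK : L ≤ K := (Subgroup.closure_le _).2 fun x hx => hx.1
  refine le_antisymm hLK ?_
  let c : Fin k → U → G := fun i u => Φ (coordElt i u, 1)
  let i₀ : Fin k := ⟨0, by omega⟩
  let i₁ : Fin k := ⟨1, by omega⟩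
  have hmem : ∀ (i : Fin k) (u : U) (_ : u ∈ Q), c i u ∈ H := fun i u hu =>
    ⟨(SemidirectProduct.inl (Pi.mulSingle i ⟨u, hu⟩), 1), by
      refine congrArg Φ (Prod.ext (SemidirectProduct.ext (funext fun l => ?_) ?_) rfl)
      · show ((Pi.mulSingle i (⟨u, hu⟩ : Q) : Fin k → Q) l : U) = (Pi.mulSingle i u : Fin k → U) l
        rcases eq_or_ne l i with rfl | hl
        · simp
        · simp [hl]
      · rfl⟩
  -- generators that normalise `L`
  have hnorm : H ≤ Subgroup.normalizer (L : Set G) := by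
    intro g hg
    have key : ∀ g ∈ H, ∀ x ∈ L, g * x * g⁻¹ ∈ L := by
      intro g hg x hx
      induction hx using Subgroup.closure_induction with
      | mem x hx =>
        refine Subgroup.subset_closure ⟨⟨H.mul_mem (H.mul_mem hg hx.1.1) (H.inv_mem hg),
          (inferInstance : (commutator G).Normal).conj_mem x hx.1.2 g⟩, ?_⟩
        rw [conj_pow, hx.2, mul_one, mul_inv_cancel]
      | one => simp
      | mul x y _ _ hx hy =>
        have h : g * (x * y) * g⁻¹ = (g * x * g⁻¹) * (g * y * g⁻¹) := by group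
        rw [h]; exact L.mul_mem hx hy
      | inv x _ hx =>
        have h : g * x⁻¹ * g⁻¹ = (g * x * g⁻¹)⁻¹ := by group
        rw [h]; exact L.inv_mem hx
    rw [Subgroup.mem_normalizer_iff]
    refine fun x => ⟨key g hg x, fun hx => ?_⟩
    have h := key g⁻¹ (H.inv_mem hg) _ hx
    simpa [mul_assoc] using h
  -- the elementary abelian complement
  let ea : Fin k → U := Pi.mulSingle i₀ a
  let eb : Fin k → U := Pi.mulSingle i₁ b
  have h01 : i₀ ≠ i₁ := by simp [i₀, i₁]
  have hab : Commute (c i₀ a) (c i₁ b) := by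
    refine (Commute.map ?_ Φ)
    refine Prod.commute_iff.2 ⟨?_, Commute.one_left _⟩
    exact (Pi.mulSingle_commute (f := fun _ : Fin k => U) h01 a b).map SemidirectProduct.inl
  have hε : ∀ (i : Fin k) (u : U) (ε : Fin e → ℤˣ), Commute (c i u) (Φ (1, ε)) := fun i u ε =>
    Commute.map (Prod.commute_iff.2 ⟨Commute.one_right _, Commute.one_left _⟩) Φ
  have hc2 : ∀ (i : Fin k) (u : U), u ^ 2 = 1 → c i u ^ 2 = 1 := fun i u hu => by
    show Φ (coordElt i u, 1) ^ 2 = 1
    rw [← map_pow]
    refine (congrArg Φ (Prod.ext ?_ ?_)).trans (map_one Φ)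
    · show coordElt i u ^ 2 = 1
      rw [coordElt, ← map_pow, ← Pi.mulSingle_pow, hu, Pi.mulSingle_one, map_one]
    · exact one_pow 2
  have hε2 : ∀ ε : Fin e → ℤˣ, Φ (1, ε) ^ 2 = 1 := fun ε => by
    rw [← map_pow]
    refine (congrArg Φ (Prod.ext (one_pow 2) ?_)).trans (map_one Φ)
    exact funext fun j => Int.units_sq _
  have hεH : ∀ ε : Fin e → ℤˣ, Φ (1, ε) ∈ H := fun ε =>
    ⟨(1, ε), congrArg Φ (Prod.ext (map_one (wrSubHom Q S)) rfl)⟩
  let E : Subgroup G :=
    { carrier := {x | x ∈ H ∧ x ^ 2 = 1 ∧ Commute x (c i₀ a) ∧ Commute x (c i₁ b) ∧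
        ∀ ε, Commute x (Φ (1, ε))} ∩
          (Subgroup.closure ({c i₀ a, c i₁ b} ∪ Set.range (fun ε => Φ (1, ε))) : Set G)
      one_mem' := ⟨⟨H.one_mem, one_pow 2, Commute.one_left _, Commute.one_left _,
        fun _ => Commute.one_left _⟩, Subgroup.one_mem _⟩
      mul_mem' := by
        rintro x y ⟨⟨hxH, hx2, hxa, hxb, hxe⟩, hx⟩ ⟨⟨hyH, hy2, hya, hyb, hye⟩, hy⟩
        refine ⟨⟨H.mul_mem hxH hyH, ?_, hxa.mul_left hya, hxb.mul_left hyb,
          fun ε => (hxe ε).mul_left (hye ε)⟩, Subgroup.mul_mem _ hx hy⟩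
        have hle : Subgroup.closure ({c i₀ a, c i₁ b} ∪ Set.range (fun ε => Φ (1, ε))) ≤
            Subgroup.centralizer {x} := by
          rw [Subgroup.closure_le]
          intro z hz
          rw [SetLike.mem_coe, Subgroup.mem_centralizer_singleton_iff]
          rcases hz with (rfl | rfl) | ⟨ε, rfl⟩
          · exact hxa.eq.symm
          · exact hxb.eq.symm
          · exact (hxe ε).eq.symm
        have hxy : Commute x y := (Subgroup.mem_centralizer_singleton_iff.1 (hle hy)).symm
        rw [hxy.mul_pow, hx2, hy2, one_mul]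
      inv_mem' := by
        rintro x ⟨⟨hxH, hx2, hxa, hxb, hxe⟩, hx⟩
        exact ⟨⟨H.inv_mem hxH, by rw [inv_pow, hx2, inv_one], hxa.inv_left, hxb.inv_left,
          fun ε => (hxe ε).inv_left⟩, Subgroup.inv_mem _ hx⟩ }
  have hEa : c i₀ a ∈ E :=
    ⟨⟨hmem _ _ ha, hc2 _ _ ha2, Commute.refl _, hab, fun ε => hε _ _ ε⟩,
      Subgroup.subset_closure (Or.inl (Or.inl rfl))⟩
  have hEb : c i₁ b ∈ E :=
    ⟨⟨hmem _ _ hb, hc2 _ _ hb2, hab.symm, Commute.refl _, fun ε => hε _ _ ε⟩,
      Subgroup.subset_closure (Or.inl (Or.inr rfl))⟩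
  have hEε : ∀ ε, Φ (1, ε) ∈ E := fun ε => by
    refine ⟨⟨hεH ε, hε2 ε, (hε _ _ ε).symm, (hε _ _ ε).symm, fun δ => ?_⟩,
      Subgroup.subset_closure (Or.inr ⟨ε, rfl⟩)⟩
    exact Commute.map (Prod.commute_iff.2 ⟨Commute.one_left _, Commute.all _ _⟩) Φ
  have hEH : E ≤ H := fun x hx => hx.1.1
  -- conjugate involutions in two coordinates
  have hof : ∀ (i p : Fin k) (x y : U), IsConj x y →
      Abelianization.of (c i x) = Abelianization.of (c p y) := by
    intro i p x y hxy
    obtain ⟨g, hg⟩ := isConj_iff.1 hxy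
    have h1 : IsConj (coordElt i x) (coordElt p y) := by
      refine IsConj.trans (b := coordElt p x) (isConj_iff.2 ⟨SemidirectProduct.inr (Equiv.swap i p), ?_⟩)
        (isConj_iff.2 ⟨coordElt p g, ?_⟩)
      · rw [coordElt, ← map_inv, ← SemidirectProduct.inl_aut]
        refine congrArg _ (funext fun r => ?_)
        rw [permCoord_apply]
        simp only [Pi.mulSingle_apply, Equiv.symm_apply_eq, Equiv.swap_apply_left]
      · rw [coordElt, coordElt, coordElt, ← map_inv, ← map_mul, ← map_mul, ← Pi.mulSingle_inv,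
          ← Pi.mulSingle_mul, ← Pi.mulSingle_mul, hg]
    obtain ⟨w, hw⟩ := isConj_iff.1 h1
    have h2 : c p y = Φ (w, 1) * c i x * (Φ (w, 1))⁻¹ := by
      show Φ (coordElt p y, 1) = _
      rw [← map_inv, ← map_mul, ← map_mul]
      exact congrArg Φ (Prod.ext hw.symm (by simp))
    rw [h2, map_mul, map_mul, map_inv, mul_inv_cancel_comm]
  have hpair : ∀ (i p : Fin k) (x y : U), i ≠ p → x ∈ Q → y ∈ Q → x ^ 2 = 1 → y ^ 2 = 1 →
      IsConj x y → c i x * c p y ∈ L := by
    intro i p x y hip hx hy hx2 hy2 hxy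
    refine Subgroup.subset_closure ⟨⟨H.mul_mem (hmem i x hx) (hmem p y hy), ?_⟩, ?_⟩
    · refine (QuotientGroup.eq_one_iff (N := commutator G) _).1 ?_
      show Abelianization.of (c i x * c p y) = 1
      rw [map_mul, hof i p x y hxy, ← pow_two, ← map_pow, hc2 p y hy2, map_one]
    · have hcm : Commute (c i x) (c p y) := by
        refine (Commute.map ?_ Φ)
        refine Prod.commute_iff.2 ⟨?_, Commute.one_left _⟩
        exact (Pi.mulSingle_commute (f := fun _ : Fin k => U) hip x y).map SemidirectProduct.inl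
      rw [hcm.mul_pow, hc2 i x hx2, hc2 p y hy2, one_mul]
  have hinv : ∀ (p : Fin k) (u : U), u ^ 2 = 1 → (c p u)⁻¹ = c p u := fun p u hu =>
    inv_eq_of_mul_eq_one_right (by rw [← pow_two]; exact hc2 p u hu)
  have hgen : ∀ (p : Fin k) (u : U), u ∈ Q → u ^ 2 = 1 → c p u ∈ E →
      ∀ (i : Fin k) (x : U), x ∈ Q → x ^ 2 = 1 → IsConj x u → c i x ∈ L ⊔ E := by
    intro p u hu hu2 hpE i x hx hx2 hxu
    by_cases hip : i = p
    · obtain ⟨j, hj⟩ : ∃ j : Fin k, j ≠ p := ⟨if p = i₀ then i₁ else i₀, by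
        split_ifs with h
        · exact h ▸ h01.symm
        · exact fun h' => h h'.symm⟩
      have h1 := hpair i j x u (hip ▸ hj.symm) hx hu hx2 hu2 hxu
      have h2 := hpair j p u u hj hu hu hu2 hu2 (IsConj.refl u)
      have h3 : c i x = (c i x * c j u) * (c j u * c p u) * c p u := by
        calc c i x = c i x * ((c j u) * c j u) * ((c p u) * c p u) := by
              rw [← pow_two, ← pow_two, hc2 j u hu2, hc2 p u hu2, mul_one, mul_one]
          _ = _ := by group
      rw [h3]
      exact Subgroup.mul_mem_sup (L.mul_mem h1 h2) hpE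
    · have h3 : c i x = (c i x * c p u) * c p u := by
        rw [mul_assoc, ← pow_two, hc2 p u hu2, mul_one]
      rw [h3]
      exact Subgroup.mul_mem_sup (hpair i p x u hip hx hu hx2 hu2 hxu) hpE
  -- `H ≤ L ⊔ E`
  have hcQ : ∀ (i : Fin k), ∀ u ∈ Q, c i u ∈ L ⊔ E := by
    intro i u hu
    let f : U →* G := Φ.comp ((MonoidHom.inl _ _).comp
      ((SemidirectProduct.inl : (Fin k → U) →* Wr U (Fin k)).comp
        (MonoidHom.mulSingle (fun _ : Fin k => U) i)))
    have hle : Q ≤ (L ⊔ E).comap f := by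
      refine hRQ.ge.trans ?_
      rw [Subgroup.closure_le]
      intro x hx
      have hxQ : x ∈ Q := hRQ.le (Subgroup.subset_closure hx)
      rcases hRc x hx with h | h
      · exact hgen i₀ a ha ha2 hEa i x hxQ (hR2 x hx) h
      · exact hgen i₁ b hb hb2 hEb i x hxQ (hR2 x hx) h
    exact hle hu
  have hHle : H ≤ L ⊔ E := by
    rintro g ⟨⟨w, ε⟩, rfl⟩
    show Φ (wrSubHom Q S w, ε) ∈ L ⊔ E
    have hsplit : ((wrSubHom Q S w, ε) : Wr U (Fin k) × (Fin e → ℤˣ)) =
        (SemidirectProduct.inl (fun l => (w.left l : U)), 1) *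
          (SemidirectProduct.inr (w.right : Equiv.Perm (Fin k)), 1) * (1, ε) := by
      refine Prod.ext ?_ (by simp)
      show wrSubHom Q S w = _ * _ * 1
      rw [mul_one]
      refine SemidirectProduct.ext (funext fun l => ?_) ?_
      · rw [wrSubHom_left, SemidirectProduct.mul_left]
        simp
      · rw [wrSubHom_right, SemidirectProduct.mul_right]
        simp
    rw [hsplit, map_mul, map_mul]
    refine Subgroup.mul_mem _ (Subgroup.mul_mem _ ?_ ?_) (Subgroup.mem_sup_right (hEε ε))
    · let f : (Fin k → U) →* G := Φ.comp ((MonoidHom.inl _ _).comp SemidirectProduct.inl)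
      have key : ∀ (s : Finset (Fin k)) (v : Fin k → U), (∀ l, v l ∈ Q) → (∀ l, l ∉ s → v l = 1) →
          f v ∈ L ⊔ E := by
        intro s
        induction s using Finset.induction_on with
        | empty =>
          intro v _ hv
          rw [show v = 1 from funext fun l => hv l (Finset.notMem_empty l), map_one]
          exact Subgroup.one_mem _
        | @insert r s hrs ih =>
          intro v hvQ hv
          have h : v = Pi.mulSingle r (v r) * Function.update v r 1 := by
            funext l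
            rcases eq_or_ne l r with rfl | hl
            · simp
            · simp [hl]
          rw [h, map_mul]
          refine Subgroup.mul_mem _ (hcQ r _ (hvQ r)) (ih _ (fun l => ?_) fun l hl => ?_)
          · rcases eq_or_ne l r with rfl | hlr
            · simp
            · rw [Function.update_of_ne hlr]; exact hvQ l
          · rcases eq_or_ne l r with rfl | hlr
            · simp
            · rw [Function.update_of_ne hlr]; exact hv l (by simp [hl, hlr])
      exact key Finset.univ _ (fun l => (w.left l).2) fun l hl => absurd (Finset.mem_univ l) hl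
    · let f : Equiv.Perm (Fin k) →* G := Φ.comp ((MonoidHom.inl _ _).comp SemidirectProduct.inr)
      have hle : S ≤ L.comap f := by
        refine hS.ge.trans ?_
        rw [Subgroup.closure_le]
        intro s hs
        refine Subgroup.subset_closure ⟨⟨⟨(SemidirectProduct.inr ⟨s, hs.1⟩, 1), ?_⟩, hperm s⟩, ?_⟩
        · refine congrArg Φ (Prod.ext (SemidirectProduct.ext (funext fun l => ?_) ?_) rfl)
          · show _ = (SemidirectProduct.inr s : Wr U (Fin k)).left l
            simp [wrSubHom_left]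
          · rfl
        · rw [← map_pow, hs.2, map_one]
      exact Subgroup.mem_sup_left (hle w.right.2)
  intro h hh
  have h2 : h ∈ ((L ⊔ E : Subgroup G) : Set G) := hHle hh.1
  rw [Subgroup.coe_mul_of_right_le_normalizer_left L E (hEH.trans hnorm)] at h2
  obtain ⟨l, hl, x, hx, rfl⟩ := Set.mem_mul.1 h2
  refine L.mul_mem hl (Subgroup.subset_closure ⟨⟨hx.1.1, ?_⟩, hx.1.2.1⟩)
  have h3 := (commutator G).mul_mem ((commutator G).inv_mem (hLK hl).2) hh.2
  rwa [inv_mul_cancel_left] at h3

end Core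

end CfsgLib.BrauerPairs
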