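import Cfsg.Agent.Lib.BrauerPairs.OrthWreath

/-!
# `Ω` of the three standard forms over a field of odd order
-/

set_option autoImplicit false

namespace CfsgLib.BrauerPairs.OrthWreath

open CfsgLib.Classes.DerivedWreath CfsgLib.ClassicalForms GLWreath

variable {F : Type*} [Field F] [Fintype F]

theorem exists_dihedral_hom (hF : Odd (Fintype.card F)) :
    ∃ (t : ℕ) (δ : DihedralGroup (2 ^ t) →* orth (sumTwo F)), Function.Injective δ ∧
      t + 1 = v2 (Fintype.card F ^ 2 - 1) := by
  obtain ⟨N, hN, hv, ⟨e⟩⟩ := orth_sumTwo_dihedral hF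
  obtain ⟨M, hM⟩ : 2 ^ v2 N ∣ N := Nat.ordProj_dvd N 2
  have hM0 : M ≠ 0 := fun h => hN (by rw [hM, h, mul_zero])
  subst_vars
  generalize ht : v2 N = t at hM
  subst hM
  refine ⟨t, e.toMonoidHom.comp (dihHom (2 ^ t) M), fun a b h => dihHom_injective hM0 (e.injective h), ?_⟩
  rw [← hv, v2_mul two_ne_zero hN, ht]
  simp only [v2, Nat.prime_two.factorization_self]
  rw [add_comm]

variable {k e : ℕ} {c : Fin e → F}

/-- The Sylow-type subgroup of the isometry group of an equivalent form. -/
theorem key (hF : Odd (Fintype.card F)) {ι : Type} [Fintype ι] [DecidableEq ι] {f : (ι → F) → F}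
    (Q : QuadraticForm F (ι → F)) (hQ : ∀ v, Q v = f v)
    (L : (Fin 2 × Fin k ⊕ Fin e → F) ≃ₗ[F] (ι → F)) (hL : ∀ v, Q (L v) = stdForm F k c v) :
    k * v2 (Fintype.card F ^ 2 - 1) + v2 k.factorial + e ≤ v2 (Nat.card (orth Q)) ∧
      (2 ≤ k → v2 (Nat.card (orth Q)) = k * v2 (Fintype.card F ^ 2 - 1) + v2 k.factorial + e →
        ∀ P : Sylow 2 (Cfsg.Omega F f), AbElem (P : Subgroup (Cfsg.Omega F f))) := by
  classical
  haveI : Fact (Nat.Prime 2) := ⟨Nat.prime_two⟩
  have h2 : (2 : F) ≠ 0 := two_ne_zero_of_odd (by rwa [Nat.card_eq_fintype_card])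
  obtain ⟨t, δ, hδ, ht⟩ := exists_dihedral_hom hF
  obtain ⟨S, hgS, -, hSc⟩ := exists_sylow_perm k
  let iso : orth (stdForm F k c) ≃* Cfsg.isometryGroup F f := (orthCongr L hL).trans (isoMat Q hQ).symm
  let Φ : Wr (orth (sumTwo F)) (Fin k) × (Fin e → ℤˣ) →* Cfsg.isometryGroup F f :=
    iso.toMonoidHom.comp (toOrth c)
  have hΦ : Function.Injective Φ := fun a b h => toOrth_injective h2 (iso.injective h)
  have hcardG : Nat.card (Cfsg.isometryGroup F f) = Nat.card (orth Q) :=
    Nat.card_congr (isoMat Q hQ).toEquiv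
  let D : Subgroup (orth (sumTwo F)) := δ.range
  have hinj : Function.Injective (Φ.comp ((wrSubHom D S).prodMap (MonoidHom.id (Fin e → ℤˣ)))) := by
    intro a b h
    have h' := hΦ h
    have h1' : wrSubHom D S a.1 = wrSubHom D S b.1 :=
      congrArg (fun z : Wr (orth (sumTwo F)) (Fin k) × (Fin e → ℤˣ) => z.1) h'
    have h2' : a.2 = b.2 := congrArg (fun z : Wr (orth (sumTwo F)) (Fin k) × (Fin e → ℤˣ) => z.2) h'
    exact Prod.ext (wrSubHom_injective D S h1') h2'
  have hcard : Nat.card (wrImage Φ D S) =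
      2 ^ (k * v2 (Fintype.card F ^ 2 - 1) + v2 k.factorial + e) := by
    rw [wrImage, ← Nat.card_congr (MonoidHom.ofInjective hinj).toEquiv, Nat.card_prod, natCard_wrSub,
      hSc, ← Nat.card_congr (MonoidHom.ofInjective hδ).toEquiv, DihedralGroup.nat_card, Nat.card_fun,
      Nat.card_fin, Nat.card_fin, Nat.card_eq_fintype_card (α := ℤˣ), Fintype.card_units_int,
      ← pow_succ', ht, ← pow_mul, ← pow_add, ← pow_add]
    rw [mul_comm]
    rfl
  constructor
  · rw [← hcardG]
    exact (Nat.prime_two.pow_dvd_iff_le_factorization Nat.card_pos.ne').1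
      (hcard ▸ Subgroup.card_subgroup_dvd_card _)
  · intro hk hv P
    haveI : NeZero (2 ^ t) := ⟨by positivity⟩
    have hgen := genPow_wrImage_inf_commutator Φ hk D S (δ (DihedralGroup.sr 0)) (δ (DihedralGroup.sr 1))
      ⟨_, rfl⟩ ⟨_, rfl⟩ (by rw [← map_pow, pow_two, DihedralGroup.sr_mul_self, map_one])
      (by rw [← map_pow, pow_two, DihedralGroup.sr_mul_self, map_one])
      (δ '' Set.range DihedralGroup.sr)
      (by rw [← MonoidHom.map_closure, closure_sr, ← MonoidHom.range_eq_map])
      (by rintro _ ⟨_, ⟨i, rfl⟩, rfl⟩; rw [← map_pow, pow_two, DihedralGroup.sr_mul_self, map_one])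
      (by
        rintro _ ⟨_, ⟨i, rfl⟩, rfl⟩
        rcases isConj_sr i with h | h
        · exact Or.inl (δ.map_isConj h)
        · exact Or.inr (δ.map_isConj h))
      hgS (fun σ => by
        have h := Subgroup.mem_map_of_mem iso.toMonoidHom (toOrth_perm_mem_commutator (c := c) σ)
        rw [commutator_def, Subgroup.map_commutator] at h
        exact Subgroup.commutator_mono le_top le_top h)
    obtain ⟨eR⟩ := equiv_inf_sylow
      (Sylow.ofCard (wrImage Φ D S) (by
        rw [hcard, hcardG]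
        exact congrArg (2 ^ ·) hv.symm))
      (commutator (Cfsg.isometryGroup F f)) P
    intro x
    exact pow_mem_commutator_of_genPow hgen eR x

/-- An orthogonal basis with all norms one except possibly one, which is `ν`. -/
theorem exists_coords (h2 : (2 : F) ≠ 0) {V : Type*} [AddCommGroup V] [Module F V] [FiniteDimensional F V]
    (Q : QuadraticForm F V) (hQ : Nondeg Q) {n : ℕ} (hn : Module.finrank F V = n + 1) (ν : F)
    (hν : ¬ IsSquare ν) :
    ∃ d : F, (d = 1 ∨ d = ν) ∧ ∀ (κ : Type) [Fintype κ] [DecidableEq κ] (w : κ → F) (r : κ),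
      Fintype.card κ = n + 1 → (∀ i, i ≠ r → w i = 1) → w r = d →
        ∃ L : (κ → F) ≃ₗ[F] V, ∀ v, Q (L v) = QuadraticMap.weightedSumSquares F w v := by
  classical
  haveI : Invertible (2 : F) := invertibleOfNonzero h2
  let B : LinearMap.BilinForm F V := QuadraticMap.associated Q
  have hBQ : ∀ x, B x x = Q x := fun x => QuadraticMap.associated_eq_self_apply _ Q x
  have hS : B.IsSymm := ⟨fun x y => by
    simp only [B, QuadraticMap.associated_apply, RingHom.id_apply]
    rw [add_comm x y]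
    congr 1
    abel⟩
  have hsep : ∀ x, (∀ y, B x y = 0) → x = 0 := fun x hx => hQ x fun y => by
    have h := hx y
    simp only [B, QuadraticMap.associated_apply] at h
    rw [smul_eq_zero] at h
    rcases h with h | h
    · exact absurd h (by
        first
        | exact (isUnit_of_invertible (⅟(2 : Module.End F F))).ne_zero
        | exact Invertible.ne_zero _)
    · exact h
  have hnd : B.Nondegenerate := ⟨hsep, fun y hy => hsep y fun x => (hS.eq y x).trans (hy x)⟩
  obtain ⟨b, ho, h1, hl⟩ := CfsgLib.Forms.exists_orthogonal_basis_one h2 B hS hnd hn ν hν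
  refine ⟨Q (b (Fin.last n)), by rw [← hBQ]; exact hl, fun κ _ _ w r hκ hw hr => ?_⟩
  let ep : Fin (n + 1) ≃ κ :=
    ((Fintype.equivFinOfCardEq hκ).symm).trans
      (Equiv.swap ((Fintype.equivFinOfCardEq hκ).symm (Fin.last n)) r)
  have hep : ep (Fin.last n) = r := by simp [ep]
  refine ⟨(b.reindex ep).equivFun.symm, fun v => ?_⟩
  have hort : (QuadraticMap.associated (R := F) Q).IsOrthoᵢ (b.reindex ep) := fun i j hij => by
    show B (b.reindex ep i) (b.reindex ep j) = 0
    rw [Module.Basis.reindex_apply, Module.Basis.reindex_apply]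
    exact ho _ _ fun h => hij (ep.symm.injective h)
  have h := congrArg (fun q : QuadraticForm F (κ → F) => q v)
    (QuadraticMap.basisRepr_eq_of_iIsOrtho Q (b.reindex ep) hort)
  simp only [QuadraticMap.basisRepr_apply] at h
  rw [Module.Basis.equivFun_symm_apply, h]
  refine congrArg (fun u => QuadraticMap.weightedSumSquares F u v) (funext fun i => ?_)
  rw [Module.Basis.reindex_apply]
  rcases eq_or_ne i r with rfl | hi
  · rw [show ep.symm i = Fin.last n from (Equiv.symm_apply_eq ep).2 hep.symm, hr]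
  · rw [hw i hi, ← hBQ]
    exact h1 _ fun he => hi (by rw [← hep, ← he, ep.apply_symm_apply])

theorem exists_not_square (h2 : (2 : F) ≠ 0) : ∃ ν : F, ¬ IsSquare ν :=
  FiniteField.exists_nonsquare fun h => h2 (by
    haveI := ringChar.eq_iff.1 h
    exact CharTwo.two_eq_zero)

/-- Odd dimension. -/
theorem abElem_omega_odd (hF : Odd (Fintype.card F)) (m : ℕ) (hm : 2 ≤ m)
    (P : Sylow 2 (Cfsg.Omega F (Cfsg.quadFormOdd m F))) :
    AbElem (P : Subgroup (Cfsg.Omega F (Cfsg.quadFormOdd m F))) := by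
  classical
  have h2 : (2 : F) ≠ 0 := two_ne_zero_of_odd (by rwa [Nat.card_eq_fintype_card])
  have hq : 1 < Fintype.card F := Fintype.one_lt_card
  obtain ⟨ν, hν⟩ := exists_not_square h2
  obtain ⟨d, -, hd⟩ := exists_coords h2 (qOdd m F) (nondeg_qOdd h2 m) (n := 2 * m)
    (by rw [Module.finrank_fintype_fun_eq_card]; simp; ring) ν hν
  obtain ⟨L, hL⟩ := hd (Fin 2 × Fin m ⊕ Fin 1) (Sum.elim (fun _ => (1 : F)) fun _ => d) (Sum.inr 0)
    (by simp) (fun i hi => by
      rcases i with i | i
      · rfl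
      · exact absurd (congrArg Sum.inr (Subsingleton.elim i 0)) hi) rfl
  refine (key hF (qOdd m F) (qOdd_apply m) L hL).2 hm ?_ P
  have hc : Nat.card (orth (qOdd m F)) = 2 * Fintype.card F ^ (m ^ 2) *
      ∏ i ∈ Finset.range m, (Fintype.card F ^ (2 * (i + 1)) - 1) := by
    have h := card_orth_qOdd (F := F) h2 m
    rw [Nat.card_eq_fintype_card (α := F)] at h
    apply Nat.cast_injective (R := ℤ)
    rw [h]
    push_cast [Nat.one_le_pow _ _ (Fintype.card_pos (α := F))]
    rfl
  have hprod : ∀ n : ℕ, v2 (∏ i ∈ Finset.range n, (Fintype.card F ^ (2 * (i + 1)) - 1)) =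
      n * v2 (Fintype.card F ^ 2 - 1) + v2 n.factorial := by
    intro n
    induction n with
    | zero => simp [v2]
    | succ n ih =>
      rw [Finset.prod_range_succ, v2_mul (Finset.prod_ne_zero_iff.2 fun i _ =>
        v2_pow_sub_one_ne_zero hq _ (by omega)) (v2_pow_sub_one_ne_zero hq _ (by omega)), ih,
        v2_pow_even hq hF (Nat.succ_ne_zero n), Nat.factorial_succ,
        v2_mul (Nat.succ_ne_zero n) (Nat.factorial_ne_zero n)]
      ring
  rw [hc, v2_mul (mul_ne_zero two_ne_zero (pow_ne_zero _ (by omega)))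
    (Finset.prod_ne_zero_iff.2 fun i _ => v2_pow_sub_one_ne_zero hq _ (by omega)),
    v2_mul two_ne_zero (pow_ne_zero _ (by omega)), hprod]
  simp only [v2, Nat.prime_two.factorization_self]
  rw [Nat.factorization_eq_zero_of_not_dvd hF.pow.not_two_dvd_nat]
  ring

end CfsgLib.BrauerPairs.OrthWreath
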