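import Cfsg.Agent.Lib.BrauerPairs.OrthOmega

/-!
# `Ω` of the even dimensional forms over a field of odd order
-/

set_option autoImplicit false

namespace CfsgLib.BrauerPairs.OrthWreath

open CfsgLib.ClassicalForms GLWreath

variable {F : Type*} [Field F] [Fintype F]

/-- Either `m` planes, or `m - 1` planes and the norms `1, ν`. -/
theorem exists_even_coords (h2 : (2 : F) ≠ 0) {ι : Type} [Fintype ι] [DecidableEq ι]
    (Q : QuadraticForm F (ι → F)) (hQ : Nondeg Q) (m : ℕ) (hι : Fintype.card ι = 2 * (m + 1))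
    (ν : F) (hν : ¬ IsSquare ν) :
    (∃ L : (Fin 2 × Fin (m + 1) ⊕ Fin 0 → F) ≃ₗ[F] (ι → F),
        ∀ v, Q (L v) = stdForm F (m + 1) (Fin.elim0 : Fin 0 → F) v) ∨
      ∃ L : (Fin 2 × Fin m ⊕ Fin 2 → F) ≃ₗ[F] (ι → F), ∀ v, Q (L v) = stdForm F m ![1, ν] v := by
  obtain ⟨d, hd1, hd⟩ := exists_coords h2 Q hQ (n := 2 * m + 1)
    (by rw [Module.finrank_fintype_fun_eq_card, hι]; ring) ν hν
  rcases hd1 with rfl | rfl
  · exact Or.inl (hd _ (Sum.elim (fun _ => (1 : F)) Fin.elim0) (Sum.inl (0, 0)) (by simp; ring)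
      (fun i _ => by rcases i with i | i <;> [rfl; exact i.elim0]) rfl)
  · refine Or.inr (hd _ (Sum.elim (fun _ => (1 : F)) ![1, d]) (Sum.inr 1) (by simp)
      (fun i hi => ?_) rfl)
    rcases i with i | i
    · rfl
    · fin_cases i
      · rfl
      · exact absurd rfl hi

theorem aniso_zero_neg {ν : F} (hν : ¬ IsSquare ν) : Aniso (0 : F) (-ν) := by
  intro z₁ z₂ hz
  rw [zero_mul, zero_mul, add_zero] at hz
  by_cases h2 : z₂ = 0
  · subst h2; exact ⟨by simpa using hz, rfl⟩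
  · exact absurd ⟨z₁ / z₂, by field_simp; linear_combination -hz⟩ hν

theorem v2_prod_range (hF : Odd (Fintype.card F)) : ∀ n : ℕ,
    v2 (∏ i ∈ Finset.range n, (Fintype.card F ^ (2 * (i + 1)) - 1)) =
      n * v2 (Fintype.card F ^ 2 - 1) + v2 n.factorial := by
  intro n
  have hq : 1 < Fintype.card F := Fintype.one_lt_card
  induction n with
  | zero => simp [v2]
  | succ n ih =>
    rw [Finset.prod_range_succ, v2_mul (Finset.prod_ne_zero_iff.2 fun i _ =>
      v2_pow_sub_one_ne_zero hq _ (by omega)) (v2_pow_sub_one_ne_zero hq _ (by omega)), ih,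
      v2_pow_even hq hF (Nat.succ_ne_zero n), Nat.factorial_succ,
      v2_mul (Nat.succ_ne_zero n) (Nat.factorial_ne_zero n)]
    ring

theorem card_qPlus (m : ℕ) :
    Nat.card (orth (qPlus (m + 1) F)) = 2 * Fintype.card F ^ ((m + 1) * m) *
      (Fintype.card F ^ (m + 1) - 1) * ∏ i ∈ Finset.range m, (Fintype.card F ^ (2 * (i + 1)) - 1) := by
  have h := card_orth_qPlus (F := F) (m + 1) (Nat.le_add_left 1 m)
  simp only [Nat.add_sub_cancel, Nat.card_eq_fintype_card (α := F)] at h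
  apply Nat.cast_injective (R := ℤ)
  rw [h]
  push_cast [Nat.one_le_pow _ _ (Fintype.card_pos (α := F))]
  rfl

theorem card_qMinus {a b : F} (hab : Aniso a b) (m : ℕ) :
    Nat.card (orth (qMinus m F a b)) = 2 * Fintype.card F ^ ((m + 1) * m) *
      (Fintype.card F ^ (m + 1) + 1) * ∏ i ∈ Finset.range m, (Fintype.card F ^ (2 * (i + 1)) - 1) := by
  have h := card_orth_qMinus (F := F) hab m
  simp only [Nat.card_eq_fintype_card (α := F)] at h
  apply Nat.cast_injective (R := ℤ)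
  rw [h]
  push_cast [Nat.one_le_pow _ _ (Fintype.card_pos (α := F))]
  rfl

theorem v2_card_form (hF : Odd (Fintype.card F)) (m x : ℕ) (hx : x ≠ 0) :
    v2 (2 * Fintype.card F ^ ((m + 1) * m) * x *
      ∏ i ∈ Finset.range m, (Fintype.card F ^ (2 * (i + 1)) - 1)) =
      1 + v2 x + m * v2 (Fintype.card F ^ 2 - 1) + v2 m.factorial := by
  have hq : 1 < Fintype.card F := Fintype.one_lt_card
  have hp : Fintype.card F ^ ((m + 1) * m) ≠ 0 := pow_ne_zero _ (by omega)
  rw [v2_mul (mul_ne_zero (mul_ne_zero two_ne_zero hp) hx)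
      (Finset.prod_ne_zero_iff.2 fun i _ => v2_pow_sub_one_ne_zero hq _ (by omega)),
    v2_mul (mul_ne_zero two_ne_zero hp) hx, v2_mul two_ne_zero hp, v2_prod_range hF]
  simp only [v2, Nat.prime_two.factorization_self]
  rw [Nat.factorization_eq_zero_of_not_dvd hF.pow.not_two_dvd_nat]
  ring

theorem v2_twice_odd {n : ℕ} (h : n % 4 = 2) : v2 n = 1 := by
  rw [show n = 2 * (n / 2) by omega, v2_mul two_ne_zero (by omega)]
  simp only [v2, Nat.prime_two.factorization_self]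
  rw [Nat.factorization_eq_zero_of_not_dvd (by omega)]

theorem factorial_step (m : ℕ) : v2 (m + 1).factorial = v2 (m + 1) + v2 m.factorial := by
  rw [Nat.factorial_succ, v2_mul (Nat.succ_ne_zero m) (Nat.factorial_ne_zero m)]

/-- Common treatment of a pair of forms of the same rank and of distinct orders. -/
theorem abElem_of_pair (hF : Odd (Fintype.card F)) {ι ι' : Type} [Fintype ι] [DecidableEq ι]
    [Fintype ι'] [DecidableEq ι'] {f : (ι → F) → F} (Q : QuadraticForm F (ι → F)) (hQ : ∀ v, Q v = f v)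
    {f' : (ι' → F) → F} (Q' : QuadraticForm F (ι' → F)) (hQ' : ∀ v, Q' v = f' v)
    (hnd : Nondeg Q) (hnd' : Nondeg Q') (m : ℕ) (hι : Fintype.card ι = 2 * (m + 1))
    (hι' : Fintype.card ι' = 2 * (m + 1)) (x y : ℕ)
    (hxc : v2 (Nat.card (orth Q)) = 1 + v2 x + m * v2 (Fintype.card F ^ 2 - 1) + v2 m.factorial)
    (hyc : v2 (Nat.card (orth Q')) = 1 + v2 y + m * v2 (Fintype.card F ^ 2 - 1) + v2 m.factorial)
    (hne : Nat.card (orth Q) ≠ Nat.card (orth Q'))
    (hsum : v2 x + v2 y = v2 (Fintype.card F ^ 2 - 1) + v2 (m + 1)) (hone : v2 x = 1 ∨ v2 y = 1)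
    (hm : 1 ≤ m) (hsmall : v2 x = 1 → 2 ≤ m) (P : Sylow 2 (Cfsg.Omega F f)) :
    AbElem (P : Subgroup (Cfsg.Omega F f)) := by
  have h2 : (2 : F) ≠ 0 := two_ne_zero_of_odd (by rwa [Nat.card_eq_fintype_card])
  obtain ⟨ν, hν⟩ := exists_not_square h2
  have hq : 1 < Fintype.card F := Fintype.one_lt_card
  have hvq : 3 ≤ v2 (Fintype.card F ^ 2 - 1) := by
    refine (Nat.prime_two.pow_dvd_iff_le_factorization (v2_pow_sub_one_ne_zero hq 2 two_ne_zero)).1 ?_
    obtain ⟨u, hu⟩ := hF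
    rw [hu, show (2 * u + 1) ^ 2 - 1 = 4 * (u * (u + 1)) by
      rw [show (2 * u + 1) ^ 2 = 4 * (u * (u + 1)) + 1 by ring, Nat.add_sub_cancel],
      show (2 : ℕ) ^ 3 = 4 * 2 by norm_num]
    exact mul_dvd_mul_left 4 (Nat.even_mul_succ_self u).two_dvd
  have hfac := factorial_step m
  have hbig : v2 x ≠ 1 ↔ 2 ≤ v2 x := by omega
  rcases exists_even_coords h2 Q hnd m hι ν hν with ⟨L, hL⟩ | ⟨L, hL⟩
  · obtain ⟨hle, hres⟩ := key hF Q hQ L hL
    rw [hxc, hfac, Nat.succ_mul] at hle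
    refine hres (by omega) ?_ P
    rw [hxc, hfac, Nat.succ_mul]
    omega
  · by_cases hx : v2 x = 1
    · obtain ⟨-, hres⟩ := key hF Q hQ L hL
      refine hres (hsmall hx) ?_ P
      rw [hxc, hx]
      omega
    · exfalso
      rcases exists_even_coords h2 Q' hnd' m hι' ν hν with ⟨L', hL'⟩ | ⟨L', hL'⟩
      · have hle := (key hF Q' hQ' L' hL').1
        rw [hyc, hfac, Nat.succ_mul] at hle
        omega
      · refine hne ?_
        exact (Nat.card_congr (orthCongr L hL).toEquiv).symm.trans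
          (Nat.card_congr (orthCongr L' hL').toEquiv)

theorem v2_plus_minus (hF : Odd (Fintype.card F)) (m : ℕ) :
    v2 (Fintype.card F ^ (m + 1) - 1) + v2 (Fintype.card F ^ (m + 1) + 1) =
        v2 (Fintype.card F ^ 2 - 1) + v2 (m + 1) ∧
      (v2 (Fintype.card F ^ (m + 1) - 1) = 1 ∨ v2 (Fintype.card F ^ (m + 1) + 1) = 1) ∧
      (Even (m + 1) → v2 (Fintype.card F ^ (m + 1) + 1) = 1) := by
  have hq : 1 < Fintype.card F := Fintype.one_lt_card
  have ho : Fintype.card F ^ (m + 1) % 2 = 1 := Nat.odd_iff.1 hF.pow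
  refine ⟨?_, ?_, ?_⟩
  · rw [← v2_mul (v2_pow_sub_one_ne_zero hq _ (Nat.succ_ne_zero m)) (Nat.succ_ne_zero _),
      ← v2_pow_even hq hF (Nat.succ_ne_zero m)]
    congr 1
    rw [show 2 * (m + 1) = (m + 1) * 2 by ring, pow_mul, mul_comm]
    exact (Nat.sq_sub_sq _ 1).symm
  · rcases (show Fintype.card F ^ (m + 1) % 4 = 1 ∨ Fintype.card F ^ (m + 1) % 4 = 3 by omega) with h | h
    · exact Or.inr (v2_twice_odd (by omega))
    · exact Or.inl (v2_twice_odd (by omega))
  · rintro ⟨w, hw⟩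
    have h : Fintype.card F ^ (m + 1) % 4 = 1 := by
      rw [hw, ← two_mul, pow_mul, Nat.pow_mod]
      have h4 : Fintype.card F ^ 2 % 4 = 1 := by
        obtain ⟨u, hu⟩ := hF
        rw [hu, show (2 * u + 1) ^ 2 = 4 * (u * (u + 1)) + 1 by ring, Nat.mul_add_mod]
      rw [h4, one_pow]
      norm_num
    exact v2_twice_odd (by omega)

theorem abElem_omega_plus (hF : Odd (Fintype.card F)) (m : ℕ) (hm : 1 ≤ m)
    (hm' : Even (m + 1) ∨ 2 ≤ m) (P : Sylow 2 (Cfsg.Omega F (Cfsg.quadFormPlus (m + 1) F))) :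
    AbElem (P : Subgroup (Cfsg.Omega F (Cfsg.quadFormPlus (m + 1) F))) := by
  have h2 : (2 : F) ≠ 0 := two_ne_zero_of_odd (by rwa [Nat.card_eq_fintype_card])
  obtain ⟨ν, hν⟩ := exists_not_square h2
  have hq : 1 < Fintype.card F := Fintype.one_lt_card
  have ha := aniso_zero_neg hν
  obtain ⟨hsum, hone, heven⟩ := v2_plus_minus hF m
  refine abElem_of_pair hF (qPlus (m + 1) F) (qPlus_apply (m + 1)) (qMinus m F 0 (-ν))
    (qMinus_apply m 0 (-ν)) (nondeg_qPlus _) (nondeg_qMinus ha m) m (by simp; ring) (by simp; ring)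
    (Fintype.card F ^ (m + 1) - 1) (Fintype.card F ^ (m + 1) + 1) ?_ ?_ ?_ hsum hone hm ?_ P
  · rw [card_qPlus, v2_card_form hF m _ (v2_pow_sub_one_ne_zero hq _ (Nat.succ_ne_zero m))]
  · rw [card_qMinus ha, v2_card_form hF m _ (Nat.succ_ne_zero _)]
  · rw [card_qPlus, card_qMinus ha]
    intro h
    have hp : 2 * Fintype.card F ^ ((m + 1) * m) ≠ 0 := mul_ne_zero two_ne_zero (pow_ne_zero _ (by omega))
    have h' := Nat.eq_of_mul_eq_mul_right (Nat.pos_of_ne_zero (Finset.prod_ne_zero_iff.2 fun i _ =>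
      v2_pow_sub_one_ne_zero hq _ (by omega))) h
    have := Nat.eq_of_mul_eq_mul_left (Nat.pos_of_ne_zero hp) h'
    omega
  · intro hx
    rcases hm' with he | h
    · have hvq : 2 ≤ v2 (Fintype.card F ^ 2 - 1) := by
        refine (Nat.prime_two.pow_dvd_iff_le_factorization (v2_pow_sub_one_ne_zero hq 2 two_ne_zero)).1 ?_
        obtain ⟨u, hu⟩ := hF
        exact ⟨u * (u + 1), by
          rw [hu, show (2 * u + 1) ^ 2 = 4 * (u * (u + 1)) + 1 by ring, Nat.add_sub_cancel]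
          norm_num⟩
      have := heven he
      have : 1 ≤ v2 (m + 1) :=
        (Nat.prime_two.pow_dvd_iff_le_factorization (Nat.succ_ne_zero m)).1 (by simpa using he.two_dvd)
      omega
    · exact h

theorem abElem_omega_minus (hF : Odd (Fintype.card F)) (m : ℕ) (hm : 2 ≤ m) {a b : F}
    (hab : Aniso a b) (P : Sylow 2 (Cfsg.Omega F (Cfsg.quadFormMinus m F a b))) :
    AbElem (P : Subgroup (Cfsg.Omega F (Cfsg.quadFormMinus m F a b))) := by
  have hq : 1 < Fintype.card F := Fintype.one_lt_card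
  obtain ⟨hsum, hone, -⟩ := v2_plus_minus hF m
  refine abElem_of_pair hF (qMinus m F a b) (qMinus_apply m a b) (qPlus (m + 1) F)
    (qPlus_apply (m + 1)) (nondeg_qMinus hab m) (nondeg_qPlus _) m (by simp; ring) (by simp; ring)
    (Fintype.card F ^ (m + 1) + 1) (Fintype.card F ^ (m + 1) - 1) ?_ ?_ ?_ (by rw [add_comm]; exact hsum)
    hone.symm (by omega) (fun _ => hm) P
  · rw [card_qMinus hab, v2_card_form hF m _ (Nat.succ_ne_zero _)]
  · rw [card_qPlus, v2_card_form hF m _ (v2_pow_sub_one_ne_zero hq _ (Nat.succ_ne_zero m))]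
  · rw [card_qPlus, card_qMinus hab]
    intro h
    have hp : 2 * Fintype.card F ^ ((m + 1) * m) ≠ 0 := mul_ne_zero two_ne_zero (pow_ne_zero _ (by omega))
    have h' := Nat.eq_of_mul_eq_mul_right (Nat.pos_of_ne_zero (Finset.prod_ne_zero_iff.2 fun i _ =>
      v2_pow_sub_one_ne_zero hq _ (by omega))) h
    have := Nat.eq_of_mul_eq_mul_left (Nat.pos_of_ne_zero hp) h'
    omega

end CfsgLib.BrauerPairs.OrthWreath
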