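import Cfsg.Agent.Lib.BrauerPairs.OmegaAbElem
import Cfsg.Agent.Lib.BrauerPairs.GLWreath
import Cfsg.Agent.Lib.ClassicalForms.Ortho.Dihedral
import Cfsg.Agent.Lib.Forms.SymmOrtho

/-!
# A Sylow `2`-subgroup of an orthogonal group as a wreath product of dihedral groups and signs
-/

set_option autoImplicit false

namespace CfsgLib.BrauerPairs.OrthWreath

open CfsgLib.Classes.DerivedWreath CfsgLib.ClassicalForms

section Embedding

variable (F : Type*) [Field F]

/-- The binary sum of two squares. -/
abbrev sumTwo : QuadraticForm F (Fin 2 → F) := binForm 0 1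

/-- `k` copies of a sum of two squares and the extra coefficients `c`. -/
def stdForm (k : ℕ) {e : ℕ} (c : Fin e → F) : QuadraticForm F (Fin 2 × Fin k ⊕ Fin e → F) :=
  QuadraticMap.weightedSumSquares F (Sum.elim (fun _ => (1 : F)) c)

variable {F} {k e : ℕ} {c : Fin e → F}

theorem stdForm_apply (v : Fin 2 × Fin k ⊕ Fin e → F) :
    stdForm F k c v = (∑ i : Fin k, sumTwo F (fun b => v (.inl (b, i)))) +
      ∑ j, c j * (v (.inr j) * v (.inr j)) := by
  rw [stdForm, QuadraticMap.weightedSumSquares_apply, Fintype.sum_sum_type, Fintype.sum_prod_type_right]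
  refine congrArg₂ (· + ·) (Finset.sum_congr rfl fun i _ => ?_) (Finset.sum_congr rfl fun j _ => rfl)
  rw [Fin.sum_univ_two, binForm_apply]
  simp [pow_two]

/-- The action of the wreath product and the signs. -/
def actFun (x : Wr (orth (sumTwo F)) (Fin k) × (Fin e → ℤˣ)) :
    (Fin 2 × Fin k ⊕ Fin e → F) →ₗ[F] (Fin 2 × Fin k ⊕ Fin e → F) where
  toFun v := Sum.elim
    (fun p => ((x.1.left p.2 : orth (sumTwo F)) : (Fin 2 → F) ≃ₗ[F] (Fin 2 → F))
      (fun b => v (.inl (b, x.1.right.symm p.2))) p.1)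
    (fun j => ((x.2 j : ℤ) : F) * v (.inr j))
  map_add' v w := funext fun p => by
    rcases p with ⟨a, i⟩ | j
    · simp only [Sum.elim_inl, Pi.add_apply]
      exact congrFun (map_add ((x.1.left i : orth (sumTwo F)) : (Fin 2 → F) ≃ₗ[F] (Fin 2 → F))
        (fun b => v (.inl (b, x.1.right.symm i))) (fun b => w (.inl (b, x.1.right.symm i)))) a
    · simp [mul_add]
  map_smul' r v := funext fun p => by
    rcases p with ⟨a, i⟩ | j
    · simp only [Sum.elim_inl, Pi.smul_apply, RingHom.id_apply]
      exact congrFun (map_smul ((x.1.left i : orth (sumTwo F)) : (Fin 2 → F) ≃ₗ[F] (Fin 2 → F))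
        r (fun b => v (.inl (b, x.1.right.symm i)))) a
    · simp [mul_left_comm]

theorem actFun_inl (x : Wr (orth (sumTwo F)) (Fin k) × (Fin e → ℤˣ))
    (v : Fin 2 × Fin k ⊕ Fin e → F) (a : Fin 2) (i : Fin k) :
    actFun x v (.inl (a, i)) = ((x.1.left i : orth (sumTwo F)) : (Fin 2 → F) ≃ₗ[F] (Fin 2 → F))
      (fun b => v (.inl (b, x.1.right.symm i))) a := rfl

theorem actFun_inr (x : Wr (orth (sumTwo F)) (Fin k) × (Fin e → ℤˣ))
    (v : Fin 2 × Fin k ⊕ Fin e → F) (j : Fin e) :
    actFun x v (.inr j) = ((x.2 j : ℤ) : F) * v (.inr j) := rfl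

theorem actFun_one (v : Fin 2 × Fin k ⊕ Fin e → F) :
    actFun (1 : Wr (orth (sumTwo F)) (Fin k) × (Fin e → ℤˣ)) v = v := funext fun p => by
  rcases p with ⟨a, i⟩ | j
  · rfl
  · simp [actFun_inr]

theorem actFun_mul (x y : Wr (orth (sumTwo F)) (Fin k) × (Fin e → ℤˣ))
    (v : Fin 2 × Fin k ⊕ Fin e → F) : actFun (x * y) v = actFun x (actFun y v) := funext fun p => by
  rcases p with ⟨a, i⟩ | j
  · rw [actFun_inl, actFun_inl]
    rfl
  · simp only [actFun_inr, Prod.snd_mul, Pi.mul_apply, Units.val_mul, Int.cast_mul]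
    ring

/-- The embedding into the orthogonal group. -/
def toOrth (c : Fin e → F) :
    Wr (orth (sumTwo F)) (Fin k) × (Fin e → ℤˣ) →* orth (stdForm F k c) where
  toFun x := ⟨LinearEquiv.ofLinear (actFun x) (actFun x⁻¹)
      (LinearMap.ext fun v => (actFun_mul _ _ v).symm.trans (by rw [mul_inv_cancel]; exact actFun_one v))
      (LinearMap.ext fun v => (actFun_mul _ _ v).symm.trans (by rw [inv_mul_cancel]; exact actFun_one v)),
      fun v => by
    show stdForm F k c (actFun x v) = stdForm F k c v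
    rw [stdForm_apply, stdForm_apply]
    refine congrArg₂ (· + ·) ?_ (Finset.sum_congr rfl fun j _ => ?_)
    · refine Fintype.sum_equiv x.1.right.symm _ _ fun i => ?_
      exact orth_apply (x.1.left i) _
    · rw [actFun_inr]
      rcases Int.units_eq_one_or (x.2 j) with h | h <;> rw [h] <;> simp⟩
  map_one' := orth_ext fun v => actFun_one v
  map_mul' x y := orth_ext fun v => actFun_mul x y v

theorem toOrth_apply (x : Wr (orth (sumTwo F)) (Fin k) × (Fin e → ℤˣ))
    (v : Fin 2 × Fin k ⊕ Fin e → F) :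
    ((toOrth c x : orth (stdForm F k c)) : _ ≃ₗ[F] (Fin 2 × Fin k ⊕ Fin e → F)) v = actFun x v := rfl

theorem toOrth_injective (h2 : (2 : F) ≠ 0) :
    Function.Injective (toOrth (k := k) (e := e) c) := by
  classical
  rw [injective_iff_map_eq_one]
  intro x hx
  have h : ∀ v, actFun x v = v := fun v => by
    rw [← toOrth_apply (c := c) x v, hx]
    rfl
  have hσ : x.1.right = 1 := by
    refine Equiv.ext fun i => ?_
    by_contra hi
    have h1 := congrFun (h (Pi.single (.inl (0, x.1.right i)) 1)) (.inl (0, i))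
    rw [actFun_inl] at h1
    have h3 := congrFun (h (Pi.single (.inl (0, i)) 1)) (.inl (0, i))
    rw [actFun_inl] at h3
    have hne : x.1.right.symm i ≠ i := fun he => hi (by
      show x.1.right i = i
      conv_lhs => rw [← he]
      exact Equiv.apply_symm_apply _ _)
    rw [show (fun b => (Pi.single (Sum.inl (0, i)) (1 : F) : Fin 2 × Fin k ⊕ Fin e → F)
      (.inl (b, x.1.right.symm i))) = 0 from funext fun b => by simp [hne], map_zero] at h3
    simp at h3
  refine Prod.ext (SemidirectProduct.ext (funext fun i => orth_ext fun w => funext fun a => ?_) hσ)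
    (funext fun j => Units.ext ?_)
  · have h1 := congrFun (h (Sum.elim (fun p => w p.1) 0)) (.inl (a, i))
    rw [actFun_inl] at h1
    simpa using h1
  · have h1 := congrFun (h (Pi.single (.inr j) 1)) (.inr j)
    rw [actFun_inr] at h1
    rcases Int.units_eq_one_or (x.2 j) with hj | hj
    · exact congrArg Units.val hj
    · rw [hj] at h1
      simp only [Units.val_neg, Units.val_one, Int.cast_neg, Int.cast_one, Pi.single_eq_same,
        mul_one] at h1
      exact absurd (by linear_combination -h1 : (2 : F) = 0) h2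

/-- Coordinate permutations. -/
def permOrth (c : Fin e → F) : Equiv.Perm (Fin 2 × Fin k) →* orth (stdForm F k c) where
  toFun ρ := ⟨LinearEquiv.funCongrLeft F F (Equiv.sumCongr ρ (Equiv.refl (Fin e))).symm, fun v => by
    rw [stdForm, QuadraticMap.weightedSumSquares_apply, QuadraticMap.weightedSumSquares_apply]
    refine Fintype.sum_equiv (Equiv.sumCongr ρ (Equiv.refl (Fin e))).symm _ _ fun p => ?_
    rcases p with p | j <;> rfl⟩
  map_one' := orth_ext fun v => funext fun p => by rcases p with p | j <;> rfl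
  map_mul' ρ τ := orth_ext fun v => funext fun p => by rcases p with p | j <;> rfl

theorem toOrth_perm_mem_commutator (σ : Equiv.Perm (Fin k)) :
    toOrth c (SemidirectProduct.inr σ, (1 : Fin e → ℤˣ)) ∈ commutator (orth (stdForm F k c)) := by
  classical
  have heq : ∀ τ : Equiv.Perm (Fin k), toOrth c (SemidirectProduct.inr τ, (1 : Fin e → ℤˣ)) =
      permOrth c (GLWreath.liftPerm (κ := Fin 2) τ) := fun τ =>
    orth_ext fun v => funext fun p => by
      rcases p with ⟨a, i⟩ | j
      · rfl
      · show actFun _ v (.inr j) = _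
        rw [actFun_inr]
        show ((1 : ℤ) : F) * v (.inr j) = v (.inr j)
        simp
  refine (QuotientGroup.eq_one_iff (N := commutator (orth (stdForm F k c))) _).1 ?_
  show Abelianization.of (toOrth c (SemidirectProduct.inr σ, (1 : Fin e → ℤˣ))) = 1
  let ψ : Equiv.Perm (Fin k) →* Abelianization (orth (stdForm F k c)) :=
    Abelianization.of.comp ((toOrth c).comp ((MonoidHom.inl _ _).comp SemidirectProduct.inr))
  change ψ σ = 1
  induction σ using Equiv.Perm.swap_induction_on with
  | one => exact map_one ψ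
  | swap_mul f i j hij ih =>
    rw [map_mul, ih, mul_one]
    show Abelianization.of (toOrth c (SemidirectProduct.inr (Equiv.swap i j), (1 : Fin e → ℤˣ))) = 1
    rw [heq]
    have hsplit : GLWreath.liftPerm (κ := Fin 2) (Equiv.swap i j) =
        Equiv.swap ((0 : Fin 2), i) (0, j) * Equiv.swap ((1 : Fin 2), i) (1, j) := by
      refine Equiv.ext fun p => ?_
      obtain ⟨a, l⟩ := p
      show (a, Equiv.swap i j l) = _
      fin_cases a <;> simp [Equiv.swap_apply_def] <;> split_ifs <;> simp_all
    let δ : Equiv.Perm (Fin 2 × Fin k) := Equiv.prodCongrLeft fun _ => Equiv.swap (0 : Fin 2) 1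
    have hconj : δ * Equiv.swap ((0 : Fin 2), i) (0, j) * δ⁻¹ = Equiv.swap ((1 : Fin 2), i) (1, j) := by
      rw [← Equiv.swap_apply_apply]
      rfl
    rw [hsplit, ← hconj, map_mul, map_mul, map_mul, map_inv, map_mul, map_mul, map_mul, map_inv,
      mul_inv_cancel_comm, ← map_mul, ← map_mul, Equiv.swap_mul_self, map_one, map_one]

end Embedding

section DihedralPart

/-- The multiplication map `ZMod n → ZMod (n * M)`. -/
def scaleHom (n M : ℕ) : ZMod n →+ ZMod (n * M) :=
  ZMod.lift n ⟨(AddMonoidHom.mulRight (M : ZMod (n * M))).comp (Int.castAddHom _), by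
    show ((n : ℤ) : ZMod (n * M)) * (M : ZMod (n * M)) = 0
    rw [Int.cast_natCast, ← Nat.cast_mul, ZMod.natCast_self]⟩

theorem scaleHom_injective {n M : ℕ} (hM : M ≠ 0) : Function.Injective (scaleHom n M) := by
  rw [injective_iff_map_eq_zero]
  intro x hx
  obtain ⟨z, rfl⟩ := ZMod.intCast_surjective x
  rw [scaleHom, ZMod.lift_coe] at hx
  change ((z : ℤ) : ZMod (n * M)) * (M : ZMod (n * M)) = 0 at hx
  rw [← Int.cast_natCast (R := ZMod (n * M)) M, ← Int.cast_mul, ZMod.intCast_zmod_eq_zero_iff_dvd,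
    Nat.cast_mul] at hx
  rw [ZMod.intCast_zmod_eq_zero_iff_dvd]
  exact (mul_dvd_mul_iff_right (Int.natCast_ne_zero.2 hM)).1 hx

/-- The dihedral subgroup of index `M`. -/
def dihHom (n M : ℕ) : DihedralGroup n →* DihedralGroup (n * M) where
  toFun
    | DihedralGroup.r i => DihedralGroup.r (scaleHom n M i)
    | DihedralGroup.sr i => DihedralGroup.sr (scaleHom n M i)
  map_one' := by
    show DihedralGroup.r (scaleHom n M 0) = 1
    rw [map_zero]; rfl
  map_mul' := by
    rintro (i | i) (j | j) <;> simp [map_add, map_sub]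

theorem dihHom_injective {n M : ℕ} (hM : M ≠ 0) : Function.Injective (dihHom n M) := by
  rintro (i | i) (j | j) h <;> simp only [dihHom, MonoidHom.coe_mk, OneHom.coe_mk] at h
  · rw [scaleHom_injective hM (DihedralGroup.r.inj h)]
  · cases h
  · cases h
  · rw [scaleHom_injective hM (DihedralGroup.sr.inj h)]

theorem isConj_sr {n : ℕ} [NeZero n] (i : ZMod n) :
    IsConj (DihedralGroup.sr i) (DihedralGroup.sr (0 : ZMod n)) ∨
      IsConj (DihedralGroup.sr i) (DihedralGroup.sr (1 : ZMod n)) := by
  obtain ⟨z, rfl⟩ : ∃ z : ℕ, (z : ZMod n) = i := ⟨i.val, ZMod.natCast_zmod_val i⟩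
  rcases Nat.even_or_odd z with ⟨w, rfl⟩ | ⟨w, rfl⟩
  · refine Or.inl (isConj_iff.2 ⟨DihedralGroup.r (w : ZMod n), ?_⟩)
    simp
  · refine Or.inr (isConj_iff.2 ⟨DihedralGroup.r (w : ZMod n), ?_⟩)
    simp [two_mul]
    ring

theorem closure_sr (n : ℕ) :
    Subgroup.closure (Set.range (DihedralGroup.sr : ZMod n → DihedralGroup n)) = ⊤ := by
  refine (Subgroup.eq_top_iff' _).2 fun x => ?_
  cases x with
  | sr i => exact Subgroup.subset_closure ⟨i, rfl⟩
  | r i =>
    have h : DihedralGroup.r i = DihedralGroup.sr 0 * DihedralGroup.sr i := by simp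
    rw [h]
    exact Subgroup.mul_mem _ (Subgroup.subset_closure ⟨0, rfl⟩) (Subgroup.subset_closure ⟨i, rfl⟩)

variable {F : Type*} [Field F] [Fintype F]

theorem orth_sumTwo_dihedral (hF : Odd (Fintype.card F)) :
    ∃ N : ℕ, N ≠ 0 ∧ GLWreath.v2 (2 * N) = GLWreath.v2 (Fintype.card F ^ 2 - 1) ∧
      Nonempty (DihedralGroup N ≃* orth (sumTwo F)) := by
  have hq : 1 < Fintype.card F := Fintype.one_lt_card
  have hsq : Fintype.card F ^ 2 - 1 = (Fintype.card F + 1) * (Fintype.card F - 1) := Nat.sq_sub_sq _ 1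
  have hv2 : ∀ a b : ℕ, a ≠ 0 → b ≠ 0 → (b / 2) * 2 = b → Odd (b / 2) →
      GLWreath.v2 (a * b) = GLWreath.v2 (2 * a) := by
    intro a b ha hb hb2 hbo
    rw [← hb2, show a * (b / 2 * 2) = (2 * a) * (b / 2) by ring, GLWreath.v2_mul (by omega) hbo.pos.ne']
    simp only [GLWreath.v2]
    rw [Nat.factorization_eq_zero_of_not_dvd hbo.not_two_dvd_nat, add_zero]
  have h2 : (2 : F) ≠ 0 :=
    two_ne_zero_of_odd (by rwa [Nat.card_eq_fintype_card])
  by_cases h : IsSquare (-1 : F)
  · have hq4 := (FiniteField.isSquare_neg_one_iff (F := F)).1 h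
    have hodd := Nat.odd_iff.1 hF
    obtain ⟨i, hi⟩ := h
    have hi0 : i ≠ 0 := fun h0 => by rw [h0, mul_zero] at hi; exact neg_ne_zero.2 one_ne_zero hi
    let L : (Fin 1 ⊕ Fin 1 → F) ≃ₗ[F] (Fin 2 → F) :=
      { toFun := fun v => ![(v (.inl 0) + v (.inr 0)) / 2, (v (.inl 0) - v (.inr 0)) / (2 * i)]
        invFun := fun w => Sum.elim (fun _ => w 0 + i * w 1) (fun _ => w 0 - i * w 1)
        map_add' := fun v w => by
          funext l
          fin_cases l <;> simp <;> field_simp <;> ring
        map_smul' := fun r v => by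
          funext l
          fin_cases l <;> simp <;> field_simp
        left_inv := fun v => by
          funext l
          rcases l with l | l <;> obtain rfl := Subsingleton.elim l 0 <;> simp <;> field_simp <;> ring
        right_inv := fun w => by
          funext l
          fin_cases l <;> simp <;> field_simp <;> ring }
    have hL : ∀ v, sumTwo F (L v) = qPlus 1 F v := fun v => by
      have hi2 : i ^ 2 = -1 := by rw [hi, pow_two]
      rw [qPlus_apply, binForm_apply]
      simp [L, Cfsg.quadFormPlus]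
      field_simp
      rw [hi2]
      ring
    obtain ⟨e⟩ := dihedral_qPlus_one (F := F)
    refine ⟨Nat.card F - 1, by rw [Nat.card_eq_fintype_card]; omega, ?_,
      ⟨e.symm.trans (orthCongr L hL)⟩⟩
    rw [hsq, mul_comm (Fintype.card F + 1), Nat.card_eq_fintype_card]
    exact (hv2 _ _ (by omega) (by omega) (by omega) ⟨(Fintype.card F - 1) / 4, by omega⟩).symm
  · have ha : Aniso (0 : F) 1 := by
      intro z₁ z₂ hz
      rw [zero_mul, zero_mul, add_zero, one_mul] at hz
      by_cases h2 : z₂ = 0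
      · subst h2; exact ⟨by simpa using hz, rfl⟩
      · exact absurd ⟨z₁ / z₂, by field_simp; linear_combination -hz⟩ h
    obtain ⟨e⟩ := dihedral_binForm ha
    refine ⟨Nat.card F + 1, by omega, ?_, ⟨e.symm⟩⟩
    rw [FiniteField.isSquare_neg_one_iff, not_ne_iff] at h
    rw [hsq, Nat.card_eq_fintype_card]
    exact (hv2 _ _ (by omega) (by omega) (by omega) ⟨(Fintype.card F - 3) / 4, by omega⟩).symm

end DihedralPart

end CfsgLib.BrauerPairs.OrthWreath
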