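import Cfsg.Agent.Lib.BrauerPairs.PMinimalGood
import Cfsg.Agent.Lib.BrauerPairs.ChamberBN
import Cfsg.Agent.Lib.BNPair.Parabolic

/-!
Borel frames from chamber data and from split (B,N)-pairs.
-/

set_option autoImplicit false
set_option linter.unusedSectionVars false

namespace CfsgLib.BrauerPairs

variable {G : Type*} [Group G] [Finite G] {H : Type*} [Group H] {U B : Subgroup G} {Ω ι Λ : Type*} [Finite Ω]
  {p : ℕ} [Fact p.Prime]

/-- Central elements lie in `B`. -/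
theorem ChamberData.center_le (D : ChamberData G U B Ω ι Λ) : Subgroup.center G ≤ B := fun z hz =>
  D.normalizer_le z fun u hu => by
    rwa [← Subgroup.mem_center_iff.1 hz u, mul_inv_cancel_right]

/-- The normalizer of the image of `U` is the image of `B`. -/
theorem ChamberData.normalizer_map_eq (D : ChamberData G U B Ω ι Λ) (hU : IsPGroup p U)
    (hidx : ¬ p ∣ U.index) (π : G →* H) (hπ : Function.Surjective π) (hker : π.ker ≤ Subgroup.center G) :
    Subgroup.normalizer ((U.map π : Subgroup H) : Set H) = B.map π := by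
  classical
  have hkB : π.ker ≤ B := hker.trans D.center_le
  ext x
  constructor
  · intro hx
    obtain ⟨g, rfl⟩ := hπ x
    refine ⟨g, D.normalizer_le g fun u hu => ?_, rfl⟩
    obtain ⟨v, hv, e⟩ := (Subgroup.mem_normalizer_iff.1 hx (π u)).1 (Subgroup.mem_map_of_mem π hu)
    have hB : g * u * g⁻¹ ∈ B := by
      have h1 : v⁻¹ * (g * u * g⁻¹) ∈ π.ker := by
        rw [MonoidHom.mem_ker, map_mul, map_inv, e, map_mul, map_mul, map_inv, inv_mul_cancel]
      simpa using mul_mem (D.U_le hv) (hkB h1)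
    obtain ⟨k, hk⟩ := hU ⟨u, hu⟩
    refine D.mem_of_pow_eq_one hU hidx hB (k := k) ?_
    have hk' : u ^ p ^ k = 1 := congrArg Subtype.val hk
    rw [conj_pow, hk', mul_one, mul_inv_cancel]
  · rintro ⟨b, hb, rfl⟩
    rw [Subgroup.mem_normalizer_iff]
    intro y
    constructor
    · rintro ⟨u, hu, rfl⟩
      exact ⟨b * u * b⁻¹, D.conj_mem b hb u hu, by simp⟩
    · rintro ⟨u, hu, e⟩
      refine ⟨b⁻¹ * u * b, by simpa using D.conj_mem b⁻¹ (inv_mem hb) u hu, ?_⟩
      rw [map_mul, map_mul, map_inv, e]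
      simp [mul_assoc]

theorem mem_of_map_mem {π : G →* H} {K : Subgroup G} (hK : π.ker ≤ K) {g : G} (h : π g ∈ K.map π) :
    g ∈ K := by
  obtain ⟨k, hk, e⟩ := h
  have : k⁻¹ * g ∈ π.ker := by rw [MonoidHom.mem_ker, map_mul, map_inv, e, inv_mul_cancel]
  simpa using mul_mem hk (hK this)

/-- A frame from maximal overgroups of `B` upstairs. -/
theorem exists_frame {κ : Type*} (D : ChamberData G U B Ω ι Λ) (hU : IsPGroup p U) (hidx : ¬ p ∣ U.index)
    (π : G →* H) (hπ : Function.Surjective π) (hker : π.ker ≤ Subgroup.center G) (P : κ → Subgroup G)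
    (hle : ∀ i, B ≤ P i) (hne : ∀ i, P i ≠ ⊤)
    (hcov : ∀ M, B ≤ M → M ≠ ⊤ → ∃ i, M ≤ P i)
    (hind : ∀ i, ∃ x, x ∉ P i ∧ ∀ j, j ≠ i → x ∈ P j) :
    ∃ F : BorelFrame p H κ, F.U = U.map π ∧ (∀ i, F.Q i = (P i).map π) ∧
      ((⨅ i, P i) ≤ B → (⨅ i, F.Q i) ≤ Subgroup.normalizer (F.U : Set H)) := by
  have hN := D.normalizer_map_eq hU hidx π hπ hker
  have hkP : ∀ i, π.ker ≤ P i := fun i => (hker.trans D.center_le).trans (hle i)
  refine ⟨{
    U := U.map π
    isPGroup := hU.map π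
    not_dvd := fun hd => hidx (hd.trans (Subgroup.index_map_dvd U hπ))
    Q := fun i => (P i).map π
    normalizer_le := fun i => hN ▸ Subgroup.map_mono (hle i)
    ne_top := fun i h => hne i (top_le_iff.1 fun g _ => mem_of_map_mem (hkP i) (h ▸ trivial))
    cover := fun M hM hMne => ?_
    indep := fun i => ?_ }, rfl, fun i => rfl, fun hinf => ?_⟩
  · rw [hN] at hM
    obtain ⟨i, hi⟩ := hcov (M.comap π) (Subgroup.map_le_iff_le_comap.1 hM) fun h => hMne (by
      rw [← Subgroup.map_comap_eq_self_of_surjective hπ M, h, Subgroup.map_top_of_surjective _ hπ])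
    exact ⟨i, by rw [← Subgroup.map_comap_eq_self_of_surjective hπ M]; exact Subgroup.map_mono hi⟩
  · obtain ⟨x, hx, hxo⟩ := hind i
    exact ⟨π x, fun h => hx (mem_of_map_mem (hkP i) h), fun j hj => Subgroup.mem_map_of_mem π (hxo j hj)⟩
  · show (⨅ i, (P i).map π) ≤ Subgroup.normalizer ((U.map π : Subgroup H) : Set H)
    rw [hN]
    intro x hx
    obtain ⟨g, rfl⟩ := hπ x
    rw [Subgroup.mem_iInf] at hx
    exact Subgroup.mem_map_of_mem π (hinf (Subgroup.mem_iInf.2 fun i => mem_of_map_mem (hkP i) (hx i)))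

variable {P : Cfsg.BNPair G}

open CfsgLib.BNPair in
/-- The frame of a split (B,N)-pair. -/
theorem exists_frame_bn {U : Subgroup G} (hUB : U ≤ P.B)
    (hconj : ∀ b ∈ P.B, ∀ u ∈ U, b * u * b⁻¹ ∈ U)
    (hdec : ∀ b ∈ P.B, ∃ u ∈ U, ∃ t ∈ P.B ⊓ P.N, b = u * t)
    (hUN : ∀ u ∈ U, u ∈ P.N → u = 1)
    (hH : ∃ n ∈ P.N, ∀ b ∈ P.B, n⁻¹ * b * n ∈ P.B → b ∈ P.N)
    (hU : IsPGroup p U) (hidx : ¬ p ∣ U.index) (π : G →* H) (hπ : Function.Surjective π)
    (hker : π.ker ≤ Subgroup.center G) :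
    ∃ F : BorelFrame p H {s // s ∈ P.S}, F.U = U.map π ∧
      (∀ s, F.Q s = (P.parabolic (P.S \ {(s : G)})).map π) ∧
      ((⨅ i, F.Q i) ≤ Subgroup.normalizer (F.U : Set H)) := by
  obtain ⟨D, -⟩ := exists_chamberData' hUB hconj hdec hUN hH
  obtain ⟨F, h1, h2, h3⟩ := exists_frame D hU hidx π hπ hker
    (fun s : {s // s ∈ P.S} => P.parabolic (P.S \ {(s : G)})) (fun s => B_le_parabolic _)
    (fun s ht => (mem_of_mem_parabolic Set.sdiff_subset s.2
      ((ht : P.parabolic (P.S \ {(s : G)}) = ⊤) ▸ Subgroup.mem_top _ : (s : G) ∈ P.parabolic (P.S \ {(s : G)}))).2 rfl)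
    (fun M hM hne => by
      obtain ⟨s, hs, hsM⟩ : ∃ s ∈ P.S, s ∉ M := by
        by_contra hcon
        push Not at hcon
        apply hne
        rw [eq_top_iff, ← P.sup_eq_top]
        exact sup_le hM (le_trans P.closure_sup.ge
          (sup_le ((Subgroup.closure_le M).2 hcon) (inf_le_left.trans hM)))
      refine ⟨⟨s, hs⟩, ?_⟩
      rw [overgroup_eq hM]
      exact sup_le_sup le_rfl (Subgroup.closure_mono fun x hx =>
        ⟨hx.1, fun e => hsM ((Set.mem_singleton_iff.1 e : x = s) ▸ hx.2)⟩))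
    (fun s => ⟨s, fun h => (mem_of_mem_parabolic Set.sdiff_subset s.2 h).2 rfl,
      fun t ht => subset_parabolic _ ⟨s.2, fun e => ht (Subtype.ext (Set.mem_singleton_iff.1 e).symm)⟩⟩)
  refine ⟨F, h1, h2, h3 ?_⟩
  rw [overgroup_eq (M := ⨅ s : {s // s ∈ P.S}, P.parabolic (P.S \ {(s : G)}))
    (le_iInf fun s => B_le_parabolic _)]
  refine sup_le le_rfl ((Subgroup.closure_le _).2 fun x hx => ?_)
  exact absurd rfl (mem_of_mem_parabolic Set.sdiff_subset hx.1 (Subgroup.mem_iInf.1 hx.2 ⟨x, hx.1⟩)).2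

end CfsgLib.BrauerPairs
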