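import Cfsg.Agent.Lib.BrauerPairs.PMinimalBN
import Cfsg.Agent.Lib.BrauerPairs.ChamberExceptional
import Cfsg.Agent.Lib.InvCentralizers.AutChev.Diagram

/-!
Good Borel frames for the Chevalley groups of exceptional type.
-/

set_option autoImplicit false
set_option linter.unusedSectionVars false

namespace CfsgLib.BrauerPairs

open Cfsg.Lie CfsgLib.Chevalley

variable {D : ChevalleyDatum} {A : Aux} {F : Type} [Field F] [Fintype F] {p : ℕ} [Fact p.Prime] [CharP F p]

/-- The split structure of a (B,N)-pair inside a Chevalley group. -/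
theorem exists_frame_sub (h : Full D A) (G : Subgroup (GL D.Idx F))
    (P : Cfsg.BNPair G) (hB : P.B = (D.borelSubgroup F ⊓ G).subgroupOf G)
    (hN : P.N = (D.monomialSubgroup F ⊓ G).subgroupOf G)
    (hdec : ∀ b ∈ G, b ∈ D.borelSubgroup F → ∃ u t, u ∈ G ∧ u ∈ D.posUnipotent F ∧ t ∈ G ∧
      t ∈ D.diagonalSubgroup F ∧ b = u * t)
    (hlong : ∃ n ∈ G, n ∈ D.monomialSubgroup F ∧ ∃ σ η, Acts h.cert n σ η ∧
      ∀ s : Fin D.nroots, D.IsPosRoot s → D.IsNegRoot (σ s)) :
    ∃ Fr : BorelFrame p G {s // s ∈ P.S}, Fr.U = (D.posUnipotent F).subgroupOf G ∧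
      (∀ s, Fr.Q s = P.parabolic (P.S \ {(s : G)})) ∧
      ((⨅ i, Fr.Q i) ≤ Subgroup.normalizer (Fr.U : Set G)) := by
  classical
  haveI : Finite (GL D.Idx F) := inferInstance
  have hmemB : ∀ x : G, x ∈ P.B ↔ (x : GL D.Idx F) ∈ D.borelSubgroup F := fun x => by
    rw [hB]; exact ⟨fun hx => hx.1, fun hx => ⟨hx, x.2⟩⟩
  have hmemN : ∀ x : G, x ∈ P.N ↔ (x : GL D.Idx F) ∈ D.monomialSubgroup F := fun x => by
    rw [hN]; exact ⟨fun hx => hx.1, fun hx => ⟨hx, x.2⟩⟩
  have hU : IsPGroup p ((D.posUnipotent F).subgroupOf G) :=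
    ((CfsgLib.InvCentralizers.ChevalleySteinberg.isPGroup_U (F := F) h).to_le
      (inf_le_left (b := G))).of_equiv
      ((Subgroup.subgroupOfEquivOfLe (inf_le_right (a := D.posUnipotent F))).symm.trans
        (MulEquiv.subgroupCongr (Subgroup.inf_subgroupOf_right _ _)))
  have hUB : (D.posUnipotent F).subgroupOf G ≤ P.B := fun x hx => (hmemB x).2 (Subgroup.mem_sup_left hx)
  have hconj : ∀ b ∈ P.B, ∀ u ∈ (D.posUnipotent F).subgroupOf G, b * u * b⁻¹ ∈ (D.posUnipotent F).subgroupOf G :=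
    fun b hb u hu => CfsgLib.Twisted.IsRankOne.conj_pos h ((hmemB b).1 hb) hu
  have hdec' : ∀ b ∈ P.B, ∃ u ∈ (D.posUnipotent F).subgroupOf G, ∃ t ∈ P.B ⊓ P.N, b = u * t := by
    intro b hb
    obtain ⟨u, t, hu, huU, ht, htD, eb⟩ := hdec b b.2 ((hmemB b).1 hb)
    exact ⟨⟨u, hu⟩, huU, ⟨t, ht⟩, ⟨(hmemB _).2 (Subgroup.mem_sup_right htD),
      (hmemN _).2 (diagonal_le_monomial htD)⟩, Subtype.ext eb⟩
  have hUN : ∀ u ∈ (D.posUnipotent F).subgroupOf G, u ∈ P.N → u = 1 := by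
    intro u hu huN
    refine Subtype.ext (eq_one_of_mem_pos_diagonal h hu ?_)
    rw [← borel_inf_monomial h]
    exact ⟨Subgroup.mem_sup_left hu, (hmemN u).1 huN⟩
  have hH : ∃ n ∈ P.N, ∀ b ∈ P.B, n⁻¹ * b * n ∈ P.B → b ∈ P.N := by
    obtain ⟨n, hn, hnN, σ, η, hA, hpn⟩ := hlong
    exact ⟨⟨n, hn⟩, (hmemN _).2 hnN, fun b hb hb' => (hmemN b).2 (diagonal_le_monomial
      (mem_diagonal_of_negates h hnN hA hpn ((hmemB b).1 hb) ((hmemB _).1 hb')))⟩
  have hT : ¬ p ∣ Nat.card ↥(P.B ⊓ P.N) := by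
    intro hd
    refine CfsgLib.InvCentralizers.ChevalleySteinberg.coprime_card_diagonal (F := F) h (p := p)
      (hd.trans ?_)
    refine Subgroup.card_dvd_of_injective
      (((G.subtype.comp (P.B ⊓ P.N).subtype)).codRestrict (D.diagonalSubgroup F) fun x => ?_) ?_
    · rw [← borel_inf_monomial h]
      exact ⟨(hmemB _).1 x.2.1, (hmemN _).1 x.2.2⟩
    · intro x y hxy
      exact Subtype.ext (Subtype.ext (congrArg (fun z : D.diagonalSubgroup F => (z : GL D.Idx F)) hxy :))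
  have hidx := not_dvd_index_of_bnPair (P := P) hUB hconj hdec' hUN hH hU hT
  obtain ⟨Fr, h1, h2, h3⟩ := exists_frame_bn (P := P) hUB hconj hdec' hUN hH hU hidx (MonoidHom.id G)
    Function.surjective_id (by rw [MonoidHom.ker_id]; exact bot_le)
  exact ⟨Fr, by rw [h1, Subgroup.map_id], fun s => by rw [h2, Subgroup.map_id], h3⟩

open CfsgLib.InvCentralizers.ChevalleySteinberg CfsgLib.InvCentralizers.AutChev CfsgLib.BNPair in
/-- A transitive frame gives standard maps moving the nodes transitively. -/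
theorem frameGood_chevalley (h : Full D A) (hrk : 0 < D.rank) {R A' : Prop} {H : Type*} [Group H]
    (e : H ≃* D.group F)
    (hcase : (∃ k, D.rank = p ^ k) → (∀ i j : Fin D.rank, ∃ ψ π σ,
      StdMap (F := F) h.cert ψ π σ ∧ π i = j) → False) :
    FrameGood p H R A' := by
  classical
  refine FrameGood.of_mulEquiv e.symm ?_
  haveI : Finite (GL D.Idx F) := inferInstance
  obtain ⟨n, hn, σ0, η0, hA0, hpn, -⟩ := exists_longest_acts h F
  obtain ⟨Fr, hU, hQ, hinf⟩ := exists_frame_sub (p := p) h (D.group F) (bnPair h F)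
    (by rw [Subgroup.inf_subgroupOf_right]; rfl) (by rw [Subgroup.inf_subgroupOf_right]; rfl)
    (fun b _ hb => by
      obtain ⟨u, hu, t, ht, eb⟩ := (mem_borel_iff h).1 hb
      exact ⟨u, t, CfsgLib.Chevalley.rootsU_le_group h.cert {r | D.IsPosRoot r} hu, hu,
        diagonal_le_group h.cert ht, ht, eb⟩)
    ⟨n, monomial_le_group h.cert hn, hn, σ0, η0, hA0, fun s hs => hpn s hs⟩
  let node : Fin D.rank → {s // s ∈ (bnPair h F).S} := fun i => ⟨sRep h F i, sRep_mem_S h i⟩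
  have hnode : Function.Bijective node := by
    refine ⟨fun i j e => Fin.ext (sRep_injOn h i.isLt j.isLt (congrArg Subtype.val e)), fun s => ?_⟩
    obtain ⟨i, hi⟩ := (mem_simpleReps h).1 s.2
    exact ⟨i, Subtype.ext (Subtype.ext hi.symm)⟩
  haveI : Nonempty {s // s ∈ (bnPair h F).S} := ⟨node ⟨0, hrk⟩⟩
  refine ⟨_, inferInstance, inferInstance, Fr, fun htr hk => (hcase ?_ fun i j => ?_).elim⟩
  · obtain ⟨k, hk⟩ := hk
    exact ⟨k, by rw [← hk, ← Nat.card_congr (Equiv.ofBijective node hnode), Nat.card_fin]⟩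
  obtain ⟨φ, hφU, hφQ⟩ := htr (node i) (node j)
  obtain ⟨x, χ, hχ, ψ, π, σ, S, eφ⟩ := exists_decomp h φ
  refine ⟨ψ, π, σ, S, ?_⟩
  set τ := diagAut h hχ * ψ with hτ
  have hτf : FixesUV τ := by
    have h1 : FixesUV (diagAut h hχ) := by rw [diagAut_eq_dHom h hχ]; exact dHom_fixesUV h _
    have h2 := S.fixesUV h
    exact ⟨fun g => by rw [hτ, MulAut.mul_apply, h1.pos, h2.pos],
      fun g => by rw [hτ, MulAut.mul_apply, h1.neg, h2.neg]⟩
  obtain ⟨π', hπ'⟩ := exists_minPar_perm h hτf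
  have hpi : π' i = π i := by
    refine (mem_minPar_imp (F := F) h (i := π' i) (j := π i) ?_).symm
    rw [← hπ' i]
    have hroot : ∀ (t : F) (r : ℕ), r < D.nroots → ∀ r', r' < D.nroots → xE h.cert r t ∈ minPar h F i →
        (∀ t : F, ∃ u, τ (xE h.cert r t) = xE h.cert r' u) → ∀ t' : F, ∃ u, τ (xE h.cert r u) = xE h.cert r' t' := by
      intro t r hr r' hr' _ hm t'
      choose f hf using hm
      have hinj : Function.Injective f := fun a b eab =>
        xE_injective h.cert hr (τ.injective (by rw [hf, hf, eab]))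
      obtain ⟨u, hu⟩ := Finite.injective_iff_surjective.1 hinj t'
      exact ⟨u, by rw [hf, hu]⟩
    have hmemP : ∀ t, xE h.cert (D.simple i) t ∈ minPar h F i := fun t => by
      rw [mem_minPar]
      exact Subgroup.mem_sup_left (Subgroup.mem_sup_left
        (xG_mem_rootsU (S := {r | D.IsPosRoot r}) h.cert (h.simple_pos i.isLt) t))
    have hmemN : ∀ t, xE h.cert (D.neg (D.simple i)) t ∈ minPar h F i := fun t => by
      rw [mem_minPar]
      refine xG_mem_parabolic h (Or.inr (h.inRootSub_iff.2 ⟨(h.cert.wf.neg_lt _ (h.cert.wf.simple_lt i i.isLt)),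
        fun k hk hki => ?_⟩)) t
      rw [(neg_facts h.cert hk (h.cert.wf.simple_lt i i.isLt)).1, crd_simple h.cert hk i.isLt,
        if_neg (fun e => hki (by simp [e])), neg_zero]
    have hsP : ∀ t', xE h.cert (D.simple (π i)) t' ∈ (minPar h F i).map τ.toMonoidHom := fun t' => by
      obtain ⟨u, hu⟩ := hroot 0 _ (simple_lt h i) _ (simple_lt h (π i)) (hmemP 0) (fun t => ⟨_, by
        rw [hτ, MulAut.mul_apply, S.node.pos, diagAut_xE h hχ (simple_lt h (π i))]⟩) t'
      exact hu ▸ Subgroup.mem_map_of_mem _ (hmemP u)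
    have hsN : ∀ t', xE h.cert (D.neg (D.simple (π i))) t' ∈ (minPar h F i).map τ.toMonoidHom := fun t' => by
      obtain ⟨u, hu⟩ := hroot 0 _ (negSimple_lt h i) _ (negSimple_lt h (π i)) (hmemN 0) (fun t => ⟨_, by
        rw [hτ, MulAut.mul_apply, S.node.neg, diagAut_xE h hχ (negSimple_lt h (π i))]⟩) t'
      exact hu ▸ Subgroup.mem_map_of_mem _ (hmemN u)
    rw [show sRep h F (π i) = xE h.cert (D.simple (π i)) 1 * xE h.cert (D.neg (D.simple (π i))) (-1⁻¹) *
        xE h.cert (D.simple (π i)) 1 from Subtype.ext rfl]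
    exact mul_mem (mul_mem (hsP _) (hsN _)) (hsP _)
  -- the inner part fixes every maximal overgroup
  have hxB : x ∈ (bnPair h F).B := by
    refine (borel_iff_normalizes h).2 fun u hu => ?_
    have h1 : τ⁻¹ u ∈ Fr.U := by
      rw [hU]
      exact (hτf.symm.pos u).2 hu
    have h2 : φ (τ⁻¹ u) ∈ Fr.U := by
      rw [← hφU]
      exact Subgroup.mem_map_of_mem _ h1
    rw [eφ, mul_assoc, ← hτ, MulAut.mul_apply, MulAut.apply_inv_self, MulAut.conj_apply, hU] at h2
    exact h2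
  have hxQ : x ∈ Fr.Q (node j) := by rw [hQ]; exact B_le_parabolic _ hxB
  have hτQ : ∀ g ∈ Fr.Q (node i), τ g ∈ Fr.Q (node j) := by
    intro g hg
    have h1 : φ g ∈ Fr.Q (node j) := by
      rw [← hφQ]
      exact Subgroup.mem_map_of_mem _ hg
    rw [eφ, mul_assoc, ← hτ, MulAut.mul_apply, MulAut.conj_apply] at h1
    have := mul_mem (mul_mem (inv_mem hxQ) h1) hxQ
    simpa [mul_assoc] using this
  rw [← hpi]
  by_contra hne
  obtain ⟨k, hk⟩ := π'.surjective j
  have hki : sRep h F k ∈ Fr.Q (node i) := by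
    rw [hQ]
    refine subset_parabolic _ ⟨sRep_mem_S h k, fun e => hne ?_⟩
    rw [show i = k from Fin.ext (sRep_injOn h i.isLt k.isLt (Set.mem_singleton_iff.1 e).symm), hk]
  have hle : (minPar h F k).map τ.toMonoidHom ≤ Fr.Q (node j) := by
    rintro _ ⟨g, hg, rfl⟩
    exact hτQ g (minPar_le_of_mem h (hQ (node i) ▸ B_le_parabolic _) hki hg)
  rw [hπ' k, hk] at hle
  have hjQ := hle (sRep_mem_minPar h j)
  rw [hQ] at hjQ
  exact (mem_of_mem_parabolic (P := bnPair h F) Set.sdiff_subset (sRep_mem_S h j) hjQ).2 rfl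

end CfsgLib.BrauerPairs
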