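import Cfsg.Agent.Lib.BrauerPairs.PMinimalPolar
import Cfsg.Agent.Lib.BrauerPairs.ParabolicClassical

/-!
Good Borel frames for the classical and the Suzuki groups.
-/

set_option autoImplicit false
set_option linter.unusedSectionVars false

namespace CfsgLib.BrauerPairs

open Module CfsgLib.Generators.Steinberg CfsgLib.Generators.Steinberg.Polar CfsgLib.ClassicalForms

section polar

variable {F : Type*} [Field F] [Finite F] {V : Type*} [AddCommGroup V] [Module F V] [Finite V]
  [FiniteDimensional F V] {m : ℕ} {P : Polar F V m}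

/-- A vector perpendicular to the frame turns into a third chamber of the last panel. -/
theorem not_isThin_of_perp {a : F} (ha : a ≠ 0) {x : V}
    (hx : ∀ i, P.K x (P.e i) = 0 ∧ P.K x (P.f i) = 0)
    (hw : ∀ i, P.f i + x + a • P.e i ∈ P.sing ∧ P.K (P.f i + x + a • P.e i) (P.f i + x + a • P.e i) = 0) :
    ∀ z c, ¬ IsThin P z c := by
  intro z c hc
  refine not_isThin_of_vec hc (hw z).1 (hw z).2 ?_ (fun u hu => ?_) ?_
  · simp [P.K_add, P.K_smul, P.K_fe, P.K_ee, (hx z).1]
  · rw [C0_toFun] at hu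
    have hle : spanPre (F := F) P.e z.castSucc ≤ LinearMap.ker (P.kL (P.f z + x + a • P.e z)) :=
      Submodule.span_le.2 (by
        rintro _ ⟨j, rfl⟩
        rw [SetLike.mem_coe, LinearMap.mem_ker, kL_apply, P.K_add_right, P.K_add_right, P.K_smul_right, P.K_ee,
          P.K_ef, if_neg, P.K_eq_zero_symm (hx _).1]
        · simp
        · exact fun e => lt_irrefl (z : ℕ) (by have := j.2; have := congrArg Fin.val e; simp at *; omega))
    exact hle hu
  · rw [P.K_add_right, P.K_add_right, P.K_smul_right, P.K_ff, P.K_fe, if_pos rfl, P.K_eq_zero_symm (hx z).2,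
      zero_add, zero_add]
    exact mul_ne_zero ((map_ne_zero P.σ).2 ha) P.ε_ne

theorem exists_line_cham (h2 : m = 2) {i0 i1 : Fin m} (hi0 : (i0 : ℕ) = 0) (hi1 : (i1 : ℕ) = 1) {v : V}
    (hv : v ∈ P.sing) (hvv : P.K v v = 0) (hve : P.K (P.e i0) v = 0)
    (hne : v ∉ Submodule.span F ({P.e i0} : Set V)) :
    ∃ y : Cham P, y.toFun i0.succ = (C0 P).toFun i0.succ ∧
      y.toFun i1.succ = Submodule.span F ({P.e i0, v} : Set V) := by
  set S := Submodule.span F ({P.e i0, v} : Set V) with hS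
  have hTS : P.IsTS S := by
    have h : P.IsTS (Submodule.span F (Set.range ![P.e i0, v])) := P.isTS_span
      (Fin.forall_fin_two.2 ⟨P.e_sing i0, hv⟩)
      (Fin.forall_fin_two.2 ⟨Fin.forall_fin_two.2 ⟨P.K_ee _ _, hve⟩,
        Fin.forall_fin_two.2 ⟨P.K_eq_zero_symm hve, hvv⟩⟩)
    rwa [Matrix.range_cons_cons_empty] at h
  have hdim : finrank F S = (i1 : ℕ) + 1 := by
    have hne0 : P.e i0 ≠ 0 := fun e => by
      have := P.K_ef i0 i0
      rw [e, P.K_zero_left, if_pos rfl] at this
      exact zero_ne_one this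
    have hli : LinearIndependent F ![P.e i0, v] :=
      (LinearIndependent.pair_iff' hne0).2 fun a e => hne (Submodule.mem_span_singleton.2 ⟨a, e⟩)
    have := finrank_span_eq_card hli
    rw [Matrix.range_cons_cons_empty] at this
    simpa [S, hi1] using this
  obtain ⟨y, hy, hyS⟩ := exists_adj (C0 P) i1 S
    (by rw [show i1.castSucc = i0.succ from Fin.ext (by simp [hi0, hi1]), C0_toFun, spanPre_one _ hi0]
        exact Submodule.span_mono (by simp))
    hdim hTS fun k hk => by
      have := Fin.lt_def.1 hk; have := k.is_le; simp [hi1] at *; omega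
  exact ⟨y, hy _ fun e => by have := congrArg Fin.val e; simp at this; omega, hyS⟩

variable {G : Type*} [Group G] [Finite G] {A : Act P G} {p : ℕ} [Fact p.Prime] [CharP F p]

/-- More lines through a point than points on a line, from an anisotropic perpendicular vector. -/
theorem index_ne_of_aniso (hA : A.Good p) (h2 : m = 2) (hthick : ∀ z c, ¬ IsThin P z c) {w : V}
    (hw : ∀ i, P.K w (P.e i) = 0 ∧ P.K w (P.f i) = 0) (hww : P.K w w ≠ 0) {t0 : F} (ht0 : t0 ≠ 0) (t : F → F)
    (ht : t 0 = 0)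
    (hsing : ∀ i x s, (s = t x ∨ x = 0 ∧ s = t0) →
      P.f i + x • w + s • P.e i ∈ P.sing ∧ P.K (P.f i + x • w + s • P.e i) (P.f i + x • w + s • P.e i) = 0) :
    (stabSub A ((C0 P).toFun (⟨0, by omega⟩ : Fin m).succ)).index ≠
      (stabSub A ((C0 P).toFun (⟨1, by omega⟩ : Fin m).succ)).index := by
  classical
  set i0 : Fin m := ⟨0, by omega⟩
  set i1 : Fin m := ⟨1, by omega⟩
  have h01 : i0 ≠ i1 := fun e => by simpa [i0, i1] using congrArg Fin.val e
  let v : Option (Option F) → V
    | none => P.f i1 + (0 : F) • w + t0 • P.e i1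
    | some none => P.e i1
    | some (some x) => P.f i1 + x • w + t x • P.e i1
  have hv : ∀ o, v o ∈ P.sing ∧ P.K (v o) (v o) = 0 := by
    rintro (_ | _ | x)
    · exact hsing _ _ _ (Or.inr ⟨rfl, rfl⟩)
    · exact ⟨P.e_sing _, P.K_ee _ _⟩
    · exact hsing _ _ _ (Or.inl rfl)
  have hew : ∀ i, P.K (P.e i) w = 0 := fun i => P.K_eq_zero_symm (hw i).1
  have hKe : ∀ o, P.K (P.e i0) (v o) = 0 := by
    rintro (_ | _ | x) <;> simp [v, P.K_add_right, P.K_smul_right, P.K_ef, P.K_ee, hew, h01]
  have hne : ∀ o, v o ∉ Submodule.span F ({P.e i0} : Set V) := by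
    intro o hm
    obtain ⟨r, e⟩ := Submodule.mem_span_singleton.1 hm
    have h1 := congrArg (fun u => P.K u (P.e i1)) e
    have h2 := congrArg (fun u => P.K u (P.f i1)) e
    rcases o with _ | _ | x <;>
      simp [v, P.K_add, P.K_smul, P.K_ef, P.K_ee, P.K_fe, P.K_ff, hw i1, h01, P.ε_ne, eq_comm] at h1 h2
  choose y hy0 hy1 using fun o => exists_line_cham h2 (i0 := i0) (i1 := i1) rfl rfl (hv o).1 (hv o).2 (hKe o) (hne o)
  refine index_ne_of_lines hA (by omega) (Or.inr hthick) y hy0 fun a b hab => ?_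
  simp only at hab
  rw [hy1, hy1] at hab
  obtain ⟨r, s, hrs⟩ : ∃ r s : F, v a = r • P.e i0 + s • v b := by
    have h : v a ∈ Submodule.span F ({P.e i0, v b} : Set V) := hab ▸ Submodule.subset_span (by simp)
    obtain ⟨r, s, h⟩ := Submodule.mem_span_pair.1 h
    exact ⟨r, s, h.symm⟩
  have h1 := congrArg (fun u => P.K u (P.e i1)) hrs
  have h2 := congrArg (fun u => P.K u (P.f i1)) hrs
  have h3 := congrArg (fun u => P.K u w) hrs
  have hfw : ∀ i, P.K (P.f i) w = 0 := fun i => P.K_eq_zero_symm (hw i).2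
  rcases a with _ | _ | a <;> rcases b with _ | _ | b <;>
    simp [v, P.K_add, P.K_smul, P.K_ef, P.K_fe, P.K_ee, P.K_ff, P.ε_ne, hw i1, hew, hfw, h01, h01.symm, hww]
      at h1 h2 h3 ⊢
  all_goals first
    | rfl
    | (subst h1; simp [hww] at h2 h3; exact h3)
    | (subst h1; simp [hww] at h2 h3; subst h3; rw [ht] at h2; exact absurd h2 ht0)
    | (subst h1; simp [hww] at h2 h3; subst h3; rw [ht] at h2; exact absurd h2.symm ht0)
    | (subst h1; simp [hww] at h2 h3; done)

/-- More points on a line than lines through a point when there is no anisotropic part. -/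
theorem index_ne_of_split (hA : A.Good p) (h2 : m = 2) (hthick : ∀ z c, ¬ IsThin P z c)
    (hE : ∀ v, (∀ i, P.K v (P.e i) = 0 ∧ P.K v (P.f i) = 0) → v = 0)
    (hx : ∀ i, ∃ x : F, P.K (x • P.e i + P.f i) (x • P.e i + P.f i) ≠ 0) :
    (stabSub A ((C0 P).toFun (⟨0, by omega⟩ : Fin m).succ)).index ≠
      (stabSub A ((C0 P).toFun (⟨1, by omega⟩ : Fin m).succ)).index := by
  classical
  cases nonempty_fintype F
  set i0 : Fin m := ⟨0, by omega⟩
  set i1 : Fin m := ⟨1, by omega⟩
  have h01 : i0 ≠ i1 := fun e => by simpa [i0, i1] using congrArg Fin.val e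
  obtain ⟨D, hact, -, -, -, -, hW⟩ := exists_chamberData_polar' hA
  have hWeq : ∀ w ∈ D.W, w = C0 P := fun w hw =>
    (hW w hw).resolve_right fun ⟨z, h1, h2, h3, h4⟩ => hthick z w ⟨h1, h2, h3, h4⟩
  have hE0 : (C0 P).toFun i0.succ = Submodule.span F ({P.e i0} : Set V) := by
    rw [C0_toFun]; exact spanPre_one _ rfl
  have hL : (C0 P).toFun i1.succ = Submodule.span F ({P.e i0, P.e i1} : Set V) := by
    rw [C0_toFun]; exact spanPre_two _ rfl rfl
  let v : Option F → V
    | none => P.e i0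
    | some a => a • P.e i0 + P.e i1
  have hvK : ∀ o, v o ≠ 0 := fun o e => by
    have h1 := congrArg (fun u => P.K u (P.f i0)) e
    have h2 := congrArg (fun u => P.K u (P.f i1)) e
    rcases o with _ | a <;> simp [v, P.K_add, P.K_smul, P.K_ef, P.K_zero_left, h01, h01.symm] at h1 h2
  have hpts : ∀ o, ∃ g ∈ stabSub A ((C0 P).toFun i1.succ),
      ((C0 P).toFun i0.succ).map (A.ρ g : V →ₗ[F] V) = Submodule.span F ({v o} : Set V) := by
    intro o
    set S := Submodule.span F ({v o} : Set V) with hS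
    have hSle : S ≤ (C0 P).toFun i1.succ := by
      rw [hS, Submodule.span_singleton_le_iff_mem, hL]
      rcases o with _ | a
      · exact Submodule.subset_span (by simp [v])
      · exact Submodule.mem_span_pair.2 ⟨a, 1, by simp [v]⟩
    obtain ⟨y, hy, hyS⟩ := exists_adj (C0 P) i0 S
      (by rw [show i0.castSucc = 0 from Fin.ext (by simp [i0]), Cham.zero_eq_bot]; exact bot_le)
      (by rw [hS, finrank_span_singleton (hvK o)]) (IsTS.mono P ((C0 P).ts' _) hSle)
      fun k hk => hSle.trans ((C0 P).mono' (Fin.le_def.2 (by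
        have := Fin.lt_def.1 hk; simp [i0, i1] at *; omega)))
    obtain ⟨g, w, hw, e⟩ := D.exists_orbit y
    rw [hact, hWeq w hw] at e
    refine ⟨g, ?_, by rw [← act_toFun, e, hyS]⟩
    rw [mem_stabSub, ← act_toFun, e]
    exact hy _ fun e => h01.symm (Fin.succ_injective _ e)
  choose g hg hgL using hpts
  refine (index_ne_of_cosets (D := stabSub A ((C0 P).toFun i0.succ) ⊓ stabSub A ((C0 P).toFun i1.succ))
    inf_le_right inf_le_left (σ := Option F)
    (τ := Option {x : F // P.K (x • P.e i1 + P.f i1) (x • P.e i1 + P.f i1) = 0})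
    (fun o => ⟨g o, hg o⟩) (fun a b hab => ?_)
    (fun x => if h : P.K (((P.K (A.ρ (x : G) (P.e i1)) (P.f i1)) / (P.ε⁻¹ * P.K (A.ρ (x : G) (P.e i1)) (P.e i1))) •
        P.e i1 + P.f i1) (((P.K (A.ρ (x : G) (P.e i1)) (P.f i1)) / (P.ε⁻¹ * P.K (A.ρ (x : G) (P.e i1)) (P.e i1))) •
        P.e i1 + P.f i1) = 0 ∧ P.K (A.ρ (x : G) (P.e i1)) (P.e i1) ≠ 0 then some ⟨_, h.1⟩ else none)
    (fun x x' hxx => ?_) ?_).symm
  · have hsame : Submodule.span F ({v a} : Set V) = Submodule.span F ({v b} : Set V) := by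
      rw [← hgL a, ← hgL b]
      conv_rhs => rw [show g b = g a * ((g a)⁻¹ * g b) by group, map_ρ_mul, mem_stabSub.1 hab.1]
    obtain ⟨r, hr⟩ := Submodule.mem_span_singleton.1
      (show v a ∈ Submodule.span F ({v b} : Set V) from hsame ▸ Submodule.mem_span_singleton_self _)
    have h1 := congrArg (fun u => P.K u (P.f i0)) hr
    have h2 := congrArg (fun u => P.K u (P.f i1)) hr
    rcases a with _ | a <;> rcases b with _ | b <;>
      simp [v, P.K_add, P.K_smul, P.K_ef, h01, h01.symm] at h1 h2 ⊢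
    all_goals first | rfl | (subst h2; simpa using h1.symm) | (subst h2; simp at h1)
  · have hfe : ∀ x : stabSub A ((C0 P).toFun i0.succ), ∃ c : F, A.ρ (x : G)⁻¹ (P.e i0) = c • P.e i0 := fun x => by
      have h0 := (mem_stabSub.1 (inv_mem x.2)).le (Submodule.mem_map_of_mem (f := (A.ρ (x : G)⁻¹ : V →ₗ[F] V))
        (show P.e i0 ∈ (C0 P).toFun i0.succ by rw [C0_toFun]; exact mem_spanPre (by simp)))
      obtain ⟨c, hc⟩ := Submodule.mem_span_singleton.1 (hE0.le h0)
      exact ⟨c, hc.symm⟩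
    have hdec : ∀ x : stabSub A ((C0 P).toFun i0.succ), ∃ r : F, A.ρ (x : G) (P.e i1) = r • P.e i0 +
        (P.K (A.ρ (x : G) (P.e i1)) (P.f i1) • P.e i1 +
          (P.ε⁻¹ * P.K (A.ρ (x : G) (P.e i1)) (P.e i1)) • P.f i1) := fun x => by
      obtain ⟨c, hc⟩ := hfe x
      have h0 : P.K (A.ρ (x : G) (P.e i1)) (P.e i0) = 0 := by
        rw [A.K_move, hc, P.K_smul_right, P.K_ee, mul_zero]
      refine ⟨P.K (A.ρ (x : G) (P.e i1)) (P.f i0), sub_eq_zero.1 (hE _ fun i => ?_)⟩
      rcases (show (i : ℕ) = 0 ∨ (i : ℕ) = 1 by omega) with h | h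
      · obtain rfl : i = i0 := Fin.ext h
        simp [P.K_sub_left, P.K_add, P.K_smul, P.K_ef, P.K_fe, P.K_ee, P.K_ff, h01, h01.symm, h0]
      · obtain rfl : i = i1 := Fin.ext h
        simp [P.K_sub_left, P.K_add, P.K_smul, P.K_ef, P.K_fe, P.K_ee, P.K_ff, h01, h01.symm]
        rw [mul_right_comm, inv_mul_cancel₀ P.ε_ne, one_mul, sub_self]
    obtain ⟨r, hx1⟩ := hdec x
    obtain ⟨r', hx1'⟩ := hdec x'
    obtain ⟨cx, hcx⟩ := hfe x
    have hLx : ((C0 P).toFun i1.succ).map (A.ρ (x' : G) : V →ₗ[F] V) =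
        ((C0 P).toFun i1.succ).map (A.ρ (x : G) : V →ₗ[F] V) := by
      have hsp : ∀ g ∈ stabSub A ((C0 P).toFun i0.succ),
          Submodule.span F ({(A.ρ g : V →ₗ[F] V) (P.e i0)} : Set V) = Submodule.span F ({P.e i0} : Set V) := by
        intro g hg
        rw [mem_stabSub, hE0, Submodule.map_span, Set.image_singleton] at hg
        exact hg
      have h0' := hsp _ x'.2
      have h0 := hsp _ x.2
      rw [hL, show ({P.e i0, P.e i1} : Set V) = {P.e i0} ∪ {P.e i1} from Set.insert_eq _ _, Submodule.span_union,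
        Submodule.map_sup, Submodule.map_sup, Submodule.map_span, Submodule.map_span, Set.image_singleton,
        Submodule.map_span, Submodule.map_span, Set.image_singleton, Set.image_singleton, Set.image_singleton,
        h0, h0', ← Submodule.span_union, ← Submodule.span_union]
      simp only [LinearEquiv.coe_coe]
      set s := P.K (A.ρ (x : G) (P.e i1)) (P.f i1) with hs
      set t := P.ε⁻¹ * P.K (A.ρ (x : G) (P.e i1)) (P.e i1) with ht
      set s' := P.K (A.ρ (x' : G) (P.e i1)) (P.f i1) with hs'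
      set t' := P.ε⁻¹ * P.K (A.ρ (x' : G) (P.e i1)) (P.e i1) with ht'
      obtain ⟨d, hd, hd0⟩ : ∃ d : F, s' • P.e i1 + t' • P.f i1 = d • (s • P.e i1 + t • P.f i1) ∧ d ≠ 0 := by
        have hnz : ∀ (y : stabSub A ((C0 P).toFun i0.succ)) (ry sy : F),
            A.ρ (y : G) (P.e i1) = ry • P.e i0 + (sy • P.e i1 + (0 : F) • P.f i1) → sy ≠ 0 := by
          intro y ry sy hy e
          obtain ⟨c, hc⟩ := hfe y
          have h := congrArg (A.ρ (y : G)⁻¹) hy
          rw [A.ρ_inv_apply, e, zero_smul, zero_smul, add_zero, add_zero, map_smul, hc, smul_smul] at h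
          have h2 := congrArg (fun u => P.K u (P.f i1)) h
          simp [P.K_smul, P.K_ef, h01] at h2
        have hiso : ∀ (y : stabSub A ((C0 P).toFun i0.succ)) (ry sy ty : F),
            A.ρ (y : G) (P.e i1) = ry • P.e i0 + (sy • P.e i1 + ty • P.f i1) → ty ≠ 0 →
            P.K ((sy / ty) • P.e i1 + P.f i1) ((sy / ty) • P.e i1 + P.f i1) = 0 := by
          intro y ry sy ty hy hty
          have h := A.K_map (y : G) (P.e i1) (P.e i1)
          rw [hy, P.K_ee] at h
          simp [P.K_add, P.K_add_right, P.K_smul, P.K_smul_right, P.K_ee, P.K_ef, P.K_fe, P.K_ff, h01,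
            h01.symm] at h ⊢
          have := (map_ne_zero P.σ).2 hty
          field_simp
          linear_combination h
        by_cases h0t : P.K (A.ρ (x : G) (P.e i1)) (P.e i1) = 0
        · have h0t' : P.K (A.ρ (x' : G) (P.e i1)) (P.e i1) = 0 := by
            by_contra hne'
            have hi := hiso x' r' s' t' hx1' (mul_ne_zero (inv_ne_zero P.ε_ne) hne')
            rw [dif_neg fun h => h.2 h0t, dif_pos ⟨hi, hne'⟩] at hxx
            exact Option.some_ne_none _ hxx.symm
          have ht0 : t = 0 := by rw [ht, h0t, mul_zero]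
          have ht0' : t' = 0 := by rw [ht', h0t', mul_zero]
          have hs0 := hnz x r s (by rw [← ht0]; exact hx1)
          have hs0' := hnz x' r' s' (by rw [← ht0']; exact hx1')
          exact ⟨s' / s, by simp [ht0, ht0', smul_smul, div_mul_cancel₀ _ hs0], div_ne_zero hs0' hs0⟩
        · have htne : t ≠ 0 := mul_ne_zero (inv_ne_zero P.ε_ne) h0t
          have hi := hiso x r s t hx1 htne
          have h0t' : P.K (A.ρ (x' : G) (P.e i1)) (P.e i1) ≠ 0 := by
            intro hne'
            rw [dif_pos ⟨hi, h0t⟩, dif_neg fun h => h.2 hne'] at hxx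
            exact Option.some_ne_none _ hxx
          have htne' : t' ≠ 0 := mul_ne_zero (inv_ne_zero P.ε_ne) h0t'
          have hi' := hiso x' r' s' t' hx1' htne'
          rw [dif_pos ⟨hi, h0t⟩, dif_pos ⟨hi', h0t'⟩] at hxx
          have he : s / t = s' / t' := congrArg Subtype.val (Option.some_injective _ hxx)
          refine ⟨t' / t, ?_, div_ne_zero htne' htne⟩
          rw [smul_add, smul_smul, smul_smul, div_mul_cancel₀ _ htne]
          congr 2
          field_simp at he ⊢
          linear_combination -he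
      rw [hx1, hx1', hd]
      refine le_antisymm (Submodule.span_le.2 ?_) (Submodule.span_le.2 ?_)
      · rintro _ (h | h) <;> rw [Set.mem_singleton_iff] at h <;> subst h
        · exact Submodule.subset_span (Or.inl rfl)
        · exact Submodule.mem_span_pair.2 ⟨r' - d * r, d, by rw [smul_add, smul_smul, sub_smul]; abel⟩
      · rintro _ (h | h) <;> rw [Set.mem_singleton_iff] at h <;> subst h
        · exact Submodule.subset_span (Or.inl rfl)
        · refine Submodule.mem_span_pair.2 ⟨r - d⁻¹ * r', d⁻¹, ?_⟩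
          rw [smul_add, smul_smul, smul_smul, inv_mul_cancel₀ hd0, one_smul, sub_smul]
          abel
    refine ⟨(stabSub A _).mul_mem ((stabSub A _).inv_mem x.2) x'.2, ?_⟩
    show (x : G)⁻¹ * (x' : G) ∈ stabSub A _
    rw [mem_stabSub, map_ρ_mul, hLx, map_ρ_inv_map]
  · rw [Finite.card_option, Finite.card_option]
    obtain ⟨x0, hx0⟩ := hx i1
    exact Nat.add_lt_add_right (Finite.card_subtype_lt (p := fun x : F => P.K (x • P.e i1 + P.f i1)
      (x • P.e i1 + P.f i1) = 0) hx0) 1

end polar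

variable {F : Type} [Field F] [Finite F] {p : ℕ} [Fact p.Prime] [CharP F p]

theorem frameGood_pSp {m : ℕ} (hm : 2 ≤ m) [IsSimpleGroup (Cfsg.PSp m F)] (hp : p ∣ Nat.card (Cfsg.PSp m F))
    {R A' : Prop} (h2 : m = 2 → p = 2 → A') : FrameGood p (Cfsg.PSp m F) R A' := by
  refine frameGood_polar (good_symp m F p) (by omega) (QuotientGroup.mk' _) (QuotientGroup.mk'_surjective _)
    (QuotientGroup.ker_mk' _).le hp (Or.inr (not_isThin_of_perp (one_ne_zero (α := F)) (x := 0)
      (fun i => ⟨(sympPolar m F).K_zero_left _, (sympPolar m F).K_zero_left _⟩) fun i => ⟨trivial, ?_⟩))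
    (by omega) fun h hp' _ => h2 h hp'
  rw [add_zero, one_smul, (sympPolar m F).K_add, (sympPolar m F).K_add_right, (sympPolar m F).K_add_right,
    (sympPolar m F).K_ff, (sympPolar m F).K_ee, (sympPolar m F).K_fe, (sympPolar m F).K_ef, if_pos rfl,
    if_pos rfl]
  show (0 : F) + -1 + (1 + 0) = 0
  ring

theorem frameGood_pSU {n q : ℕ} (hn : 3 ≤ n) (hF : Nat.card F = q ^ 2) [IsSimpleGroup (Cfsg.PSU n F q)]
    (hp : p ∣ Nat.card (Cfsg.PSU n F q)) {R A' : Prop} (hR : n = 3 → R) :
    FrameGood p (Cfsg.PSU n F q) R A' := by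
  obtain ⟨c⟩ := exists_conj (F := F) (q := q) hF
  obtain ⟨x, hx⟩ : ∃ x, c.σ x ≠ x := by
    by_contra h
    push Not at h
    exact c.ne (RingHom.ext h)
  have key : ∀ (i : Fin (n / 2)) (s : F), s + c.σ s = 0 →
      (hermPolar (n := n) c).K ((hermPolar (n := n) c).f i + s • (hermPolar (n := n) c).e i)
        ((hermPolar (n := n) c).f i + s • (hermPolar (n := n) c).e i) = 0 := fun i s hs => by
    rw [(hermPolar (n := n) c).K_add, (hermPolar (n := n) c).K_add_right, (hermPolar (n := n) c).K_add_right,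
      (hermPolar (n := n) c).K_smul, (hermPolar (n := n) c).K_smul, (hermPolar (n := n) c).K_smul_right,
      (hermPolar (n := n) c).K_smul_right, (hermPolar (n := n) c).K_ff, (hermPolar (n := n) c).K_ee,
      (hermPolar (n := n) c).K_fe, (hermPolar (n := n) c).K_ef, if_pos rfl, if_pos rfl]
    show 0 + c.σ s * 1 + (s * 1 + s * (c.σ s * 0)) = 0
    linear_combination hs
  have ha : (x - c.σ x) + c.σ (x - c.σ x) = 0 := by rw [map_sub, c.invol]; ring
  have hthick : ∀ z w, ¬ IsThin (hermPolar (n := n) c) z w :=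
    not_isThin_of_perp (sub_ne_zero.2 hx.symm) (x := 0)
      (fun i => ⟨(hermPolar (n := n) c).K_zero_left _, (hermPolar (n := n) c).K_zero_left _⟩) fun i => by
      rw [add_zero]
      exact ⟨key i _ ha, key i _ ha⟩
  haveI : Finite (Cfsg.SU n F q) := inferInstance
  refine frameGood_polar (good_herm c p) (by omega) (QuotientGroup.mk' _) (QuotientGroup.mk'_surjective _)
    (QuotientGroup.ker_mk' _).le hp (Or.inr hthick) (fun h => ?_) fun h2 hp2 hidx => False.elim ?_
  · exact hR (by omega)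
  subst hp2
  have hidx' := hidx ⟨0, by omega⟩ ⟨1, by omega⟩
  rcases (show n = 4 ∨ n = 5 by omega) with rfl | rfl
  · refine index_ne_of_split (good_herm c 2) h2 hthick (fun v hv => ?_) (fun i => ⟨x, ?_⟩) hidx'
    · funext j
      by_cases hj : (j : ℕ) < 2
      · exact (coord_zero c v ⟨j, hj⟩ (hv _)).1
      · have := (coord_zero c v ⟨(j : ℕ) - 2, by omega⟩ (hv _)).2
        rwa [show ib (n := 4) ⟨(j : ℕ) - 2, by omega⟩ = j from Fin.ext (by simp [ib]; omega)] at this
    · rw [(hermPolar (n := 4) c).K_add, (hermPolar (n := 4) c).K_add_right, (hermPolar (n := 4) c).K_add_right,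
        (hermPolar (n := 4) c).K_smul, (hermPolar (n := 4) c).K_smul, (hermPolar (n := 4) c).K_smul_right,
        (hermPolar (n := 4) c).K_smul_right, (hermPolar (n := 4) c).K_ff, (hermPolar (n := 4) c).K_ee,
        (hermPolar (n := 4) c).K_fe, (hermPolar (n := 4) c).K_ef, if_pos rfl, if_pos rfl]
      show x * (c.σ x * 0) + x * 1 + (c.σ x * 1 + 0) ≠ 0
      intro h
      refine hx ?_
      have h2' : (2 : F) = 0 := CharP.cast_eq_zero F 2
      linear_combination h - x * h2'
  · have h2' : (2 : F) = 0 := CharP.cast_eq_zero F 2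
    set wv : Fin 5 → F := Pi.single (⟨4, by omega⟩ : Fin 5) 1 with hwv
    have hwe : ∀ i (a b : F), Cfsg.hermForm 5 F q wv (pvec i a b) = 0 := fun i a b => by
      have hi : (i : ℕ) < 2 := i.2
      rw [herm_pvec_right c, hwv, Pi.single_eq_of_ne (fun e => by have := congrArg Fin.val e; simp [ia] at this; omega),
        Pi.single_eq_of_ne (fun e => by have := congrArg Fin.val e; simp [ib] at this; omega)]
      simp
    have hww : Cfsg.hermForm 5 F q wv wv = 1 := by rw [hwv, c.single_right, Pi.single_eq_same]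
    have hu0 : x + c.σ x ≠ 0 := fun e => hx (by linear_combination e - x * h2')
    set u := x / (x + c.σ x) with hu
    have huu : u + c.σ u = 1 := by
      rw [hu, map_div₀, map_add, c.invol, add_comm (c.σ x) x, ← add_div, div_self hu0]
    refine index_ne_of_aniso (P := hermPolar (n := 5) c) (good_herm c 2) h2 hthick (w := wv)
      (fun i => ⟨hwe i _ _, hwe i _ _⟩) (show Cfsg.hermForm 5 F q wv wv ≠ 0 by rw [hww]; exact one_ne_zero)
      (one_ne_zero (α := F)) (fun y => -(y * c.σ y * u)) (by simp) (fun i y s hs => ?_) hidx'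
    have hs' : s + c.σ s + y * c.σ y = 0 := by
      rcases hs with rfl | ⟨rfl, rfl⟩
      · rw [map_neg, map_mul, map_mul, c.invol]
        linear_combination -(y * c.σ y) * huu
      · rw [map_one, map_zero]
        linear_combination h2'
    have : (hermPolar (n := 5) c).K ((hermPolar (n := 5) c).f i + y • wv + s • (hermPolar (n := 5) c).e i)
        ((hermPolar (n := 5) c).f i + y • wv + s • (hermPolar (n := 5) c).e i) = 0 := by
      set Q5 := hermPolar (n := 5) c with hQ5
      have e1 : Q5.K wv (Q5.e i) = 0 := hwe i _ _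
      have e2 : Q5.K wv (Q5.f i) = 0 := hwe i _ _
      rw [Q5.K_add, Q5.K_add, Q5.K_add_right, Q5.K_add_right, Q5.K_add_right, Q5.K_add_right, Q5.K_add_right,
        Q5.K_add_right, Q5.K_smul, Q5.K_smul, Q5.K_smul, Q5.K_smul, Q5.K_smul, Q5.K_smul, Q5.K_smul_right,
        Q5.K_smul_right, Q5.K_smul_right, Q5.K_smul_right, Q5.K_smul_right, Q5.K_smul_right, Q5.K_ff, Q5.K_ee,
        Q5.K_fe, Q5.K_ef, if_pos rfl, if_pos rfl, e1, e2, Q5.K_eq_zero_symm e1, Q5.K_eq_zero_symm e2,
        show Q5.K wv wv = 1 from hww]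
      show (0 + c.σ y * 0) + c.σ s * 1 + (y * 0 + y * (c.σ y * 1) + y * (c.σ s * 0)) +
        (s * 1 + s * (c.σ y * 0) + s * (c.σ s * 0)) = 0
      linear_combination hs'
    exact ⟨this, this⟩

theorem frameGood_pOmega {ι' : Type} [Fintype ι'] [DecidableEq ι'] {f : (ι' → F) → F} {m : ℕ}
    (hm : 3 ≤ m) (Q' : QuadraticForm F (ι' → F)) (h : ∀ v, Q' v = f v) (D' : QData Q' m)
    (hth : 4 ≤ m ∨ ∃ x, Perp Q' D'.e D'.f x ∧ Q' x ≠ 0)
    [IsSimpleGroup (Cfsg.POmega F f)] (hp : p ∣ Nat.card (Cfsg.POmega F f)) {R A' : Prop} :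
    FrameGood p (Cfsg.POmega F f) R A' := by
  let e := isoMat Q' h
  let j : Cfsg.Omega F f →* orth Q' := e.toMonoidHom.comp (Cfsg.Omega F f).subtype
  have hj : Function.Injective j := e.injective.comp (Cfsg.Omega F f).subtype_injective
  have hr : j.range = commutator (orth Q') := by
    rw [MonoidHom.range_comp, Subgroup.range_subtype, show Cfsg.Omega F f = commutator _ from rfl,
      commutator_def, Subgroup.map_commutator, commutator_def,
      Subgroup.map_top_of_surjective e.toMonoidHom e.surjective]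
  haveI : Finite (orth Q') := Finite.of_injective
    (fun g => ((g : (ι' → F) ≃ₗ[F] (ι' → F)) : (ι' → F) → (ι' → F))) (fun _ _ e => orth_ext (congrFun e))
  haveI : Finite (Cfsg.Omega F f) := Finite.of_injective j hj
  refine frameGood_polar (D'.good j hj hr p) (by omega) (QuotientGroup.mk' _)
    (QuotientGroup.mk'_surjective _) (QuotientGroup.ker_mk' _).le hp (hth.imp id ?_) (by omega) (by omega)
  rintro ⟨x, hxp, hx⟩
  refine not_isThin_of_perp (P := D'.toPolar) (a := -Q' x) (neg_ne_zero.2 hx) (x := x) hxp fun i => ?_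
  have h0 : Q' (D'.f i + x + (-Q' x) • D'.e i) = 0 := by
    rw [QuadraticMap.map_add ⇑Q', QuadraticMap.map_add ⇑Q', D'.f_sing, QuadraticMap.map_smul, D'.e_sing,
      smul_zero, QuadraticMap.polar_add_left, QuadraticMap.polar_smul_right, QuadraticMap.polar_smul_right,
      QuadraticMap.polar_comm _ (D'.f i) (D'.e i), D'.pef, if_pos rfl,
      show QuadraticMap.polar ⇑Q' (D'.f i) x = 0 from (QuadraticMap.polar_comm _ _ _).trans (hxp i).2,
      show QuadraticMap.polar ⇑Q' x (D'.e i) = 0 from (hxp i).1]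
    simp
  refine ⟨h0, ?_⟩
  show QuadraticMap.polar ⇑Q' _ _ = 0
  rw [QuadraticMap.polar_self]
  exact (congrArg (fun t : F => (2 : ℕ) • t) h0).trans (smul_zero _)

open CfsgLib.Suzuki in
theorem frameGood_isoSuzuki {G : Type*} [Group G] [Finite G] (hG : Cfsg.Lie.IsoSuzuki G) {R A' : Prop}
    (hR : R) : FrameGood 2 G R A' := by
  have : Fact (Nat.Prime 2) := ⟨Nat.prime_two⟩
  obtain ⟨K, _, m, h, ⟨e⟩⟩ := isoSuzuki_spec hG
  have := h.finite_group
  refine FrameGood.of_mulEquiv e.symm ?_
  obtain ⟨P, hB, ⟨s, hS⟩, hconj, hdec, hUN, hH, hT⟩ := suzuki_split h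
  have hU : IsPGroup 2 h.U := h.sylU_coe ▸ h.sylU.isPGroup'
  have hUB : h.U ≤ P.B := fun u hu => by rw [hB]; exact h.mem_U_fix hu
  have hidx := not_dvd_index_of_bnPair (P := P) hUB hconj hdec hUN hH hU hT
  obtain ⟨Fr, -, -, hinf⟩ := exists_frame_bn (P := P) hUB hconj hdec hUN hH hU hidx (MonoidHom.id _)
    Function.surjective_id (by rw [MonoidHom.ker_id]; exact bot_le)
  let eι : Unit ≃ {t // t ∈ P.S} :=
    ⟨fun _ => ⟨s, by rw [hS]; rfl⟩, fun _ => (), fun _ => rfl, fun t => Subtype.ext (by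
      exact (Set.mem_singleton_iff.1 (hS.subset t.2)).symm)⟩
  let Fr' : BorelFrame 2 (Cfsg.Sz K m) Unit := {
    U := Fr.U
    isPGroup := Fr.isPGroup
    not_dvd := Fr.not_dvd
    Q := fun u => Fr.Q (eι u)
    normalizer_le := fun u => Fr.normalizer_le _
    ne_top := fun u => Fr.ne_top _
    cover := fun M h1 h2 => by
      obtain ⟨i, hi⟩ := Fr.cover M h1 h2
      exact ⟨eι.symm i, by rwa [Equiv.apply_symm_apply]⟩
    indep := fun u => by
      obtain ⟨x, hx, -⟩ := Fr.indep (eι u)
      exact ⟨x, hx, fun j hj => absurd (Subsingleton.elim j u) hj⟩ }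
  exact ⟨Unit, inferInstance, inferInstance, Fr', fun _ _ => ⟨le_of_eq_of_le (eι.iInf_comp (g := Fr.Q)) hinf,
    Or.inl hR⟩⟩

end CfsgLib.BrauerPairs
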