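import Cfsg.Agent.Lib.BrauerPairs.PMinimalFrame

/-!
A p-minimal overgroup of a group with a Borel frame permutes the maximal overgroups transitively, and the
normalizer of the Sylow subgroup is maximal.
-/

set_option autoImplicit false
set_option linter.unusedSectionVars false

namespace CfsgLib.BrauerPairs

open scoped Pointwise

universe u v w

variable {p : ℕ} [Fact p.Prime] {K : Type u} [Group K] {X : Type w} [Group X] [Finite X]
  (f : K →* X) (hf : Function.Injective f) [hN : f.range.Normal]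

/-- The automorphism of `K` given by conjugation by an element of the overgroup. -/
noncomputable def autOf : X →* MulAut K where
  toFun g := ((MonoidHom.ofInjective hf).trans (MulAut.conjNormal g)).trans (MonoidHom.ofInjective hf).symm
  map_one' := by ext k; simp
  map_mul' a b := by ext k; simp

theorem apply_autOf (g : X) (k : K) : f (autOf f hf g k) = g * f k * g⁻¹ := by
  have h : (((MonoidHom.ofInjective hf) (autOf f hf g k) : f.range) : X) =
      ((MulAut.conjNormal g (MonoidHom.ofInjective hf k) : f.range) : X) := by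
    simp [autOf]
  rwa [MonoidHom.ofInjective_apply, MulAut.conjNormal_apply, MonoidHom.ofInjective_apply] at h

theorem map_autOf (g : X) (H : Subgroup K) :
    (H.map (autOf f hf g).toMonoidHom).map f = (H.map f).map (MulAut.conj g).toMonoidHom := by
  rw [Subgroup.map_map, Subgroup.map_map]
  congr 1
  ext k
  exact apply_autOf f hf g k

theorem mem_normalizer_map {g : X} {H : Subgroup K} :
    g ∈ Subgroup.normalizer ((H.map f : Subgroup X) : Set X) ↔ H.map (autOf f hf g).toMonoidHom = H := by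
  rw [Subgroup.mem_normalizer_iff]
  constructor
  · intro h
    apply Subgroup.map_injective hf
    rw [map_autOf]
    ext x
    rw [Subgroup.mem_map]
    refine ⟨fun ⟨y, hy, e⟩ => e ▸ (h y).1 hy, fun hx => ⟨g⁻¹ * x * g, (h _).2 ?_, by simp [mul_assoc]⟩⟩
    simpa [mul_assoc] using hx
  · intro h x
    have h' := congrArg (Subgroup.map f) h
    rw [map_autOf] at h'
    refine ⟨fun hx => h' ▸ Subgroup.mem_map_of_mem (MulAut.conj g).toMonoidHom hx, fun hx => ?_⟩
    rw [← h'] at hx
    obtain ⟨y, hy, e⟩ := Subgroup.mem_map.1 hx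
    obtain rfl : y = x := by simpa using e
    exact hy

include hf in
/-- The main property of a p-minimal overgroup. -/
theorem pMinimal_core {ι : Type v} [Finite ι] [Nonempty ι] (F : BorelFrame p K ι)
    (hX : ∀ S : Sylow p X, ¬ (S : Subgroup X).Normal ∧ ∃! M : Subgroup X, IsCoatom M ∧ (S : Subgroup X) ≤ M) :
    F.Transitive ∧ (∃ k, Nat.card ι = p ^ k) ∧ (f.range = ⊤ → Nat.card ι = 1) ∧
      ((⨅ i, F.Q i) ≤ Subgroup.normalizer (F.U : Set K) →
        IsCoatom (Subgroup.normalizer ((F.U.map f : Subgroup X) : Set X))) := by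
  classical
  haveI : Finite K := Finite.of_injective f hf
  set NK := Subgroup.normalizer (F.U : Set K) with hNK
  set NX := Subgroup.normalizer ((F.U.map f : Subgroup X) : Set X) with hNX
  obtain ⟨S, hS⟩ := (F.isPGroup.map f).exists_le_sylow
  have hUmax : (S : Subgroup X).comap f = F.U := by
    refine ((F.isPGroup.toSylow F.not_dvd).3 ?_ (Subgroup.map_le_iff_le_comap.1 hS))
    exact S.isPGroup'.comap_of_injective f hf
  have hSN : (S : Subgroup X) ≤ NX := by
    intro s hs
    rw [hNX, mem_normalizer_map f hf]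
    rw [← hUmax]
    ext k
    rw [Subgroup.mem_map_equiv, Subgroup.mem_comap, Subgroup.mem_comap]
    rw [show f k = s * f ((autOf f hf s).symm k) * s⁻¹ by
      rw [← apply_autOf f hf, MulEquiv.apply_symm_apply]]
    constructor
    · exact fun h => mul_mem (mul_mem hs h) (inv_mem hs)
    · intro h
      simpa [mul_assoc] using mul_mem (mul_mem (inv_mem hs) h) hs
  have haut : ∀ g ∈ NX, F.U.map (autOf f hf g).toMonoidHom = F.U := fun g hg =>
    (mem_normalizer_map f hf).1 hg
  -- the action of `S` on the maximal overgroups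
  choose act hact using fun (s : (S : Subgroup X)) (i : ι) => F.exists_image (haut _ (hSN s.2)) i
  have hQinj : ∀ {i j}, F.Q i = F.Q j → i = j := fun h => F.eq_of_le h.le
  letI : MulAction ↥(S : Subgroup X) ι :=
    { smul := act
      one_smul := fun i => hQinj (by
        show F.Q (act 1 i) = _
        rw [← hact, show ((1 : (S : Subgroup X)) : X) = 1 from rfl, map_one]
        exact Subgroup.map_id _)
      mul_smul := fun a b i => hQinj (by
        show F.Q (act (a * b) i) = F.Q (act a (act b i))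
        rw [← hact, ← hact a, ← hact b, Subgroup.map_map]
        congr 1
        rw [show ((a * b : (S : Subgroup X)) : X) = (a : X) * b from rfl, map_mul]
        rfl) }
  have hNle : ∀ i, NK ≤ F.Q i := F.normalizer_le
  have hfU : ∀ {k}, f k ∈ (S : Subgroup X) → k ∈ F.U := fun h => hUmax ▸ h
  -- the subgroup attached to an orbit
  let R : ι → Subgroup K := fun i => ⨅ j ∈ MulAction.orbit ↥(S : Subgroup X) i, F.Q j
  have hNR : ∀ i, NK ≤ R i := fun i => le_iInf₂ fun j _ => hNle j
  have hRi : ∀ i, R i ≤ F.Q i := fun i => iInf₂_le i (MulAction.mem_orbit_self i)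
  have hRinv : ∀ i, ∀ s ∈ (S : Subgroup X), ∀ k ∈ R i, autOf f hf s k ∈ R i := by
    intro i s hs k hk
    simp only [R, Subgroup.mem_iInf] at hk ⊢
    intro j hj
    have h1 : (⟨s, hs⟩ : (S : Subgroup X))⁻¹ • j ∈ MulAction.orbit ↥(S : Subgroup X) i :=
      (MulAction.orbit_eq_iff.2 hj) ▸ MulAction.mem_orbit j _
    have h2 := Subgroup.mem_map_of_mem (autOf f hf s).toMonoidHom (hk _ h1)
    rw [hact ⟨s, hs⟩] at h2
    have h3 : act ⟨s, hs⟩ ((⟨s, hs⟩ : (S : Subgroup X))⁻¹ • j) = j := smul_inv_smul (⟨s, hs⟩ : (S : Subgroup X)) j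
    rwa [h3] at h2
  have hSnorm : ∀ i, (S : Subgroup X) ≤ Subgroup.normalizer (((R i).map f : Subgroup X) : Set X) := by
    intro i s hs
    rw [mem_normalizer_map f hf]
    refine le_antisymm (fun x hx => ?_) fun x hx => ?_
    · obtain ⟨k, hk, rfl⟩ := hx
      exact hRinv i s hs k hk
    · refine ⟨autOf f hf s⁻¹ x, hRinv i _ (inv_mem hs) x hx, ?_⟩
      show autOf f hf s (autOf f hf s⁻¹ x) = x
      rw [← MulAut.mul_apply, ← map_mul, mul_inv_cancel, map_one, MulAut.one_apply]
  have hL : ∀ i, ∀ k, f k ∈ (R i).map f ⊔ (S : Subgroup X) → k ∈ R i := by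
    intro i k hk
    rw [← SetLike.mem_coe, Subgroup.coe_mul_of_right_le_normalizer_left _ _ (hSnorm i)] at hk
    obtain ⟨r, ⟨r0, hr0, rfl⟩, s, hs, e⟩ := Set.mem_mul.1 hk
    have hs' : s = f (r0⁻¹ * k) := by rw [map_mul, map_inv, ← e, inv_mul_cancel_left]
    have : r0⁻¹ * k ∈ F.U := hfU (hs' ▸ hs)
    have h1 := (R i).mul_mem hr0 (hNR i (Subgroup.le_normalizer this))
    rwa [mul_inv_cancel_left] at h1
  obtain ⟨M, ⟨hMc, hSM⟩, huniq⟩ := (hX S).2
  have hbelow : ∀ H : Subgroup X, (S : Subgroup X) ≤ H → H ≠ ⊤ → H ≤ M := by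
    intro H hH hne
    obtain h | ⟨C, hC, hHC⟩ := eq_top_or_exists_le_coatom H
    · exact absurd h hne
    · rwa [huniq C ⟨hC, hH.trans hHC⟩] at hHC
  have hRM : ∀ i, R i ≤ M.comap f := fun i => by
    rw [← Subgroup.map_le_iff_le_comap]
    refine le_sup_left.trans (hbelow _ le_sup_right fun ht => F.ne_top i (top_le_iff.1 fun k _ => hRi i ?_))
    exact hL i k (by rw [ht]; trivial)
  have hNXne : NX ≠ ⊤ := by
    intro ht
    obtain ⟨i⟩ := (inferInstance : Nonempty ι)
    refine F.ne_top i (top_le_iff.1 fun k _ => hNle i ?_)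
    rw [hNK, Subgroup.mem_normalizer_iff]
    intro x
    have h1 : f k ∈ NX := by rw [ht]; trivial
    have h2 := Subgroup.mem_normalizer_iff.1 h1 (f x)
    rwa [← map_inv, ← map_mul, ← map_mul, Subgroup.mem_map_iff_mem hf, Subgroup.mem_map_iff_mem hf] at h2
  have hNXM : NX ≤ M := hbelow _ hSN hNXne
  have hNKM : NK ≤ M.comap f := by
    intro k hk
    refine hNXM ?_
    rw [hNX, Subgroup.mem_normalizer_iff]
    intro x
    rw [Subgroup.mem_normalizer_iff] at hk
    constructor
    · rintro ⟨y, hy, rfl⟩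
      exact ⟨k * y * k⁻¹, (hk y).1 hy, by simp⟩
    · rintro ⟨y, hy, e⟩
      exact ⟨k⁻¹ * y * k, (hk _).2 (by simpa [mul_assoc] using hy), by rw [map_mul, map_mul, e]; simp [mul_assoc]⟩
  have hMtop : M.comap f ≠ ⊤ := by
    intro ht
    apply hMc.1
    have hrange : f.range ≤ M := by
      rintro _ ⟨k, rfl⟩
      exact (show k ∈ M.comap f by rw [ht]; trivial)
    let UR : Sylow p f.range := (F.isPGroup.map f.rangeRestrict).toSylow (by
      intro hd
      exact F.not_dvd (hd.trans (Subgroup.index_map_dvd F.U f.rangeRestrict_surjective)))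
    have hfr := Sylow.normalizer_sup_eq_top UR
    rw [show (UR : Subgroup f.range).map f.range.subtype = F.U.map f by
      show (F.U.map f.rangeRestrict).map f.range.subtype = _
      rw [Subgroup.map_map]; rfl] at hfr
    rw [← top_le_iff, ← hfr]
    exact sup_le hNXM hrange
  obtain ⟨i0, hi0⟩ := F.cover _ hNKM hMtop
  have horb : ∀ i, i0 ∈ MulAction.orbit ↥(S : Subgroup X) i := by
    intro i
    by_contra hne
    obtain ⟨x, hx, hxo⟩ := F.indep i0
    refine hx (hi0 (hRM i ?_))
    simp only [R, Subgroup.mem_iInf]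
    exact fun j hj => hxo j fun e => hne (e ▸ hj)
  have horbit : MulAction.orbit ↥(S : Subgroup X) i0 = Set.univ :=
    Set.eq_univ_of_forall fun j => MulAction.mem_orbit_symm.1 (horb j)
  refine ⟨fun i j => ?_, ?_, fun htop => ?_, fun hinf => ⟨hNXne, fun H hH => ?_⟩⟩
  · obtain ⟨s, hs⟩ : j ∈ MulAction.orbit ↥(S : Subgroup X) i :=
      (MulAction.orbit_eq_iff.2 (horb i)) ▸ horbit.symm ▸ Set.mem_univ j
    exact ⟨autOf f hf s, haut _ (hSN s.2), (hact s i).trans (congrArg F.Q hs)⟩
  · obtain ⟨k, hk⟩ := S.isPGroup'.card_orbit i0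
    exact ⟨k, by rw [← hk, horbit, Nat.card_univ]⟩
  · rw [Nat.card_eq_one_iff_unique]
    refine ⟨⟨fun a b => ?_⟩, inferInstance⟩
    obtain ⟨s, hs⟩ : b ∈ MulAction.orbit ↥(S : Subgroup X) a :=
      (MulAction.orbit_eq_iff.2 (horb a)) ▸ horbit.symm ▸ Set.mem_univ b
    refine (Eq.trans ?_ hs)
    refine hQinj ?_
    show F.Q a = F.Q (act s a)
    obtain ⟨k, hk⟩ : (s : X) ∈ f.range := by rw [htop]; trivial
    have hkU : k ∈ F.U := hfU (hk ▸ s.2)
    have hkQ := hNle a (Subgroup.le_normalizer hkU)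
    rw [← hact]
    have hinner : ∀ x, autOf f hf s x = k * x * k⁻¹ := fun x => hf (by
      rw [apply_autOf, ← hk, map_mul, map_mul, map_inv])
    apply le_antisymm
    · intro x hx
      refine ⟨k⁻¹ * x * k, mul_mem (mul_mem (inv_mem hkQ) hx) hkQ, ?_⟩
      show autOf f hf s (k⁻¹ * x * k) = x
      rw [hinner]
      group
    · rintro _ ⟨x, hx, rfl⟩
      show autOf f hf s x ∈ F.Q a
      rw [hinner]
      exact mul_mem (mul_mem hkQ hx) (inv_mem hkQ)
  · by_contra htop
    have hle := hbelow H (hSN.trans hH.le) htop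
    refine hH.not_ge (hle.trans ?_)
    -- `M` normalizes its intersection with the image, the normalizer of the Sylow subgroup
    have hMK : M.comap f = NK := by
      refine le_antisymm (le_trans (le_iInf fun j => ?_) hinf) hNKM
      obtain ⟨s, hs⟩ : j ∈ MulAction.orbit ↥(S : Subgroup X) i0 := horbit ▸ Set.mem_univ j
      intro k hk
      rw [← hs]
      show k ∈ F.Q (act s i0)
      rw [← hact]
      refine ⟨autOf f hf (s : X)⁻¹ k, hi0 ?_, ?_⟩
      · show f _ ∈ M
        rw [apply_autOf]
        exact mul_mem (mul_mem (inv_mem (hSM s.2)) hk) (inv_mem (inv_mem (hSM s.2)))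
      · show autOf f hf (s : X) (autOf f hf (s : X)⁻¹ k) = k
        rw [← MulAut.mul_apply, ← map_mul, mul_inv_cancel, map_one, MulAut.one_apply]
    intro g hg
    rw [hNX, mem_normalizer_map f hf]
    have hUN : F.U.map (autOf f hf g).toMonoidHom ≤ NK := by
      rintro _ ⟨u, hu, rfl⟩
      rw [← hMK]
      show f (autOf f hf g u) ∈ M
      rw [apply_autOf]
      exact mul_mem (mul_mem hg (hNXM (hSN (hS (Subgroup.mem_map_of_mem f hu))))) (inv_mem hg)
    have hp := IsPGroup.to_sup_of_normal_right' (F.isPGroup.map (autOf f hf g).toMonoidHom) F.isPGroup hUN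
    have h1 := (F.isPGroup.toSylow F.not_dvd).3 hp le_sup_right
    have h2 : F.U.map (autOf f hf g).toMonoidHom ≤ F.U := le_sup_left.trans h1.le
    refine Subgroup.eq_of_le_of_card_ge h2 ?_
    rw [Subgroup.card_map_of_injective (autOf f hf g).injective]

end CfsgLib.BrauerPairs
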