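import Cfsg.Prelude.Def_Solvable
import Mathlib.GroupTheory.Sylow
import Mathlib.GroupTheory.GroupAction.Quotient

/-!
Maximal overgroups of the normalizer of a Sylow subgroup, and p-minimal overgroups of a group.
-/

set_option autoImplicit false
set_option linter.unusedSectionVars false

namespace CfsgLib.BrauerPairs

universe u v w

/-- An irredundant list of the maximal overgroups of the normalizer of a Sylow subgroup. -/
structure BorelFrame (p : ℕ) (K : Type u) [Group K] (ι : Type v) where
  /-- the Sylow subgroup -/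
  U : Subgroup K
  isPGroup : IsPGroup p U
  not_dvd : ¬ p ∣ U.index
  /-- the maximal overgroups -/
  Q : ι → Subgroup K
  normalizer_le : ∀ i, Subgroup.normalizer (U : Set K) ≤ Q i
  ne_top : ∀ i, Q i ≠ ⊤
  cover : ∀ M : Subgroup K, Subgroup.normalizer (U : Set K) ≤ M → M ≠ ⊤ → ∃ i, M ≤ Q i
  indep : ∀ i, ∃ x, x ∉ Q i ∧ ∀ j, j ≠ i → x ∈ Q j

namespace BorelFrame

variable {p : ℕ} {K : Type u} [Group K] {ι : Type v} (F : BorelFrame p K ι)

/-- The automorphisms fixing the Sylow subgroup permute the maximal overgroups transitively. -/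
def Transitive : Prop :=
  ∀ i j, ∃ φ : MulAut K, F.U.map φ.toMonoidHom = F.U ∧ (F.Q i).map φ.toMonoidHom = F.Q j

theorem eq_of_le {i j : ι} (h : F.Q i ≤ F.Q j) : i = j := by
  by_contra hne
  obtain ⟨x, hx, hxo⟩ := F.indep j
  exact hx (h (hxo i hne))

theorem exists_image {φ : MulAut K} (hφ : F.U.map φ.toMonoidHom = F.U) (i : ι) :
    ∃ j, (F.Q i).map φ.toMonoidHom = F.Q j := by
  have key : ∀ ψ : MulAut K, F.U.map ψ.toMonoidHom = F.U → ∀ l, ∃ j, (F.Q l).map ψ.toMonoidHom ≤ F.Q j := by
    intro ψ hψ l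
    refine F.cover _ ?_ fun h => F.ne_top l ?_
    · have h1 := Subgroup.map_mono (f := ψ.toMonoidHom) (F.normalizer_le l)
      rwa [Subgroup.map_equiv_normalizer_eq, hψ] at h1
    · apply Subgroup.map_injective (f := ψ.toMonoidHom) ψ.injective
      rw [h, Subgroup.map_top_of_surjective _ ψ.surjective]
  have hφ' : F.U.map (φ⁻¹ : MulAut K).toMonoidHom = F.U := by
    conv_lhs => rw [← hφ, Subgroup.map_map]
    ext x
    simp [Subgroup.mem_map]
  obtain ⟨j, hj⟩ := key φ hφ i
  obtain ⟨l, hl⟩ := key φ⁻¹ hφ' j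
  have hil : i = l := F.eq_of_le fun x hx => by
    have := hl (Subgroup.mem_map_of_mem (φ⁻¹ : MulAut K).toMonoidHom
      (hj (Subgroup.mem_map_of_mem φ.toMonoidHom hx)))
    simpa using this
  subst hil
  refine ⟨j, le_antisymm hj fun x hx => ?_⟩
  exact ⟨φ⁻¹ x, hl (Subgroup.mem_map_of_mem _ hx), by simp⟩

/-- Transport of a frame along an isomorphism. -/
def ofMulEquiv {K' : Type w} [Group K'] (e : K ≃* K') : BorelFrame p K' ι where
  U := F.U.map e.toMonoidHom
  isPGroup := F.isPGroup.map _
  not_dvd := by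
    rw [Subgroup.index_map_of_bijective (f := e.toMonoidHom) e.bijective]
    exact F.not_dvd
  Q i := (F.Q i).map e.toMonoidHom
  normalizer_le i := by
    rw [← Subgroup.map_equiv_normalizer_eq]
    exact Subgroup.map_mono (F.normalizer_le i)
  ne_top i h := F.ne_top i (by
    apply Subgroup.map_injective (f := e.toMonoidHom) e.injective
    rw [h, Subgroup.map_top_of_surjective _ e.surjective])
  cover M hM hne := by
    obtain ⟨i, hi⟩ := F.cover (M.comap e.toMonoidHom) (by
      rw [← Subgroup.map_le_iff_le_comap, Subgroup.map_equiv_normalizer_eq]; exact hM) fun h => hne (by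
      rw [← Subgroup.map_comap_eq_self_of_surjective (f := e.toMonoidHom) e.surjective M, h,
        Subgroup.map_top_of_surjective _ e.surjective])
    refine ⟨i, ?_⟩
    rw [← Subgroup.map_comap_eq_self_of_surjective (f := e.toMonoidHom) e.surjective M]
    exact Subgroup.map_mono hi
  indep i := by
    obtain ⟨x, hx, hxo⟩ := F.indep i
    exact ⟨e x, fun h => hx (by simpa [Subgroup.mem_map] using h),
      fun j hj => Subgroup.mem_map_of_mem _ (hxo j hj)⟩

theorem ofMulEquiv_transitive {K' : Type w} [Group K'] (e : K ≃* K')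
    (h : (F.ofMulEquiv e).Transitive) : F.Transitive := by
  intro i j
  obtain ⟨φ, hU, hQ⟩ := h i j
  refine ⟨e.trans (φ.trans e.symm), ?_, ?_⟩
  · apply Subgroup.map_injective (f := e.toMonoidHom) e.injective
    conv_rhs => rw [show F.U.map e.toMonoidHom = (F.ofMulEquiv e).U from rfl, ← hU]
    show _ = (F.U.map e.toMonoidHom).map φ.toMonoidHom
    rw [Subgroup.map_map, Subgroup.map_map]
    congr 1
    ext x
    simp
  · apply Subgroup.map_injective (f := e.toMonoidHom) e.injective
    conv_rhs => rw [show (F.Q j).map e.toMonoidHom = (F.ofMulEquiv e).Q j from rfl, ← hQ]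
    show _ = ((F.Q i).map e.toMonoidHom).map φ.toMonoidHom
    rw [Subgroup.map_map, Subgroup.map_map]
    congr 1
    ext x
    simp

end BorelFrame

end CfsgLib.BrauerPairs
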