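import Cfsg.Agent.Lib.BrauerPairs.PMinimalCore

/-!
Conclusion for p-minimal groups from a good Borel frame.
-/

set_option autoImplicit false
set_option linter.unusedSectionVars false

namespace CfsgLib.BrauerPairs

open scoped Pointwise

universe u w

/-- A Borel frame which is either of rank one (`R`) or allows only the exceptional configuration `A`
when the maximal overgroups are permuted transitively by a p-group. -/
def FrameGood (p : ℕ) (K : Type u) [Group K] (R A : Prop) : Prop :=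
  ∃ (ι : Type) (_ : Finite ι) (_ : Nonempty ι) (F : BorelFrame p K ι),
    F.Transitive → (∃ k, Nat.card ι = p ^ k) →
      (⨅ i, F.Q i) ≤ Subgroup.normalizer (F.U : Set K) ∧ (R ∨ (p = 2 ∧ Nat.card ι ≠ 1 ∧ A))

theorem FrameGood.mono {p : ℕ} {K : Type u} [Group K] {R A R' A' : Prop} (h : FrameGood p K R A)
    (hR : R → R') (hA : A → A') : FrameGood p K R' A' := by
  obtain ⟨ι, hf, hne, F, hF⟩ := h
  exact ⟨ι, hf, hne, F, fun h1 h2 => (hF h1 h2).imp id (Or.imp hR (And.imp id (And.imp id hA)))⟩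

theorem FrameGood.of_mulEquiv {p : ℕ} {K : Type u} [Group K] {K' : Type w} [Group K'] {R A : Prop}
    (e : K ≃* K') (h : FrameGood p K R A) : FrameGood p K' R A := by
  obtain ⟨ι, hf, hne, F, hF⟩ := h
  refine ⟨ι, hf, hne, F.ofMulEquiv e, fun h1 h2 => ?_⟩
  obtain ⟨hinf, hc⟩ := hF (F.ofMulEquiv_transitive e h1) h2
  refine ⟨?_, hc⟩
  show (⨅ i, (F.Q i).map e.toMonoidHom) ≤ Subgroup.normalizer ((F.U.map e.toMonoidHom : Subgroup K') : Set K')
  rw [← Subgroup.map_equiv_normalizer_eq, ← Subgroup.map_iInf _ e.injective]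
  exact Subgroup.map_mono hinf

variable {p : ℕ} [Fact p.Prime] {X : Type u} [Group X] [Finite X]

/-- The conclusion for a p-minimal group. -/
theorem FrameGood.pMinimal {N : Subgroup X} [hN : N.Normal] {R A : Prop} (h : FrameGood p ↥N R A)
    (hX : ∀ S : Sylow p X, ¬ (S : Subgroup X).Normal ∧ ∃! M : Subgroup X, IsCoatom M ∧ (S : Subgroup X) ≤ M)
    (U : Sylow p ↥N) :
    IsCoatom (Subgroup.normalizer (((U : Subgroup ↥N).map N.subtype : Subgroup X) : Set X)) ∧
      (R ∨ (p = 2 ∧ N ≠ ⊤ ∧ A)) := by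
  obtain ⟨ι, _, _, F, hF⟩ := h
  haveI : N.subtype.range.Normal := by rw [Subgroup.range_subtype]; exact hN
  obtain ⟨ht, hk, hone, hcoat⟩ := pMinimal_core N.subtype N.subtype_injective F hX
  obtain ⟨hinf, hc⟩ := hF ht hk
  refine ⟨?_, hc.imp id (And.imp id fun ⟨h1, h2⟩ => ⟨fun e => h1 (hone (by rw [Subgroup.range_subtype, e])), h2⟩)⟩
  obtain ⟨g, hg⟩ := MulAction.exists_smul_eq ↥N (F.isPGroup.toSylow F.not_dvd) U
  have hU : ((U : Subgroup ↥N).map N.subtype : Subgroup X) =
      (F.U.map N.subtype).map (MulAut.conj (g : X)).toMonoidHom := by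
    rw [← hg, Sylow.coe_subgroup_smul, Subgroup.map_map]
    show (F.U.map (MulDistribMulAction.toMonoidHom ↥N (MulAut.conj g))).map N.subtype = _
    rw [Subgroup.map_map]
    congr 1
  rw [hU, ← Subgroup.map_equiv_normalizer_eq]
  exact (OrderIso.isCoatom_iff (MulEquiv.mapSubgroup (MulAut.conj (g : X))) _).2 (hcoat hinf)

end CfsgLib.BrauerPairs
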