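import Cfsg.Agent.Lib.BrauerPairs.PMinimalBN
import Cfsg.Agent.Lib.BrauerPairs.ParabolicLinear

/-!
Good Borel frames for the projective special linear groups.
-/

set_option autoImplicit false
set_option linter.unusedSectionVars false

namespace CfsgLib.BrauerPairs

theorem BorelFrame.Transitive.index_eq {p : ℕ} {K : Type*} [Group K] {ι : Type*} {F : BorelFrame p K ι}
    (h : F.Transitive) (i j : ι) : (F.Q i).index = (F.Q j).index := by
  obtain ⟨φ, -, hQ⟩ := h i j
  rw [← hQ, Subgroup.index_map_of_bijective (f := φ.toMonoidHom) φ.bijective]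

/-- Two subgroups with a common subgroup of different relative index have different index. -/
theorem index_ne_of_cosets {G : Type*} [Group G] [Finite G] {A C D : Subgroup G} (hA : D ≤ A) (hC : D ≤ C)
    {σ τ : Type*} [Finite σ] [Finite τ] (e : σ → A) (he : ∀ a b, (e a : G)⁻¹ * e b ∈ D → a = b)
    (f : C → τ) (hf : ∀ g h : C, f g = f h → (g : G)⁻¹ * h ∈ D) (hlt : Nat.card τ < Nat.card σ) :
    A.index ≠ C.index := by
  intro heq
  have h1 := (Subgroup.relIndex_mul_index hA).trans (Subgroup.relIndex_mul_index hC).symm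
  rw [heq] at h1
  have h2 := Nat.eq_of_mul_eq_mul_right (Nat.pos_of_ne_zero Subgroup.index_ne_zero_of_finite) h1
  rw [Subgroup.relIndex, Subgroup.relIndex, Subgroup.index_eq_card, Subgroup.index_eq_card] at h2
  have h3 : Nat.card σ ≤ Nat.card (A ⧸ D.subgroupOf A) :=
    Nat.card_le_card_of_injective (fun a => ((e a : A) : A ⧸ D.subgroupOf A)) fun a b hab =>
      he a b (show (e a)⁻¹ * e b ∈ D.subgroupOf A from QuotientGroup.eq.1 hab)
  have h4 : Nat.card (C ⧸ D.subgroupOf C) ≤ Nat.card τ :=
    Nat.card_le_card_of_injective (fun x => f x.out) fun x y hxy => by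
      rw [← QuotientGroup.out_eq' x, ← QuotientGroup.out_eq' y]
      exact QuotientGroup.eq.2 (hf _ _ hxy)
  omega

open Matrix CfsgLib.ClassK.SLn CfsgLib.BNPair

variable {F : Type} [Field F] [Finite F] {n : ℕ}

local notation "𝔾" => SpecialLinearGroup (Fin n) F

theorem mono_swap_not_mem_blockPar {k k' : Fin n} (hk : (k' : ℕ) = k + 1) :
    mono n F (Equiv.swap k k') ∉ blockPar k := fun h => by
  have h1 := h k' k le_rfl (Fin.lt_def.2 (by omega))
  have h2 := (isMono_mono (F := F) (Equiv.swap k k')).ne_zero k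
  rw [Equiv.swap_apply_left] at h2
  exact h2 h1

theorem parabolic_eq_blockPar {k k' : Fin n} (hk : (k' : ℕ) = k + 1) :
    (slPair n F).parabolic ((slPair n F).S \ {mono n F (Equiv.swap k k')}) = blockPar k := by
  refine le_antisymm (parabolic_le_blockPar hk) ?_
  rw [overgroup_eq (P := slPair n F) (borel_le_blockPar k)]
  exact sup_le_sup le_rfl (Subgroup.closure_mono fun x hx =>
    ⟨hx.1, fun e => mono_swap_not_mem_blockPar hk ((Set.mem_singleton_iff.1 e) ▸ hx.2)⟩)

theorem blockPar_index_ne (h4 : 4 ≤ n) :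
    (blockPar (F := F) (⟨0, by omega⟩ : Fin n)).index ≠ (blockPar (F := F) (⟨1, by omega⟩ : Fin n)).index := by
  classical
  cases nonempty_fintype F
  set i1 : Fin n := ⟨1, by omega⟩
  set i2 : Fin n := ⟨2, by omega⟩
  set i3 : Fin n := ⟨3, by omega⟩
  set i0 : Fin n := ⟨0, by omega⟩
  have h21 : i2 ≠ i1 := by simp [i1, i2]
  have h31 : i3 ≠ i1 := by simp [i1, i3]
  let g : F × F → 𝔾 := fun a => SpecialLinearGroup.transvection h21 a.1 * SpecialLinearGroup.transvection h31 a.2
  have hg : ∀ a, ((g a : 𝔾) : Matrix (Fin n) (Fin n) F) = 1 + Matrix.single i2 i1 a.1 + Matrix.single i3 i1 a.2 := by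
    intro a
    show (SpecialLinearGroup.transvection h21 a.1 : Matrix (Fin n) (Fin n) F) *
      (SpecialLinearGroup.transvection h31 a.2 : Matrix (Fin n) (Fin n) F) = _
    rw [SpecialLinearGroup.transvection_coe, SpecialLinearGroup.transvection_coe, add_mul, mul_add, mul_add,
      one_mul, one_mul, mul_one, Matrix.single_mul_single_of_ne _ _ _ _ h31.symm, add_zero]
    abel
  have hmem : ∀ a, g a ∈ blockPar (F := F) i0 := by
    intro a i j hj hi
    have hj0 : j = i0 := Fin.ext (by have := Fin.le_def.1 hj; simp [i0] at this ⊢; omega)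
    have hne : i ≠ j := fun e => by rw [e] at hi; exact hj.not_gt hi
    rw [hg, Matrix.add_apply, Matrix.add_apply, Matrix.one_apply_ne hne, Matrix.single_apply,
      Matrix.single_apply, if_neg (fun e => by rw [hj0] at e; simp [i0, i1] at e),
      if_neg (fun e => by rw [hj0] at e; simp [i0, i1] at e), add_zero, add_zero]
  have hadd : ∀ a b, g a * g b = g (a + b) := by
    intro a b
    refine Subtype.ext ?_
    show (g a : Matrix (Fin n) (Fin n) F) * (g b : Matrix (Fin n) (Fin n) F) = _
    rw [hg, hg, hg]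
    simp only [Matrix.add_mul, Matrix.mul_add, Matrix.one_mul, Matrix.mul_one,
      Matrix.single_mul_single_of_ne _ _ _ _ h31.symm, Matrix.single_mul_single_of_ne _ _ _ _ h21.symm,
      add_zero, Prod.fst_add, Prod.snd_add, Matrix.single_add]
    abel
  refine index_ne_of_cosets (D := blockPar i0 ⊓ blockPar i1) inf_le_left inf_le_right
    (fun a => ⟨g a, hmem a⟩) (fun a b hab => ?_)
    (fun x : blockPar (F := F) i1 => if (x : 𝔾) i1 i0 = 0 then none else some ((x : 𝔾) i0 i0 / (x : 𝔾) i1 i0))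
    (fun x y hxy => ?_) ?_
  · have hd : (g a)⁻¹ * g b = g (b - a) := by
      rw [inv_mul_eq_iff_eq_mul, hadd, add_sub_cancel]
    have h : g (b - a) ∈ blockPar (F := F) i1 := by rw [← hd]; exact hab.2
    have e2 := h i2 i1 le_rfl (Fin.lt_def.2 (by simp [i1, i2]))
    have e3 := h i3 i1 le_rfl (Fin.lt_def.2 (by simp [i1, i3]))
    have h23 : i2 ≠ i3 := by simp [i2, i3]
    rw [hg, Matrix.add_apply, Matrix.add_apply, Matrix.one_apply_ne h21, Matrix.single_apply,
      Matrix.single_apply, if_pos ⟨rfl, rfl⟩, if_neg (fun e => h23 e.1.symm), zero_add, add_zero,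
      Prod.fst_sub, sub_eq_zero] at e2
    rw [hg, Matrix.add_apply, Matrix.add_apply, Matrix.one_apply_ne h31, Matrix.single_apply,
      Matrix.single_apply, if_neg (fun e => h23 e.1), if_pos ⟨rfl, rfl⟩, zero_add, zero_add,
      Prod.snd_sub, sub_eq_zero] at e3
    exact (Prod.ext e2 e3).symm
  · refine ⟨fun i j hj hi => ?_, (blockPar i1).mul_mem ((blockPar i1).inv_mem x.2) y.2⟩
    have hj0 : j = i0 := Fin.ext (by have := Fin.le_def.1 hj; simp [i0] at this ⊢; omega)
    subst hj0
    have hcol : ∀ (z : blockPar (F := F) i1) (l : Fin n), l ≠ i0 → l ≠ i1 → (z : 𝔾) l i0 = 0 := fun z l h0 h1 =>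
      z.2 l i0 (Fin.le_def.2 (by simp [i0])) (Fin.lt_def.2 (by
        have a := Fin.val_ne_of_ne h0; have b := Fin.val_ne_of_ne h1; simp [i0, i1] at a b ⊢; omega))
    obtain ⟨c, hc⟩ : ∃ c : F, ∀ l, (y : 𝔾) l i0 = (x : 𝔾) l i0 * c := by
      by_cases hx : (x : 𝔾) i1 i0 = 0
      · have hy : (y : 𝔾) i1 i0 = 0 := by
          by_contra h
          simp [hx, h] at hxy
        have hx0 : (x : 𝔾) i0 i0 ≠ 0 := by
          intro h0
          have hdet := (x : 𝔾).2
          rw [Matrix.det_eq_zero_of_column_eq_zero i0 fun l => ?_] at hdet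
          · exact zero_ne_one hdet
          · by_cases a : l = i0
            · subst a; exact h0
            · by_cases b : l = i1
              · subst b; exact hx
              · exact hcol x l a b
        refine ⟨(y : 𝔾) i0 i0 / (x : 𝔾) i0 i0, fun l => ?_⟩
        by_cases a : l = i0
        · subst a; field_simp
        · by_cases b : l = i1
          · subst b; rw [hx, hy, zero_mul]
          · rw [hcol x l a b, hcol y l a b, zero_mul]
      · have hy : (y : 𝔾) i1 i0 ≠ 0 := by
          intro h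
          simp [hx, h] at hxy
        simp only [hx, hy, if_false, Option.some.injEq] at hxy
        refine ⟨(y : 𝔾) i1 i0 / (x : 𝔾) i1 i0, fun l => ?_⟩
        by_cases a : l = i0
        · subst a
          rw [div_eq_div_iff hx hy] at hxy
          field_simp
          linear_combination -hxy
        · by_cases b : l = i1
          · subst b; field_simp
          · rw [hcol x l a b, hcol y l a b, zero_mul]
    show ((((x : 𝔾)⁻¹ : 𝔾) : Matrix (Fin n) (Fin n) F) * ((y : 𝔾) : Matrix (Fin n) (Fin n) F)) i i0 = 0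
    have e1 : (((x : 𝔾)⁻¹ : 𝔾) : Matrix (Fin n) (Fin n) F) * ((x : 𝔾) : Matrix (Fin n) (Fin n) F) = 1 :=
      congrArg Subtype.val (inv_mul_cancel (x : 𝔾))
    rw [Matrix.mul_apply]
    simp only [hc, ← mul_assoc, ← Finset.sum_mul]
    rw [← Matrix.mul_apply, e1, Matrix.one_apply_ne hi.ne', zero_mul]
  · rw [Nat.card_prod, Nat.card_eq_fintype_card, Nat.card_eq_fintype_card, Fintype.card_option]
    have h2 := Fintype.one_lt_card (α := F)
    nlinarith

variable {p : ℕ} [Fact p.Prime] [CharP F p]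

/-- The frame of the projective special linear group. -/
theorem frameGood_pSL (hn : 2 ≤ n) {R A : Prop} (hR : n = 2 → R) (hA : n = 3 → p = 2 → A) :
    FrameGood p (ProjectiveSpecialLinearGroup (Fin n) F) R A := by
  classical
  cases nonempty_fintype F
  obtain ⟨hconj, hdec, hUN, hH, hU, hT⟩ := slPair_split (n := n) (F := F) p
  have hidx := not_dvd_index_of_bnPair (P := slPair n F) upperU_le_borel hconj hdec hUN hH hU hT
  obtain ⟨Fr, -, hQ, hinf⟩ := exists_frame_bn (P := slPair n F) upperU_le_borel hconj hdec hUN hH hU hidx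
    (QuotientGroup.mk' _) (QuotientGroup.mk'_surjective _) (QuotientGroup.ker_mk' _).le
  have hmem : ∀ k : ℕ, ∀ hk : k + 1 < n,
      mono n F (Equiv.swap (⟨k, by omega⟩ : Fin n) ⟨k + 1, hk⟩) ∈ (slPair n F).S :=
    fun k hk => ⟨_, _, rfl, rfl⟩
  haveI : Nonempty {s // s ∈ (slPair n F).S} := ⟨⟨_, hmem 0 (by omega)⟩⟩
  refine ⟨{s // s ∈ (slPair n F).S}, inferInstance, inferInstance, Fr, fun htr hk => ⟨hinf, ?_⟩⟩
  rcases Nat.lt_or_ge n 4 with h4 | h4
  · by_cases h2 : n = 2
    · exact Or.inl (hR h2)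
    right
    obtain rfl : n = 3 := by omega
    set a : {s // s ∈ (slPair 3 F).S} := ⟨_, hmem 0 (by omega)⟩
    set b : {s // s ∈ (slPair 3 F).S} := ⟨_, hmem 1 (by omega)⟩
    have hab : a ≠ b := fun e => mono_swap_not_mem_blockPar (F := F) (k := (⟨0, by omega⟩ : Fin 3))
      (k' := ⟨1, by omega⟩) rfl (by
        rw [show mono 3 F (Equiv.swap (⟨0, by omega⟩ : Fin 3) ⟨1, by omega⟩) = (b : SpecialLinearGroup (Fin 3) F)
          from congrArg Subtype.val e, ← parabolic_eq_blockPar (k' := (⟨1, by omega⟩ : Fin 3)) rfl]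
        refine subset_parabolic _ ⟨b.2, fun e' => ?_⟩
        have h1 := (isMono_mono (F := F) (Equiv.swap (⟨1, by omega⟩ : Fin 3) ⟨2, by omega⟩)).ne_zero ⟨2, by omega⟩
        rw [Equiv.swap_apply_right] at h1
        have h0 := isMono_mono (F := F) (Equiv.swap (0 : Fin 3) 1) 1 2 (by decide)
        have e'' : (b : SpecialLinearGroup (Fin 3) F) = mono 3 F (Equiv.swap (⟨0, by omega⟩ : Fin 3) ⟨1, by omega⟩) := e'
        exact h1 (by
          rw [show mono 3 F (Equiv.swap (⟨1, by omega⟩ : Fin 3) ⟨2, by omega⟩) =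
            mono 3 F (Equiv.swap (⟨0, by omega⟩ : Fin 3) ⟨1, by omega⟩) from e'']
          exact h0))
    have hcard : Nat.card {s // s ∈ (slPair 3 F).S} = 2 := by
      rw [Nat.card_eq_two_iff]
      refine ⟨a, b, hab, Set.eq_univ_of_forall ?_⟩
      rintro ⟨_, k, k', hk', rfl⟩
      rcases (show (k : ℕ) = 0 ∨ (k : ℕ) = 1 by omega) with e | e
      · exact Or.inl (Subtype.ext (by
          show mono 3 F _ = mono 3 F _
          rw [show k = ⟨0, by omega⟩ from Fin.ext e, show k' = ⟨1, by omega⟩ from Fin.ext (by simp; omega)]))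
      · exact Or.inr (Set.mem_singleton_iff.2 (Subtype.ext (by
          show mono 3 F _ = mono 3 F _
          rw [show k = ⟨1, by omega⟩ from Fin.ext e, show k' = ⟨2, by omega⟩ from Fin.ext (by simp; omega)])))
    obtain ⟨e, he⟩ := hk
    rw [hcard] at he
    have hp : p = 2 := by
      have h2 : p ∣ 2 := he ▸ dvd_pow_self p (fun h0 => by simp [h0] at he)
      exact (Nat.prime_dvd_prime_iff_eq Fact.out Nat.prime_two).1 h2
    exact ⟨hp, by omega, hA rfl hp⟩
  · exfalso
    have h := htr.index_eq ⟨_, hmem 0 (by omega)⟩ ⟨_, hmem 1 (by omega)⟩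
    rw [hQ, hQ, parabolic_eq_blockPar rfl, parabolic_eq_blockPar rfl] at h
    have hker : ∀ k : Fin n, (QuotientGroup.mk' (Subgroup.center 𝔾)).ker ≤ blockPar (F := F) k := fun k => by
      obtain ⟨D, -⟩ := exists_chamberData' upperU_le_borel hconj hdec hUN hH
      exact ((QuotientGroup.ker_mk' _).le.trans D.center_le).trans (borel_le_blockPar k)
    rw [Subgroup.index_map_eq _ (QuotientGroup.mk'_surjective _) (hker _),
      Subgroup.index_map_eq _ (QuotientGroup.mk'_surjective _) (hker _)] at h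
    exact blockPar_index_ne h4 h

end CfsgLib.BrauerPairs
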