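import Cfsg.Agent.Lib.BrauerPairs.PMinimalBN
import Cfsg.Agent.Lib.BrauerPairs.PMinimalLinear
import Cfsg.Agent.Lib.BrauerPairs.ParabolicPolar

/-!
Borel frames for groups of isometries of polar spaces.
-/

set_option autoImplicit false
set_option linter.unusedSectionVars false

namespace CfsgLib.BrauerPairs

open Module CfsgLib.Generators.Steinberg CfsgLib.Generators.Steinberg.Polar

variable {F : Type*} [Field F] [Finite F] {V : Type*} [AddCommGroup V] [Module F V] [Finite V]
  [FiniteDimensional F V] {m : ℕ} {P : Polar F V m} {G : Type*} [Group G] {A : Act P G}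

/-- The setwise stabiliser of a subspace. -/
def stabSub (A : Act P G) (W : Submodule F V) : Subgroup G where
  carrier := {g | W.map (A.ρ g : V →ₗ[F] V) = W}
  one_mem' := by
    ext v
    simp [A.ρ_one]
  mul_mem' := fun {g h} (hg : W.map (A.ρ g : V →ₗ[F] V) = W) (hh : W.map (A.ρ h : V →ₗ[F] V) = W) => by
    show W.map (A.ρ (g * h) : V →ₗ[F] V) = W
    rw [map_ρ_mul, hh, hg]
  inv_mem' := fun {g} (hg : W.map (A.ρ g : V →ₗ[F] V) = W) => by
    show W.map (A.ρ g⁻¹ : V →ₗ[F] V) = W
    conv_lhs => rw [← hg]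
    exact map_ρ_inv_map A g W

theorem mem_stabSub {g : G} {W : Submodule F V} : g ∈ stabSub A W ↔ W.map (A.ρ g : V →ₗ[F] V) = W := Iff.rfl

theorem mem_stabSub_of {g : G} {W : Submodule F V} (h : ∀ w ∈ W, A.ρ g w ∈ W) : g ∈ stabSub A W :=
  map_eq_of_invariant A h

theorem act_toFun (g : G) (x : Cham P) (k : Fin (m + 1)) :
    (A.act g x).toFun k = (x.toFun k).map (A.ρ g : V →ₗ[F] V) := rfl

theorem borel_le_stabSub (k : Fin (m + 1)) : A.borel ≤ stabSub A ((C0 P).toFun k) := fun _ hb =>
  congrArg (fun x : Cham P => x.toFun k) (A.mem_borel.1 hb)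

theorem IsThin.borel_fix {z : Fin m} {c : Cham P} (h : IsThin P z c) {b : G} (hb : b ∈ A.borel) :
    A.act b c = c := by
  refine h.unique _ ?_ fun e => h.ne ?_
  · have := A.adj_act b h.adj
    rwa [A.mem_borel.1 hb] at this
  · rw [← A.act_inv_act b c, e, A.act_inv_eq (A.mem_borel.1 hb)]

theorem IsThin.borel_le {z : Fin m} {c : Cham P} (h : IsThin P z c) (k : Fin (m + 1)) :
    A.borel ≤ stabSub A (c.toFun k) := fun _ hb =>
  congrArg (fun x : Cham P => x.toFun k) (h.borel_fix hb)

theorem IsThin.hyper {z : Fin m} {c : Cham P} (h : IsThin P z c) :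
    c.toFun z.castSucc = (C0 P).toFun z.castSucc := h.adj _ (ne_of_lt Fin.castSucc_lt_succ)

theorem IsThin.top_ne {z : Fin m} {c : Cham P} (h : IsThin P z c) :
    c.toFun z.succ ≠ (C0 P).toFun z.succ := fun e => h.ne (h.adj.eq e)

theorem IsThin.inf_eq {z : Fin m} {c : Cham P} (h : IsThin P z c) :
    (C0 P).toFun z.succ ⊓ c.toFun z.succ = (C0 P).toFun z.castSucc := by
  refine (Submodule.eq_of_le_of_finrank_le (le_inf ((C0 P).castSucc_le z) (h.hyper ▸ c.castSucc_le z)) ?_).symm
  have hlt : (C0 P).toFun z.succ ⊓ c.toFun z.succ < (C0 P).toFun z.succ := by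
    refine lt_of_le_of_ne inf_le_left fun e => h.top_ne ?_
    exact (Submodule.eq_of_le_of_finrank_le (inf_eq_left.1 e) (by rw [Cham.finrank', Cham.finrank'])).symm
  have := Submodule.finrank_lt_finrank_of_lt hlt
  rw [Cham.finrank'] at this ⊢
  simp at this ⊢
  omega

variable [Finite G] {p : ℕ} [Fact p.Prime] [CharP F p]

/-- The two totally singular subspaces above the standard hyperplane are not conjugate. -/
theorem IsThin.map_ne {z : Fin m} {c : Cham P} (h : IsThin P z c) (hA : A.Good p) (g : G) :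
    ((C0 P).toFun z.succ).map (A.ρ g : V →ₗ[F] V) ≠ c.toFun z.succ := by
  intro hg
  obtain ⟨D⟩ := exists_chamberData_polar hA
  obtain ⟨k, hk, hgk⟩ := act_eq_of_sylow (K := stabSub A ((C0 P).toFun z.succ)) (A.isPGroup_unip p)
    (Act.prime_not_dvd_index hA) D.normalizer_le (g := g)
    (A.unip_le_borel.trans (borel_le_stabSub _)) fun u hu => by
      rw [mem_stabSub, map_ρ_mul, hg, map_ρ_mul, mem_stabSub.1 (h.borel_le z.succ (A.unip_le_borel hu)), ← hg,
        map_ρ_inv_map]
  refine h.top_ne ?_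
  have h1 := mem_stabSub.1 (borel_le_stabSub z.succ hgk)
  rw [map_ρ_mul, mem_stabSub.1 hk, hg] at h1
  exact h1

/-- An element fixing the standard hyperplane fixes both subspaces above it. -/
theorem IsThin.mem_of_hyper {z : Fin m} {c : Cham P} (h : IsThin P z c) (hA : A.Good p) {g : G}
    (hg : g ∈ stabSub A ((C0 P).toFun z.castSucc)) :
    g ∈ stabSub A ((C0 P).toFun z.succ) ∧ g ∈ stabSub A (c.toFun z.succ) := by
  have hz := h.last
  have key : ∀ x : Cham P, x.toFun z.castSucc = (C0 P).toFun z.castSucc →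
      (x.toFun z.succ).map (A.ρ g : V →ₗ[F] V) = (C0 P).toFun z.succ ∨
      (x.toFun z.succ).map (A.ρ g : V →ₗ[F] V) = c.toFun z.succ := fun x hx => by
    obtain ⟨y, hy, hyS⟩ := exists_adj (C0 P) z ((A.act g x).toFun z.succ)
      (by rw [← mem_stabSub.1 hg, ← hx, ← act_toFun]; exact (A.act g x).castSucc_le z)
      (by rw [Cham.finrank']; simp) ((A.act g x).ts' _)
      fun k hk => by have := Fin.lt_def.1 hk; have := k.is_le; simp at *; omega
    rw [← act_toFun, ← hyS]
    by_cases hy0 : y = C0 P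
    · exact Or.inl (by rw [hy0])
    · exact Or.inr (by rw [h.unique y hy hy0])
  refine ⟨(key (C0 P) rfl).resolve_right (h.map_ne hA g), (key c h.hyper).resolve_left fun e => h.map_ne hA g⁻¹ ?_⟩
  rw [← e, map_ρ_inv_map]

theorem center_le_stabSub (hA : A.Good p) (k : Fin (m + 1)) :
    Subgroup.center G ≤ stabSub A ((C0 P).toFun k) := (center_le_borel_polar hA).trans (borel_le_stabSub k)

/-- The frame of a polar space. -/
theorem exists_frame_polar (hA : A.Good p) (hm : 0 < m) {H : Type*} [Group H] [Finite H] [IsSimpleGroup H]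
    (π : G →* H) (hπ : Function.Surjective π) (hker : π.ker ≤ Subgroup.center G) (hHp : p ∣ Nat.card H) :
    ∃ Fr : BorelFrame p H (Fin m),
      (⨅ i, Fr.Q i) ≤ Subgroup.normalizer (Fr.U : Set H) ∧
      ∀ i : Fin m, ((i : ℕ) + 2 < m ∨ ∀ z c, ¬ IsThin P z c) →
        (Fr.Q i).index = (stabSub A ((C0 P).toFun i.succ)).index := by
  classical
  obtain ⟨D, hact, hadj, -, -, hC0, hW⟩ := exists_chamberData_polar' hA
  have hU := A.isPGroup_unip p
  have hidx := Act.prime_not_dvd_index (p := p) hA
  have hkB : π.ker ≤ A.borel := hker.trans (center_le_borel_polar hA)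
  have hWc : ∀ w ∈ D.W, w = C0 P ∨ ∃ z, IsThin P z w := fun w hw =>
    (hW w hw).imp id fun ⟨i, h1, h2, h3, h4⟩ => ⟨i, h1, h2, h3, h4⟩
  suffices key : ∃ sub : Fin m → Submodule F V,
      (∀ i : Fin m, ((i : ℕ) + 2 < m ∨ ∀ z c, ¬ IsThin P z c) → sub i = (C0 P).toFun i.succ) ∧
      (∀ i, A.borel ≤ stabSub A (sub i)) ∧
      (∀ M, A.borel ≤ M → M ≠ ⊤ → ∃ i, M ≤ stabSub A (sub i)) ∧
      (∀ i, ∃ x, x ∉ stabSub A (sub i) ∧ ∀ j, j ≠ i → x ∈ stabSub A (sub j)) ∧
      (⨅ i, stabSub A (sub i)) ≤ A.borel by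
    obtain ⟨sub, hsub, hle, hcov, hind, hinf⟩ := key
    obtain ⟨Fr, -, h2, h3⟩ := exists_frame D hU hidx π hπ hker (fun i => stabSub A (sub i)) hle
      (fun i h => by
        obtain ⟨x, hx, -⟩ := hind i
        exact hx ((h : stabSub A (sub i) = ⊤).symm ▸ Subgroup.mem_top x)) hcov hind
    exact ⟨Fr, h3 hinf, fun i hi => by
      rw [h2, hsub i hi, Subgroup.index_map_eq _ hπ (hkB.trans (borel_le_stabSub _))]⟩
  have hinfB : ∀ g : G, (∀ k : Fin m, g ∈ stabSub A ((C0 P).toFun k.succ)) → g ∈ A.borel := fun g hg =>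
    A.mem_borel.2 (Cham.ext (funext fun k => by
      rcases Fin.eq_zero_or_eq_succ k with rfl | ⟨j, rfl⟩
      · rw [Cham.zero_eq_bot, Cham.zero_eq_bot]
      · exact hg j))
  by_cases hthin : ∃ z c, IsThin P z c
  · obtain ⟨z, c, hc⟩ := hthin
    have hz := hc.last
    have hzc : ∀ z' c', IsThin P z' c' → z' = z ∧ c' = c := fun z' c' h' => by
      obtain rfl : z' = z := Fin.ext (by have := h'.last; omega)
      exact ⟨rfl, hc.unique c' h'.adj h'.ne⟩
    rcases eq_or_lt_of_le (show 1 ≤ m from hm) with hm1 | hm2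
    · exfalso
      have hall : ∀ x : Cham P, x = C0 P ∨ x = c := fun x => or_iff_not_imp_left.2 fun hx =>
        hc.unique x (fun k hk => by
          rw [show k = 0 from Fin.ext (by
            have h1 := k.is_le
            have h2 : (k : ℕ) ≠ z + 1 := fun e => hk (Fin.ext (by simpa using e))
            rw [Fin.val_zero]; omega), Cham.zero_eq_bot, Cham.zero_eq_bot]) hx
      have hbot : A.unip = ⊥ := by
        refine (Subgroup.eq_bot_iff_forall _).2 fun u hu => A.unip_free hu ?_
        rcases hall (D0 P) with h | h <;> rw [h]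
        · exact A.mem_borel.1 (A.unip_le_borel hu)
        · exact hc.borel_fix (A.unip_le_borel hu)
      rw [hbot, Subgroup.index_bot] at hidx
      exact hidx (hHp.trans (Subgroup.card_dvd_of_surjective π hπ))
    let z' : Fin m := ⟨m - 2, by omega⟩
    have hz' : z'.succ = z.castSucc := Fin.ext (by simp [z']; omega)
    have hzz' : z ≠ z' := fun e => by have := congrArg Fin.val e; simp [z'] at this; omega
    let sub : Fin m → Submodule F V := fun i => if i = z' then c.toFun z.succ else (C0 P).toFun i.succ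
    have hsubz : sub z = (C0 P).toFun z.succ := if_neg hzz'
    have hsub' : sub z' = c.toFun z.succ := if_pos rfl
    have hsame : ∀ i, i ≠ z → c.toFun i.succ = (C0 P).toFun i.succ := fun i hi =>
      hc.adj _ fun e => hi (Fin.succ_injective _ e)
    have hfix : ∀ g, (∀ i, i ≠ z' → g ∈ stabSub A ((C0 P).toFun i.succ)) →
        g ∈ stabSub A (c.toFun z.succ) → g ∈ A.borel := fun g hg hgc => hinfB g fun i => by
      by_cases hi : i = z'
      · subst hi
        rw [hz', ← hc.inf_eq]
        refine mem_stabSub_of fun w hw => ⟨?_, ?_⟩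
        · exact (mem_stabSub.1 (hg z hzz')).le (Submodule.mem_map_of_mem hw.1)
        · exact (mem_stabSub.1 hgc).le (Submodule.mem_map_of_mem hw.2)
      · exact hg i hi
    refine ⟨sub, fun i hi => if_neg fun e => ?_, fun i => ?_, fun M hM hne => ?_, fun i => ?_, fun g hg => ?_⟩
    · rcases hi with hi | hi
      · have := congrArg Fin.val e; simp [z'] at this; omega
      · exact hi z c hc
    · by_cases hi : i = z'
      · rw [hi, hsub']; exact hc.borel_le _
      · rw [show sub i = _ from if_neg hi]; exact borel_le_stabSub _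
    · rcases eq_top_or_fixes_base hA hm π hπ hHp (A.unip_le_borel.trans hM) (hkB.trans hM) with
        h | ⟨i, hiz, hfx⟩ | ⟨z1, c1, hc1, -, b, hb, hfx⟩
      · exact absurd h hne
      · by_cases hi : i = z'
        · refine ⟨z', fun g hg => ?_⟩
          rw [hsub']
          have h1 : g ∈ stabSub A ((C0 P).toFun i.succ) := mem_stabSub_of (hfx g hg)
          rw [hi, hz'] at h1
          exact (hc.mem_of_hyper hA h1).2
        · refine ⟨i, fun g hg => ?_⟩
          rw [show sub i = _ from if_neg hi]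
          exact mem_stabSub_of (hfx g hg)
      · obtain ⟨e1, e2⟩ := hzc z1 c1 hc1
        rw [e1] at hfx
        rw [e2] at hb
        rcases hb with rfl | rfl
        · exact ⟨z, fun g hg => hsubz ▸ mem_stabSub_of (hfx g hg)⟩
        · exact ⟨z', fun g hg => hsub' ▸ mem_stabSub_of (hfx g hg)⟩
    · -- the base chamber whose neighbour in a suitable panel gives the element
      have orb : ∀ (x : Cham P) (t : Fin m), t ≠ z → (x = C0 P ∨ x = c) →
          ∃ g, (∀ j, j ≠ t → g ∈ stabSub A (x.toFun j.succ)) ∧ g ∉ stabSub A (x.toFun t.succ) := by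
        intro x t ht hx
        obtain ⟨y, hy, hne⟩ := exists_adj_ne x t
        obtain ⟨g, w, hw, e⟩ := D.exists_orbit y
        rw [hact] at e
        have hyz : y.toFun z.succ = x.toFun z.succ := hy _ fun e => ht (Fin.succ_injective _ e).symm
        have hwx : w = x := by
          rcases hWc w hw with rfl | ⟨z1, hw1⟩
          · rcases hx with rfl | rfl
            · rfl
            · refine absurd ?_ (hc.map_ne hA g)
              rw [← hyz, ← e, act_toFun]
          · obtain ⟨rfl, rfl⟩ := hzc z1 w hw1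
            rcases hx with rfl | rfl
            · refine absurd ?_ (hc.map_ne hA g⁻¹)
              rw [← hyz, ← e, act_toFun, map_ρ_inv_map]
            · rfl
        subst hwx
        refine ⟨g, fun j hj => ?_, fun hg => hne ?_⟩
        · rw [mem_stabSub, ← act_toFun, e]
          exact hy _ fun e => hj (Fin.succ_injective _ e)
        · exact hy.eq (by rw [← e, act_toFun]; exact mem_stabSub.1 hg)
      by_cases hiz : i = z
      · obtain ⟨g, hg, hgn⟩ := orb c z' hzz'.symm (Or.inr rfl)
        refine ⟨g, ?_, fun j hj => ?_⟩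
        · subst hiz
          rw [hsubz]
          intro h
          refine hgn ?_
          rw [hsame z' hzz'.symm, hz', ← hc.inf_eq]
          refine mem_stabSub_of fun w hw => ⟨?_, ?_⟩
          · exact (mem_stabSub.1 h).le (Submodule.mem_map_of_mem hw.1)
          · exact (mem_stabSub.1 (hg i hzz')).le (Submodule.mem_map_of_mem hw.2)
        · by_cases hj' : j = z'
          · rw [hj', hsub']
            exact hg z hzz'
          · rw [show sub j = _ from if_neg hj', ← hsame j (hiz ▸ hj)]
            exact hg j hj'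
      obtain ⟨g, hg, hgn⟩ := orb (C0 P) i hiz (Or.inl rfl)
      refine ⟨g, ?_, fun j hj => ?_⟩
      · by_cases hi : i = z'
        · subst hi
          rw [hsub']
          intro h
          refine hgn ?_
          rw [hz', ← hc.inf_eq]
          refine mem_stabSub_of fun w hw => ⟨?_, ?_⟩
          · exact (mem_stabSub.1 (hg z hzz')).le (Submodule.mem_map_of_mem hw.1)
          · exact (mem_stabSub.1 h).le (Submodule.mem_map_of_mem hw.2)
        · rw [show sub i = _ from if_neg hi]; exact hgn
      · by_cases hj' : j = z'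
        · rw [hj', hsub']
          refine (hc.mem_of_hyper hA ?_).2
          rw [← hz']
          exact hg z' (hj' ▸ hj)
        · rw [show sub j = _ from if_neg hj']; exact hg j hj
    · rw [Subgroup.mem_iInf] at hg
      exact hfix g (fun i hi => by have := hg i; rwa [show sub i = _ from if_neg hi] at this) (hsub' ▸ hg z')
  push Not at hthin
  have hWeq : ∀ w ∈ D.W, w = C0 P := fun w hw => (hWc w hw).resolve_right fun ⟨z, h⟩ => hthin z w h
  refine ⟨fun i => (C0 P).toFun i.succ, fun _ _ => rfl, fun i => borel_le_stabSub _, fun M hM hne => ?_,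
    fun i => ?_, fun g hg => hinfB g (Subgroup.mem_iInf.1 hg)⟩
  · rcases eq_top_or_fixes_base hA hm π hπ hHp (A.unip_le_borel.trans hM) (hkB.trans hM) with
      h | ⟨i, -, hfx⟩ | ⟨z, c, hc, -⟩
    · exact absurd h hne
    · exact ⟨i, fun g hg => mem_stabSub_of (hfx g hg)⟩
    · exact absurd hc (hthin z c)
  · obtain ⟨y, hy, hne⟩ := exists_adj_ne (C0 P) i
    obtain ⟨g, w, hw, e⟩ := D.exists_orbit y
    rw [hact, hWeq w hw] at e
    refine ⟨g, fun hg => hne ?_, fun j hj => ?_⟩
    · exact hy.eq (by rw [← e, act_toFun]; exact mem_stabSub.1 hg)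
    · rw [mem_stabSub, ← act_toFun, e]
      exact hy _ fun e => hj (Fin.succ_injective _ e)

theorem spanPre_one (B : Fin m → V) {i : Fin m} (hi : (i : ℕ) = 0) :
    spanPre (F := F) B i.succ = Submodule.span F ({B i} : Set V) := by
  refine le_antisymm (Submodule.span_le.2 ?_) (Submodule.span_le.2 ?_)
  · rintro _ ⟨j, rfl⟩
    have hj := j.2
    simp at hj
    exact Submodule.subset_span (congrArg B (Fin.ext (by simp; omega)))
  · rintro _ rfl
    exact mem_spanPre (by simp)

theorem spanPre_two (B : Fin m → V) {i k : Fin m} (hi : (i : ℕ) = 0) (hk : (k : ℕ) = 1) :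
    spanPre (F := F) B k.succ = Submodule.span F ({B i, B k} : Set V) := by
  refine le_antisymm (Submodule.span_le.2 ?_) (Submodule.span_le.2 ?_)
  · rintro _ ⟨j, rfl⟩
    have hj := j.2
    simp at hj
    refine Submodule.subset_span ?_
    rcases (show (j : ℕ) = 0 ∨ (j : ℕ) = 1 by omega) with h | h
    · exact Or.inl (congrArg B (Fin.ext (by simp; omega)))
    · exact Or.inr (congrArg B (Fin.ext (by simp; omega)))
  · rintro _ (rfl | rfl)
    · exact mem_spanPre (by simp; omega)
    · exact mem_spanPre (by simp)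

/-- A point stabiliser and a line stabiliser differ in index when enough lines pass through the point. -/
theorem index_ne_of_lines (hA : A.Good p) (h2 : 2 ≤ m) (hW2 : 3 ≤ m ∨ ∀ z c, ¬ IsThin P z c)
    (y : Option (Option F) → Cham P)
    (hy0 : ∀ o, (y o).toFun (⟨0, by omega⟩ : Fin m).succ = (C0 P).toFun (⟨0, by omega⟩ : Fin m).succ)
    (hy1 : Function.Injective fun o => (y o).toFun (⟨1, by omega⟩ : Fin m).succ) :
    (stabSub A ((C0 P).toFun (⟨0, by omega⟩ : Fin m).succ)).index ≠
      (stabSub A ((C0 P).toFun (⟨1, by omega⟩ : Fin m).succ)).index := by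
  classical
  cases nonempty_fintype F
  set i0 : Fin m := ⟨0, by omega⟩ with hi0
  set i1 : Fin m := ⟨1, by omega⟩ with hi1
  have h01 : i0 ≠ i1 := fun e => by simpa [i0, i1] using congrArg Fin.val e
  obtain ⟨D, hact, -, -, -, -, hW⟩ := exists_chamberData_polar' hA
  have hL : (C0 P).toFun i1.succ = Submodule.span F ({P.e i0, P.e i1} : Set V) := by
    rw [C0_toFun]; exact spanPre_two _ rfl rfl
  have hE : (C0 P).toFun i0.succ = Submodule.span F ({P.e i0} : Set V) := by
    rw [C0_toFun]; exact spanPre_one _ rfl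
  have horb : ∀ y : Cham P, y.toFun i0.succ = (C0 P).toFun i0.succ →
      ∃ g ∈ stabSub A ((C0 P).toFun i0.succ),
        ((C0 P).toFun i1.succ).map (A.ρ g : V →ₗ[F] V) = y.toFun i1.succ := by
    intro y hy
    obtain ⟨g, w, hw, e⟩ := D.exists_orbit y
    rw [hact] at e
    have hwk : ∀ k : Fin m, (k : ℕ) < 2 → w.toFun k.succ = (C0 P).toFun k.succ := fun k hk => by
      rcases hW w hw with rfl | ⟨z, hz, hadj, hne, huniq⟩
      · rfl
      · rcases hW2 with h | h
        · exact hadj _ fun e => by have := congrArg Fin.val e; simp at this; omega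
        · exact absurd ⟨hz, hadj, hne, huniq⟩ (h z w)
    refine ⟨g, ?_, ?_⟩
    · rw [mem_stabSub]
      conv_lhs => rw [← hwk i0 (by simp [i0]), ← act_toFun, e, hy]
    · rw [← hwk i1 (by simp [i1]), ← act_toFun, e]
  choose g hg hgL using fun o => horb (y o) (hy0 o)
  refine index_ne_of_cosets (D := stabSub A ((C0 P).toFun i0.succ) ⊓ stabSub A ((C0 P).toFun i1.succ))
    inf_le_left inf_le_right (σ := Option (Option F)) (τ := Option F) (fun o => ⟨g o, hg o⟩) (fun a b hab => ?_)
    (fun x => if P.K (A.ρ (x : G) (P.e i0)) (P.f i1) = 0 then none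
      else some (P.K (A.ρ (x : G) (P.e i0)) (P.f i0) / P.K (A.ρ (x : G) (P.e i0)) (P.f i1)))
    (fun x x' hxx => ?_) ?_
  · refine hy1 (show (y a).toFun i1.succ = (y b).toFun i1.succ from ?_)
    rw [← hgL a, ← hgL b]
    conv_rhs => rw [show g b = g a * ((g a)⁻¹ * g b) by group, map_ρ_mul, mem_stabSub.1 hab.2]
  · refine ⟨?_, (stabSub A ((C0 P).toFun i1.succ)).mul_mem ((stabSub A _).inv_mem x.2) x'.2⟩
    have hcomb : ∀ x : stabSub A ((C0 P).toFun i1.succ), ∃ r s : F,
        A.ρ (x : G) (P.e i0) = r • P.e i0 + s • P.e i1 ∧ P.K (A.ρ (x : G) (P.e i0)) (P.f i0) = r ∧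
          P.K (A.ρ (x : G) (P.e i0)) (P.f i1) = s := fun x => by
      have h0 := (mem_stabSub.1 x.2).le (Submodule.mem_map_of_mem (f := (A.ρ (x : G) : V →ₗ[F] V))
        (show P.e i0 ∈ (C0 P).toFun i1.succ by rw [C0_toFun]; exact mem_spanPre (by simp [i0, i1])))
      have h : A.ρ (x : G) (P.e i0) ∈ Submodule.span F ({P.e i0, P.e i1} : Set V) := hL.le h0
      obtain ⟨r, s, h⟩ := Submodule.mem_span_pair.1 h
      refine ⟨r, s, h.symm, ?_, ?_⟩ <;> rw [← h] <;>
        simp [P.K_add, P.K_smul, P.K_ef, h01, h01.symm]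
    obtain ⟨r, s, hx, hr, hs⟩ := hcomb x
    obtain ⟨r', s', hx', hr', hs'⟩ := hcomb x'
    simp only [hr, hs, hr', hs'] at hxx
    have hne : A.ρ (x : G) (P.e i0) ≠ 0 := fun e => by
      have he : P.e i0 = 0 := (A.ρ (x : G)).injective (by rw [e, map_zero])
      have := P.K_ef i0 i0
      rw [he, P.K_zero_left, if_pos rfl] at this
      exact zero_ne_one this
    obtain ⟨t, ht⟩ : ∃ t : F, A.ρ (x' : G) (P.e i0) = t • A.ρ (x : G) (P.e i0) := by
      by_cases h0 : s = 0
      · have h0' : s' = 0 := by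
          by_contra h
          simp [h0, h] at hxx
        have hr0 : r ≠ 0 := fun e => hne (by simp [hx, h0, e])
        exact ⟨r' / r, by rw [hx, hx', h0, h0', smul_add, smul_smul, smul_smul, div_mul_cancel₀ _ hr0,
          mul_zero]⟩
      · have h0' : s' ≠ 0 := fun h => by simp [h0, h] at hxx
        simp only [if_neg h0, if_neg h0', Option.some.injEq] at hxx
        refine ⟨s' / s, ?_⟩
        rw [hx, hx', smul_add, smul_smul, smul_smul, div_mul_cancel₀ _ h0]
        congr 2
        field_simp at hxx ⊢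
        linear_combination -hxx
    refine mem_stabSub_of fun w hw => ?_
    rw [hE] at hw ⊢
    obtain ⟨a, rfl⟩ := Submodule.mem_span_singleton.1 hw
    refine Submodule.mem_span_singleton.2 ⟨a * t, ?_⟩
    rw [A.ρ_mul, map_smul, ht, map_smul, map_smul, A.ρ_inv_apply, smul_smul]
  · have : Finite (Option F) := inferInstance
    rw [Finite.card_option (α := Option F), Finite.card_option (α := F)]
    omega

theorem stabSub_index_ne (hA : A.Good p) (h3 : 3 ≤ m) :
    (stabSub A ((C0 P).toFun (⟨0, by omega⟩ : Fin m).succ)).index ≠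
      (stabSub A ((C0 P).toFun (⟨1, by omega⟩ : Fin m).succ)).index := by
  classical
  cases nonempty_fintype F
  set i0 : Fin m := ⟨0, by omega⟩ with hi0
  set i1 : Fin m := ⟨1, by omega⟩ with hi1
  set i2 : Fin m := ⟨2, by omega⟩ with hi2
  have h01 : i0 ≠ i1 := fun e => by simpa [i0, i1] using congrArg Fin.val e
  have h21 : i2 ≠ i1 := fun e => by simpa [i1, i2] using congrArg Fin.val e
  have hL : (C0 P).toFun i1.succ = Submodule.span F ({P.e i0, P.e i1} : Set V) := by
    rw [C0_toFun]; exact spanPre_two _ rfl rfl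
  have hE : (C0 P).toFun i0.succ = Submodule.span F ({P.e i0} : Set V) := by
    rw [C0_toFun]; exact spanPre_one _ rfl
  let t21 : Fin m → Bool := fun i => decide (i = i1)
  let yf : Cham P := wcham P (1, t21)
  let v : Option (Option F) → V
    | none => P.f i1
    | some none => P.e i1
    | some (some a) => P.e i2 + a • P.e i1
  have hchain : ∀ o, ∃ y : Cham P, y.toFun i0.succ = (C0 P).toFun i0.succ ∧
      y.toFun i1.succ = Submodule.span F ({P.e i0, v o} : Set V) := by
    intro o
    rcases o with _ | _ | a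
    · refine ⟨yf, ?_, ?_⟩
      · show spanPre (F := F) (fun j => P.b (wlev (1, t21) j)) i0.succ = _
        rw [hE, spanPre_one _ (i := i0) rfl]
        simp [wlev, t21, h01]
      · show spanPre (F := F) (fun j => P.b (wlev (1, t21) j)) i1.succ = _
        rw [spanPre_two _ (i := i0) (k := i1) rfl rfl]
        simp [wlev, t21, v, h01]
    · exact ⟨C0 P, rfl, hL⟩
    · set S := Submodule.span F ({P.e i0, P.e i2 + a • P.e i1} : Set V) with hS
      have hSle : S ≤ (C0 P).toFun i2.succ := Submodule.span_le.2 (by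
        rintro _ (rfl | rfl)
        · rw [C0_toFun]; exact mem_spanPre (by simp [i0, i2])
        · rw [C0_toFun]
          exact add_mem (mem_spanPre (by simp)) (Submodule.smul_mem _ _ (mem_spanPre (by simp [i1, i2]))))
      have hdim : finrank F S = (i1 : ℕ) + 1 := by
        have hli : LinearIndependent F ![P.e i0, P.e i2 + a • P.e i1] := by
          rw [LinearIndependent.pair_iff]
          intro s t hst
          have h1 : P.K (s • P.e i0 + t • (P.e i2 + a • P.e i1)) (P.f i0) = P.K 0 (P.f i0) := by rw [hst]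
          have h2 : P.K (s • P.e i0 + t • (P.e i2 + a • P.e i1)) (P.f i2) = P.K 0 (P.f i2) := by rw [hst]
          have h02 : i0 ≠ i2 := fun e => by simpa [i0, i2] using congrArg Fin.val e
          simp [P.K_add, P.K_smul, P.K_ef, P.K_zero_left, h01.symm, h02.symm] at h1
          simp [P.K_add, P.K_smul, P.K_ef, P.K_zero_left, h21.symm, h02] at h2
          exact ⟨h1, h2⟩
        have := finrank_span_eq_card hli
        rw [Matrix.range_cons_cons_empty] at this
        simpa [S, i1] using this
      obtain ⟨y, hy, hyS⟩ := exists_adj (C0 P) i1 S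
        (by rw [show i1.castSucc = i0.succ from Fin.ext (by simp [i0, i1]), hE]
            exact Submodule.span_mono (by simp))
        hdim (IsTS.mono P ((C0 P).ts' _) hSle)
        fun k hk => hSle.trans ((C0 P).mono' (Fin.le_def.2 (by
          have := Fin.lt_def.1 hk; simp [i1, i2] at *; omega)))
      exact ⟨y, hy _ fun e => h01 (Fin.succ_injective _ e), hyS⟩
  choose y hy0 hy1 using hchain
  have hgen : ∀ u w : V, Submodule.span F ({P.e i0, u} : Set V) = Submodule.span F ({P.e i0, w} : Set V) →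
      ∃ r s : F, u = r • P.e i0 + s • w := fun u w e => by
    have h : u ∈ Submodule.span F ({P.e i0, w} : Set V) := e ▸ Submodule.subset_span (by simp)
    obtain ⟨r, s, h⟩ := Submodule.mem_span_pair.1 h
    exact ⟨r, s, h.symm⟩
  refine index_ne_of_lines hA (by omega) (Or.inl h3) y hy0 fun a b hsame => ?_
  simp only at hsame
  rw [hy1, hy1] at hsame
  obtain ⟨r, s, hrs⟩ := hgen _ _ hsame
  obtain ⟨r', s', hrs'⟩ := hgen _ _ hsame.symm
  have h1 := congrArg (fun u => P.K u (P.f i1)) hrs
  have h2 := congrArg (fun u => P.K u (P.e i1)) hrs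
  have h3 := congrArg (fun u => P.K u (P.f i2)) hrs
  have h1' := congrArg (fun u => P.K u (P.f i1)) hrs'
  have h2' := congrArg (fun u => P.K u (P.e i1)) hrs'
  have h3' := congrArg (fun u => P.K u (P.f i2)) hrs'
  have h02 : i0 ≠ i2 := fun e => by simpa [i0, i2] using congrArg Fin.val e
  rcases a with _ | _ | a <;> rcases b with _ | _ | b <;>
    simp [v, P.K_add, P.K_smul, P.K_ef, P.K_fe, P.K_ee, P.K_ff, P.ε_ne, h01, h01.symm, h21, h21.symm, h02,
      h02.symm] at h1 h2 h3 h1' h2' h3' ⊢
  all_goals first | rfl | (rw [← h3] at h1; simpa using h1)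

/-- The frame of a polar space is good outside the exceptional configurations. -/
theorem frameGood_polar {F : Type} [Field F] [Finite F] {V : Type} [AddCommGroup V] [Module F V] [Finite V]
    [FiniteDimensional F V] {m : ℕ} {P : Polar F V m} {G : Type*} [Group G] [Finite G] {A : Act P G}
    {p : ℕ} [Fact p.Prime] [CharP F p] (hA : A.Good p) (hm : 0 < m)
    {H : Type*} [Group H] [Finite H] [IsSimpleGroup H] (π : G →* H) (hπ : Function.Surjective π)
    (hker : π.ker ≤ Subgroup.center G) (hHp : p ∣ Nat.card H)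
    (hthick : 4 ≤ m ∨ ∀ z c, ¬ IsThin P z c) {R A' : Prop} (h1 : m = 1 → R)
    (h2 : m = 2 → p = 2 → (∀ i j : Fin m,
      (stabSub A ((C0 P).toFun i.succ)).index = (stabSub A ((C0 P).toFun j.succ)).index) → A') :
    FrameGood p H R A' := by
  obtain ⟨Fr, hinf, hidx⟩ := exists_frame_polar hA hm π hπ hker hHp
  have : Nonempty (Fin m) := ⟨⟨0, hm⟩⟩
  refine ⟨Fin m, inferInstance, inferInstance, Fr, fun htr hk => ⟨hinf, ?_⟩⟩
  rcases (show m = 1 ∨ m = 2 ∨ 3 ≤ m by omega) with e | e | e
  · exact Or.inl (h1 e)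
  · have hthick' : ∀ z c, ¬ IsThin P z c := hthick.resolve_left (by omega)
    obtain ⟨k, hk⟩ := hk
    rw [Nat.card_fin, e] at hk
    have hk0 : k ≠ 0 := fun h => by rw [h, pow_zero] at hk; omega
    have hp : p = 2 := (Nat.prime_dvd_prime_iff_eq Fact.out Nat.prime_two).1 (hk ▸ dvd_pow_self p hk0)
    refine Or.inr ⟨hp, by rw [Nat.card_fin]; omega, h2 e hp fun i j => ?_⟩
    rw [← hidx i (Or.inr hthick'), ← hidx j (Or.inr hthick')]
    exact htr.index_eq i j
  · exfalso
    have hs : ∀ i : Fin m, (i : ℕ) ≤ 1 → ((i : ℕ) + 2 < m ∨ ∀ z c, ¬ IsThin P z c) := fun i hi =>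
      hthick.imp (fun h => by omega) id
    have h := htr.index_eq ⟨0, by omega⟩ ⟨1, by omega⟩
    rw [hidx _ (hs _ (by simp)), hidx _ (hs _ (by simp))] at h
    exact stabSub_index_ne hA e h

end CfsgLib.BrauerPairs
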