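import Cfsg.Agent.Lib.BrauerPairs.PMinimalTwisted
import Cfsg.Agent.Lib.BrauerPairs.ParabolicTits

/-!
A good Borel frame for the Tits group.
-/

set_option autoImplicit false
set_option linter.unusedSectionVars false
set_option maxRecDepth 100000

namespace CfsgLib.BrauerPairs

open CfsgLib.BNPair CfsgLib.InvCentralizers.SteinbergChar

/-- A frame inside a normal subgroup of a (B,N)-pair with trivial torus. -/
theorem frameGood_normal {G : Type} [Group G] [Finite G] {P : Cfsg.BNPair G} {T : Subgroup G}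
    (hH : ∃ n ∈ P.N, ∀ b ∈ P.B, n⁻¹ * b * n ∈ P.B → b = 1) (hB : IsPGroup 2 P.B)
    (hidx : ¬ 2 ∣ P.B.index) (hcomm : commutator G ≤ T) (hinv : ∀ g : G, orderOf g = 2 → g ∈ T)
    (hr : ∀ s ∈ P.S, ∀ b ∈ P.B, ∃ r ∈ P.B, s⁻¹ * r * s ∈ P.B ∧ b * r⁻¹ ∈ T) (hne : P.S.Nonempty)
    {R A' : Prop} (hcase : (∀ s ∈ P.S, ∀ t ∈ P.S,
      Nat.card ↥(P.parabolic {s}) = Nat.card ↥(P.parabolic {t})) → R) :
    FrameGood 2 T R A' := by
  classical
  haveI : Fact (Nat.Prime 2) := ⟨Nat.prime_two⟩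
  have hN : T.Normal := Subgroup.Normal.of_commutator_le G hcomm
  have hsup : P.B ⊔ T = ⊤ := by
    rw [eq_top_iff]
    intro g _
    obtain ⟨c, hc, hgc⟩ := exists_mem_mul hH hcomm g
    have := mul_mem (Subgroup.mem_sup_right (S := P.B) hgc) (inv_mem (Subgroup.mem_sup_left (T := T) hc))
    simpa using this
  have hrel : ∀ Q : Subgroup G, P.B ≤ Q → T.relIndex Q = T.index := fun Q hQ => by
    have : Q ⊔ T = ⊤ := top_le_iff.1 (hsup ▸ sup_le_sup_right hQ _)
    rw [← Subgroup.relIndex_top_right, ← this, sup_comm, Subgroup.relIndex_sup_left]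
  have hcard : ∀ Q : Subgroup G, P.B ≤ Q → Nat.card ↥(Q.subgroupOf T) * T.index = Nat.card ↥Q := fun Q hQ => by
    have e : Nat.card ↥(Q.subgroupOf T) = Nat.card ↥(T.subgroupOf Q) := Nat.card_congr
      ⟨fun x => ⟨⟨x.1.1, x.2⟩, x.1.2⟩, fun x => ⟨⟨x.1.1, x.2⟩, x.1.2⟩, fun _ => rfl, fun _ => rfl⟩
    rw [e, ← hrel Q hQ, Subgroup.relIndex, Subgroup.card_mul_index]
  have hUN : Subgroup.normalizer ((P.B.subgroupOf T : Subgroup T) : Set T) ≤ P.B.subgroupOf T := by
    intro x hx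
    obtain ⟨n, hn, hxn⟩ := exists_mem_cell (P := P) (x : G)
    by_cases hnB : n ∈ P.B
    · rwa [mem_cell_of_mem_B hnB] at hxn
    exfalso
    obtain ⟨l, hl, hlag⟩ := exists_isReduced hn
    have hln := eq_of_agree hH hl.1.prod_mem hn hlag
    obtain ⟨l', s, rfl⟩ : ∃ l' s, l = l' ++ [s] := by
      rcases l.eq_nil_or_concat with rfl | ⟨l', s, rfl⟩
      · exact absurd (by simpa [Agree] using hlag) hnB
      · exact ⟨l', s, List.concat_eq_append⟩
    have hs : s ∈ P.S := hl.1 s (by simp)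
    have hl' := red_left hl
    rw [List.prod_append, List.prod_singleton] at hln
    subst hln
    have hlt : len P l'.prod ≤ len P (l'.prod * s) := by
      have h1 := hl.2
      have h2 := hl'.2
      simp only [List.prod_append, List.prod_singleton, List.length_append, List.length_singleton] at h1 h2
      omega
    obtain ⟨z, hz, hz2, hzs, hzc⟩ := exists_panel_involution hH hB hs
    obtain ⟨b, hb, b', hb', e⟩ := mem_cell.1 hxn
    have hy2 : orderOf (b * (l'.prod * z * l'.prod⁻¹) * b⁻¹) = 2 := by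
      rw [show b * (l'.prod * z * l'.prod⁻¹) * b⁻¹ = MulAut.conj b (MulAut.conj l'.prod z) from rfl,
        MulEquiv.orderOf_eq, MulEquiv.orderOf_eq, hz2]
    have hy : b * (l'.prod * z * l'.prod⁻¹) * b⁻¹ ∈ P.B :=
      P.B.mul_mem (P.B.mul_mem hb (hzc _ hl'.1.prod_mem hlt)) (P.B.inv_mem hb)
    have h1 : (x : G)⁻¹ * (b * (l'.prod * z * l'.prod⁻¹) * b⁻¹) * x ∈ P.B := by
      have := (Subgroup.mem_normalizer_iff''.1 hx ⟨_, hinv _ hy2⟩).1 hy
      exact this
    apply hzs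
    rw [e, show (b * (l'.prod * s) * b')⁻¹ * (b * (l'.prod * z * l'.prod⁻¹) * b⁻¹) * (b * (l'.prod * s) * b') =
      b'⁻¹ * (s⁻¹ * z * s) * b' by group] at h1
    have := P.B.mul_mem (P.B.mul_mem hb' h1) (P.B.inv_mem hb')
    rw [inv_eq_of_mul_eq_one_right (s_mul_self hH hs)] at this
    simpa [mul_assoc] using this
  have hBidx : (P.B.subgroupOf T).index = P.B.index := by
    have h1 := Subgroup.relIndex_mul_index (inf_le_left : P.B ⊓ T ≤ P.B)
    have h2 := Subgroup.relIndex_mul_index (inf_le_right : P.B ⊓ T ≤ T)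
    rw [Subgroup.inf_relIndex_left, hrel _ le_rfl] at h1
    rw [Subgroup.inf_relIndex_right, ← h1, mul_comm T.index] at h2
    exact mul_right_cancel₀ Subgroup.index_ne_zero_of_finite h2
  let Fr : BorelFrame 2 T {s // s ∈ P.S} := {
    U := P.B.subgroupOf T
    isPGroup := hB.of_injective ((T.subtype.comp (P.B.subgroupOf T).subtype).codRestrict P.B fun x => x.2)
      fun x y hxy => Subtype.ext (Subtype.ext (congrArg (fun z : P.B => (z : G)) hxy :))
    not_dvd := by rw [hBidx]; exact hidx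
    Q := fun s => (P.parabolic (P.S \ {(s : G)})).subgroupOf T
    normalizer_le := fun s x hx => B_le_parabolic _ (hUN hx)
    ne_top := fun s h => by
      rw [Subgroup.subgroupOf_eq_top] at h
      have : (⊤ : Subgroup G) ≤ P.parabolic (P.S \ {(s : G)}) := hsup ▸ sup_le (B_le_parabolic _) h
      exact (mem_of_mem_parabolic Set.sdiff_subset s.2 (this (Subgroup.mem_top _))).2 rfl
    cover := fun M hM hne => by
      rcases eq_or_le_parabolic_of_normal hH hB hcomm hinv hr (Subgroup.map_subtype_le M)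
        (fun x hx => ⟨⟨x, hx.2⟩, hM (Subgroup.le_normalizer hx.1), rfl⟩) with h | ⟨s, hs, hle⟩
      · exfalso
        apply hne
        rw [eq_top_iff]
        intro x _
        obtain ⟨y, hy, e⟩ : (x : G) ∈ M.map T.subtype := by rw [h]; exact x.2
        rwa [show x = y from (Subtype.ext e).symm]
      · exact ⟨⟨s, hs⟩, fun x hx => hle (Subgroup.mem_map_of_mem _ hx)⟩
    indep := fun s => by
      obtain ⟨c, hc, hsc⟩ := exists_mem_mul hH hcomm (s : G)
      refine ⟨⟨_, hsc⟩, fun h => ?_, fun t ht => ?_⟩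
      · have := mul_mem (Subgroup.mem_subgroupOf.1 h) (inv_mem (B_le_parabolic (P := P) (P.S \ {(s : G)}) hc))
        rw [mul_inv_cancel_right] at this
        exact (mem_of_mem_parabolic Set.sdiff_subset s.2 this).2 rfl
      · refine Subgroup.mem_subgroupOf.2 ((P.parabolic (P.S \ {(t : G)})).mul_mem (subset_parabolic _ ?_)
          (B_le_parabolic _ hc))
        exact ⟨s.2, fun e => ht (Subtype.ext (Set.mem_singleton_iff.1 e).symm)⟩ }
  have : Nonempty {s // s ∈ P.S} := hne.to_subtype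
  refine ⟨_, inferInstance, inferInstance, Fr, fun htr _ => ⟨?_, Or.inl (hcase fun s hs t ht => ?_)⟩⟩
  · intro x hx
    refine Subgroup.le_normalizer ?_
    show (x : G) ∈ P.B
    have hx' : (x : G) ∈ ⨅ u : {s // s ∈ P.S}, P.parabolic (P.S \ {(u : G)}) :=
      Subgroup.mem_iInf.2 fun u => Subgroup.mem_iInf.1 hx u
    rw [overgroup_eq (P := P) (le_iInf fun u : {s // s ∈ P.S} => B_le_parabolic _)] at hx'
    refine (sup_le le_rfl ((Subgroup.closure_le _).2 fun y hy => ?_) :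
      P.B ⊔ Subgroup.closure _ ≤ P.B) hx'
    exact absurd rfl (mem_of_mem_parabolic Set.sdiff_subset hy.1 (Subgroup.mem_iInf.1 hy.2 ⟨y, hy.1⟩)).2
  · have h1 := htr.card_iInf_eq ⟨s, hs⟩ ⟨t, ht⟩
    have e : ∀ u : {s // s ∈ P.S}, (⨅ (v : {s // s ∈ P.S}) (_ : v ≠ u), Fr.Q v) =
        (P.parabolic {(u : G)}).subgroupOf T := fun u => by
      rw [← iInf_parabolic u]
      ext x
      simp only [Subgroup.mem_iInf, Subgroup.mem_subgroupOf, Fr]
    rw [e, e] at h1
    rw [← hcard _ (B_le_parabolic _), ← hcard _ (B_le_parabolic _), h1]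

open Cfsg.Lie CfsgLib.Twisted CfsgLib.Chevalley

theorem FrameGood.of_subgroup_equiv {G K : Type*} [Group G] [Group K] {p : ℕ} (T : Subgroup G)
    (e : K ≃* T) {R A' : Prop} (h : FrameGood p T R A') : FrameGood p K R A' :=
  h.of_mulEquiv e.symm

theorem frameGood_tits {R A' : Prop} : FrameGood 2 ↥(commutator ↥(twistedF4 (ZMod 2) 1)) R A' := by
  haveI : Finite (GL chevF4.Idx (ZMod 2)) := inferInstance
  obtain ⟨ρ, φ, hG, hJ, hH, hB, hr, hidx⟩ := exists_tits_setup
  have h0 : nodeSet chevF4 [0, 3] ∈ nodeSets chevF4 [[0, 3], [1, 2]] := ⟨[0, 3], by simp, rfl⟩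
  have h2 : nodeSet chevF4 [1, 2] ∈ nodeSets chevF4 [[0, 3], [1, 2]] := ⟨[1, 2], by simp, rfl⟩
  refine frameGood_normal hH hB hidx le_rfl CfsgLib.Components2.TitsInv.involution_mem_commutator hr
    ⟨⟨hG.rep hJ ⟨_, h0⟩, (hG.rep_spec hJ ⟨_, h0⟩).1⟩, ⟨⟨_, h0⟩, rfl⟩⟩ fun hall => False.elim ?_
  have hW := weylF4_ok
  simp only [Bool.and_eq_true] at hW
  obtain ⟨η0, hA0⟩ := rep_acts hG hJ hW.1.1.1.1.1 (l := wlF4.getD 0 []) (List.mem_cons_self ..) h0
  obtain ⟨η2, hA2⟩ := rep_acts hG hJ hW.1.1.1.1.1 (l := wlF4.getD 1 [])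
    (List.mem_cons_of_mem _ (List.mem_cons_self ..)) h2
  refine false_of_invSet hG hJ hA0 hA2 ?_ hall
  have hK : Fintype.card (ZMod 2) = 2 ^ (2 * 0 + 1) := by simp
  have hc0 := KnownSimple.ReeFourCentralizer.card_inf_invSet hK (m := 0) rfl (hG.rep_spec hJ _).1
    (hG.rep_spec hJ _).2.1 hA0
  have hc2 := KnownSimple.ReeFourCentralizer.card_inf_invSet hK (m := 0) rfl (hG.rep_spec hJ _).1
    (hG.rep_spec hJ _).2.1 hA2
  have hd := KnownSimple.ReeFourCentralizer.weylF4_data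
  simp only [Bool.and_eq_true, decide_eq_true_eq] at hd
  have hinv : ∀ σ : Equiv.Perm (Fin chevF4.nroots), invs σ =
      Finset.univ.filter fun r : Fin chevF4.nroots => chevF4.IsPosRoot r ∧ chevF4.IsNegRoot (σ r) :=
    fun σ => Finset.ext fun r => by simp [mem_invs]
  rw [hinv, show wPerm fullF4.cert (wlF4.getD 0 []) = aF4 from rfl, hd.1.2] at hc0
  rw [hinv, show wPerm fullF4.cert (wlF4.getD 1 []) = bF4 from rfl, hd.2] at hc2
  intro h
  have h3 := hc0.symm.trans (h.trans hc2)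
  norm_num at h3

theorem frameGood_isoTits {K : Type*} [Group K] (h : IsoTits K) {R A' : Prop} : FrameGood 2 K R A' :=
  h.elim fun e => FrameGood.of_subgroup_equiv (commutator ↥(twistedF4 (ZMod 2) 1)) e frameGood_tits

end CfsgLib.BrauerPairs
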