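import Cfsg.Agent.Lib.BrauerPairs.PMinimalChevalley
import Cfsg.Agent.Lib.KnownSimple.ReeFourCentralizer

/-!
Good Borel frames for the twisted groups of exceptional type.
-/

set_option autoImplicit false
set_option linter.unusedSectionVars false
set_option maxRecDepth 100000

namespace CfsgLib.BrauerPairs

theorem BorelFrame.Transitive.card_iInf_eq {p : ℕ} {K : Type*} [Group K] {ι : Type*} [Finite ι]
    {F : BorelFrame p K ι} (h : F.Transitive) (i j : ι) :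
    Nat.card ↥(⨅ (l : ι) (_ : l ≠ i), F.Q l) = Nat.card ↥(⨅ (l : ι) (_ : l ≠ j), F.Q l) := by
  obtain ⟨φ, hU, hQ⟩ := h i j
  choose π hπ using F.exists_image hU
  have hij : π i = j := F.eq_of_le (le_of_eq ((hπ i).symm.trans hQ))
  have hinj : Function.Injective π := fun a b e =>
    F.eq_of_le (le_of_eq (Subgroup.map_injective (f := φ.toMonoidHom) φ.injective (by rw [hπ, hπ, e])))
  have hsurj := Finite.injective_iff_surjective.1 hinj
  refine Nat.card_congr (Equiv.subtypeEquiv φ.toEquiv fun x => ?_)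
  simp only [Subgroup.mem_iInf]
  constructor
  · intro hx l hl
    obtain ⟨a, rfl⟩ := hsurj l
    rw [← hπ a]
    exact Subgroup.mem_map_of_mem _ (hx a fun e => hl (e ▸ hij))
  · intro hx a ha
    have hm : φ x ∈ F.Q (π a) := hx (π a) fun e => ha (hinj (e.trans hij.symm))
    rw [← hπ a] at hm
    obtain ⟨y, hy, e⟩ := hm
    exact φ.injective (e : φ y = φ x) ▸ hy

open CfsgLib.BNPair in
theorem iInf_parabolic {G : Type*} [Group G] {P : Cfsg.BNPair G} (s : {s // s ∈ P.S}) :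
    (⨅ (u : {s // s ∈ P.S}) (_ : u ≠ s), P.parabolic (P.S \ {(u : G)})) = P.parabolic {(s : G)} := by
  refine le_antisymm ?_ ?_
  · rw [overgroup_eq (P := P) (le_iInf₂ fun u _ => B_le_parabolic _)]
    refine sup_le_sup le_rfl (Subgroup.closure_mono fun x hx => ?_)
    by_contra hne
    exact (mem_of_mem_parabolic Set.sdiff_subset hx.1
      (Subgroup.mem_iInf.1 (Subgroup.mem_iInf.1 hx.2 ⟨x, hx.1⟩)
        (fun e => hne (Set.mem_singleton_iff.2 (congrArg Subtype.val e))))).2 rfl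
  · refine le_iInf₂ fun u hu => sup_le_sup le_rfl (Subgroup.closure_mono ?_)
    rintro x rfl
    exact ⟨s.2, fun e => hu (Subtype.ext (Set.mem_singleton_iff.1 e).symm)⟩

open Cfsg.Lie CfsgLib.Chevalley CfsgLib.Twisted CfsgLib.BNPair

variable {D : ChevalleyDatum} {A : Aux} {F : Type} [Field F] [Fintype F] {p : ℕ} [Fact p.Prime] [CharP F p]

/-- The frame of the fixed points of a twisting. -/
theorem frameGood_fixedPts {h : Full D A} {ρ : Equiv.Perm (Fin D.nroots)} {φ : GL D.Idx F → GL D.Idx F}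
    {G : Subgroup (GL D.Idx F)} {Js : Set (Set (Fin D.rank))} (hG : FixedPts h ρ φ G) (hJ : OrbitData h ρ G Js)
    (hne : (hG.bnPair hJ).S.Nonempty) {H : Type*} [Group H] (e : H ≃* G) {R A' : Prop}
    (hcase : (∀ s ∈ (hG.bnPair hJ).S, ∀ t ∈ (hG.bnPair hJ).S,
      Nat.card ↥((hG.bnPair hJ).parabolic {s}) = Nat.card ↥((hG.bnPair hJ).parabolic {t})) → R) :
    FrameGood p H R A' := by
  classical
  refine FrameGood.of_mulEquiv e.symm ?_
  haveI : Finite (GL D.Idx F) := inferInstance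
  obtain ⟨Fr, -, hQ, hinf⟩ := exists_frame_sub (p := p) h G (hG.bnPair hJ) rfl rfl
    (fun b hb hbB => hG.borel_decomp hb hbB) (exists_negating hG hJ)
  haveI : Nonempty {s // s ∈ (hG.bnPair hJ).S} := hne.to_subtype
  refine ⟨_, inferInstance, inferInstance, Fr, fun htr _ => ⟨hinf, Or.inl (hcase fun s hs t ht => ?_)⟩⟩
  have h1 := htr.card_iInf_eq ⟨s, hs⟩ ⟨t, ht⟩
  simp only [hQ] at h1
  rwa [iInf_parabolic, iInf_parabolic] at h1

/-- Two minimal parabolics of different order. -/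
theorem false_of_invSet {h : Full D A} {ρ : Equiv.Perm (Fin D.nroots)} {φ : GL D.Idx F → GL D.Idx F}
    {G : Subgroup (GL D.Idx F)} {Js : Set (Set (Fin D.rank))} (hG : FixedPts h ρ φ G) (hJ : OrbitData h ρ G Js)
    {J J' : Js} {σ σ' : Equiv.Perm (Fin D.nroots)} {η η' : Fin D.nroots → F}
    (hA : Acts h.cert (hG.rep hJ J) σ η) (hA' : Acts h.cert (hG.rep hJ J') σ' η')
    (hne : Nat.card ↥(G ⊓ rootsU D F (invSet D σ)) ≠ Nat.card ↥(G ⊓ rootsU D F (invSet D σ')))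
    (hall : ∀ s ∈ (hG.bnPair hJ).S, ∀ t ∈ (hG.bnPair hJ).S,
      Nat.card ↥((hG.bnPair hJ).parabolic {s}) = Nat.card ↥((hG.bnPair hJ).parabolic {t})) : False := by
  haveI : Finite (GL D.Idx F) := inferInstance
  let s : G := ⟨hG.rep hJ J, (hG.rep_spec hJ J).1⟩
  let t : G := ⟨hG.rep hJ J', (hG.rep_spec hJ J').1⟩
  have hs : s ∈ (hG.bnPair hJ).S := ⟨J, rfl⟩
  have ht : t ∈ (hG.bnPair hJ).S := ⟨J', rfl⟩
  have h1 := hall s hs t ht
  rw [KnownSimple.FixedParabolic.card_parabolic_rep hG hJ hs hA,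
    KnownSimple.FixedParabolic.card_parabolic_rep hG hJ ht hA'] at h1
  have h2 := Nat.eq_of_mul_eq_mul_left Nat.card_pos h1
  exact hne (by omega)

/-- The permutation of a representative. -/
theorem rep_acts {h : Full D A} {ρ : Equiv.Perm (Fin D.nroots)} {φ : GL D.Idx F → GL D.Idx F}
    {G : Subgroup (GL D.Idx F)} {LJ : List (List ℕ)} (hG : FixedPts h ρ φ G)
    (hJ : OrbitData h ρ G (nodeSets D LJ)) {Wl : List (List (Fin D.rank))}
    (hW : checkLongest h.cert LJ Wl = true) {L : List ℕ} {l : List (Fin D.rank)} (hp : (L, l) ∈ LJ.zip Wl)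
    (hL : nodeSet D L ∈ nodeSets D LJ) :
    ∃ η, Acts h.cert (hG.rep hJ ⟨_, hL⟩) (wPerm h.cert l) η := by
  simp only [checkLongest, Bool.and_eq_true, List.all_eq_true, decide_eq_true_eq, Bool.or_eq_true] at hW
  obtain ⟨σ, η, hA, -, -⟩ := (hG.rep_spec hJ ⟨_, hL⟩).2.2
  exact ⟨η, perm_rep_eq h (hG.rep_spec hJ ⟨_, hL⟩) (fun x hx => (hW.2 _ hp).1 x hx)
    (fun j hj => ((hW.2 _ hp).2 j (List.mem_finRange j)).resolve_left fun hn => hn hj) hA ▸ hA⟩

theorem card_invSet_graph {q : ℕ} {h : Full D A} {ρ : ℕ → ℕ} {η : ℕ → ℤ} {n : ℕ}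
    {G : Subgroup (GL D.Idx F)} (hq : IsPrimePow q) (hn : n ≠ 0) (hK : Fintype.card F = q ^ n)
    (hη : ∀ r, η r = 1 ∨ η r = -1) (T : TwistedOrder.TwistData h ρ (graphTwist η q) G)
    {O : List Orb} (hO : checkGraphOrbs D ρ η n O = true)
    (hU : Nat.card ↥(G ⊓ D.posUnipotent F) = q ^ (D.nroots / 2))
    {l : List (Fin D.rank)} {x : GL D.Idx F} (hx : x ∈ G) (hxN : x ∈ D.monomialSubgroup F)
    {θ : Fin D.nroots → F} (hA : Acts h.cert x (wPerm h.cert l) θ) :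
    Nat.card ↥(G ⊓ rootsU D F (invSet D (wPerm h.cert l))) = q ^ ((invs (wPerm h.cert l)).card) := by
  have hm := neg_one_pow_primePow hq hn hK
  have hc := hO
  simp only [checkGraphOrbs, Bool.and_eq_true, Bool.or_eq_true, List.all_eq_true,
    List.mem_range, decide_eq_true_eq] at hc
  obtain ⟨⟨⟨h1, h2⟩, h3⟩, h4⟩ := hc
  have hall : ∀ r, D.IsPosRoot r → r ∈ orbRoots O := fun r hr => (h3 r hr.1).1 hr
  have hsz : ∀ o ∈ O, 1 ∣ o.2.length ∧
      Nat.card (cycSet ρ (graphTwist η q) o : Set F) = q ^ (o.2.length / 1) := by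
    intro o ho
    refine ⟨one_dvd _, ?_⟩
    rw [Nat.div_one, cycSet_graph hm hη o (etaCycle_of_check hO o ho)]
    rcases (h2 o ho).2 with hl | hl <;> rw [Nat.eq_of_beq_eq_true hl]
    · rw [pow_one]
      exact card_pow_eq_self hq.two_le hK
    · rw [show {x : F | x ^ q ^ n = x} = Set.univ from Set.eq_univ_of_forall fun x => by
          show x ^ q ^ n = x
          rw [← hK, FiniteField.pow_card], Nat.card_univ, Nat.card_eq_fintype_card, hK]
  have hprod : Nat.card ↥(G ⊓ D.posUnipotent F) =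
      (O.map fun o => Nat.card (cycSet ρ (graphTwist η q) o : Set F)).prod := by
    have e : (O.map fun o => Nat.card (cycSet ρ (graphTwist η q) o : Set F)) = O.map fun o => q ^ o.2.length :=
      List.map_congr_left fun o ho => by rw [(hsz o ho).2, Nat.div_one]
    rw [hU, ← Nat.eq_of_beq_eq_true h4, e]
    clear * -
    induction O with
    | nil => simp
    | cons o l ih => simp [pow_add, ih]
  rw [TwistedOrder.card_inf_invSet_pow T h1 (fun o ho => Nat.eq_of_beq_eq_true (h2 o ho).1.1) hall hprod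
    hsz rfl (T.comm_of_acts ⟨hx, hxN⟩ hA), Nat.div_one]

theorem invsE6 : decide ((invs (wPerm fullE6.cert (wlE6.getD 0 []))).card = 1) &&
    decide ((invs (wPerm fullE6.cert (wlE6.getD 2 []))).card = 2) = true := by decide +kernel

theorem invsD4 : decide ((invs (wPerm fullD4.cert (wlD4.getD 0 []))).card = 1) &&
    decide ((invs (wPerm fullD4.cert (wlD4.getD 1 []))).card = 3) = true := by decide +kernel

theorem frameGood_twistedE6 {q : ℕ} (hq : IsPrimePow q) (hK : Fintype.card F = q ^ 2) {H : Type*} [Group H]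
    (e : H ≃* twistedE6 F q) {R A' : Prop} : FrameGood p H R A' := by
  obtain ⟨ρ, φ, hG, hJ⟩ := fixedDataE6 hq hK
  have h0 : nodeSet chevE6 [1] ∈ nodeSets chevE6 [[1], [3], [0, 5], [2, 4]] := ⟨[1], by simp, rfl⟩
  have h2 : nodeSet chevE6 [0, 5] ∈ nodeSets chevE6 [[1], [3], [0, 5], [2, 4]] := ⟨[0, 5], by simp, rfl⟩
  refine frameGood_fixedPts hG hJ ⟨⟨hG.rep hJ ⟨_, h0⟩, (hG.rep_spec hJ ⟨_, h0⟩).1⟩, ⟨⟨_, h0⟩, rfl⟩⟩ e
    fun hall => False.elim ?_
  have hW := weylE6_ok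
  simp only [Bool.and_eq_true] at hW
  obtain ⟨η0, hA0⟩ := rep_acts hG hJ hW.1 (l := wlE6.getD 0 []) (List.mem_cons_self ..) h0
  obtain ⟨η2, hA2⟩ := rep_acts hG hJ hW.1 (l := wlE6.getD 2 []) (List.mem_cons_of_mem _ (List.mem_cons_of_mem _ (List.mem_cons_self ..))) h2
  refine false_of_invSet hG hJ hA0 hA2 ?_ hall
  have hfix := graphFixedE6_ok
  simp only [Bool.and_eq_true] at hfix
  rw [card_invSet_graph hq two_ne_zero hK graphEtaE6_sign (TwistedOrder.dataE6 hq hK) hfix.1.1.1.1.1.1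
      (card_unipotentE6 hq hK) (hG.rep_spec hJ _).1 (hG.rep_spec hJ _).2.1 hA0,
    card_invSet_graph hq two_ne_zero hK graphEtaE6_sign (TwistedOrder.dataE6 hq hK) hfix.1.1.1.1.1.1
      (card_unipotentE6 hq hK) (hG.rep_spec hJ _).1 (hG.rep_spec hJ _).2.1 hA2]
  have hi := invsE6
  simp only [Bool.and_eq_true, decide_eq_true_eq] at hi
  rw [hi.1, hi.2, pow_one]
  have := hq.two_le
  nlinarith

theorem frameGood_twistedD4 {q : ℕ} (hq : IsPrimePow q) (hK : Fintype.card F = q ^ 3) {H : Type*} [Group H]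
    (e : H ≃* twistedD4 F q) {R A' : Prop} : FrameGood p H R A' := by
  obtain ⟨ρ, φ, hG, hJ⟩ := fixedDataD4 hq hK
  have h0 : nodeSet chevD4 [1] ∈ nodeSets chevD4 [[1], [0, 2, 3]] := ⟨[1], by simp, rfl⟩
  have h2 : nodeSet chevD4 [0, 2, 3] ∈ nodeSets chevD4 [[1], [0, 2, 3]] := ⟨[0, 2, 3], by simp, rfl⟩
  refine frameGood_fixedPts hG hJ ⟨⟨hG.rep hJ ⟨_, h0⟩, (hG.rep_spec hJ ⟨_, h0⟩).1⟩, ⟨⟨_, h0⟩, rfl⟩⟩ e
    fun hall => False.elim ?_
  have hW := weylD4_ok
  simp only [Bool.and_eq_true] at hW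
  obtain ⟨η0, hA0⟩ := rep_acts hG hJ hW.1 (l := wlD4.getD 0 []) (List.mem_cons_self ..) h0
  obtain ⟨η2, hA2⟩ := rep_acts hG hJ hW.1 (l := wlD4.getD 1 []) (List.mem_cons_of_mem _ (List.mem_cons_self ..)) h2
  refine false_of_invSet hG hJ hA0 hA2 ?_ hall
  have hfix := graphFixedD4_ok
  simp only [Bool.and_eq_true] at hfix
  rw [card_invSet_graph hq three_ne_zero hK graphEtaD4A_sign (TwistedOrder.dataD4 hq hK) hfix.1.1.1.1.1.1
      (card_unipotentD4 hq hK) (hG.rep_spec hJ _).1 (hG.rep_spec hJ _).2.1 hA0,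
    card_invSet_graph hq three_ne_zero hK graphEtaD4A_sign (TwistedOrder.dataD4 hq hK) hfix.1.1.1.1.1.1
      (card_unipotentD4 hq hK) (hG.rep_spec hJ _).1 (hG.rep_spec hJ _).2.1 hA2]
  have hi := invsD4
  simp only [Bool.and_eq_true, decide_eq_true_eq] at hi
  rw [hi.1, hi.2, pow_one]
  have := hq.two_le
  nlinarith [Nat.mul_le_mul this this]

theorem frameGood_twistedF4 {m : ℕ} (hK : Fintype.card F = 2 ^ (2 * m + 1)) {H : Type*} [Group H]
    (e : H ≃* twistedF4 F (2 ^ m)) {R A' : Prop} : FrameGood p H R A' := by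
  obtain ⟨ρ, φ, hG, hJ⟩ := fixedDataF4 hK
  have h0 : nodeSet chevF4 [0, 3] ∈ nodeSets chevF4 [[0, 3], [1, 2]] := ⟨[0, 3], by simp, rfl⟩
  have h2 : nodeSet chevF4 [1, 2] ∈ nodeSets chevF4 [[0, 3], [1, 2]] := ⟨[1, 2], by simp, rfl⟩
  refine frameGood_fixedPts hG hJ ⟨⟨hG.rep hJ ⟨_, h0⟩, (hG.rep_spec hJ ⟨_, h0⟩).1⟩, ⟨⟨_, h0⟩, rfl⟩⟩ e
    fun hall => False.elim ?_
  have hW := weylF4_ok
  simp only [Bool.and_eq_true] at hW
  obtain ⟨η0, hA0⟩ := rep_acts hG hJ hW.1.1.1.1.1 (l := wlF4.getD 0 []) (List.mem_cons_self ..) h0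
  obtain ⟨η2, hA2⟩ := rep_acts hG hJ hW.1.1.1.1.1 (l := wlF4.getD 1 []) (List.mem_cons_of_mem _ (List.mem_cons_self ..)) h2
  refine false_of_invSet hG hJ hA0 hA2 ?_ hall
  rw [KnownSimple.ReeFourCentralizer.card_inf_invSet hK rfl (hG.rep_spec hJ _).1 (hG.rep_spec hJ _).2.1 hA0,
    KnownSimple.ReeFourCentralizer.card_inf_invSet hK rfl (hG.rep_spec hJ _).1 (hG.rep_spec hJ _).2.1 hA2]
  have hd := KnownSimple.ReeFourCentralizer.weylF4_data
  simp only [Bool.and_eq_true, decide_eq_true_eq] at hd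
  have hinv : ∀ σ : Equiv.Perm (Fin chevF4.nroots), invs σ =
      Finset.univ.filter fun r : Fin chevF4.nroots => chevF4.IsPosRoot r ∧ chevF4.IsNegRoot (σ r) :=
    fun σ => Finset.ext fun r => by simp [mem_invs]
  rw [hinv, hinv, show wPerm fullF4.cert (wlF4.getD 0 []) = aF4 from rfl,
    show wPerm fullF4.cert (wlF4.getD 1 []) = bF4 from rfl, hd.1.2, hd.2]
  intro h
  have := Nat.pow_right_injective le_rfl (a₁ := 2 * m + 1) (a₂ := (2 * m + 1) * 2) (by
    simpa [pow_mul] using h)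
  omega

theorem frameGood_twistedG2 {m : ℕ} (hK : Fintype.card F = 3 ^ (2 * m + 1)) {H : Type*} [Group H]
    (e : H ≃* twistedG2 F (3 ^ m)) {R A' : Prop} (hR : R) : FrameGood p H R A' := by
  obtain ⟨ρ, φ, hG, hJ⟩ := fixedDataG2 hK
  have h0 : nodeSet chevG2 [0, 1] ∈ nodeSets chevG2 [[0, 1]] := ⟨[0, 1], by simp, rfl⟩
  exact frameGood_fixedPts hG hJ ⟨⟨hG.rep hJ ⟨_, h0⟩, (hG.rep_spec hJ ⟨_, h0⟩).1⟩, ⟨⟨_, h0⟩, rfl⟩⟩ e
    fun _ => hR

end CfsgLib.BrauerPairs
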