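import Cfsg.Agent.Lib.Cores.PCore
import Cfsg.Prelude.Def_Transfer

/-!
A `p`-element centralizing the normalizer of a Sylow subgroup is trivial, if `O^p` is a rank one group
of characteristic `p` and the `p`-core is trivial.
-/

set_option autoImplicit false
set_option linter.unusedSectionVars false

namespace CfsgLib.BrauerPairs

universe u v

/-- The facts about a rank one group with a split BN-pair in characteristic `p` that are used here. -/
structure RankOneData (p : ℕ) (M : Type v) [Group M] where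
  /-- The root group. -/
  U : Subgroup M
  /-- The torus. -/
  H : Subgroup M
  /-- The reflection. -/
  w : M
  /-- A torus element of order dividing `p - 1`. -/
  t : M
  isP : IsPGroup p U
  cyc : IsCyclic H
  cop : ¬ p ∣ Nat.card H
  exists_mul : ∀ x ∈ Subgroup.normalizer (U : Set M), ∃ u ∈ U, ∃ h ∈ H, x = u * h
  le_normalizer : H ≤ Subgroup.normalizer (U : Set M)
  t_mem : t ∈ H
  t_pow : t ^ (p - 1) = 1
  w_conj : ∀ h ∈ H, w⁻¹ * h * w ∈ H
  inter : ∀ u ∈ U, w⁻¹ * u * w ∈ Subgroup.normalizer (U : Set M) → u = 1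
  cent : ∀ u ∈ U, t * u = u * t → u = 1
  cell : ∀ g, g ∉ Subgroup.normalizer (U : Set M) →
    ∃ u ∈ U, ∃ n ∈ Subgroup.normalizer (U : Set M), g = u * w * n
  w_not : w ∉ Subgroup.normalizer (U : Set M)
  gen : U ⊔ U.map (MulAut.conj w).toMonoidHom = ⊤
  le_comm : U ≤ commutator M

variable {p : ℕ} [Fact p.Prime]

section data

variable {M : Type v} [Group M] [Finite M]

theorem not_dvd_index_of_split {U H : Subgroup M} (hU : IsPGroup p U) (hH : ¬ p ∣ Nat.card H)
    (hmul : ∀ x ∈ Subgroup.normalizer (U : Set M), ∃ u ∈ U, ∃ h ∈ H, x = u * h) : ¬ p ∣ U.index := by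
  obtain ⟨P, hP⟩ := hU.exists_le_sylow
  have hPU : (P : Subgroup M) = U := by
    by_contra hne
    haveI : Group.IsNilpotent ↥(P : Subgroup M) := P.isPGroup'.isNilpotent
    have hlt : U.subgroupOf (P : Subgroup M) < ⊤ := lt_top_iff_ne_top.2 fun h =>
      hne (le_antisymm (Subgroup.subgroupOf_eq_top.1 h) hP)
    obtain ⟨x, hx, hxn⟩ := SetLike.exists_of_lt (Group.normalizerCondition_of_isNilpotent _ hlt)
    have hxN : (x : M) ∈ Subgroup.normalizer (U : Set M) := by
      refine Subgroup.mem_normalizer_fintype fun y hy => ?_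
      exact (Subgroup.mem_normalizer_iff.1 hx ⟨y, hP hy⟩).1 hy
    obtain ⟨u, hu, h, hh, e⟩ := hmul _ hxN
    have hhP : h ∈ (P : Subgroup M) := by
      have : h = u⁻¹ * (x : M) := by rw [e]; group
      rw [this]; exact mul_mem (inv_mem (hP hu)) x.2
    obtain ⟨k, hk⟩ := IsPGroup.iff_orderOf.1 P.isPGroup' ⟨h, hhP⟩
    rw [Subgroup.orderOf_mk] at hk
    have hord : orderOf h ∣ Nat.card H := Subgroup.orderOf_dvd_natCard H hh
    have h1 : h = 1 := by
      rcases k.eq_zero_or_pos with rfl | hpos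
      · rwa [pow_zero, orderOf_eq_one_iff] at hk
      · exact absurd ((dvd_pow_self p hpos.ne').trans (hk ▸ hord)) hH
    apply hxn
    show (x : M) ∈ U
    rw [e, h1, mul_one]
    exact hu
  exact hPU ▸ P.not_dvd_index

variable (D : RankOneData p M)

theorem RankOneData.not_dvd_index : ¬ p ∣ D.U.index :=
  not_dvd_index_of_split D.isP D.cop D.exists_mul

theorem RankOneData.eq_one_of_conj_t {u : M} (hu : u ∈ D.U)
    (h : D.w⁻¹ * (u⁻¹ * D.t * u) * D.w ∈ Subgroup.normalizer (D.U : Set M)) : u = 1 := by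
  have hu' : u⁻¹ * (D.t * u * D.t⁻¹) ∈ D.U :=
    mul_mem (inv_mem hu) ((Subgroup.mem_normalizer_iff.1 (D.le_normalizer D.t_mem) u).1 hu)
  have h2 : D.w⁻¹ * (u⁻¹ * (D.t * u * D.t⁻¹)) * D.w ∈ Subgroup.normalizer (D.U : Set M) := by
    have hm := mul_mem h (inv_mem (D.le_normalizer (D.w_conj _ D.t_mem)))
    convert hm using 1
    group
  have h3 := D.inter _ hu' h2
  refine D.cent u hu ?_
  have h4 := inv_mul_eq_one.1 h3
  exact (mul_inv_eq_iff_eq_mul.1 h4.symm)

theorem RankOneData.commutator_eq_top (D : RankOneData p M) : commutator M = ⊤ := by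
  rw [eq_top_iff, ← D.gen]
  refine sup_le D.le_comm ?_
  rintro _ ⟨u, hu, rfl⟩
  exact (inferInstance : (commutator M).Normal).conj_mem u (D.le_comm hu) D.w

theorem RankOneData.mem_center {x : M} (hx : ∀ g, g⁻¹ * x * g ∈ Subgroup.normalizer (D.U : Set M)) :
    x ∈ Subgroup.center M := by
  obtain ⟨u, hu, h, hh, rfl⟩ := D.exists_mul x (by simpa using hx 1)
  obtain rfl : u = 1 := by
    refine D.inter u hu ?_
    have hm := mul_mem (hx D.w) (inv_mem (D.le_normalizer (D.w_conj h hh)))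
    convert hm using 1
    group
  rw [one_mul] at hx ⊢
  have key : ∀ a ∈ D.H, (∀ g, g⁻¹ * a * g ∈ Subgroup.normalizer (D.U : Set M)) →
      ∀ b ∈ D.U, a * b = b * a := by
    intro a ha hag b hb
    have hm := mul_mem (hag (b * D.w)) (inv_mem (D.le_normalizer (D.w_conj a ha)))
    have h3 := D.inter (b⁻¹ * (a * b * a⁻¹))
      (mul_mem (inv_mem hb) ((Subgroup.mem_normalizer_iff.1 (D.le_normalizer ha) b).1 hb)) (by
        convert hm using 1
        group)
    exact mul_inv_eq_iff_eq_mul.1 (inv_mul_eq_one.1 h3).symm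
  have hcent : (⊤ : Subgroup M) ≤ Subgroup.centralizer {h} := by
    rw [← D.gen]
    refine sup_le (fun b hb => Subgroup.mem_centralizer_singleton_iff.2 (key h hh hx b hb).symm) ?_
    rintro _ ⟨b, hb, rfl⟩
    have hk := key (D.w⁻¹ * h * D.w) (D.w_conj h hh) (fun g => by
      have := hx (D.w * g)
      convert this using 1
      group) b hb
    refine Subgroup.mem_centralizer_singleton_iff.2 ?_
    show D.w * b * D.w⁻¹ * h = h * (D.w * b * D.w⁻¹)
    calc D.w * b * D.w⁻¹ * h = D.w * (b * (D.w⁻¹ * h * D.w)) * D.w⁻¹ := by group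
      _ = D.w * ((D.w⁻¹ * h * D.w) * b) * D.w⁻¹ := by rw [hk]
      _ = h * (D.w * b * D.w⁻¹) := by group
  exact Subgroup.mem_center_iff.2 fun g =>
    Subgroup.mem_centralizer_singleton_iff.1 (hcent (Subgroup.mem_top g))

end data

section embedded

variable {M : Type v} [Group M] [Finite M] {X : Type u} [Group X] [Finite X]
  (D : RankOneData p M) (ψ : M →* X) (hker : ψ.ker ≤ Subgroup.center M)
include hker

theorem RankOneData.le_of_map_le {Q : Subgroup M} (hQ : IsPGroup p Q)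
    (h : Q.map ψ ≤ D.U.map ψ) : Q ≤ D.U := by
  have hn : Q ≤ Subgroup.normalizer (D.U : Set M) := by
    intro q hq
    obtain ⟨u, hu, e⟩ := h (Subgroup.mem_map_of_mem ψ hq)
    have hk : u⁻¹ * q ∈ Subgroup.center M := hker (by simp [MonoidHom.mem_ker, e])
    rw [show q = u * (u⁻¹ * q) by group]
    exact mul_mem (Subgroup.le_normalizer hu) (Subgroup.center_le_normalizer _ hk)
  have hp : IsPGroup p ↥(Q ⊔ D.U) := IsPGroup.to_sup_of_normal_right' hQ D.isP hn
  exact le_sup_left.trans ((D.isP.toSylow D.not_dvd_index).3 hp le_sup_right).le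

theorem RankOneData.mem_normalizer_of_map {m : M}
    (h : ∀ u ∈ D.U, ψ (m * u * m⁻¹) ∈ D.U.map ψ) : m ∈ Subgroup.normalizer (D.U : Set M) := by
  have hle : (D.U.map (MulAut.conj m).toMonoidHom) ≤ D.U := by
    refine D.le_of_map_le ψ hker (D.isP.map _) ?_
    rintro _ ⟨_, ⟨u, hu, rfl⟩, rfl⟩
    exact h u hu
  exact Subgroup.mem_normalizer_fintype fun u hu => hle ⟨u, hu, rfl⟩

variable [hE : ψ.range.Normal]

omit hker in
theorem exists_conj_eq_of_normal_range (x : X) (m : M) : ∃ m' : M, ψ m' = x * ψ m * x⁻¹ := by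
  exact hE.conj_mem _ ⟨m, rfl⟩ x

theorem RankOneData.sylow_inf_range {S : Sylow p X} (h : D.U.map ψ ≤ (S : Subgroup X))
    {m : M} (hm : ψ m ∈ (S : Subgroup X)) : ψ m ∈ D.U.map ψ := by
  set R : Subgroup ψ.range := D.U.map ψ.rangeRestrict with hR
  have hidx : ¬ p ∣ R.index := fun hd =>
    D.not_dvd_index (hd.trans (Subgroup.index_map_dvd D.U ψ.rangeRestrict_surjective))
  have hle : R ≤ (S : Subgroup X).subgroupOf ψ.range := by
    rintro _ ⟨u, hu, rfl⟩
    exact h ⟨u, hu, rfl⟩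
  have he := ((D.isP.map ψ.rangeRestrict).toSylow hidx).3
    (S.isPGroup'.comap_subtype (K := ψ.range)) hle
  have hmem : ψ.rangeRestrict m ∈ R := by
    rw [hR]
    exact (show (S : Subgroup X).subgroupOf ψ.range ≤ R from he.le) (by exact hm)
  obtain ⟨u, hu, e⟩ := hmem
  exact ⟨u, hu, congrArg Subtype.val e⟩

theorem RankOneData.sylow_conj_map {S : Sylow p X} (hS : D.U.map ψ ≤ (S : Subgroup X)) {s : X}
    (hs : s ∈ (S : Subgroup X)) {y : X} (hy : y ∈ D.U.map ψ) : s * y * s⁻¹ ∈ D.U.map ψ := by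
  obtain ⟨u, hu, rfl⟩ := hy
  obtain ⟨m', hm'⟩ := exists_conj_eq_of_normal_range ψ s u
  rw [← hm']
  refine D.sylow_inf_range ψ hker hS ?_
  rw [hm']
  exact mul_mem (mul_mem hs (hS ⟨u, hu, rfl⟩)) (inv_mem hs)

/-- The torus element `t` normalizes a Sylow subgroup of the ambient group. -/
theorem RankOneData.map_t_mem_normalizer {S : Sylow p X} (hS : D.U.map ψ ≤ (S : Subgroup X)) :
    ψ D.t ∈ Subgroup.normalizer ((S : Subgroup X) : Set X) := by
  set N : Subgroup X := (Subgroup.normalizer (D.U : Set M)).map ψ with hN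
  set B : Subgroup N := (D.U.map ψ).subgroupOf N with hB
  haveI hBn : B.Normal := by
    constructor
    rintro ⟨b, hb⟩ hbB ⟨_, n, hn, rfl⟩
    obtain ⟨u, hu, rfl⟩ := (show b ∈ D.U.map ψ from hbB)
    exact ⟨n * u * n⁻¹, (Subgroup.mem_normalizer_iff.1 hn u).1 hu, by simp⟩
  let j : ↥D.H →* N ⧸ B :=
    (QuotientGroup.mk' B).comp ((ψ.comp D.H.subtype).codRestrict N fun h =>
      ⟨h, D.le_normalizer h.2, rfl⟩)
  have hj : Function.Surjective j := by
    intro a
    obtain ⟨⟨_, n, hn, rfl⟩, rfl⟩ := QuotientGroup.mk'_surjective B a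
    obtain ⟨u, hu, h, hh, rfl⟩ := D.exists_mul n hn
    refine ⟨⟨h, hh⟩, ?_⟩
    show (QuotientGroup.mk' B) _ = (QuotientGroup.mk' B) _
    refine QuotientGroup.eq.2 ?_
    show (ψ h)⁻¹ * ψ (u * h) ∈ D.U.map ψ
    refine ⟨h⁻¹ * u * h, ?_, by simp [mul_assoc]⟩
    simpa using (Subgroup.mem_normalizer_iff.1 (D.le_normalizer (inv_mem hh)) u).1 hu
  haveI := D.cyc
  haveI : IsCyclic (N ⧸ B) := isCyclic_of_surjective j hj
  -- the action of a Sylow element
  have hact : ∀ s ∈ (S : Subgroup X), s * ψ D.t * s⁻¹ * (ψ D.t)⁻¹ ∈ D.U.map ψ := by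
    intro s hs
    have hNs : ∀ y ∈ N, s * y * s⁻¹ ∈ N := by
      rintro _ ⟨n, hn, rfl⟩
      obtain ⟨m, hm⟩ := exists_conj_eq_of_normal_range ψ s n
      refine ⟨m, D.mem_normalizer_of_map ψ hker fun u hu => ?_, hm⟩
      obtain ⟨u', hu', e'⟩ := D.sylow_conj_map ψ hker hS (inv_mem hs) ⟨u, hu, rfl⟩
      have e : ψ (m * u * m⁻¹) = s * ψ (n * u' * n⁻¹) * s⁻¹ := by
        simp only [map_mul, map_inv, hm, e', inv_inv]
        group
      rw [e]
      exact D.sylow_conj_map ψ hker hS hs ⟨_, (Subgroup.mem_normalizer_iff.1 hn u').1 hu', rfl⟩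
    let g : N →* N :=
      ((MulAut.conj s).toMonoidHom.comp N.subtype).codRestrict N fun y => hNs y y.2
    let f : N ⧸ B →* N ⧸ B := QuotientGroup.map B B g fun y hy =>
      D.sylow_conj_map ψ hker hS hs (show (y : X) ∈ D.U.map ψ from hy)
    set a : N ⧸ B := j ⟨D.t, D.t_mem⟩ with ha
    have hapow : a ^ (p - 1) = 1 := by
      rw [ha, ← map_pow]
      convert map_one j
      exact Subtype.ext D.t_pow
    have hiter : ∀ (k : ℕ) (y : N), f^[k] (y : N ⧸ B) = ((g^[k] y : N) : N ⧸ B) := by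
      intro k
      induction k with
      | zero => intro y; rfl
      | succ k ih =>
        intro y
        rw [Function.iterate_succ_apply, Function.iterate_succ_apply]
        exact ih (g y)
    have hgiter : ∀ (k : ℕ) (y : N), ((g^[k] y : N) : X) = s ^ k * (y : X) * (s ^ k)⁻¹ := by
      intro k
      induction k with
      | zero => intro y; simp
      | succ k ih =>
        intro y
        rw [Function.iterate_succ_apply, ih (g y), pow_succ]
        show s ^ k * (s * (y : X) * s⁻¹) * (s ^ k)⁻¹ = _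
        group
    obtain ⟨k, hk⟩ := S.isPGroup' ⟨s, hs⟩
    have hk' : s ^ p ^ k = 1 := congrArg Subtype.val hk
    have hper : Function.IsPeriodicPt f (p ^ k) a := by
      show f^[p ^ k] a = a
      have e := hiter (p ^ k) ⟨ψ D.t, D.t, D.le_normalizer D.t_mem, rfl⟩
      refine e.trans ?_
      show ((g^[p ^ k] _ : N) : N ⧸ B) = _
      congr 1
      apply Subtype.ext
      rw [hgiter, hk']
      simp
      rfl
    obtain ⟨i, -, hi⟩ := (Nat.dvd_prime_pow (Fact.out : p.Prime)).1 hper.minimalPeriod_dvd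
    have hsmall : Function.minimalPeriod f a ≤ p - 1 := by
      classical
      haveI := Fintype.ofFinite (N ⧸ B)
      have hsub : (Finset.range (Function.minimalPeriod f a)).image (fun n => f^[n] a) ⊆
          Finset.univ.filter (fun b : N ⧸ B => b ^ (p - 1) = 1) := by
        intro b hb
        obtain ⟨n, -, rfl⟩ := Finset.mem_image.1 hb
        refine Finset.mem_filter.2 ⟨Finset.mem_univ _, ?_⟩
        clear hb
        induction n with
        | zero => exact hapow
        | succ n ih => rw [Function.iterate_succ_apply', ← map_pow, ih, map_one]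
      have hcard := Finset.card_le_card hsub
      rw [Finset.card_image_of_injOn (by
        intro m hm n hn e
        exact Function.iterate_injOn_Iio_minimalPeriod (Finset.mem_range.1 hm) (Finset.mem_range.1 hn) e),
        Finset.card_range] at hcard
      exact hcard.trans (IsCyclic.card_pow_eq_one_le (Nat.sub_pos_of_lt (Fact.out : p.Prime).one_lt))
    have hfix : f a = a := by
      rcases i.eq_zero_or_pos with rfl | hpos
      · rw [pow_zero] at hi
        exact Function.minimalPeriod_eq_one_iff_isFixedPt.1 hi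
      · have := Nat.le_of_dvd (pow_pos (Fact.out : p.Prime).pos i) (dvd_pow_self p hpos.ne')
        have h2 := (Fact.out : p.Prime).one_lt
        omega
    have hfix' : ((g ⟨ψ D.t, D.t, D.le_normalizer D.t_mem, rfl⟩ : N) : N ⧸ B) =
        ((⟨ψ D.t, D.t, D.le_normalizer D.t_mem, rfl⟩ : N) : N ⧸ B) := hfix
    have h1 : (s * ψ D.t * s⁻¹)⁻¹ * ψ D.t ∈ D.U.map ψ := by
      have h0 := QuotientGroup.eq.1 hfix'
      exact h0
    obtain ⟨u, hu, e⟩ := h1
    refine ⟨D.t * u⁻¹ * D.t⁻¹,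
      (Subgroup.mem_normalizer_iff.1 (D.le_normalizer D.t_mem) _).1 (inv_mem hu), ?_⟩
    simp only [map_mul, map_inv, e]
    group
  refine Subgroup.mem_normalizer_fintype fun s hs => ?_
  have h1 := inv_mem (hS (hact s hs))
  rw [show ψ D.t * s * (ψ D.t)⁻¹ = (s * ψ D.t * s⁻¹ * (ψ D.t)⁻¹)⁻¹ * s by group]
  exact mul_mem h1 hs

theorem RankOneData.exists_fix {z : X} (hzU : ∀ u ∈ D.U, z * ψ u = ψ u * z)
    (hzt : z * ψ D.t = ψ D.t * z) (g : M) :
    ∀ u ∈ D.U, ∃ u' ∈ D.U, z * ψ (g * u * g⁻¹) * z⁻¹ = ψ (g * u' * g⁻¹) := by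
  obtain ⟨m, hm⟩ := exists_conj_eq_of_normal_range ψ z D.w
  have hzU' : ∀ u ∈ D.U, z * ψ u * z⁻¹ = ψ u := fun u hu => by rw [hzU u hu]; group
  have hzt' : z * ψ D.t * z⁻¹ = ψ D.t := by rw [hzt]; group
  -- conjugates of `w U w⁻¹`
  have hV : ∀ u ∈ D.U, z * ψ (D.w * u * D.w⁻¹) * z⁻¹ = ψ (m * u * m⁻¹) := by
    intro u hu
    simp only [map_mul, map_inv, hm]
    conv_rhs => rw [← hzU' u hu]
    group
  have hmnot : m ∉ Subgroup.normalizer (D.U : Set M) := by
    intro hmN
    refine D.w_not (D.mem_normalizer_of_map ψ hker fun u hu => ?_)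
    have h' := (Subgroup.mem_normalizer_iff.1 hmN u).1 hu
    refine ⟨_, h', ?_⟩
    have e := (hV u hu).trans (hzU' _ h').symm
    exact (mul_left_cancel (mul_right_cancel e)).symm
  obtain ⟨u₀, hu₀, n, hn, rfl⟩ := D.cell m hmnot
  have htm : (u₀ * D.w * n)⁻¹ * D.t * (u₀ * D.w * n) ∈ Subgroup.normalizer (D.U : Set M) := by
    refine D.mem_normalizer_of_map ψ hker fun u hu => ?_
    -- `w⁻¹ t w` normalizes `U`
    obtain ⟨u', hu', e'⟩ : ∃ u' ∈ D.U, (D.w⁻¹ * D.t * D.w) * u * (D.w⁻¹ * D.t * D.w)⁻¹ = u' :=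
      ⟨_, (Subgroup.mem_normalizer_iff.1 (D.le_normalizer (D.w_conj _ D.t_mem)) u).1 hu, rfl⟩
    refine ⟨u', hu', ?_⟩
    set m := u₀ * D.w * n with hmdef
    have e1 : D.t * (D.w * u * D.w⁻¹) * D.t⁻¹ = D.w * u' * D.w⁻¹ := by rw [← e']; group
    have e2 : ψ (m * u' * m⁻¹) = ψ (D.t * (m * u * m⁻¹) * D.t⁻¹) := by
      calc ψ (m * u' * m⁻¹) = z * ψ (D.t * (D.w * u * D.w⁻¹) * D.t⁻¹) * z⁻¹ := by
            rw [e1, hV u' hu']
        _ = (z * ψ D.t * z⁻¹) * (z * ψ (D.w * u * D.w⁻¹) * z⁻¹) * (z * ψ D.t * z⁻¹)⁻¹ := by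
            simp only [map_mul, map_inv]; group
        _ = _ := by rw [hzt', hV u hu]; simp only [map_mul, map_inv]
    calc ψ u' = (ψ m)⁻¹ * ψ (m * u' * m⁻¹) * ψ m := by simp only [map_mul, map_inv]; group
      _ = ψ (m⁻¹ * D.t * m * u * (m⁻¹ * D.t * m)⁻¹) := by
        rw [e2]; simp only [map_mul, map_inv]; group
  obtain rfl : u₀ = 1 := by
    refine D.eq_one_of_conj_t hu₀ ?_
    have := mul_mem (mul_mem hn htm) (inv_mem hn)
    convert this using 1
    group
  -- now every conjugate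
  intro u hu
  by_cases hg : g ∈ Subgroup.normalizer (D.U : Set M)
  · exact ⟨u, hu, hzU' _ ((Subgroup.mem_normalizer_iff.1 hg u).1 hu)⟩
  obtain ⟨v, hv, k, hk, rfl⟩ := D.cell g hg
  have hku := (Subgroup.mem_normalizer_iff.1 hk u).1 hu
  refine ⟨k⁻¹ * (n * (k * u * k⁻¹) * n⁻¹) * k,
    (Subgroup.mem_normalizer_iff''.1 hk _).1 ((Subgroup.mem_normalizer_iff.1 hn _).1 hku), ?_⟩
  have e := hV _ hku
  have ev := hzU' v hv
  calc z * ψ (v * D.w * k * u * (v * D.w * k)⁻¹) * z⁻¹
      = (z * ψ v * z⁻¹) * (z * ψ (D.w * (k * u * k⁻¹) * D.w⁻¹) * z⁻¹) * (z * ψ v * z⁻¹)⁻¹ := by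
        simp only [map_mul, map_inv]; group
    _ = _ := by
        rw [ev, e]; simp only [map_mul, map_inv, map_one]; group

theorem RankOneData.commute_range {z : X} (hzU : ∀ u ∈ D.U, z * ψ u = ψ u * z)
    (hzt : z * ψ D.t = ψ D.t * z) (m : M) : z * ψ m = ψ m * z := by
  have hzUi : ∀ u ∈ D.U, z⁻¹ * ψ u = ψ u * z⁻¹ := fun u hu => Commute.inv_left (hzU u hu)
  have hzti : z⁻¹ * ψ D.t = ψ D.t * z⁻¹ := Commute.inv_left hzt
  have hcen : ∀ a b : M, (z * ψ a * z⁻¹ * (ψ a)⁻¹) * ψ b = ψ b * (z * ψ a * z⁻¹ * (ψ a)⁻¹) := by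
    intro a b
    obtain ⟨a', ha'⟩ := exists_conj_eq_of_normal_range ψ z a
    have hy : a' * a⁻¹ ∈ Subgroup.center M := by
      refine D.mem_center fun g => D.mem_normalizer_of_map ψ hker fun u hu => ?_
      obtain ⟨u₁, hu₁, e₁⟩ := D.exists_fix ψ hker hzUi hzti (a⁻¹ * g) u hu
      obtain ⟨u₂, hu₂, e₂⟩ := D.exists_fix ψ hker hzU hzt g u₁ hu₁
      refine ⟨u₂, hu₂, ?_⟩
      have h2 : ψ (g * u₂ * g⁻¹) = ψ ((a' * a⁻¹) * (g * u * g⁻¹) * (a' * a⁻¹)⁻¹) := by
        rw [← e₂]
        have h1 : ψ (g * u₁ * g⁻¹) = ψ a * ψ ((a⁻¹ * g) * u₁ * (a⁻¹ * g)⁻¹) * (ψ a)⁻¹ := by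
          simp only [map_mul, map_inv]; group
        rw [h1, ← e₁]
        simp only [map_mul, map_inv, ha', inv_inv]
        group
      calc ψ u₂ = (ψ g)⁻¹ * ψ (g * u₂ * g⁻¹) * ψ g := by simp only [map_mul, map_inv]; group
        _ = _ := by rw [h2]; simp only [map_mul, map_inv]; group
    have hb := congrArg ψ (Subgroup.mem_center_iff.1 hy b)
    simp only [map_mul, map_inv, ha'] at hb
    exact hb.symm
  let c : M →* X := MonoidHom.mk' (fun a => z * ψ a * z⁻¹ * (ψ a)⁻¹) fun a b => by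
    have h := hcen b a
    calc z * ψ (a * b) * z⁻¹ * (ψ (a * b))⁻¹
        = (z * ψ a * z⁻¹) * ((z * ψ b * z⁻¹ * (ψ b)⁻¹) * (ψ a)⁻¹) := by
          simp only [map_mul]; group
      _ = (z * ψ a * z⁻¹) * ((ψ a)⁻¹ * (z * ψ b * z⁻¹ * (ψ b)⁻¹)) := by
          rw [(Commute.inv_right h).eq]
      _ = _ := by group
  have hc : ∀ a b : M, c a * c b = c b * c a := by
    intro a b
    obtain ⟨a', ha'⟩ := exists_conj_eq_of_normal_range ψ z a
    have e : c a = ψ (a' * a⁻¹) := by
      show z * ψ a * z⁻¹ * (ψ a)⁻¹ = _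
      rw [map_mul, map_inv, ha']
    rw [e]
    exact (hcen b _).symm
  have hc1 : c m = 1 := by
    have hle : commutator M ≤ c.ker := by
      rw [commutator_def, Subgroup.commutator_le]
      intro a _ b _
      rw [MonoidHom.mem_ker, map_commutatorElement, commutatorElement_eq_one_iff_mul_comm]
      exact hc a b
    exact hle (D.commutator_eq_top ▸ Subgroup.mem_top m)
  have e : z * ψ m * z⁻¹ = ψ m := mul_inv_eq_one.1 hc1
  exact mul_inv_eq_iff_eq_mul.1 e

end embedded

/-- **Main lemma.** If `O_p(X) = 1` and `E` is normal of `p`-power index and is a central quotient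
of a rank one group in characteristic `p`, then no nontrivial element of a Sylow `p`-subgroup
centralizes the normalizer of that Sylow subgroup. -/
theorem RankOneData.eq_one_of_central {M : Type v} [Group M] [Finite M] {X : Type u} [Group X]
    [Finite X] (D : RankOneData p M) (hX : Cfsg.pCore p X = ⊥) (E : Subgroup X) [hEn : E.Normal]
    (hquot : ∀ x : X, ∃ k : ℕ, x ^ p ^ k ∈ E) (φ : M →* E) (hφ : Function.Surjective φ)
    (hker : φ.ker ≤ Subgroup.center M) (S : Sylow p X) {z : X} (hzS : z ∈ (S : Subgroup X))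
    (hz : ∀ x ∈ Subgroup.normalizer ((S : Subgroup X) : Set X), z * x = x * z) : z = 1 := by
  obtain ⟨P, hP⟩ := ((D.isP.map φ).map E.subtype).exists_le_sylow
  obtain ⟨x, hx⟩ := MulAction.exists_smul_eq X P S
  let ψ : M →* X := ((MulAut.conj x).toMonoidHom.comp E.subtype).comp φ
  have hψker : ψ.ker ≤ Subgroup.center M := by
    intro a ha
    refine hker ?_
    rw [MonoidHom.mem_ker] at ha ⊢
    apply Subtype.ext
    apply (MulAut.conj x).injective
    rw [show ((1 : E) : X) = 1 from rfl, map_one]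
    exact ha
  have hrange : ψ.range = E := by
    ext y
    constructor
    · rintro ⟨a, rfl⟩
      exact hEn.conj_mem _ (φ a).2 x
    · intro hy
      obtain ⟨a, ha⟩ := hφ ⟨x⁻¹ * y * x, by simpa using hEn.conj_mem y hy x⁻¹⟩
      refine ⟨a, ?_⟩
      show x * (φ a : X) * x⁻¹ = y
      rw [ha]
      show x * (x⁻¹ * y * x) * x⁻¹ = y
      group
  haveI : ψ.range.Normal := by rw [hrange]; exact hEn
  have hUS : D.U.map ψ ≤ (S : Subgroup X) := by
    rintro _ ⟨u, hu, rfl⟩
    rw [← hx]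
    show x * (φ u : X) * x⁻¹ ∈ ((x • P : Sylow p X) : Subgroup X)
    rw [Sylow.coe_subgroup_smul, Subgroup.mem_pointwise_smul_iff_inv_smul_mem]
    simpa [MulAut.smul_def, mul_assoc] using hP ⟨φ u, ⟨u, hu, rfl⟩, rfl⟩
  have hzU : ∀ u ∈ D.U, z * ψ u = ψ u * z := fun u hu =>
    hz _ (Subgroup.le_normalizer (hUS ⟨u, hu, rfl⟩))
  have hzt : z * ψ D.t = ψ D.t * z := hz _ (D.map_t_mem_normalizer ψ hψker hUS)
  set C : Subgroup X := Subgroup.centralizer (E : Set X) with hC
  have hzC : z ∈ C := by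
    refine Subgroup.mem_centralizer_iff.2 fun e he => ?_
    obtain ⟨a, rfl⟩ : e ∈ ψ.range := by rw [hrange]; exact he
    exact (D.commute_range ψ hψker hzU hzt a).symm
  have hq : IsPGroup p (C ⧸ Subgroup.center C) := by
    intro a
    obtain ⟨y, rfl⟩ := QuotientGroup.mk_surjective a
    obtain ⟨k, hk⟩ := hquot (y : X)
    refine ⟨k, ?_⟩
    rw [← QuotientGroup.mk_pow, QuotientGroup.eq_one_iff, Subgroup.mem_center_iff]
    intro b
    apply Subtype.ext
    have h1 := Subgroup.mem_centralizer_iff.1 b.2 _ hk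
    simpa using h1.symm
  haveI : Group.IsNilpotent C := Group.of_quotient_center_nilpotent hq.isNilpotent
  haveI : C.Normal := inferInstance
  obtain ⟨T, hT⟩ := (show IsPGroup p (Subgroup.zpowers (⟨z, hzC⟩ : C)) from by
    refine IsPGroup.of_injective S.isPGroup'
      (((C.subtype).comp (Subgroup.zpowers (⟨z, hzC⟩ : C)).subtype).codRestrict (S : Subgroup X) ?_) ?_
    · rintro ⟨y, n, rfl⟩
      simpa using Subgroup.zpow_mem (S : Subgroup X) hzS n
    · intro a b hab
      exact Subtype.ext (Subtype.ext (Subtype.mk.inj hab))).exists_le_sylow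
  haveI hTn : (T : Subgroup C).Normal :=
    Sylow.normal_of_normalizerCondition Group.normalizerCondition_of_isNilpotent T
  have hz1 : (⟨z, hzC⟩ : C) ∈ Cfsg.pCore p C := by
    rw [CfsgLib.Cores.pCore_eq_sylow_of_normal T]
    exact hT (Subgroup.mem_zpowers _)
  have hz2 : z ∈ Cfsg.pCore p X :=
    CfsgLib.Cores.map_subtype_pCore_le (Subgroup.Normal.isSubnormal (inferInstance : C.Normal))
      ⟨_, hz1, rfl⟩
  rwa [hX, Subgroup.mem_bot] at hz2

end CfsgLib.BrauerPairs
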