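import Cfsg.Agent.Lib.BrauerPairs.RankOneCentral
import Cfsg.Agent.Lib.SL2Gen.Basic
import Cfsg.Agent.Lib.SU3Pres.Model

/-!
`SL₂` and `SU₃` in characteristic at least 5 as rank one data.
-/

set_option autoImplicit false
set_option linter.unusedSectionVars false

open Matrix
open scoped MatrixGroups commutatorElement

namespace CfsgLib.BrauerPairs

variable {F : Type*} [Field F] [Finite F] {p : ℕ} [Fact p.Prime] [CharP F p]

omit [Finite F] in
theorem natCast_ne_zero_of_lt {n : ℕ} (h0 : 0 < n) (hn : n < p) : (n : F) ≠ 0 := by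
  rw [Ne, CharP.cast_eq_zero_iff F p]
  exact fun h => absurd (Nat.le_of_dvd h0 h) (by omega)

omit [Finite F] in
theorem two_unit_pow (hp : 5 ≤ p) : ∃ a : Fˣ, (a : F) = 2 ∧ a ^ (p - 1) = 1 := by
  have h2 : (2 : F) ≠ 0 := by exact_mod_cast natCast_ne_zero_of_lt (F := F) (p := p) (n := 2) two_pos (by omega)
  refine ⟨Units.mk0 2 h2, rfl, Units.ext ?_⟩
  have hfr := map_ofNat (frobenius F p) 2
  rw [frobenius_def, ← Nat.sub_add_cancel (show 1 ≤ p by omega), pow_succ] at hfr
  rw [Units.val_pow_eq_pow_val, Units.val_one]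
  exact mul_left_eq_self₀.1 hfr |>.resolve_right h2

omit [Finite F] in
theorem three_ne (hp : 5 ≤ p) : (3 : F) ≠ 0 := by
  exact_mod_cast natCast_ne_zero_of_lt (F := F) (p := p) (n := 3) three_pos (by omega)

theorem not_dvd_card_range (G : Type*) [Group G] [Finite G] (f : Fˣ →* G) : ¬ p ∣ Nat.card f.range := by
  intro h
  have h1 : p ∣ Nat.card F - 1 := Nat.card_units F ▸ h.trans (Subgroup.card_range_dvd f)
  have h2 : p ∣ Nat.card F := by
    have := Fintype.ofFinite F
    obtain ⟨n, -, hn⟩ := FiniteField.card F p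
    rw [Nat.card_eq_fintype_card, hn]
    exact dvd_pow_self p n.pos.ne'
  have h3 := Nat.dvd_sub h2 h1
  rw [Nat.sub_sub_self Finite.one_lt_card.le] at h3
  exact (Fact.out : p.Prime).one_lt.ne' (Nat.dvd_one.1 h3)

section sl2

open CfsgLib.ClassicalLinear (upS upperSL upS_coe upS_add upS_injective mem_upperSL)
open CfsgLib.SL2 (borel diag mem_borel)

local notation "M₂" => Matrix (Fin 2) (Fin 2) F

/-- The Weyl element of `SL₂`. -/
def weylSL : SL(2, F) := ⟨!![0, 1; -1, 0], by simp [Matrix.det_fin_two]⟩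

omit [Finite F] in
theorem weylSL_coe : ((weylSL : SL(2, F)) : M₂) = !![0, 1; -1, 0] := rfl

/-- The diagonal torus as a homomorphism. -/
def diagHom : Fˣ →* SL(2, F) where
  toFun := diag
  map_one' := CfsgLib.SL2.diag_one
  map_mul' := CfsgLib.SL2.diag_mul

theorem exists_data_SL (hp : 5 ≤ p) : Nonempty (RankOneData p (SL(2, F))) := by
  have := Fintype.ofFinite F
  obtain ⟨a, ha, hapow⟩ := two_unit_pow (F := F) hp
  have h3 := three_ne (F := F) hp
  haveI : IsCyclic Fˣ := inferInstance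
  have hN := CfsgLib.SL2Gen.normalizer_upperSL (F := F)
  refine ⟨{
    U := upperSL
    H := diagHom.range
    w := weylSL
    t := diag a
    isP := (CfsgLib.ClassicalLinear.upperSLSylow (F := F) p).isPGroup'
    cyc := isCyclic_of_surjective diagHom.rangeRestrict diagHom.rangeRestrict_surjective
    cop := not_dvd_card_range _ _
    exists_mul := ?_
    le_normalizer := ?_
    t_mem := ⟨a, rfl⟩
    t_pow := ?_
    w_conj := ?_
    inter := ?_
    cent := ?_
    cell := ?_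
    w_not := ?_
    gen := ?_
    le_comm := ?_ }⟩
  · intro x hx
    rw [hN] at hx
    obtain ⟨b, y, rfl, -⟩ := CfsgLib.SL2.borel_exists hx
    refine ⟨upS ((b : F) ^ 2 * y), ⟨_, rfl⟩, diag b, ⟨b, rfl⟩, ?_⟩
    rw [← CfsgLib.SL2.conj_diag_upS, inv_mul_cancel_right]
  · rintro _ ⟨b, rfl⟩
    rw [hN, mem_borel]
    simp [diagHom, CfsgLib.SL2.diag_coe]
  · show diagHom a ^ (p - 1) = 1
    rw [← map_pow, hapow, map_one]
  · rintro _ ⟨b, rfl⟩
    refine ⟨b⁻¹, ?_⟩
    rw [mul_assoc, eq_inv_mul_iff_mul_eq]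
    show weylSL * CfsgLib.SL2.diag b⁻¹ = CfsgLib.SL2.diag b * weylSL
    apply Subtype.ext
    rw [Matrix.SpecialLinearGroup.coe_mul, Matrix.SpecialLinearGroup.coe_mul, CfsgLib.SL2.diag_coe,
      CfsgLib.SL2.diag_coe, weylSL_coe]
    ext i j
    fin_cases i <;> fin_cases j <;> simp [Matrix.mul_apply]
  · intro u hu hw
    obtain ⟨x, rfl⟩ := mem_upperSL.1 hu
    rw [hN, mem_borel] at hw
    have e : weylSL * (weylSL⁻¹ * upS x * weylSL) = upS x * (weylSL : SL(2, F)) := by group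
    generalize weylSL⁻¹ * upS x * weylSL = y at hw e
    have e' := congrArg (fun g : SL(2, F) => (g : M₂) 0 0) e
    simp only [Matrix.SpecialLinearGroup.coe_mul (weylSL : SL(2, F)),
      Matrix.SpecialLinearGroup.coe_mul (upS x) weylSL, weylSL_coe, upS_coe] at e'
    simp [Matrix.mul_apply, hw] at e'
    rw [e']
    exact SpecialLinearGroup.transvection_coeff_zero _
  · intro u hu hc
    obtain ⟨x, rfl⟩ := mem_upperSL.1 hu
    have e : upS ((a : F) ^ 2 * x) = upS x := by
      rw [← CfsgLib.SL2.conj_diag_upS, hc, mul_inv_cancel_right]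
    have e' := upS_injective e
    rw [ha] at e'
    have : (3 : F) * x = 0 := by linear_combination e'
    obtain rfl := (mul_eq_zero.1 this).resolve_left h3
    exact SpecialLinearGroup.transvection_coeff_zero _
  · intro g hg
    rw [hN, mem_borel] at hg
    refine ⟨upS ((g : M₂) 0 0 / (g : M₂) 1 0), ⟨_, rfl⟩,
      weylSL⁻¹ * (upS ((g : M₂) 0 0 / (g : M₂) 1 0))⁻¹ * g, ?_, by group⟩
    rw [hN, mem_borel]
    set n := weylSL⁻¹ * (upS ((g : M₂) 0 0 / (g : M₂) 1 0))⁻¹ * g with hn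
    have e : upS ((g : M₂) 0 0 / (g : M₂) 1 0) * weylSL * n = g := by rw [hn]; group
    have e' := congrArg (fun g : SL(2, F) => (g : M₂) 0 0) e
    have e'' := congrArg (fun g : SL(2, F) => (g : M₂) 1 0) e
    simp only [Matrix.SpecialLinearGroup.coe_mul, weylSL_coe, upS_coe] at e' e''
    simp [Matrix.mul_apply] at e' e''
    rw [show (n : M₂) 0 0 = -(g : M₂) 1 0 by linear_combination -e''] at e'
    field_simp at e'
    linear_combination e'
  · rw [hN, mem_borel, weylSL_coe]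
    simp
  · set W := upperSL ⊔ (upperSL : Subgroup SL(2, F)).map (MulAut.conj weylSL).toMonoidHom with hW
    have hu : ∀ x : F, upS x ∈ W := fun x => Subgroup.mem_sup_left (⟨x, rfl⟩ : upS x ∈ upperSL)
    have hl : ∀ x : F, CfsgLib.SL2Gen.lowS x ∈ W := by
      intro x
      refine Subgroup.mem_sup_right ⟨upS (-x), ⟨_, rfl⟩, ?_⟩
      show weylSL * upS (-x) * weylSL⁻¹ = CfsgLib.SL2Gen.lowS x
      rw [mul_inv_eq_iff_eq_mul]
      apply Subtype.ext
      rw [Matrix.SpecialLinearGroup.coe_mul, Matrix.SpecialLinearGroup.coe_mul, weylSL_coe, upS_coe,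
        CfsgLib.SL2Gen.lowS_coe]
      ext i j
      fin_cases i <;> fin_cases j <;> simp [Matrix.mul_apply]
    have hne : ∀ g : SL(2, F), (g : M₂) 1 0 ≠ 0 → g ∈ W := fun g hg => by
      rw [CfsgLib.SL2Gen.eq_upS_lowS_upS hg]
      exact mul_mem (mul_mem (hu _) (hl _)) (hu _)
    rw [eq_top_iff]
    intro g _
    by_cases hg : (g : M₂) 1 0 = 0
    · have h1 : g * CfsgLib.SL2Gen.lowS 1 ∈ W := by
        refine hne _ ?_
        rw [Matrix.SpecialLinearGroup.coe_mul, CfsgLib.SL2Gen.lowS_coe]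
        simp [Matrix.mul_apply, hg]
        exact (CfsgLib.ClassicalLinear.upperSL_diag_ne_zero hg).2
      simpa using mul_mem h1 (inv_mem (hl 1))
    · exact hne g hg
  · rintro _ ⟨x, rfl⟩
    have e : ⁅diag a, upS (x / 3)⁆ = upS x := by
      rw [commutatorElement_def, CfsgLib.SL2.conj_diag_upS, mul_inv_eq_iff_eq_mul, ← upS_add, ha]
      congr 1
      field_simp
      ring
    rw [← e, commutator_def]
    exact Subgroup.commutator_mem_commutator (Subgroup.mem_top _) (Subgroup.mem_top _)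

end sl2

section su3

open CfsgLib.Amalgams CfsgLib.SU3Pres

variable {σ : F →+* F} {q : ℕ} (h : UniField F σ q)
include h

theorem uT_mem_uGrp₃ (t : Tp σ) : uT h t ∈ uGrp₃ (σ := σ) := by
  simp [uGrp₃, mat_uT, uMat₃]

theorem exists_uT {g : suAnti σ} (hg : g ∈ uGrp₃ (σ := σ)) : ∃ t, g = uT h t := by
  obtain ⟨a1, a2, a3, a4, a5, a6⟩ := hg
  obtain ⟨t, l, rfl⟩ := exists_ud h (mem_Bor.2 ⟨a4, a5, a6⟩)
  refine ⟨t, ?_⟩
  rw [map_mul, mat_uT, mat_dT] at a1
  simp [uMat₃, dMat₃, Matrix.mul_apply, Fin.sum_univ_three] at a1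
  rw [a1, map_one, mul_one]

theorem wEl₃_inv : (wEl₃ σ)⁻¹ = wEl₃ σ := inv_eq_of_mul_eq_one_right (w_mul_w h)

theorem w_uT_w_mat (t : Tp σ) : mat₃ σ (wEl₃ σ * uT h t * wEl₃ σ) 1 0 = -t.1.1 ∧
    mat₃ σ (wEl₃ σ * uT h t * wEl₃ σ) 2 0 = t.1.2 := by
  rw [map_mul, map_mul, mat₃_wEl, mat_uT]
  constructor <;> simp [wMat₃, uMat₃, Matrix.mul_apply, Fin.sum_univ_three]

theorem normalizer_uGrp₃ :
    Subgroup.normalizer ((uGrp₃ (σ := σ) : Subgroup (suAnti σ)) : Set (suAnti σ)) = Bor σ := by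
  have hB : Bor σ ≤ Subgroup.normalizer ((uGrp₃ (σ := σ) : Subgroup (suAnti σ)) : Set (suAnti σ)) := by
    intro g hg
    obtain ⟨t, l, rfl⟩ := exists_ud h hg
    refine mul_mem (Subgroup.le_normalizer (uT_mem_uGrp₃ h t)) ?_
    refine Subgroup.mem_normalizer_fintype fun u hu => ?_
    obtain ⟨s, rfl⟩ := exists_uT h hu
    rw [dT_uT]
    exact uT_mem_uGrp₃ h _
  refine le_antisymm (fun g hg => ?_) hB
  by_contra hgB
  obtain ⟨b, hb, t, rfl⟩ := exists_cell h hgB
  have hw : wEl₃ σ ∈ Subgroup.normalizer ((uGrp₃ (σ := σ) : Subgroup (suAnti σ)) : Set (suAnti σ)) := by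
    have := mul_mem (mul_mem (inv_mem (hB hb)) hg) (inv_mem (Subgroup.le_normalizer (uT_mem_uGrp₃ h t)))
    convert this using 1
    group
  obtain ⟨ε, hε0, hε⟩ := h.exists_skew
  have h1 := (Subgroup.mem_normalizer_iff.1 hw _).1 (uT_mem_uGrp₃ h (zP ε hε))
  rw [wEl₃_inv h] at h1
  exact hε0 ((w_uT_w_mat h (zP ε hε)).2.symm.trans h1.2.2.2.2.1)

theorem exists_data_SU (hp : 5 ≤ p) : Nonempty (RankOneData p (suAnti σ)) := by
  obtain ⟨a, ha, hapow⟩ := two_unit_pow (F := F) hp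
  have h3 := three_ne (F := F) hp
  haveI : IsCyclic Fˣ := inferInstance
  have hN := normalizer_uGrp₃ h
  have hσa : σ (a : F) = a := by rw [ha]; exact map_ofNat σ 2
  have hmu : muF σ a = 2 := by rw [muF, hσa, ha]; field_simp
  have hnu : nuF σ a = 4 := by rw [nuF, hσa, ha]; norm_num
  refine ⟨{
    U := uGrp₃ (σ := σ)
    H := (dT h).range
    w := wEl₃ σ
    t := dT h a
    isP := isPGroup_uGrp₃ h
    cyc := isCyclic_of_surjective (dT h).rangeRestrict (dT h).rangeRestrict_surjective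
    cop := not_dvd_card_range _ _
    exists_mul := ?_
    le_normalizer := ?_
    t_mem := ⟨a, rfl⟩
    t_pow := ?_
    w_conj := ?_
    inter := ?_
    cent := ?_
    cell := ?_
    w_not := ?_
    gen := ?_
    le_comm := ?_ }⟩
  · intro x hx
    rw [hN] at hx
    obtain ⟨t, l, rfl⟩ := exists_ud h hx
    exact ⟨_, uT_mem_uGrp₃ h t, _, ⟨l, rfl⟩, rfl⟩
  · rintro _ ⟨l, rfl⟩
    rw [hN]
    exact dT_mem_Bor h l
  · rw [← map_pow, hapow, map_one]
  · rintro _ ⟨l, rfl⟩
    rw [wEl₃_inv h, w_dT_w]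
    exact ⟨_, rfl⟩
  · intro u hu hw
    obtain ⟨t, rfl⟩ := exists_uT h hu
    rw [hN, wEl₃_inv h, mem_Bor, (w_uT_w_mat h t).1, (w_uT_w_mat h t).2, neg_eq_zero] at hw
    apply mat₃_injective σ
    rw [mat_uT, map_one, hw.1, hw.2.1, uMat₃]
    ext i j
    fin_cases i <;> fin_cases j <;> simp
  · intro u hu hc
    obtain ⟨t, rfl⟩ := exists_uT h hu
    have e : uT h (tact h a t) = uT h t := by
      rw [← dT_uT, hc, mul_inv_cancel_right]
    have e' := uT_injective h e
    have e1 : muF σ a * t.1.1 = t.1.1 := congrArg (fun s : Tp σ => s.1.1) e'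
    have e2 : nuF σ a * t.1.2 = t.1.2 := congrArg (fun s : Tp σ => s.1.2) e'
    rw [hmu] at e1
    rw [hnu] at e2
    have hb : t.1.1 = 0 := by linear_combination e1
    have hc' : t.1.2 = 0 := (mul_eq_zero.1 (show (3 : F) * t.1.2 = 0 by linear_combination e2)).resolve_left h3
    apply mat₃_injective σ
    rw [mat_uT, map_one, hb, hc', uMat₃]
    ext i j
    fin_cases i <;> fin_cases j <;> simp
  · intro g hg
    rw [hN] at hg ⊢
    obtain ⟨b, hb, t, e⟩ := exists_cell h (g := g⁻¹) (fun hh => hg (by simpa using inv_mem hh))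
    refine ⟨(uT h t)⁻¹, inv_mem (uT_mem_uGrp₃ h t), b⁻¹, inv_mem hb, ?_⟩
    rw [← inv_inv g, e]
    simp [wEl₃_inv h, mul_assoc]
  · rw [hN]
    intro hw
    have := (mem_Bor.1 hw).2.1
    simp [mat₃_wEl, wMat₃] at this
  · set W := uGrp₃ (σ := σ) ⊔ (uGrp₃ (σ := σ)).map (MulAut.conj (wEl₃ σ)).toMonoidHom with hW
    have hu : ∀ t, uT h t ∈ W := fun t => Subgroup.mem_sup_left (uT_mem_uGrp₃ h t)
    have hl : ∀ t, wEl₃ σ * uT h t * wEl₃ σ ∈ W := fun t => by
      refine Subgroup.mem_sup_right ⟨_, uT_mem_uGrp₃ h t, ?_⟩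
      show wEl₃ σ * uT h t * (wEl₃ σ)⁻¹ = _
      rw [wEl₃_inv h]
    have hdw : ∀ x : Fˣ, dT h x * wEl₃ σ ∈ W := by
      intro x
      set c : F := (σ (x : F))⁻¹ with hcdef
      have hc0 : c ≠ 0 := inv_ne_zero (by simp)
      obtain ⟨b, hb⟩ := h.exists_norm (a := -(c + σ c)) (by
        rw [map_neg, map_add, h.conj_conj, add_comm])
      let t : Tp σ := ⟨(b, c), by simp only; linear_combination hb⟩
      have e := w_uT_w h t hc0
      have hx : (sU σ (Units.mk0 t.1.2 hc0))⁻¹ = x := by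
        rw [inv_eq_iff_eq_inv]
        apply Units.ext
        show σ c = ((x⁻¹ : Fˣ) : F)
        rw [hcdef, map_inv₀, h.conj_conj, Units.val_inv_eq_inv_val]
      rw [hx] at e
      have := mul_mem (mul_mem (inv_mem (hu (tal h t))) (hl t)) (inv_mem (hu (tbe h t)))
      rw [e] at this
      convert this using 1
      group
    have hw : wEl₃ σ ∈ W := by simpa using hdw 1
    have hd : ∀ x, dT h x ∈ W := fun x => by simpa using mul_mem (hdw x) (inv_mem hw)
    have hB : Bor σ ≤ W := fun g hg => by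
      obtain ⟨t, l, rfl⟩ := exists_ud h hg
      exact mul_mem (hu t) (hd l)
    rw [eq_top_iff]
    intro g _
    by_cases hg : g ∈ Bor σ
    · exact hB hg
    obtain ⟨b, hb, t, rfl⟩ := exists_cell h hg
    exact mul_mem (mul_mem (hB hb) hw) (hu t)
  · intro u hu
    obtain ⟨t, rfl⟩ := exists_uT h hu
    have hcomm : ∀ s, uT h (tmul h (tact h a s) (tinv h s)) ∈ commutator (suAnti σ) := by
      intro s
      rw [← uT_mul, uT_tinv, ← dT_uT]
      exact Subgroup.commutator_mem_commutator (Subgroup.mem_top _) (Subgroup.mem_top _)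
    set s := tmul h (tact h a t) (tinv h t) with hs
    set r := tmul h (tinv h s) t with hr
    have hst : uT h t = uT h s * uT h r := by
      rw [hr, ← uT_mul h (tinv h s) t, uT_tinv, mul_inv_cancel_left]
    have hs1 : s.1.1 = t.1.1 := by
      show muF σ a * t.1.1 + -t.1.1 = t.1.1
      rw [hmu]; ring
    have hr1 : r.1.1 = 0 := by
      show -s.1.1 + t.1.1 = 0
      rw [hs1]; ring
    have hr2 : σ r.1.2 = -r.1.2 := by
      have h1 := r.2
      rw [hr1] at h1
      linear_combination h1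
    have hk : σ (r.1.2 / 3) = -(r.1.2 / 3) := by rw [map_div₀, hr2, map_ofNat, neg_div]
    have hzr : tmul h (tact h a (zP (r.1.2 / 3) hk)) (tinv h (zP (r.1.2 / 3) hk)) = r := by
      apply Subtype.ext
      refine Prod.ext ?_ ?_
      · show muF σ a * 0 + -0 = r.1.1
        rw [hr1]; ring
      · show nuF σ a * (r.1.2 / 3) + σ (r.1.2 / 3) - σ (muF σ a * 0) * -0 = r.1.2
        rw [hnu, hk]
        field_simp
        ring
    rw [hst]
    refine mul_mem (hcomm t) ?_
    rw [← hzr]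
    exact hcomm _

end su3

end CfsgLib.BrauerPairs
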