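import Cfsg.Agent.Lib.BrauerPairs.SLWreathAbElem

/-!
# The monomial case: `q ≡ 1 mod 4`, degree a power of `2`
-/

set_option autoImplicit false

namespace CfsgLib.BrauerPairs.GLWreath

open Matrix CfsgLib.Classes.DerivedWreath

/-- A `2`-subgroup of maximal order of `Sym(2^j)` is transitive. -/
theorem transitive_of_card {N j : ℕ} (hN : N = 2 ^ j) {S : Subgroup (Equiv.Perm (Fin N))}
    (hS : Nat.card S = 2 ^ (N.factorial.factorization 2)) (i k : Fin N) :
    ∃ s ∈ S, s i = k := by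
  classical
  haveI : Fact (Nat.Prime 2) := ⟨Nat.prime_two⟩
  have hN0 : N ≠ 0 := by rw [hN]; positivity
  obtain ⟨M, hM⟩ : ∃ M, N = M + 1 := ⟨N - 1, by omega⟩
  have hst : Nat.card (MulAction.stabilizer (Equiv.Perm (Fin N)) i) = M.factorial := by
    have h := Subgroup.card_mul_index (MulAction.stabilizer (Equiv.Perm (Fin N)) i)
    rw [MulAction.index_stabilizer_of_transitive, Nat.card_perm, Nat.card_fin] at h
    have h2 : N.factorial = M.factorial * N := by rw [hM, Nat.factorial_succ]; ring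
    rw [h2] at h
    exact Nat.eq_of_mul_eq_mul_right (Nat.pos_of_ne_zero hN0) h
  have h1 := Subgroup.card_mul_index (MulAction.stabilizer S i)
  rw [MulAction.index_stabilizer, hS] at h1
  obtain ⟨a, -, ha⟩ := (Nat.dvd_prime_pow Nat.prime_two).1 (Dvd.intro _ h1 :
    Nat.card (MulAction.stabilizer S i) ∣ _)
  obtain ⟨b, -, hb⟩ := (Nat.dvd_prime_pow Nat.prime_two).1 (Dvd.intro_left _ h1 :
    (MulAction.orbit S i).ncard ∣ _)
  rw [ha, hb, ← pow_add] at h1
  have h2 := Nat.pow_right_injective le_rfl h1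
  have h3 : Nat.card (MulAction.stabilizer S i) ∣ M.factorial := by
    rw [← hst, ← Subgroup.card_map_of_injective (K := MulAction.stabilizer S i) S.subtype_injective]
    refine Subgroup.card_dvd_of_le ?_
    rintro _ ⟨s, hs, rfl⟩
    exact hs
  rw [ha] at h3
  have h4 := (Nat.prime_two.pow_dvd_iff_le_factorization (Nat.factorial_ne_zero M)).1 h3
  have h5 : N.factorial.factorization 2 = j + M.factorial.factorization 2 := by
    rw [hM, Nat.factorial_succ, Nat.factorization_mul (Nat.succ_ne_zero M) (Nat.factorial_ne_zero M),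
      Finsupp.add_apply, show M.succ = 2 ^ j by omega, Nat.prime_two.factorization_pow,
      Finsupp.single_eq_same]
  have h6 : MulAction.orbit S i = Set.univ := by
    refine Set.eq_of_subset_of_ncard_le (Set.subset_univ _) ?_
    rw [Set.ncard_univ, Nat.card_fin, hb]
    calc N = 2 ^ j := hN
      _ ≤ 2 ^ b := Nat.pow_le_pow_right (by norm_num) (by omega)
  obtain ⟨s, hs⟩ := (h6 ▸ Set.mem_univ k : k ∈ MulAction.orbit S i)
  exact ⟨s.1, s.2, hs⟩

variable {F : Type*} [Field F]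

/-- The sign of the top component. -/
def sgnHom {U : Type*} [Group U] {ι : Type*} [Fintype ι] [DecidableEq ι] (Q : Subgroup U)
    (S : Subgroup (Equiv.Perm ι)) : WrSub Q S →* Fˣ :=
  (Units.map (Int.castRingHom F).toMonoidHom).comp
    ((Equiv.Perm.sign.comp S.subtype).comp SemidirectProduct.rightHom)

/-- The monomial embedding. -/
def monoToGL (Q : Subgroup Fˣ) {N : ℕ} (S : Subgroup (Equiv.Perm (Fin N))) :
    WrSub Q S →* GL (Fin N) F :=
  (glReindex (F := F) (Equiv.uniqueProd (Fin N) (Fin 1))).toMonoidHom.comp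
    (toGL.comp ((SemidirectProduct.map
      (MonoidHom.compLeft (Matrix.GeneralLinearGroup.scalar (Fin 1)) (Fin N))
      (MonoidHom.id _) fun _ => MonoidHom.ext fun _ => rfl).comp (wrSubHom Q S)))

theorem scalar_one_injective :
    Function.Injective (Matrix.GeneralLinearGroup.scalar (R := F) (Fin 1)) := fun a b h =>
  Units.ext (by
    simpa using congrArg (fun g : GL (Fin 1) F => (g : Matrix (Fin 1) (Fin 1) F) 0 0) h)

theorem monoToGL_injective (Q : Subgroup Fˣ) {N : ℕ} (S : Subgroup (Equiv.Perm (Fin N))) :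
    Function.Injective (monoToGL Q S) := by
  intro a b h
  refine wrSubHom_injective Q S ?_
  have h2 := toGL_injective ((glReindex (F := F) _).injective h)
  refine SemidirectProduct.ext (funext fun i => scalar_one_injective ?_) ?_
  · exact congrArg (fun z : Wr (GL (Fin 1) F) (Fin N) => z.left i) h2
  · exact congrArg (fun z : Wr (GL (Fin 1) F) (Fin N) => z.right) h2

theorem det_monoToGL (Q : Subgroup Fˣ) {N : ℕ} (S : Subgroup (Equiv.Perm (Fin N))) (x : WrSub Q S) :
    Matrix.GeneralLinearGroup.det (monoToGL Q S x) =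
      (∏ i, (x.left i : Fˣ)) * sgnHom Q S x := by
  refine (det_glReindex _ _).trans ?_
  rw [MonoidHom.comp_apply, det_toGL, Fintype.card_fin, pow_one]
  refine congrArg₂ (· * ·) (Finset.prod_congr rfl fun i _ => Units.ext ?_) rfl
  show ((Matrix.GeneralLinearGroup.scalar (Fin 1) (x.left i : Fˣ) : GL (Fin 1) F) :
    Matrix (Fin 1) (Fin 1) F).det = _
  simp [Matrix.det_unique]

variable [Fintype F]

theorem abElem_sylow_SL_monomial (hF : Odd (Fintype.card F)) (h4 : 4 ∣ Fintype.card F - 1) {m j : ℕ}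
    (hm : m = 2 ^ j) (P : Sylow 2 (Matrix.SpecialLinearGroup (Fin (2 * m)) F)) :
    AbElem (P : Subgroup (Matrix.SpecialLinearGroup (Fin (2 * m)) F)) := by
  classical
  haveI : Fact (Nat.Prime 2) := ⟨Nat.prime_two⟩
  have hm0 : 0 < m := by rw [hm]; positivity
  haveI : Nonempty (Fin (2 * m)) := ⟨⟨0, by omega⟩⟩
  let i₀ : Fin (2 * m) := ⟨0, by omega⟩
  have hq1 : 1 < Fintype.card F := Fintype.one_lt_card
  obtain ⟨x₀, hx₀⟩ : IsSquare (-1 : F) := by
    rw [FiniteField.isSquare_neg_one_iff]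
    omega
  have hx0 : x₀ ≠ 0 := fun h => by rw [h, mul_zero] at hx₀; exact neg_ne_zero.2 one_ne_zero hx₀
  let c₀ : Fˣ := Units.mk0 x₀ hx0
  have hc₀ : c₀ ^ 2 = -1 := Units.ext (by simp [c₀, pow_two, ← hx₀])
  have hp : IsPGroup 2 (Subgroup.zpowers c₀) := by
    have h : orderOf c₀ ∣ 2 ^ 2 := orderOf_dvd_of_pow_eq_one (by
      rw [show (2 : ℕ) ^ 2 = 2 * 2 by norm_num, pow_mul, hc₀, neg_one_sq])
    obtain ⟨i, -, hi⟩ := (Nat.dvd_prime_pow Nat.prime_two).1 h
    exact IsPGroup.of_card (n := i) (by rw [Nat.card_zpowers, hi])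
  obtain ⟨Q₀, hQ₀⟩ := hp.exists_le_sylow
  obtain ⟨Q, hQc, hcQ⟩ : ∃ Q : Subgroup Fˣ, Nat.card Q = 2 ^ v2 (Nat.card Fˣ) ∧ c₀ ∈ Q :=
    ⟨Q₀, Q₀.card_eq_multiplicity, hQ₀ (Subgroup.mem_zpowers c₀)⟩
  obtain ⟨S, hgS, -, hSc⟩ := exists_sylow_perm (2 * m)
  have hcard : Nat.card (WrSub Q S) = 2 ^ v2 (Nat.card (GL (Fin (2 * m)) F)) := by
    rw [natCard_wrSub, hQc, hSc, Nat.card_fin, ← pow_mul, ← pow_add]
    refine congrArg _ ?_
    have h1 : v2 (Fintype.card F ^ 2 - 1) = v2 (Fintype.card F - 1) + 1 := by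
      rw [show Fintype.card F ^ 2 - 1 = (Fintype.card F - 1) * (Fintype.card F + 1) by
        rw [mul_comm]; exact Nat.sq_sub_sq _ 1, v2_mul (by omega) (by omega)]
      congr 1
      rw [show Fintype.card F + 1 = 2 * ((Fintype.card F + 1) / 2) by omega, v2_mul (by norm_num) (by omega)]
      simp only [v2, Nat.prime_two.factorization_self]
      rw [Nat.factorization_eq_zero_of_not_dvd (by omega)]
    have h2 : (2 * m).factorial.factorization 2 = m.factorial.factorization 2 + m := by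
      rw [Nat.factorization_def _ Nat.prime_two, Nat.factorization_def _ Nat.prime_two,
        padicValNat_factorial_mul]
    rw [v2_card_GL_two_mul hF, h1, v2_card_units, h2]
    simp only [v2]
    ring
  obtain ⟨e⟩ := ker_equiv_sylow_SL (monoToGL Q S) (monoToGL_injective Q S) hcard P
  refine AbElem.of_mulEquiv ?_ e
  set D := (Matrix.GeneralLinearGroup.det).comp (monoToGL Q S) with hD
  let pr : (Fin (2 * m) → Q) →* Fˣ :=
    { toFun := fun f => ∏ i, (f i : Fˣ)
      map_one' := by simp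
      map_mul' := fun f g => by simp [Finset.prod_mul_distrib] }
  have hDinl : ∀ f, D (SemidirectProduct.inl f) = pr f := fun f => by
    refine (det_monoToGL Q S _).trans ?_
    simp [sgnHom, pr]
  let inlK : pr.ker →* D.ker :=
    ((SemidirectProduct.inl : (Fin (2 * m) → Q) →* WrSub Q S).comp pr.ker.subtype).codRestrict D.ker
      fun f => MonoidHom.mem_ker.2 ((hDinl _).trans f.2)
  have hprs : ∀ i (c : Q), pr (Pi.mulSingle i c) = c := fun i c => by
    show ∏ l, ((Pi.mulSingle i c : Fin (2 * m) → Q) l : Fˣ) = c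
    rw [Finset.prod_eq_single i (fun l _ hl => by rw [Pi.mulSingle_eq_of_ne hl]; rfl) (by simp),
      Pi.mulSingle_eq_same]
  let hh : Fin (2 * m) → Fin (2 * m) → Q → pr.ker := fun i k c =>
    ⟨Pi.mulSingle i c * (Pi.mulSingle k c)⁻¹, by
      rw [MonoidHom.mem_ker, map_mul, map_inv, hprs, hprs, mul_inv_cancel]⟩
  -- lifts of top elements
  let l : Equiv.Perm (Fin (2 * m)) → (Fin (2 * m) → Q) := fun s =>
    if Equiv.Perm.sign s = 1 then 1 else Pi.mulSingle i₀ (⟨c₀, hcQ⟩ ^ 2)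
  have hlift : ∀ s : S, (⟨l s, s⟩ : WrSub Q S) ∈ D.ker := fun s => by
    rw [MonoidHom.mem_ker]
    refine (det_monoToGL Q S _).trans ?_
    show pr (l s) * Units.map (Int.castRingHom F).toMonoidHom
      (Equiv.Perm.sign (s : Equiv.Perm (Fin (2 * m)))) = 1
    rcases Int.units_eq_one_or (Equiv.Perm.sign (s : Equiv.Perm (Fin (2 * m)))) with h | h
    · simp [l, h]
    · have hne : (-1 : ℤˣ) ≠ 1 := by decide
      simp only [l, h, if_neg hne, hprs]
      rw [show ((⟨c₀, hcQ⟩ ^ 2 : Q) : Fˣ) = -1 from hc₀]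
      exact Units.ext (by simp)
  let lift : S → D.ker := fun s => ⟨⟨l s, s⟩, hlift s⟩
  have hconj : ∀ (s : S) (i k : Fin (2 * m)) (c : Q), lift s * inlK (hh i k c) * (lift s)⁻¹ =
      inlK (hh (s.1 i) (s.1 k) c) := fun s i k c => by
    rw [mul_inv_eq_iff_eq_mul]
    refine Subtype.ext (SemidirectProduct.ext (funext fun r => ?_) ?_)
    · show l s r * ((Pi.mulSingle i c : Fin (2 * m) → Q) (s.1.symm r) *
          ((Pi.mulSingle k c : Fin (2 * m) → Q) (s.1.symm r))⁻¹) =
        (Pi.mulSingle (s.1 i) c : Fin (2 * m) → Q) r * ((Pi.mulSingle (s.1 k) c : Fin (2 * m) → Q) r)⁻¹ *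
          l s r
      simp only [Pi.mulSingle_apply, Equiv.symm_apply_eq]
      exact mul_comm _ _
    · show s * 1 = 1 * s
      rw [mul_one, one_mul]
  let R : Fin (2 * m) → Fin (2 * m) → Prop := fun i k => ∀ c, sqAb D.ker (inlK (hh i k c)) = 1
  have hhinv : ∀ i k c, hh k i c = (hh i k c)⁻¹ := fun i k c => Subtype.ext (by
    show (Pi.mulSingle k c : Fin (2 * m) → Q) * (Pi.mulSingle i c)⁻¹ =
      ((Pi.mulSingle i c : Fin (2 * m) → Q) * (Pi.mulSingle k c)⁻¹)⁻¹
    rw [mul_inv, inv_inv]; exact mul_comm _ _)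
  have Rinv : ∀ i, ∀ s : S, s.1 * s.1 = 1 → R i (s.1 i) := fun i s hs c => by
    have h := congrArg (Abelianization.of (G := D.ker)) (hconj s i (s.1 i) c)
    rw [show s.1 (s.1 i) = i from (Equiv.Perm.mul_apply _ _ _).symm.trans (by rw [hs]; rfl),
      map_mul, map_mul, map_inv, mul_inv_cancel_comm, hhinv i (s.1 i) c, map_inv, map_inv] at h
    rw [sqAb_apply, map_pow, pow_two]
    nth_rw 1 [h]
    exact inv_mul_cancel _
  have Rtrans : ∀ i k r, R i k → R k r → R i r := fun i k r h₁ h₂ c => by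
    have h : hh i r c = hh i k c * hh k r c := Subtype.ext (by
      show (Pi.mulSingle i c : Fin (2 * m) → Q) * (Pi.mulSingle r c)⁻¹ =
        (Pi.mulSingle i c : Fin (2 * m) → Q) * (Pi.mulSingle k c)⁻¹ *
          ((Pi.mulSingle k c : Fin (2 * m) → Q) * (Pi.mulSingle r c)⁻¹)
      group)
    rw [h, map_mul, map_mul, h₁ c, h₂ c, mul_one]
  have Rsymm : ∀ i k, R i k → R k i := fun i k h₁ c => by
    rw [hhinv i k c, map_inv, map_inv, h₁ c, inv_one]
  have Rrefl : ∀ i, R i i := fun i c => by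
    have h : hh i i c = 1 := Subtype.ext (mul_inv_cancel _)
    rw [h, map_one, map_one]
  have Rall : ∀ i k, R i k := by
    intro i k
    obtain ⟨s, hs, hsi⟩ := transitive_of_card (j := j + 1) (by rw [hm]; ring) hSc i k
    have key : ∀ u, u ∈ Subgroup.closure {u : Equiv.Perm (Fin (2 * m)) | u ∈ S ∧ u ^ 2 = 1} →
        ∀ r, R r (u r) := by
      intro u hu
      induction hu using Subgroup.closure_induction with
      | mem u hu => exact fun r => Rinv r ⟨u, hu.1⟩ (by rw [← pow_two]; exact hu.2)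
      | one => exact fun r => Rrefl r
      | mul u v _ _ hu hv => exact fun r => Rtrans r (v r) _ (hv r) (hu (v r))
      | inv u _ hu =>
        intro r
        have := hu (u⁻¹ r)
        rw [Equiv.Perm.inv_def, Equiv.apply_symm_apply] at this
        exact Rsymm _ _ this
    have hs' : s ∈ Subgroup.closure {u : Equiv.Perm (Fin (2 * m)) | u ∈ S ∧ u ^ 2 = 1} := hgS.ge hs
    exact hsi ▸ key s hs' i
  have hbase : ∀ f : pr.ker, sqAb D.ker (inlK f) = 1 := by
    intro f
    have hf : f = ∏ i, hh i i₀ (f.1 i) := by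
      refine Subtype.ext ?_
      rw [Subgroup.val_finsetProd]
      show f.1 = ∏ i, (Pi.mulSingle i (f.1 i) * (Pi.mulSingle i₀ (f.1 i))⁻¹)
      rw [Finset.prod_mul_distrib, Finset.univ_prod_mulSingle, Finset.prod_inv_distrib]
      have h1 : ∏ i, f.1 i = 1 := Subtype.ext (by
        rw [Subgroup.val_finsetProd]; exact f.2)
      have h2 : ∏ i, (Pi.mulSingle i₀ (f.1 i) : Fin (2 * m) → Q) = 1 :=
        (map_prod (MonoidHom.mulSingle (fun _ : Fin (2 * m) => Q) i₀) f.1 Finset.univ).symm.trans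
          (by rw [h1, map_one])
      rw [h2, inv_one, mul_one]
    show ((sqAb D.ker).comp inlK) f = 1
    rw [hf, map_prod]
    exact Finset.prod_eq_one fun i _ => Rall i i₀ _
  have hlift2 : ∀ s : S, s.1 ^ 2 = 1 → sqAb D.ker (lift s) = 1 := by
    intro s hs
    rw [sqAb_apply]
    rcases Int.units_eq_one_or (Equiv.Perm.sign (s : Equiv.Perm (Fin (2 * m)))) with h | h
    · have h1 : lift s ^ 2 = 1 := by
        refine Subtype.ext ?_
        show (⟨l s, s⟩ : WrSub Q S) ^ 2 = 1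
        have h2 : l (s : Equiv.Perm (Fin (2 * m))) = 1 := by simp [l, h]
        rw [h2, show (⟨1, s⟩ : WrSub Q S) = SemidirectProduct.inr s from rfl, ← map_pow,
          show s ^ 2 = 1 from Subtype.ext hs, map_one]
      rw [h1, map_one]
    · have h1 : lift s ^ 2 = inlK (hh i₀ (s.1 i₀) ⟨c₀, hcQ⟩) ^ 2 := by
        have hne : (-1 : ℤˣ) ≠ 1 := by decide
        have h2 : l (s : Equiv.Perm (Fin (2 * m))) = Pi.mulSingle i₀ (⟨c₀, hcQ⟩ ^ 2) := by
          simp [l, h, hne]
        have hφ : ∀ (u : Equiv.Perm (Fin (2 * m))) i (x : Q),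
            permCoord Q (Fin (2 * m)) u (Pi.mulSingle i x) = Pi.mulSingle (u i) x := fun u i x => by
          funext r
          simp only [permCoord_apply, Pi.mulSingle_apply, Equiv.symm_apply_eq]
        have hc2 : ((⟨c₀, hcQ⟩ : Q) ^ 2)⁻¹ = (⟨c₀, hcQ⟩ : Q) ^ 2 := by
          refine Subtype.ext ?_
          show (c₀ ^ 2)⁻¹ = c₀ ^ 2
          rw [hc₀]
          exact Units.ext (by simp)
        refine Subtype.ext (SemidirectProduct.ext ?_ ?_)
        · rw [pow_two, pow_two]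
          show l s * permCoord Q (Fin (2 * m)) s.1 (l s) =
            (Pi.mulSingle i₀ (⟨c₀, hcQ⟩ : Q) : Fin (2 * m) → Q) * (Pi.mulSingle (s.1 i₀) ⟨c₀, hcQ⟩)⁻¹ *
              ((Pi.mulSingle i₀ (⟨c₀, hcQ⟩ : Q) : Fin (2 * m) → Q) * (Pi.mulSingle (s.1 i₀) ⟨c₀, hcQ⟩)⁻¹)
          rw [h2, hφ, mul_mul_mul_comm, ← mul_inv, ← Pi.mulSingle_mul, ← Pi.mulSingle_mul,
            ← Pi.mulSingle_inv, ← pow_two, hc2]
        · rw [pow_two, pow_two]
          show s * s = 1 * 1
          rw [one_mul, ← pow_two]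
          exact Subtype.ext hs
      rw [h1, ← sqAb_apply]
      exact Rall _ _ _
  have key : ∀ u, u ∈ Subgroup.closure {u : Equiv.Perm (Fin (2 * m)) | u ∈ S ∧ u ^ 2 = 1} →
      ∃ x : D.ker, (x.1.right : Equiv.Perm (Fin (2 * m))) = u ∧ sqAb D.ker x = 1 := by
    intro u hu
    induction hu using Subgroup.closure_induction with
    | mem u hu => exact ⟨lift ⟨u, hu.1⟩, rfl, hlift2 ⟨u, hu.1⟩ hu.2⟩
    | one => exact ⟨1, rfl, map_one _⟩
    | mul u v _ _ hu hv =>
      obtain ⟨x, rfl, hx⟩ := hu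
      obtain ⟨y, rfl, hy⟩ := hv
      exact ⟨x * y, rfl, by rw [map_mul, hx, hy, mul_one]⟩
    | inv u _ hu =>
      obtain ⟨x, rfl, hx⟩ := hu
      exact ⟨x⁻¹, rfl, by rw [map_inv, hx, inv_one]⟩
  rw [abElem_iff]
  intro x
  obtain ⟨y, hy, hy1⟩ := key _ (hgS.ge x.1.right.2)
  have hr : (y⁻¹ * x).1.right = 1 := by
    show y.1.right⁻¹ * x.1.right = 1
    rw [Subtype.ext hy, inv_mul_cancel]
  have hl : (SemidirectProduct.inl (y⁻¹ * x).1.left : WrSub Q S) = (y⁻¹ * x).1 :=
    SemidirectProduct.ext rfl hr.symm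
  have hmem : (y⁻¹ * x).1.left ∈ pr.ker := by
    rw [MonoidHom.mem_ker, ← hDinl, hl]
    exact (y⁻¹ * x).2
  have he : x = y * inlK ⟨_, hmem⟩ := by
    rw [← inv_mul_eq_iff_eq_mul]
    exact Subtype.ext hl.symm
  rw [he, map_mul, hy1, hbase, mul_one]

end CfsgLib.BrauerPairs.GLWreath
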