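import Mathlib.GroupTheory.Perm.ViaEmbedding
import Mathlib.GroupTheory.SpecificGroups.Alternating
import Mathlib.GroupTheory.Sylow
import Mathlib.GroupTheory.Abelianization.Defs
import Mathlib.NumberTheory.Padics.PadicVal.Basic
import Mathlib.Tactic

/-!
# Sylow subgroups of symmetric and alternating groups are generated by elements of order `p`
-/

set_option autoImplicit false
set_option linter.style.haveILetI false

namespace CfsgLib.BrauerPairs

open Equiv

/-- Generated by elements killed by `p`. -/
def GenPow {G : Type*} [Group G] (p : ℕ) (H : Subgroup G) : Prop :=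
  Subgroup.closure {x : G | x ∈ H ∧ x ^ p = 1} = H

/-- If `P` is generated by elements killed by `p` then `p`-th powers lie in the derived group. -/
theorem pow_mem_commutator_of_genPow {G : Type*} [Group G] {p : ℕ} {H : Subgroup G}
    (hH : GenPow p H) {H' : Type*} [Group H'] (e : H ≃* H') (x : H') :
    x ^ p ∈ commutator H' := by
  let S : Subgroup H' :=
    { carrier := {y | Abelianization.of (G := H') y ^ p = 1}
      one_mem' := by simp
      mul_mem' := fun {a b} ha hb => by
        simp only [Set.mem_setOf_eq, map_mul, mul_pow] at ha hb ⊢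
        rw [ha, hb, one_mul]
      inv_mem' := fun {a} ha => by
        simp only [Set.mem_setOf_eq, map_inv, inv_pow] at ha ⊢
        rw [ha, inv_one] }
  have hS : ∀ (y : G) (hy : y ∈ H), e ⟨y, hy⟩ ∈ S := by
    intro y hy
    have key : ∀ z (hz : z ∈ Subgroup.closure {x : G | x ∈ H ∧ x ^ p = 1}),
        e ⟨z, hH.le hz⟩ ∈ S := by
      intro z hz
      induction hz using Subgroup.closure_induction with
      | mem z hz =>
        show Abelianization.of (e ⟨z, hz.1⟩) ^ p = 1
        rw [← map_pow, ← map_pow, show (⟨z, hz.1⟩ : H) ^ p = 1 from Subtype.ext hz.2, map_one,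
          map_one]
      | one =>
        have h1 : (⟨1, hH.le (Subgroup.one_mem _)⟩ : H) = 1 := rfl
        rw [h1, map_one]; exact S.one_mem
      | mul a b ha hb iha ihb =>
        have h1 : (⟨a * b, hH.le (Subgroup.mul_mem _ ha hb)⟩ : H) =
            ⟨a, hH.le ha⟩ * ⟨b, hH.le hb⟩ := rfl
        rw [h1, map_mul]; exact S.mul_mem iha ihb
      | inv a ha iha =>
        have h1 : (⟨a⁻¹, hH.le (Subgroup.inv_mem _ ha)⟩ : H) = (⟨a, hH.le ha⟩)⁻¹ := rfl
        rw [h1, map_inv]; exact S.inv_mem iha
    exact key y (hH.ge hy)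
  have h := hS (e.symm x) (e.symm x).2
  rw [Subtype.coe_eta, e.apply_symm_apply] at h
  change Abelianization.of x ^ p = 1 at h
  rw [← map_pow] at h
  exact (QuotientGroup.eq_one_iff (N := commutator H') _).1 h

variable (p : ℕ) [hp : Fact p.Prime]

/-- Acting on the second coordinate in every row. -/
def rowHom (β : Type*) : Perm β →* Perm (ZMod p × β) where
  toFun σ := Equiv.prodCongrRight fun _ => σ
  map_one' := Equiv.ext fun _ => rfl
  map_mul' _ _ := Equiv.ext fun _ => rfl

/-- Translating each column. -/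
def colHom (β : Type*) : Multiplicative (β → ZMod p) →* Perm (ZMod p × β) where
  toFun v :=
    { toFun := fun x => (x.1 + Multiplicative.toAdd v x.2, x.2)
      invFun := fun x => (x.1 - Multiplicative.toAdd v x.2, x.2)
      left_inv := fun x => by simp
      right_inv := fun x => by simp }
  map_one' := Equiv.ext fun x => by simp
  map_mul' v w := Equiv.ext fun x => by simp [toAdd_mul, add_assoc, add_comm, add_left_comm]

theorem rowHom_conj_colHom (β : Type*) (σ : Perm β) (v : Multiplicative (β → ZMod p)) :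
    rowHom p β σ * colHom p β v * (rowHom p β σ)⁻¹ =
      colHom p β (Multiplicative.ofAdd fun i => Multiplicative.toAdd v (σ⁻¹ i)) := by
  rw [← map_inv]
  exact Equiv.ext fun x => by simp [rowHom, colHom]

theorem colHom_pow (β : Type*) (v : Multiplicative (β → ZMod p)) : colHom p β v ^ p = 1 := by
  rw [← map_pow]
  have : v ^ p = 1 := by
    refine Multiplicative.toAdd.injective ?_
    funext i
    simp
  rw [this, map_one]

/-- A large enough `p`-subgroup generated by elements killed by `p`, with even counterpart. -/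
theorem exists_genPow (n : ℕ) : ∃ H : Subgroup (Perm (Fin n)),
    Nat.card H = p ^ (Nat.card (Perm (Fin n))).factorization p ∧ GenPow p H ∧
      GenPow p (H ⊓ alternatingGroup (Fin n)) := by
  induction n using Nat.strong_induction_on with
  | _ n ih =>
  have hn : Nat.card (Perm (Fin n)) = n.factorial := by
    rw [Nat.card_perm, Nat.card_fin]
  by_cases hlt : n < p
  · refine ⟨⊥, ?_, ?_, ?_⟩
    · rw [Subgroup.card_bot, hn, Nat.factorization_eq_zero_of_not_dvd
        (fun h => absurd (hp.out.dvd_factorial.1 h) (not_le.2 hlt)), pow_zero]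
    · refine le_antisymm ((Subgroup.closure_le _).2 fun x hx => hx.1) bot_le
    · rw [bot_inf_eq]
      refine le_antisymm ((Subgroup.closure_le _).2 fun x hx => hx.1) bot_le
  rw [not_lt] at hlt
  set m := n / p with hm
  obtain ⟨W, hWc, hWg, -⟩ := ih m (Nat.div_lt_self (lt_of_lt_of_le hp.out.pos hlt) hp.out.one_lt)
  haveI : NeZero p := ⟨hp.out.ne_zero⟩
  obtain ⟨ι⟩ : Nonempty (ZMod p × Fin m ↪ Fin n) := by
    refine Function.Embedding.nonempty_of_card_le ?_
    rw [Fintype.card_prod, ZMod.card, Fintype.card_fin, Fintype.card_fin]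
    exact Nat.mul_div_le n p
  classical
  obtain ⟨Φ, hΦ, hΦs⟩ : ∃ Φ : Perm (ZMod p × Fin m) →* Perm (Fin n),
      Function.Injective Φ ∧ ∀ σ, Perm.sign (Φ σ) = Perm.sign σ :=
    ⟨Equiv.Perm.viaEmbeddingHom ι, Equiv.Perm.viaEmbeddingHom_injective ι, fun σ => by
      rw [Equiv.Perm.viaEmbeddingHom_apply, Equiv.Perm.viaEmbedding]
      convert Perm.sign_extendDomain σ _⟩
  let fW : W →* Perm (Fin n) := Φ.comp ((rowHom p (Fin m)).comp W.subtype)
  let fN : Multiplicative (Fin m → ZMod p) →* Perm (Fin n) := Φ.comp (colHom p (Fin m))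
  have hrow : ∀ σ : Perm (Fin m), σ ∈ W → Perm.sign (Φ (rowHom p (Fin m) σ)) = 1 := by
    intro σ hσ
    have key : ∀ x, x ∈ Subgroup.closure {x : Perm (Fin m) | x ∈ W ∧ x ^ p = 1} →
        Perm.sign x ^ p = 1 := by
      intro x hx
      induction hx using Subgroup.closure_induction with
      | mem x hx => rw [← map_pow, hx.2, map_one]
      | one => simp
      | mul a b _ _ iha ihb => rw [map_mul, mul_pow, iha, ihb, one_mul]
      | inv a _ iha => rw [map_inv, inv_pow, iha, inv_one]
    rw [hΦs]
    show Perm.sign (Equiv.prodCongrRight fun _ : ZMod p => σ) = _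
    rw [Perm.sign_prodCongrRight, Finset.prod_const, Finset.card_univ, ZMod.card]
    exact key σ (hWg.ge hσ)
  have hsign : ∀ w : W, Perm.sign (fW w) = 1 := fun w => hrow w w.2
  let H : Subgroup (Perm (Fin n)) :=
    { carrier := {x | ∃ v w, x = fN v * fW w}
      one_mem' := ⟨1, 1, by simp⟩
      mul_mem' := by
        rintro _ _ ⟨v, w, rfl⟩ ⟨v', w', rfl⟩
        refine ⟨v * Multiplicative.ofAdd (fun i => Multiplicative.toAdd v' ((w : Perm (Fin m))⁻¹ i)),
          w * w', ?_⟩
        rw [map_mul, map_mul]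
        show _ = fN v * Φ (colHom p (Fin m) _) * (fW w * fW w')
        rw [← rowHom_conj_colHom, map_mul, map_mul, map_inv]
        show _ = fN v * (fW w * fN v' * (fW w)⁻¹) * (fW w * fW w')
        group
      inv_mem' := by
        rintro _ ⟨v, w, rfl⟩
        refine ⟨Multiplicative.ofAdd (fun i => Multiplicative.toAdd v⁻¹
          (((w⁻¹ : W) : Perm (Fin m))⁻¹ i)), w⁻¹, ?_⟩
        show _ = Φ (colHom p (Fin m) _) * fW w⁻¹
        rw [← rowHom_conj_colHom, map_mul, map_mul, map_inv Φ]
        show _ = fW w⁻¹ * fN v⁻¹ * (fW w⁻¹)⁻¹ * fW w⁻¹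
        rw [map_inv, map_inv]
        group }
  have hNmem : ∀ v, fN v ∈ H := fun v => ⟨v, 1, by simp⟩
  have hWmem : ∀ w, fW w ∈ H := fun w => ⟨1, w, by simp⟩
  have hNpow : ∀ v, fN v ^ p = 1 := fun v => by
    show Φ (colHom p (Fin m) v) ^ p = 1
    rw [← map_pow, colHom_pow, map_one]
  have hWK : ∀ K : Subgroup (Perm (Fin n)), (∀ w : W, fW w ∈ K) →
      ∀ w : W, fW w ∈ Subgroup.closure {x | x ∈ K ∧ x ^ p = 1} := by
    intro K hK w
    have key : ∀ x (hx : x ∈ Subgroup.closure {x : Perm (Fin m) | x ∈ W ∧ x ^ p = 1}),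
        Φ (rowHom p (Fin m) x) ∈ Subgroup.closure {x | x ∈ K ∧ x ^ p = 1} := by
      intro x hx
      induction hx using Subgroup.closure_induction with
      | mem x hx =>
        refine Subgroup.subset_closure ⟨hK ⟨x, hx.1⟩, ?_⟩
        rw [← map_pow, ← map_pow, hx.2, map_one, map_one]
      | one => simp
      | mul a b _ _ iha ihb => rw [map_mul, map_mul]; exact Subgroup.mul_mem _ iha ihb
      | inv a _ iha => rw [map_inv, map_inv]; exact Subgroup.inv_mem _ iha
    exact key w (hWg.ge w.2)
  refine ⟨H, ?_, ?_, ?_⟩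
  · have hinj : Function.Injective fun x : Multiplicative (Fin m → ZMod p) × W => fN x.1 * fW x.2 := by
      rintro ⟨v, w⟩ ⟨v', w'⟩ h
      have h' : colHom p (Fin m) v * rowHom p (Fin m) w = colHom p (Fin m) v' * rowHom p (Fin m) w' :=
        hΦ (by simpa [fN, fW] using h)
      have hw : w = w' := Subtype.ext (Equiv.ext fun i => by
        have := congrArg Prod.snd (Equiv.ext_iff.1 h' (0, i))
        simpa [colHom, rowHom] using this)
      subst hw
      have h2 := mul_right_cancel h'
      refine Prod.ext (Multiplicative.toAdd.injective (funext fun i => ?_)) rfl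
      have := congrArg Prod.fst (Equiv.ext_iff.1 h2 (0, i))
      simpa [colHom] using this
    have hc : Nat.card H = Nat.card (Multiplicative (Fin m → ZMod p) × W) := by
      refine (Nat.card_congr (Equiv.ofBijective
        (fun x => (⟨fN x.1 * fW x.2, x.1, x.2, rfl⟩ : H)) ⟨fun a b h => hinj (congrArg Subtype.val h),
          ?_⟩)).symm
      rintro ⟨_, v, w, rfl⟩
      exact ⟨(v, w), rfl⟩
    have hmm : Nat.card (Perm (Fin m)) = m.factorial := by rw [Nat.card_perm, Nat.card_fin]
    rw [hc, Nat.card_prod, hWc, hn, hmm,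
      show Nat.card (Multiplicative (Fin m → ZMod p)) = p ^ m by
        rw [Nat.card_congr Multiplicative.toAdd, Nat.card_fun, Nat.card_zmod, Nat.card_fin],
      ← pow_add]
    congr 1
    rw [Nat.factorization_def _ hp.out, Nat.factorization_def _ hp.out]
    conv_rhs => rw [← Nat.div_add_mod n p, ← hm,
      padicValNat_factorial_mul_add _ (Nat.mod_lt _ hp.out.pos), padicValNat_factorial_mul]
    omega
  · refine le_antisymm ((Subgroup.closure_le _).2 fun x hx => hx.1) ?_
    rintro _ ⟨v, w, rfl⟩
    exact Subgroup.mul_mem _ (Subgroup.subset_closure ⟨hNmem v, hNpow v⟩) (hWK H hWmem w)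
  · refine le_antisymm ((Subgroup.closure_le _).2 fun x hx => hx.1) ?_
    rintro _ ⟨⟨v, w, rfl⟩, hA⟩
    have hwA : fW w ∈ alternatingGroup (Fin n) := Perm.mem_alternatingGroup.2 (hsign w)
    have hvA : fN v ∈ alternatingGroup (Fin n) := by
      have h := Subgroup.mul_mem _ hA (Subgroup.inv_mem _ hwA)
      rwa [mul_inv_cancel_right] at h
    exact Subgroup.mul_mem _ (Subgroup.subset_closure ⟨⟨hNmem v, hvA⟩, hNpow v⟩)
      (hWK (H ⊓ alternatingGroup (Fin n))
        (fun w => Subgroup.mem_inf.2 ⟨hWmem w, Perm.mem_alternatingGroup.2 (hsign w)⟩) w)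

end CfsgLib.BrauerPairs
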