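import Cfsg.Agent.Lib.Classes.DerivedWreath
import Cfsg.Agent.Lib.BrauerPairs.SylowSymGenerators

/-!
# Groups with elementary abelian `2`-abelianization, and wreath products
-/

set_option autoImplicit false

namespace CfsgLib.BrauerPairs

open CfsgLib.Classes.DerivedWreath
open scoped commutatorElement

/-- The square of the map to the abelianization. -/
def sqAb (G : Type*) [Group G] : G →* Abelianization G :=
  (powMonoidHom 2).comp Abelianization.of

theorem sqAb_apply {G : Type*} [Group G] (x : G) : sqAb G x = Abelianization.of (x ^ 2) := by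
  simp [sqAb]

/-- Every square lies in the derived group. -/
def AbElem (G : Type*) [Group G] : Prop := ∀ x : G, x ^ 2 ∈ commutator G

theorem sqAb_eq_one_iff {G : Type*} [Group G] (x : G) : sqAb G x = 1 ↔ x ^ 2 ∈ commutator G := by
  rw [sqAb_apply]
  exact QuotientGroup.eq_one_iff _

theorem abElem_iff {G : Type*} [Group G] : AbElem G ↔ ∀ x : G, sqAb G x = 1 :=
  forall_congr' fun x => (sqAb_eq_one_iff x).symm

/-- A homomorphic image of an element whose square is a product of commutators. -/
theorem sqAb_map {G H : Type*} [Group G] [Group H] (f : G →* H) {x : G} (hx : sqAb G x = 1) :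
    sqAb H (f x) = 1 := by
  rw [sqAb_apply] at hx ⊢
  rw [← map_pow, ← Abelianization.map_of f, hx, map_one]

theorem AbElem.map {G H : Type*} [Group G] [Group H] (hG : AbElem G) (f : G →* H) (x : G) :
    sqAb H (f x) = 1 :=
  sqAb_map f (abElem_iff.1 hG x)

theorem AbElem.of_surjective {G H : Type*} [Group G] [Group H] (hG : AbElem G) (f : G →* H)
    (hf : Function.Surjective f) : AbElem H := by
  rw [abElem_iff]
  intro y
  obtain ⟨x, rfl⟩ := hf y
  exact hG.map f x

theorem AbElem.of_mulEquiv {G H : Type*} [Group G] [Group H] (hG : AbElem G) (e : G ≃* H) : AbElem H :=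
  hG.of_surjective e.toMonoidHom e.surjective

theorem AbElem.pi {ι : Type*} [Finite ι] {Q : Type*} [Group Q] (hQ : AbElem Q) : AbElem (ι → Q) := by
  classical
  haveI := Fintype.ofFinite ι
  have key : ∀ (s : Finset ι) (f : ι → Q), (∀ i, i ∉ s → f i = 1) → sqAb (ι → Q) f = 1 := by
    intro s
    induction s using Finset.induction_on with
    | empty =>
      intro f hf
      rw [show f = 1 from funext fun i => hf i (Finset.notMem_empty i), map_one]
    | @insert a s has ih =>
      intro f hf
      have h : f = Pi.mulSingle a (f a) * Function.update f a 1 := by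
        funext i
        rcases eq_or_ne i a with rfl | hi
        · simp
        · simp [hi]
      rw [h, map_mul, ih (Function.update f a 1) fun i hi => ?_, mul_one]
      · exact hQ.map (MonoidHom.mulSingle (fun _ : ι => Q) a) (f a)
      · rcases eq_or_ne i a with rfl | hia
        · simp
        · rw [Function.update_of_ne hia]
          exact hf i (by simp [hi, hia])
  exact abElem_iff.2 fun x => key Finset.univ x fun i hi => absurd (Finset.mem_univ i) hi

theorem AbElem.semidirect {N K : Type*} [Group N] [Group K] {φ : K →* MulAut N} (hN : AbElem N)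
    (hK : AbElem K) : AbElem (N ⋊[φ] K) := by
  rw [abElem_iff]
  intro x
  rw [← SemidirectProduct.inl_left_mul_inr_right x, map_mul, hN.map, hK.map, one_mul]

/-- The wreath product of a subgroup with a group of permutations. -/
abbrev WrSub {U : Type*} [Group U] (Q : Subgroup U) {ι : Type*} (S : Subgroup (Equiv.Perm ι)) :=
  SemidirectProduct (ι → Q) S ((permCoord Q ι).comp S.subtype)

theorem AbElem.wrSub {U : Type*} [Group U] {Q : Subgroup U} {ι : Type*} [Finite ι]
    {S : Subgroup (Equiv.Perm ι)} (hQ : AbElem Q) (hS : AbElem S) : AbElem (WrSub Q S) :=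
  (AbElem.pi (ι := ι) hQ).semidirect hS

/-- The inclusion into the full wreath product. -/
def wrSubHom {U : Type*} [Group U] (Q : Subgroup U) {ι : Type*} (S : Subgroup (Equiv.Perm ι)) :
    WrSub Q S →* Wr U ι :=
  SemidirectProduct.map (MonoidHom.compLeft Q.subtype ι) S.subtype fun _ =>
    MonoidHom.ext fun _ => rfl

theorem wrSubHom_left {U : Type*} [Group U] (Q : Subgroup U) {ι : Type*} (S : Subgroup (Equiv.Perm ι))
    (x : WrSub Q S) (i : ι) : (wrSubHom Q S x).left i = (x.left i : U) := rfl

theorem wrSubHom_right {U : Type*} [Group U] (Q : Subgroup U) {ι : Type*} (S : Subgroup (Equiv.Perm ι))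
    (x : WrSub Q S) : (wrSubHom Q S x).right = (x.right : Equiv.Perm ι) := rfl

theorem wrSubHom_injective {U : Type*} [Group U] (Q : Subgroup U) {ι : Type*}
    (S : Subgroup (Equiv.Perm ι)) : Function.Injective (wrSubHom Q S) := by
  intro x y h
  refine SemidirectProduct.ext (funext fun i => Subtype.ext ?_) (Subtype.ext ?_)
  · simpa only [wrSubHom_left] using congrArg (fun z : Wr U ι => z.left i) h
  · simpa only [wrSubHom_right] using congrArg SemidirectProduct.right h

theorem natCard_wrSub {U : Type*} [Group U] (Q : Subgroup U) {ι : Type*} [Finite ι]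
    (S : Subgroup (Equiv.Perm ι)) :
    Nat.card (WrSub Q S) = Nat.card Q ^ Nat.card ι * Nat.card S := by
  rw [SemidirectProduct.card, Nat.card_fun]

/-- A group of full `2`-power order embedded in `G` has, if `AbElem`, an `AbElem` Sylow. -/
theorem abElem_sylow_of_injective {H G : Type*} [Group H] [Group G] [Finite G] (hH : AbElem H)
    (f : H →* G) (hf : Function.Injective f)
    (hc : Nat.card H = 2 ^ (Nat.card G).factorization 2) (P : Sylow 2 G) :
    AbElem (P : Subgroup G) := by
  haveI : Fact (Nat.Prime 2) := ⟨Nat.prime_two⟩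
  have hr : Nat.card f.range = 2 ^ (Nat.card G).factorization 2 := by
    rw [← hc, Nat.card_congr (MonoidHom.ofInjective hf).toEquiv]
  exact hH.of_mulEquiv ((MonoidHom.ofInjective hf).trans ((Sylow.ofCard f.range hr).equiv P))

theorem abElem_quaternion (k : ℕ) (hk : 1 ≤ k) : AbElem (QuaternionGroup (2 ^ k)) := by
  obtain ⟨k', rfl⟩ : ∃ k', k = k' + 1 := ⟨k - 1, by omega⟩
  have hA : ∀ i : ZMod (2 * 2 ^ (k' + 1)),
      QuaternionGroup.a (i + i) ∈ commutator (QuaternionGroup (2 ^ (k' + 1))) := by
    intro i
    have h : ⁅QuaternionGroup.a i, (QuaternionGroup.xa 0 : QuaternionGroup (2 ^ (k' + 1)))⁆ =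
        QuaternionGroup.a (i + i) := by
      rw [commutatorElement_def, mul_inv_eq_iff_eq_mul, mul_inv_eq_iff_eq_mul]
      simp only [QuaternionGroup.a_mul_xa, QuaternionGroup.a_mul_a, QuaternionGroup.xa_mul_a]
      simp
    rw [← h]
    exact Subgroup.commutator_mem_commutator (Subgroup.mem_top _) (Subgroup.mem_top _)
  intro x
  cases x with
  | a i => rw [pow_two, QuaternionGroup.a_mul_a]; exact hA i
  | xa i =>
    rw [QuaternionGroup.xa_sq]
    convert hA ((2 ^ k' : ℕ) : ZMod (2 * 2 ^ (k' + 1))) using 2
    push_cast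
    ring

/-- A Sylow `2`-subgroup of a symmetric group, generated by involutions. -/
theorem exists_sylow_perm (n : ℕ) : ∃ S : Subgroup (Equiv.Perm (Fin n)),
    GenPow 2 S ∧ AbElem S ∧ Nat.card S = 2 ^ (n.factorial.factorization 2) := by
  haveI : Fact (Nat.Prime 2) := ⟨Nat.prime_two⟩
  obtain ⟨S, hc, hg, -⟩ := exists_genPow 2 n
  refine ⟨S, hg, fun x => pow_mem_commutator_of_genPow hg (MulEquiv.refl S) x, ?_⟩
  rw [hc, Nat.card_perm, Nat.card_fin]

end CfsgLib.BrauerPairs
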